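import Cfsg.Agent.H1.FP0
import Cfsg.Agent.S0713

/-! Chunks L1, AL, OC of the fixed-point project (interface `H1.FP0`). -/

set_option autoImplicit false

namespace H29.FP
open MulAction H1.FP
universe u

section
variable {p : ℕ} {K : Type u} [Group K] {x : K} {A : Type u} [MulAction K A]

theorem fx_orb {J : Subgroup K} (hx : x ∈ J) (c : A) :
    fx (⟨x, hx⟩ : J) (orbit J c) = (orbit J c ∩ fixedBy A x).ncard := by
  rw [fx_eq, ← Set.ncard_image_of_injective _ Subtype.val_injective]
  congr 1
  ext u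
  constructor
  · rintro ⟨v, hv, rfl⟩
    exact ⟨v.2, congrArg Subtype.val hv⟩
  · rintro ⟨h1, h2⟩
    exact ⟨⟨u, h1⟩, Subtype.ext h2, rfl⟩

theorem moved_card [Finite A] (hp : p.Prime) (ho : orderOf x = p) :
    (fixedBy A x)ᶜ.ncard = p * lx p x A := by
  have h := card_eq (Δ := A) hp ho
  have h2 := Set.ncard_add_ncard_compl (fixedBy A x)
  rw [fx_eq] at h
  omega

theorem prim_of (qt : QT.{u}) [Finite K] [Finite A] (s : St p x) (ht : IsPretransitive K A)
    (hl : lx p x A = 1) : IsPreprimitive K A := by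
  have h := card_eq (Δ := A) s.hp s.ord
  have h2 := s.hp.two_le
  obtain ⟨B, _, _, π, β, ε, hB, hB2, -, hβ, -, -, hlx, -, hfin⟩ :=
    qt p K x A s ht (by rw [h, hl]; omega)
  have := s.lpos hB.toIsPretransitive hB2
  apply hfin
  rw [hl] at hlx
  by_contra hne
  have h3 : 2 * 1 ≤ β * lx p x B := Nat.mul_le_mul (by omega) this
  omega

end

theorem l1_aux (qt : QT.{u}) (n : ℕ) : ∀ (p : ℕ) (K : Type u) [Group K] [Finite K] (x : K)
    (A : Type u) [Finite A] [MulAction K A], Nat.card A = n →
    St p x → IsPretransitive K A → lx p x A = 1 → fx x A < p := by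
  induction n using Nat.strong_induction_on with
  | _ n ih =>
  intro p K _ _ x A _ _ hn s ht hl
  have hpr := prim_of qt s ht hl
  have hc := card_eq (Δ := A) s.hp s.ord
  have hp2 := s.hp.two_le
  rw [hl, mul_one] at hc
  rcases Nat.eq_zero_or_pos (fx x A) with h0 | h0
  · omega
  obtain ⟨⟨a, ha⟩⟩ : Nonempty (fixedBy A x) := (Nat.card_pos_iff.1 h0).1
  have ha' : x • a = a := ha
  have hxJ : x ∈ Op p (stabilizer K a) := mem_Op ha s.ord
  have hA2 : 2 ≤ Nat.card A := by omega
  have hM : (fixedBy A x)ᶜ.ncard = p := by rw [moved_card s.hp s.ord, hl, mul_one]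
  -- every `c ≠ a` has all moved points in its orbit
  have key : ∀ c : A, c ≠ a → (fixedBy A x)ᶜ ⊆ orbit (Op p (stabilizer K a)) c ∧
      lx p (⟨x, hxJ⟩ : Op p (stabilizer K a)) (orbit (Op p (stabilizer K a)) c) = 1 := by
    intro c hca
    have h2 : 2 ≤ Nat.card (orbit (Op p (stabilizer K a)) c) := by
      by_contra hlt
      apply hca
      refine s.fix_op hpr hA2 ha' fun y hy => ?_
      have hs : Subsingleton (orbit (Op p (stabilizer K a)) c) :=
        Finite.card_le_one_iff_subsingleton.1 (by omega)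
      have := hs.elim ⟨y • c, ⟨⟨y, hy⟩, rfl⟩⟩ ⟨c, mem_orbit_self c⟩
      exact congrArg Subtype.val this
    have hl1 := (s.sub hxJ).lpos (Δ := orbit (Op p (stabilizer K a)) c) inferInstance h2
    have hce := card_eq (Δ := orbit (Op p (stabilizer K a)) c) s.hp (s.sub hxJ).ord
    rw [fx_orb, Nat.card_coe_set_eq] at hce
    have hd := Set.ncard_inter_add_ncard_diff_eq_ncard (orbit (Op p (stabilizer K a)) c)
      (fixedBy A x)
    have hsub : orbit (Op p (stabilizer K a)) c \ fixedBy A x ⊆ (fixedBy A x)ᶜ := fun u hu => hu.2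
    have hle := Set.ncard_le_ncard hsub
    have hm : p * 1 ≤ p * lx p (⟨x, hxJ⟩ : Op p (stabilizer K a))
      (orbit (Op p (stabilizer K a)) c) := Nat.mul_le_mul_left _ hl1
    have heq := Set.eq_of_subset_of_ncard_le hsub (by omega)
    refine ⟨fun u hu => (heq ▸ hu : u ∈ orbit _ c \ fixedBy A x).1, ?_⟩
    apply Nat.eq_of_mul_eq_mul_left (by omega : 0 < p)
    omega
  obtain ⟨u, hu⟩ := s.moves ht hA2
  have hua : u ≠ a := fun h => hu (h ▸ ha')
  have hO : orbit (Op p (stabilizer K a)) u = {a}ᶜ := by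
    ext c
    constructor
    · rintro ⟨j, hj⟩ rfl
      have h1 : (j : K) • u = c := hj
      have h2 : (j : K) • c = c := Op_le _ j.2
      exact hua (MulAction.injective (j : K) (h1.trans h2.symm))
    · intro hc
      have := (key c hc).1 hu
      exact mem_orbit_symm.1 this
  have hcard : Nat.card (orbit (Op p (stabilizer K a)) u) + 1 = Nat.card A := by
    rw [Nat.card_coe_set_eq, hO, ← Set.ncard_add_ncard_compl ({a} : Set A), Set.ncard_singleton,
      add_comm]
  have hlt := ih _ (by omega) p _ (⟨x, hxJ⟩ : Op p (stabilizer K a))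
    (orbit (Op p (stabilizer K a)) u) rfl (s.sub hxJ) inferInstance (key u hua).2
  have hce := card_eq (Δ := orbit (Op p (stabilizer K a)) u) s.hp (s.sub hxJ).ord
  rw [(key u hua).2] at hce
  have hnd := s.nd ht h0
  have : fx x A ≠ p := fun h => hnd (h ▸ dvd_rfl)
  omega

theorem l1 (qt : QT.{u}) : L1.{u} := fun p K _ _ x A _ _ s ht hl =>
  ⟨prim_of qt s ht hl, l1_aux qt _ p K x A rfl s ht hl⟩

theorem al (l1 : L1.{u}) : AL.{u} := by
  intro p K _ _ x A _ _ _ s hp3 ⟨ht, hl, hf⟩
  have hpr := (l1 p K x A s ht hl).1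
  have hc := card_eq (Δ := A) s.hp s.ord
  rw [hl, mul_one] at hc
  have hM : (fixedBy A x)ᶜ.ncard = p := by rw [moved_card s.hp s.ord, hl, mul_one]
  have hsupp : (toPermHom K A x).support.card = p := by
    rw [← hM, ← Set.ncard_coe_finset]
    congr 1
    ext u
    simp [mem_fixedBy]
  haveI := Fact.mk s.hp
  have hne : toPermHom K A x ≠ 1 := by
    intro h
    rw [h] at hsupp
    simp at hsupp
    omega
  have hord : orderOf (toPermHom K A x) = p :=
    orderOf_eq_prime (by rw [← map_pow, ← s.ord, pow_orderOf_eq_one, map_one]) hne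
  have hcyc : (toPermHom K A x).IsCycle :=
    Equiv.Perm.isCycle_of_prime_order (by rw [hord]; exact s.hp) (by rw [hsupp, hord]; omega)
  have hR : IsPreprimitive (toPermHom K A).range A := by
    let f : A →ₑ[(toPermHom K A).rangeRestrict] A := ⟨id, fun _ _ => rfl⟩
    exact IsPreprimitive.of_surjective (f := f) Function.surjective_id
  apply le_antisymm
  · rw [MonoidHom.range_eq_map, ← s.gen, MonoidHom.map_closure]
    refine (Subgroup.closure_le _).2 ?_
    rintro _ ⟨y, hy, rfl⟩
    have hy' : orderOf y = p := hy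
    have h1 : (Equiv.Perm.sign (toPermHom K A y)) ^ p = 1 := by
      rw [← map_pow, ← map_pow, ← hy', pow_orderOf_eq_one, map_one, map_one]
    have hodd : Odd p := s.hp.odd_of_ne_two (by omega)
    show Equiv.Perm.sign (toPermHom K A y) = 1
    rcases Int.units_eq_one_or (Equiv.Perm.sign (toPermHom K A y)) with h | h
    · exact h
    · rw [h, hodd.neg_one_pow] at h1
      exact absurd h1 (by decide)
  · rcases hf with hf | ⟨hp, hf⟩
    · rw [Nat.card_eq_fintype_card] at hc
      exact Cfsg.Agent.S0713.result _ hR s.hp (by omega) (by omega) hcyc hsupp ⟨x, rfl⟩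
    · refine Equiv.Perm.alternatingGroup_le_of_isPreprimitive_of_isThreeCycle_mem hR ?_ ⟨x, rfl⟩
      rw [← card_support_eq_three_iff, hsupp, hp]

theorem oc (l1 : L1.{u}) (al : AL.{u}) (kr' : KR.{u}) : OC.{u} := by
  intro p K _ _ x A _ _ Θ _ _ s hp3 hA ht h2 hle
  classical
  haveI := Fintype.ofFinite A
  have hR := al p K x A s hp3 hA
  obtain ⟨htA, hl, hf⟩ := hA
  have hpr := (l1 p K x A s htA hl).1
  have hc := card_eq (Δ := A) s.hp s.ord
  rw [hl, mul_one] at hc
  have hk := kr' p K x A Θ s hpr (by omega) ht h2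
  have hd := Subgroup.index_dvd_of_le hk
  rw [Subgroup.index_ker, Subgroup.index_ker, hR] at hd
  have h1 : Nat.card (alternatingGroup A) ≤ Nat.card (Equiv.Perm Θ) :=
    (Nat.le_of_dvd Nat.card_pos hd).trans (Subgroup.card_le_card_group _)
  haveI : Nontrivial A := Finite.one_lt_card_iff_nontrivial.1 (by omega)
  have h3 := two_mul_nat_card_alternatingGroup (α := A)
  rw [Nat.card_perm] at h1 h3
  have h4 : (Nat.card Θ).factorial ≤ (p + 1).factorial := Nat.factorial_le hle
  have h5 : (p + 2).factorial ≤ (Nat.card A).factorial := Nat.factorial_le (by omega)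
  rw [Nat.factorial_succ] at h5
  have h6 := Nat.factorial_pos (p + 1)
  have h7 : 3 * (p + 1).factorial ≤ (p + 1 + 1) * (p + 1).factorial :=
    Nat.mul_le_mul_right _ (by omega)
  omega

end H29.FP
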