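import Cfsg.Agent.H17.FV0

/-! S5720, chunk CF: the rank inequality is inherited from composition factors. -/

set_option autoImplicit false
set_option linter.unusedSectionVars false

open Module H17.FV

namespace H29.FV

universe v w

theorem rk_add {K N M Q : Type*} [Field K] [AddCommGroup N] [Module K N] [AddCommGroup M] [Module K M]
    [AddCommGroup Q] [Module K Q] [FiniteDimensional K M] (i : N →ₗ[K] M) (q : M →ₗ[K] Q)
    (hi : Function.Injective i) (hq : Function.Surjective q) (h : ∀ x, q (i x) = 0)
    (a : End K N) (b : End K M) (c : End K Q) (h1 : ∀ x, i (a x) = b (i x)) (h2 : ∀ x, q (b x) = c (q x)) :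
    finrank K (LinearMap.range a) + finrank K (LinearMap.range c) ≤ finrank K (LinearMap.range b) := by
  have e := LinearMap.finrank_range_add_finrank_ker (q.domRestrict (LinearMap.range b))
  have e1 : LinearMap.range (q.domRestrict (LinearMap.range b)) = LinearMap.range c := by
    ext y
    constructor
    · rintro ⟨⟨_, x, rfl⟩, rfl⟩
      exact ⟨q x, (h2 x).symm⟩
    · rintro ⟨y, rfl⟩
      obtain ⟨x, rfl⟩ := hq y
      exact ⟨⟨b x, x, rfl⟩, h2 x⟩
  let f : LinearMap.range a →ₗ[K] LinearMap.ker (q.domRestrict (LinearMap.range b)) :=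
    LinearMap.codRestrict _ (LinearMap.codRestrict (LinearMap.range b)
      (i ∘ₗ (LinearMap.range a).subtype) (by rintro ⟨_, x, rfl⟩; exact ⟨i x, (h1 x).symm⟩))
      fun x => h x
  have e2 := LinearMap.finrank_le_finrank_of_injective (f := f) fun x y e =>
    Subtype.ext (hi (congrArg (fun z => (z.1.1 : M)) e))
  rw [e1] at e
  omega

section
variable {K A : Type*} [Field K] [Ring A] [Algebra K A]

theorem rk_idem (M : Type*) [AddCommGroup M] [Module K M] [Module A M] [IsScalarTower K A M]
    [FiniteDimensional K M] {y : A} (h : y * y = y) : rk K M y + rk K M (1 - y) = finrank K M := by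
  have e : LinearMap.range (act K M (1 - y)) = LinearMap.ker (act K M y) := by
    ext m
    constructor
    · rintro ⟨x, rfl⟩
      change y • (1 - y) • x = 0
      rw [← mul_smul, mul_sub, mul_one, h, sub_self, zero_smul]
    · intro hm
      refine ⟨m, ?_⟩
      change (1 - y) • m = m
      rw [sub_smul, one_smul, show y • m = 0 from hm, sub_zero]
  rw [rk, rk, e, LinearMap.finrank_range_add_finrank_ker]

variable {M : Type*} [AddCommGroup M] [Module K M] [Module A M] [IsScalarTower K A M]
  [FiniteDimensional K M] (N : Submodule A M)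

theorem fd1 : FiniteDimensional K N :=
  FiniteDimensional.of_injective (N.subtype.restrictScalars K) N.subtype_injective

theorem fd2 : FiniteDimensional K (M ⧸ N) :=
  Module.Finite.of_surjective (N.mkQ.restrictScalars K) N.mkQ_surjective

theorem rk_sub (y : A) : rk K N y + rk K (M ⧸ N) y ≤ rk K M y :=
  rk_add (N.subtype.restrictScalars K) (N.mkQ.restrictScalars K) N.subtype_injective N.mkQ_surjective
    (fun x => (Submodule.Quotient.mk_eq_zero N).2 x.2) _ _ _ (fun _ => rfl) fun _ => rfl

theorem dim_sub : finrank K N + finrank K (M ⧸ N) = finrank K M := by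
  have e := LinearMap.finrank_range_add_finrank_ker (N.mkQ.restrictScalars K)
  have e1 : LinearMap.range (N.mkQ.restrictScalars K) = ⊤ :=
    LinearMap.range_eq_top.2 N.mkQ_surjective
  have e2 : LinearMap.ker (N.mkQ.restrictScalars K) = LinearMap.range (N.subtype.restrictScalars K) := by
    ext x
    exact ((Submodule.Quotient.mk_eq_zero N).trans ⟨fun h => ⟨⟨x, h⟩, rfl⟩, fun ⟨y, h⟩ => h ▸ y.2⟩)
  rw [e1, e2, finrank_top, LinearMap.finrank_range_of_inj (f := N.subtype.restrictScalars K)
    N.subtype_injective] at e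
  omega

end

theorem cf (si : SI.{v, w}) : CF.{v, w} := by
  intro K A M _ _ _ _ _ _ _ _ p _ _ D ν hp hν ef
  induction hn : finrank K M using Nat.strong_induction_on generalizing M with
  | _ n ih =>
  subst hn
  by_cases h0 : Subsingleton M
  · have h1 : finrank K M = 0 := finrank_zero_of_subsingleton
    have h2 : rk K M (D.π 3) ≤ finrank K M := Submodule.finrank_le _
    unfold Dat.Ineq
    omega
  by_cases h1 : IsSimpleModule A M
  · exact si K A M p D ν hp hν ef h1
  obtain ⟨N, n0, n1⟩ : ∃ N : Submodule A M, N ≠ ⊥ ∧ N ≠ ⊤ := by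
    by_contra h
    have := not_subsingleton_iff_nontrivial.1 h0
    refine h1 ((isSimpleModule_iff A M).2 ⟨fun N => ?_⟩)
    by_contra e
    exact h ⟨N, fun e' => e (Or.inl e'), fun e' => e (Or.inr e')⟩
  have := fd1 (K := K) N
  have := fd2 (K := K) N
  have d := dim_sub (K := K) N
  have p1 : 0 < finrank K N := by
    have := (Submodule.nontrivial_iff_ne_bot).2 n0
    exact finrank_pos
  have p2 : 0 < finrank K (M ⧸ N) := by
    have := Submodule.Quotient.nontrivial_iff.2 n1
    exact finrank_pos
  have i1 := ih _ (by omega) N rfl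
  have i2 := ih _ (by omega) (M ⧸ N) rfl
  have a1 := rk_sub (K := K) N (D.N 1)
  have a2 := rk_sub (K := K) N (D.N ν)
  have a3 := rk_sub (K := K) N (D.e * D.π (p - 2))
  have a4 := rk_sub (K := K) N (D.e ^ ((p - 1) / 2) * D.π 3)
  have a5 := rk_sub (K := K) N (D.e * D.π (p - 3))
  have a6 := rk_sub (K := K) N (1 - D.π 3)
  have b1 := rk_idem (K := K) M (ef.ππ 3)
  have b2 := rk_idem (K := K) N (ef.ππ 3)
  have b3 := rk_idem (K := K) (M ⧸ N) (ef.ππ 3)
  unfold Dat.Ineq at i1 i2 ⊢
  omega

end H29.FV
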