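/-
S3694, chunks `E0`, `EA`, `E2`.
-/
import Cfsg.Agent.H22.SB3
import Cfsg.Agent.H1.Fitting

set_option autoImplicit false
set_option linter.unusedSectionVars false
set_option linter.unusedVariables false

namespace H29.SB
open Matrix H22.SB Function

universe u
variable {F : Type} [Field F] [Fintype F] {n : ℕ} {Φ : Fm F} {G : Type u} [Group G] [Finite G]

theorem smul_inj (X : Tx Φ G n) (g : GL (Fin n) F) {a b : F} (h : a • (g : Mat n F) = b • (g : Mat n F)) : a = b :=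
  have := X.ne
  smul_left_injective F g.ne_zero h

theorem dual (X : Tx Φ G n) {E : Subgroup (Φ.S (Fin n))} (hE : ∀ x ∈ E, ∀ y ∈ E, ∃ a : F, mt x * mt y = a • (mt y * mt x))
    (hZ : ∀ x ∈ E, (∀ e ∈ E, x * e = e * x) → Sc (mt x)) (y : GL (Fin n) F) (hy : ∀ e ∈ E, ∃ a : F, mt e * y = a • (y * mt e)) :
    ∃ x ∈ E, ∀ e ∈ E, mt e * (mt x⁻¹ * y) = mt x⁻¹ * y * mt e := by
  classical
  let Z := (X.π.comp E.subtype).ker
  have k : ∀ y : GL (Fin n) F, (∀ e ∈ E, ∃ a : F, mt e * y = a • (y * mt e)) →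
      ∃ χ : E ⧸ Z →* F, ∀ e : E, mt e.1 * y = χ e • (y * mt e.1) := fun y hy => by
    choose! c hc using hy
    have u : ∀ e ∈ E, ∀ a : F, mt e * y = a • (y * mt e) → c e = a := fun e he a h => smul_inj X (y * e.1) ((hc e he).symm.trans h)
    let χ : E →* F := ⟨⟨fun e => c e.1, u _ (one_mem _) _ (by simp [mt_one])⟩, fun e e' => u _ (e * e').2 _ (by
      rw [Subgroup.coe_mul, mt_mul, mul_assoc, hc _ e'.2, mul_smul_comm, ← mul_assoc, hc _ e.2, smul_mul_assoc, smul_smul,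
        mul_comm, mul_assoc])⟩
    exact ⟨QuotientGroup.lift Z χ fun e he => u _ e.2 _ (((X.ker _).1 he).comm _ |>.trans (one_smul _ _).symm), fun e => hc _ e.2⟩
  choose Ψ hΨ using fun x : E => k x.1.1 fun e he => hE e he x x.2
  have w : ∀ (x : E) (y : GL (Fin n) F), (∀ e : E, mt e.1 * y = Ψ x e • (y * mt e.1)) →
      ∀ e ∈ E, mt e * (mt x.1⁻¹ * y) = mt x.1⁻¹ * y * mt e := fun x y h e he => by
    have a : mt x.1⁻¹ * mt e = Ψ x (⟨e, he⟩ : E) • (mt e * mt x.1⁻¹) := by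
      have := congrArg (mt x.1⁻¹ * · * mt x.1⁻¹) (hΨ x ⟨e, he⟩)
      simpa only [mul_assoc, mt_mul_inv, mul_one, mul_smul_comm, smul_mul_assoc, ← mul_assoc (mt x.1⁻¹) (mt x.1), mt_inv_mul,
        one_mul] using this
    refine smul_right_injective _ ((Group.isUnit ((⟨e, he⟩ : E) : E ⧸ Z)).map (Ψ x)).ne_zero ?_
    dsimp only
    rw [← mul_assoc, ← smul_mul_assoc, ← a, mul_assoc, h ⟨e, he⟩, mul_smul_comm, mul_assoc]
  have i : Injective fun q : E ⧸ Z => Ψ q.out := fun q q' e => by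
    rw [← q.out_eq, ← q'.out_eq]
    exact QuotientGroup.eq.2 ((X.ker _).2 (hZ _ (q.out⁻¹ * q'.out).2 fun f hf => mt_comm.2
      (w q.out q'.out.1.1 (fun g => (show Ψ q.out = _ from e) ▸ hΨ _ g) f hf).symm))
  have : Finite (E ⧸ Z →* F) := .of_injective _ DFunLike.coe_injective
  have := Fintype.ofFinite (E ⧸ Z →* F)
  have := Fintype.ofFinite (E ⧸ Z)
  obtain ⟨χ, hχ⟩ := k y hy
  obtain ⟨q, rfl⟩ := (i.bijective_of_nat_card_le (by
    simpa using (linearIndependent_monoidHom (E ⧸ Z) F).fintype_card_le_finrank)).2 χ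
  exact ⟨_, q.out.2, w _ y hχ⟩

theorem noa_center (X : Cx Φ G n) (h : X.NoA) {E : Subgroup (Φ.S (Fin n))} (hR : E ≤ X.R)
    (hi : ∀ h ∈ X.H, ∀ a ∈ E, ∃ a' ∈ E, mt a' = X.th h (mt a)) (x : Φ.S (Fin n)) (hx : x ∈ E) (c : ∀ e ∈ E, x * e = e * x) :
    Sc (mt x) :=
  h (E ⊓ Subgroup.centralizer E) (inf_le_left.trans hR) (fun g hg a ha => by
    obtain ⟨a', h1, h2⟩ := hi g hg a ha.1
    refine ⟨a', ⟨h1, fun e he => ?_⟩, h2⟩
    obtain ⟨e', h3, h4⟩ := hi g⁻¹ (inv_mem hg) e he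
    rw [mt_comm, h2, ← X.th_inv' g (mt e), ← h4]
    exact X.th_comm g (mt_comm.1 (ha.2 e' h3))) (fun a ha b hb => hb.2 a ha.1) x ⟨hx, fun e he => (c e he).symm⟩

theorem thR' (X : Cx Φ G n) : ∀ h ∈ X.H, ∀ a ∈ X.R, ∃ a' ∈ X.R, mt a' = X.th h (mt a) := fun _ hh _ ha =>
  (X.thR hh ha).imp fun _ c => ⟨c.1, c.2.1⟩

/-- the preimage of `Ω₁ Z (π R)` -/
def Ez (X : Cx Φ G n) : Subgroup (Φ.S (Fin n)) where
  carrier := {x | x ∈ X.R ∧ (∀ y ∈ X.R, Commute (X.π y) (X.π x)) ∧ X.π x ^ X.r = 1}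
  one_mem' := ⟨one_mem _, by simp⟩
  mul_mem' := fun {a b} ha hb => ⟨mul_mem ha.1 hb.1, fun y hy => by
    rw [map_mul]; exact (ha.2.1 y hy).mul_right (hb.2.1 y hy), by rw [map_mul, (hb.2.1 a ha.1).mul_pow, ha.2.2, hb.2.2, one_mul]⟩
  inv_mem' := fun {a} ha => ⟨inv_mem ha.1, fun y hy => by rw [map_inv]; exact (ha.2.1 y hy).inv_right, by
    rw [map_inv, inv_pow, ha.2.2, inv_one]⟩

theorem Ez_pi (X : Cx Φ G n) {x y : Φ.S (Fin n)} (h : x ∈ Ez X) (e : X.π y = X.π x) : y ∈ Ez X :=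
  ⟨X.mem_R_of_pi h.1 e, by rw [e]; exact h.2⟩

theorem Ez_sc (X : Cx Φ G n) (h : X.NoA) : ∀ x ∈ Ez X, (∀ e ∈ Ez X, x * e = e * x) → Sc (mt x) :=
  noa_center X h (fun _ c => c.1) fun g hg a ha => by
    obtain ⟨a', b1, b2, b3, b4⟩ := X.thR hg ha.1
    have c1 : ∀ y ∈ X.R, Commute (X.π y) (g * X.π a * g⁻¹) := fun y hy => by
      obtain ⟨y', c⟩ := X.conj_range g⁻¹ y
      simpa [c, mul_assoc] using (ha.2.1 y' (X.Rinv _ (inv_mem hg) y hy y' c)).conj g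
    have c2 : (g * X.π a * g⁻¹) ^ X.r = 1 := by rw [conj_pow, ha.2.2]; simp
    refine ⟨a', ⟨b1, ?_⟩, b2⟩
    by_cases e : X.ε g = 1
    · rw [b3 e]; exact ⟨c1, c2⟩
    · rw [b4 e]; exact ⟨fun y hy => (c1 y hy).inv_right, by rw [inv_pow, c2, inv_one]⟩

theorem exists_ord {S : Type*} [Group S] (π : S →* G) {R E : Subgroup S} {r : ℕ} [Fact r.Prime] (hR : IsPGroup r (R.map π))
    (hn : ∀ m ∈ R, ∀ e ∈ E, m⁻¹ * e * m ∈ E) (c : (R ⊓ Subgroup.centralizer E).map π ≠ ⊥) :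
    ∃ x ∈ R ⊓ Subgroup.centralizer E, orderOf (π x) = r ∧ ∀ y ∈ R, Commute (π y) (π x) := by
  have d : IsPGroup r ((R ⊓ Subgroup.centralizer E).map π) := hR.to_le (Subgroup.map_mono inf_le_left)
  have n : R.map π ≤ Subgroup.normalizer (((R ⊓ Subgroup.centralizer E).map π : Subgroup G) : Set G) := by
    rintro _ ⟨m, hm, rfl⟩
    refine Subgroup.mem_normalizer_fintype ?_
    rintro _ ⟨x, hx, rfl⟩
    refine ⟨m * x * m⁻¹, ⟨R.mul_mem (R.mul_mem hm hx.1) (R.inv_mem hm), fun e he => ?_⟩, by simp⟩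
    have := congrArg (m * · * m⁻¹) (hx.2 _ (hn m hm e he))
    simpa only [mul_assoc, mul_inv_cancel_left, mul_inv_cancel, mul_one] using this
  have e := H1.inf_centralizer_ne_bot_of_isPGroup hR d n c
  obtain ⟨t, ht⟩ := exists_prime_orderOf_dvd_card' r
    (d.to_inf_left.card_eq_or_dvd.resolve_left fun f => e (Subgroup.card_eq_one.1 f))
  obtain ⟨x, hx, t1⟩ := t.2.1
  exact ⟨x, hx, by rw [t1, Subgroup.orderOf_coe, ht], fun y hy => by rw [t1]; exact t.2.2 _ (Subgroup.mem_map_of_mem π hy)⟩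

theorem Ez_bot (X : Cx Φ G n) (h : X.NoA) : (X.R ⊓ Subgroup.centralizer (Ez X)).map X.π = ⊥ := by_contra fun c => by
  obtain ⟨x, hx, ht, t2⟩ := exists_ord X.π X.Rr (fun m hm e he => Ez_pi X he (by
    rw [map_mul, map_mul, mul_assoc, ← (he.2.1 m hm).eq, map_inv, inv_mul_cancel_left])) c
  exact X.rp.ne_one (ht.symm.trans (orderOf_eq_one_iff.2 ((X.ker _).2 (Ez_sc X h x ⟨hx.1, t2,
    by rw [← ht, pow_orderOf_eq_one]⟩ fun e he => (hx.2 e he).symm))))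

theorem e0 : E0.{u} := fun F _ _ Φ G _ _ n X h => by
  have p : ∀ {x y}, Commute (X.π x) (X.π y) → ∃ a : F, mt x * mt y = a • (mt y * mt x) := fun {x y} c =>
    (X.pi_eq (s := x * y) (t := y * x)).1 (by rw [map_mul, map_mul, c.eq])
  have a : ∀ y ∈ X.R, y ∈ Ez X := fun y hy => by
    obtain ⟨x, hx, c⟩ := dual X.toTx (E := Ez X) (fun x hx y hy => p (hy.2.1 x hx.1)) (Ez_sc X h) y.1 fun e he => p (he.2.1 y hy).symm
    have : X.π (x⁻¹ * y) = 1 := (Ez_bot X h).le ⟨_, ⟨X.R.mul_mem (X.R.inv_mem hx.1) hy, fun e he => mt_comm.2 (c e he)⟩, rfl⟩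
    rw [map_mul, map_inv, inv_mul_eq_one] at this
    exact Ez_pi X hx this.symm
  exact ⟨fun x hx => by rw [← mt_pow, ← X.ker, map_pow, (a x hx).2.2], noa_center X h le_rfl (thR' X),
    fun x hx y hy => p ((a y hy).2.1 x hx)⟩

/-- discrete logarithm -/
theorem exists_log {r : ℕ} [Fact r.Prime] {ζ : F} (h : IsPrimitiveRoot ζ r) :
    (∀ a : F, a ^ r = 1 → ∃ i : ZMod r, ζ ^ i.val = a) ∧ (∀ i j : ZMod r, ζ ^ i.val = ζ ^ j.val → i = j) ∧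
      ∀ i j : ZMod r, ζ ^ (i + j).val = ζ ^ i.val * ζ ^ j.val :=
  ⟨fun a ha => (h.eq_pow_of_pow_eq_one ha).elim fun i c => ⟨i, by rw [ZMod.val_cast_of_lt c.1, c.2]⟩,
    fun i j e => ZMod.val_injective r (h.pow_inj i.val_lt j.val_lt e),
    fun i j => by rw [ZMod.val_add, ← pow_eq_pow_mod _ h.pow_eq_one, pow_add]⟩

theorem km_pow {x y : Mat n F} {a : F} (h : x * y = a • (y * x)) (j : ℕ) : x ^ j * y = a ^ j • (y * x ^ j) := by
  induction j with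
  | zero => simp
  | succ j ih => rw [pow_succ', mul_assoc, ih, mul_smul_comm, ← mul_assoc, h, smul_mul_assoc, smul_smul, mul_assoc, pow_succ a]

theorem exists_basis {P : Type*} [Group P] [Finite P] {r : ℕ} [Fact r.Prime] (h : ∀ x y : P, x * y = y * x) (e : ∀ x : P, x ^ r = 1) :
    ∃ k, Nonempty (Additive P ≃+ (Fin k → ZMod r)) := by
  let i : AddCommGroup (Additive P) := ⟨h⟩
  let j : Module (ZMod r) (Additive P) := AddCommGroup.zmodModule e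
  exact ⟨_, ⟨(@Module.finBasis (ZMod r) (Additive P) _ i.toAddCommMonoid j (@Module.Free.of_divisionRing _ _ _ i j) _ .of_finite).equivFun.toAddEquiv⟩⟩

theorem ea : EA.{u} := fun F _ _ Φ G _ _ n X h => by
  classical
  obtain ⟨a1, a2, a3⟩ := e0 F Φ G n X h
  have := X.ne
  obtain ⟨k, ⟨b⟩⟩ := exists_basis (P := X.R.map X.π) (r := X.r) (by
    rintro ⟨_, x, hx, rfl⟩ ⟨_, y, hy, rfl⟩
    exact Subtype.ext ((map_mul _ x y).symm.trans ((X.pi_eq.2 (a3 x hx y hy)).trans (map_mul _ y x)))) (by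
    rintro ⟨_, x, hx, rfl⟩
    exact Subtype.ext ((map_pow X.π x X.r).symm.trans ((X.ker _).2 (mt_pow x _ ▸ a1 x hx))))
  obtain ⟨ν, hν⟩ : ∃ ν : Φ.S (Fin n) → _, ∀ x (hx : x ∈ X.R), ν x = b (.ofMul ⟨X.π x, x, hx, rfl⟩) :=
    ⟨fun x => if hx : x ∈ X.R then b (.ofMul ⟨X.π x, x, hx, rfl⟩) else 0, fun x hx => dif_pos hx⟩
  have n1 : ∀ x ∈ X.R, ∀ y ∈ X.R, ν (x * y) = ν x + ν y := fun x hx y hy => by
    rw [hν _ (mul_mem hx hy), hν _ hx, hν _ hy, ← map_add]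
    exact congrArg b (Subtype.ext (map_mul _ x y))
  have n2 : ∀ v, ∃ x ∈ X.R, ν x = v := fun v => by
    obtain ⟨⟨_, x, hx, rfl⟩, rfl⟩ := b.surjective v
    exact ⟨x, hx, hν x hx⟩
  have n3 : ∀ x ∈ X.R, ∀ y ∈ X.R, ν x = ν y ↔ ∃ a : F, mt x = a • mt y := fun x hx y hy => by
    rw [hν _ hx, hν _ hy, b.injective.eq_iff, ← X.pi_eq]
    exact Subtype.ext_iff
  have n4 : ∀ x ∈ X.R, ν x = 0 ↔ Sc (mt x) := fun x hx => by
    rw [show (0 : Fin k → ZMod X.r) = ν 1 from by rw [hν 1 (one_mem _), ← map_zero b]; exact congrArg b (Subtype.ext (map_one X.π).symm),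
      n3 x hx 1 (one_mem _)]
    rfl
  have k0 : ∀ x ∈ X.R, ∀ (y : Φ.S (Fin n)) (a : F), mt x * mt y = a • (mt y * mt x) → a ^ X.r = 1 := fun x hx y a c =>
    smul_inj X.toTx (y * x ^ X.r).1 (by
      change _ • H22.SB.mt (y * x ^ X.r) = _ • H22.SB.mt (y * x ^ X.r)
      rw [mt_mul, mt_pow, ← km_pow c, (a1 x hx).comm, one_smul])
  obtain ⟨x0, b1, b2⟩ := X.Rne
  obtain ⟨y0, b3, b4⟩ : ∃ y ∈ X.R, x0 * y ≠ y * x0 := by by_contra! c; exact b2 (a2 x0 b1 c)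
  obtain ⟨ζ, b5⟩ := a3 x0 b1 y0 b3
  have hζ : IsPrimitiveRoot ζ X.r := by
    rw [← orderOf_eq_prime (k0 x0 b1 y0 ζ b5) fun c => b4 (mt_comm.2 (by rw [b5, c, one_smul]))]
    exact IsPrimitiveRoot.orderOf ζ
  obtain ⟨l1, l2, l3⟩ := exists_log hζ
  choose ρ r1 r2 using n2
  choose β hβ using fun v w => (a3 _ (r1 v) _ (r1 w)).elim fun a c => (l1 a (k0 _ (r1 v) _ a c)).imp fun i d => d ▸ c
  have c : ∀ x ∈ X.R, ∀ y ∈ X.R, mt x * mt y = ζ ^ (β (ν x) (ν y)).val • (mt y * mt x) := fun x hx y hy => by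
    obtain ⟨s, hs⟩ := (n3 x hx _ (r1 (ν x))).1 (r2 _).symm
    obtain ⟨t, ht⟩ := (n3 y hy _ (r1 (ν y))).1 (r2 _).symm
    conv_lhs => rw [hs, ht]
    conv_rhs => rw [show mt y * mt x = _ by rw [hs, ht]]
    simp only [smul_mul_assoc, mul_smul_comm, hβ (ν x), smul_smul]
    congr 1; ring
  have u : ∀ x ∈ X.R, ∀ y ∈ X.R, ∀ i : ZMod X.r, mt x * mt y = ζ ^ i.val • (mt y * mt x) → β (ν x) (ν y) = i := fun x hx y hy i e =>
    l2 _ _ (smul_inj X.toTx (y * x).1 ((c x hx y hy).symm.trans e))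
  have d1 : ∀ v v' w, β (v + v') w = β v w + β v' w := fun v v' w => by
    have := u _ (mul_mem (r1 v) (r1 v')) _ (r1 w) (β v w + β v' w) (by
      rw [mt_mul, mul_assoc, hβ v', mul_smul_comm, ← mul_assoc, hβ v, smul_mul_assoc, smul_smul, l3, mul_comm, mul_assoc])
    rwa [n1 _ (r1 _) _ (r1 _), r2, r2, r2] at this
  have d2 : ∀ v w w', β v (w + w') = β v w + β v w' := fun v w w' => by
    have := u _ (r1 v) _ (mul_mem (r1 w) (r1 w')) (β v w + β v w') (by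
      rw [mt_mul, ← mul_assoc, hβ v, smul_mul_assoc, mul_assoc, hβ v, mul_smul_comm, smul_smul, l3, mul_assoc])
    rwa [n1 _ (r1 _) _ (r1 _), r2, r2, r2] at this
  refine ⟨⟨_, ν, n1, fun v => ⟨_, r1 v, r2 v⟩, n4, ζ, hζ, sc_Mu (s := x0 * y0 * (y0 * x0)⁻¹) (by
    rw [mt_mul, mt_mul, b5, smul_mul_assoc, ← mt_mul, mt_mul_inv]), AddMonoidHom.toZModLinearMap _ (.mk' (fun v =>
      AddMonoidHom.toZModLinearMap _ (.mk' (β v) (d2 v))) fun v v' => LinearMap.ext (d1 v v')), fun v => ?_, fun v e => ?_, c⟩⟩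
  · exact r2 v ▸ u _ (r1 v) _ (r1 v) 0 (by simp)
  · exact r2 v ▸ (n4 _ (r1 v)).2 (a2 _ (r1 v) fun y hy => mt_comm.2 (by
      rw [c _ (r1 v) y hy, r2, show β v (ν y) = 0 from e _]; simp))

theorem km_mul_pow {x y : Mat n F} {a : F} (h : y * x = a • (x * y)) (j : ℕ) : (x * y) ^ j = a ^ j.choose 2 • (x ^ j * y ^ j) := by
  induction j with
  | zero => simp
  | succ j ih =>
    rw [pow_succ, ih, smul_mul_assoc, mul_assoc, ← mul_assoc (y ^ j), km_pow h, smul_mul_assoc, mul_smul_comm, smul_smul,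
      Nat.choose_succ_succ', Nat.choose_one_right, add_comm j, pow_add, pow_succ x, pow_succ y]
    simp only [mul_assoc]

section
variable {X : Cx Φ G n} (E : Ex X)
include E

theorem nu_one : E.ν 1 = 0 := (E.νk 1 (one_mem _)).2 sc_one

theorem nu_inv {x : Φ.S (Fin n)} (hx : x ∈ X.R) : E.ν x⁻¹ = -E.ν x :=
  eq_neg_of_add_eq_zero_left (by rw [← E.νm _ (inv_mem hx) _ hx, inv_mul_cancel, nu_one])

theorem nu_eq {x y : Φ.S (Fin n)} (hx : x ∈ X.R) (hy : y ∈ X.R) (h : E.ν x = E.ν y) : ∃ a, Φ.Mu a ∧ mt x = a • mt y := by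
  have := X.ne
  obtain ⟨a, ha⟩ := (E.νk _ (mul_mem hx (inv_mem hy))).1 (by rw [E.νm _ hx _ (inv_mem hy), nu_inv E hy, h, add_neg_cancel])
  exact ⟨a, sc_Mu ha, by rw [← one_mul (H22.SB.mt y), ← smul_mul_assoc, ← ha, ← mt_mul, inv_mul_cancel_right]⟩

theorem nu_of {x y : Φ.S (Fin n)} (hy : y ∈ X.R) {a : F} (h : mt x = a • mt y) : E.ν x = E.ν y := by
  have hx := X.mem_R_of_smul hy h
  have := (E.νk _ (mul_mem hx (inv_mem hy))).2 ⟨a, by rw [mt_mul, h, smul_mul_assoc, mt_mul_inv]⟩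
  rwa [E.νm _ hx _ (inv_mem hy), nu_inv E hy, add_neg_eq_zero] at this

theorem skew (v w : Fin E.k → ZMod X.r) : E.β w v = -E.β v w := by
  have := E.alt (v + w)
  simp only [map_add, LinearMap.add_apply, E.alt] at this
  linear_combination this

theorem sc_pow {x : Φ.S (Fin n)} (hx : x ∈ X.R) : ∃ s, Φ.Mu s ∧ mt x ^ X.r = s • 1 := by
  have := X.ne
  have a : ∀ j : ℕ, E.ν (x ^ j) = j • E.ν x := fun j => by
    induction j with
    | zero => simp [nu_one]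
    | succ j ih => rw [pow_succ, E.νm _ (pow_mem hx j) _ hx, ih, succ_nsmul]
  obtain ⟨s, hs⟩ := (E.νk _ (pow_mem hx X.r)).1 (by rw [a]; ext; simp)
  exact ⟨s, sc_Mu hs, mt_pow x _ ▸ hs⟩

theorem r_dvd : X.r ∣ Φ.z := E.hζ.dvd_of_pow_eq_one _ E.ζm

theorem exists_Q : ∃ Q : (Fin E.k → ZMod X.r) → ZMod X.r,
    (∀ x ∈ X.R, ∀ s, mt x ^ X.r = s • 1 → s ^ (Φ.z / X.r) = E.ζ ^ (Q (E.ν x)).val) ∧
      ∀ v w, Q (v + w) = Q v + Q w + (X.r.choose 2 * (Φ.z / X.r) : ℕ) * E.β w v := by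
  obtain ⟨l1, l2, l3⟩ := exists_log E.hζ
  have z := Nat.div_mul_cancel (r_dvd E)
  choose ρ r1 r2 using E.νs
  choose s s1 s2 using fun v => sc_pow E (r1 v)
  choose Q hQ using fun v => l1 (s v ^ (Φ.z / X.r)) (by rw [← pow_mul, z]; exact s1 v)
  have a : ∀ x ∈ X.R, ∀ s, mt x ^ X.r = s • 1 → s ^ (Φ.z / X.r) = E.ζ ^ (Q (E.ν x)).val := fun x hx t ht => by
    obtain ⟨c, c1, c2⟩ := nu_eq E hx (r1 _) (r2 _).symm
    rw [c2, smul_pow, s2, smul_smul] at ht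
    rw [hQ, ← smul_inj X.toTx 1 ht, mul_pow, ← pow_mul, mul_comm X.r, z, c1, one_mul]
  refine ⟨Q, a, fun v w => l2 _ _ ?_⟩
  have := a _ (mul_mem (r1 v) (r1 w)) _ (by
    rw [mt_mul, km_mul_pow (E.cm _ (r1 w) _ (r1 v)), s2, s2, smul_mul_smul_comm, one_mul, smul_smul])
  rw [E.νm _ (r1 v) _ (r1 w), r2, r2] at this
  rw [← this, l3, l3, hQ, hQ, ZMod.val_mul, ← pow_eq_pow_mod _ E.hζ.pow_eq_one, ZMod.val_natCast, pow_mul,
    ← pow_eq_pow_mod _ E.hζ.pow_eq_one]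
  ring

end

theorem mu_root {r : ℕ} (hr : r ∣ Φ.z) {s : F} (h : Φ.Mu s) (e : s ^ (Φ.z / r) = 1) : ∃ a, Φ.Mu a ∧ a ^ r * s = 1 := by
  obtain ⟨g, hg⟩ := Φ.exists_gen
  have : NeZero Φ.z := ⟨Nat.one_le_iff_ne_zero.1 Φ.z_pos⟩
  obtain ⟨i, -, rfl⟩ := hg.eq_pow_of_pow_eq_one h
  obtain ⟨m, hm⟩ := hr
  have m0 : m ≠ 0 := by rintro rfl; exact this.1 hm
  have r0 : 0 < r := Nat.pos_of_ne_zero (by rintro rfl; exact this.1 (by simpa using hm))
  rw [← pow_mul, hg.pow_eq_one_iff_dvd, hm, Nat.mul_div_cancel_left _ r0] at e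
  obtain ⟨j, rfl⟩ := Nat.dvd_of_mul_dvd_mul_right (Nat.pos_of_ne_zero m0) e
  have u : Φ.Mu (g ^ j) := Fm.Mu.pow hg.pow_eq_one j
  exact ⟨_, u.inv, by rw [inv_pow, ← pow_mul, mul_comm j, inv_mul_cancel₀ h.ne]⟩

theorem e2 : E2.{u} := fun F _ _ Φ G _ _ n X E h => by
  obtain ⟨Q, q1, q2⟩ := exists_Q E
  obtain ⟨l1, l2, l3⟩ := exists_log E.hζ
  have z := Nat.mul_div_cancel' (r_dvd E)
  have p4 : ∀ (x : Mat n F) (a : F), (a • x) ^ X.r = 1 ∨ (a • x) ^ X.r = -1 ∧ X.r = 2 → (a • x) ^ rr X.r = 1 := fun x a c => by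
    unfold rr
    split_ifs with e
    · rw [show 4 = X.r * 2 by omega, pow_mul]
      rcases c with c | ⟨c, -⟩ <;> simp [c]
    · exact c.resolve_right fun d => e d.2
  by_cases c : X.r ∣ X.r.choose 2 * (Φ.z / X.r)
  · simp only [(ZMod.natCast_eq_zero_iff _ _).2 c, zero_mul, add_zero] at q2
    obtain ⟨w, hw⟩ := (LinearMap.BilinForm.toDual E.β (LinearMap.BilinForm.Nondegenerate.ofSeparatingLeft E.nd)).surjective
      (AddMonoidHom.toZModLinearMap _ (.mk' Q q2))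
    replace hw : ∀ v, E.β w v = Q v := fun v => LinearMap.congr_fun hw v
    let K : Subgroup (Φ.S (Fin n)) :=
      { carrier := {x | x ∈ X.R ∧ Q (E.ν x) = 0}
        one_mem' := ⟨one_mem _, by rw [nu_one, ← hw, map_zero]⟩
        mul_mem' := fun {a b} ha hb => ⟨mul_mem ha.1 hb.1, by rw [E.νm _ ha.1 _ hb.1, q2, ha.2, hb.2, add_zero]⟩
        inv_mem' := fun {a} ha => ⟨inv_mem ha.1, by rw [nu_inv E ha.1, ← hw, map_neg, hw, ha.2, neg_zero]⟩ }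
    obtain ⟨y, y1, rfl⟩ := E.νs w
    have w0 := (E.νk y y1).2 (noa_center X h (E := K) (fun _ c => c.1) (fun g hg a ha => by
      obtain ⟨a', b1, b2⟩ := thR' X g hg a ha.1
      obtain ⟨s, -, hs⟩ := sc_pow E ha.1
      refine ⟨a', ⟨b1, l2 _ _ ?_⟩, b2⟩
      rw [← q1 a' b1 (X.σ g s) (by rw [b2, ← X.th_pow, hs, X.th_smul, X.th_one]), ← map_pow, q1 a ha.1 s hs, ha.2]
      simp) y ⟨y1, by rw [← hw, E.alt]⟩ fun e he => mt_comm.2 (by rw [E.cm y y1 e he.1, hw, he.2]; simp))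
    have a : ∀ x ∈ X.R, ∃ a, Φ.Mu a ∧ (a • mt x) ^ X.r = 1 := fun x hx => by
      obtain ⟨s, s1, hs⟩ := sc_pow E hx
      obtain ⟨a, a1, a2⟩ := mu_root (r_dvd E) s1 (by rw [q1 x hx s hs, ← hw, w0]; simp)
      exact ⟨a, a1, by rw [smul_pow, hs, smul_smul, a2, one_smul]⟩
    refine ⟨fun x hx => (a x hx).imp fun a d => ⟨d.1, p4 _ _ (.inl d.2)⟩, .inl fun v => and_iff_left_of_imp fun _ => ?_⟩
    obtain ⟨x, hx, rfl⟩ := E.νs v
    obtain ⟨b, b1, b2⟩ := a x hx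
    refine ⟨x, hx, rfl, ?_⟩
    split_ifs with e
    swap
    · exact ⟨b, b1, b2⟩
    have d : 2 ∣ Φ.z / X.r := by simpa [e] using c
    obtain ⟨i, i1, i2⟩ := mu_root (r := X.r) (r_dvd E) (s := -1) (by rw [Fm.Mu, ← z, e, pow_mul]; simp) (by
      obtain ⟨j, hj⟩ := d
      rw [hj, pow_mul]; simp)
    exact ⟨i * b, i1.mul b1, by rw [mul_smul, smul_pow, b2, show i ^ X.r = -1 by linear_combination -i2]; simp⟩
  have e : X.r = 2 := by_contra fun e => c ((X.rp.dvd_choose_self two_ne_zero (X.rp.two_le.lt_of_ne' e)).mul_right _)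
  obtain ⟨m, hm⟩ : Odd (Φ.z / X.r) := Nat.not_even_iff_odd.1 fun d => c (by simpa [e] using d.two_dvd)
  have t : (2 : ZMod X.r) = 0 := by exact_mod_cast (ZMod.natCast_eq_zero_iff 2 X.r).2 e.dvd
  have ζ : E.ζ = -1 := IsPrimitiveRoot.eq_neg_one_of_two_right (e ▸ E.hζ)
  have o : E.ζ ^ (1 : ZMod X.r).val = -1 := by rw [ZMod.val_one, pow_one, ζ]
  have a : ∀ x ∈ X.R, ∃ a, Φ.Mu a ∧ (a • mt x) ^ X.r = E.ζ ^ (Q (E.ν x)).val • 1 := fun x hx => by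
    obtain ⟨s, s1, hs⟩ := sc_pow E hx
    exact ⟨_, s1.pow m, by rw [smul_pow, hs, smul_smul, ← q1 x hx s hs, hm, ← pow_mul, ← pow_succ, e, mul_comm]⟩
  have q3 : ∀ v w, Q (v + w) = Q v + Q w + E.β v w := fun v w => by
    rw [q2, hm, skew E, show X.r.choose 2 = 1 by rw [e]; rfl]
    push_cast
    linear_combination (-(m : ZMod X.r) - 1) * E.β v w * t
  refine ⟨fun x hx => (a x hx).imp fun a d => ⟨d.1, p4 _ _ ?_⟩, .inr ⟨e, Q, q3, fun v => ⟨?_, fun d => ⟨?_, ?_⟩⟩⟩⟩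
  · rw [d.2, ζ]
    rcases neg_one_pow_eq_or F (Q (E.ν x)).val with f | f <;> simp [f, e]
  · rintro ⟨-, x, hx, rfl, b, b1, b2⟩
    obtain ⟨s, s1, hs⟩ := sc_pow E hx
    rw [if_pos e, smul_pow, hs, smul_smul, ← neg_one_smul F] at b2
    refine l2 _ _ ?_
    rw [o, ← q1 x hx s hs, ← one_mul (s ^ _), show (1 : F) * _ = (b ^ X.r) ^ (Φ.z / X.r) * _ by rw [← pow_mul, z, b1], ← mul_pow,
      smul_inj X.toTx 1 b2, hm]
    exact Odd.neg_one_pow ⟨m, rfl⟩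
  · rintro rfl
    have := q3 0 0
    rw [add_zero, d, map_zero, add_zero, left_eq_add] at this
    exact one_ne_zero this
  · obtain ⟨x, hx, rfl⟩ := E.νs v
    obtain ⟨b, b1, b2⟩ := a x hx
    exact ⟨x, hx, rfl, b, b1, by rw [b2, d, o, if_pos e, neg_one_smul]⟩

end H29.SB
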