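import Cfsg.Agent.H1.Fitting

/-! S4162 (solvable groups with distinct class sizes): definitions, small kit, chunk statements.
Proofs on paper: `notes/AH.md`. -/

set_option autoImplicit false

namespace H29.AH
open Subgroup

universe u

/-- rational group -/
def Rat (G : Type*) [Group G] : Prop :=
  ∀ (g : G) (k : ℕ), k.Coprime (orderOf g) → IsConj g (g ^ k)

/-- centralizer order -/
noncomputable abbrev cc {G : Type*} [Group G] (x : G) : ℕ := Nat.card (centralizer ({x} : Set G))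

/-- faithful coprime module of a rational group with the eigenvector property -/
structure RM (p : ℕ) {H V : Type*} [Group H] [AddCommGroup V] [Module (ZMod p) V]
    (ρ : H →* Module.End (ZMod p) V) : Prop where
  inj : Function.Injective ρ
  cop : ¬ p ∣ Nat.card H
  rat : Rat H
  nt : Nontrivial V
  ev : ∀ (h : H) (v : V), ρ h v = v → ∀ k : ZMod p, k ≠ 0 → ∃ g, Commute g h ∧ ρ g v = k • v

section Kit
variable {G G' : Type*} [Group G] [Group G']

theorem mem_cc {x g : G} : g ∈ centralizer ({x} : Set G) ↔ Commute g x :=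
  mem_centralizer_singleton_iff

/-- an exponent coprime to a divisor `m` of `n` may be moved to one coprime to `n` -/
theorem ex_cop {m n k : ℕ} (hn : n ≠ 0) (h : m ∣ n) (hk : k.Coprime m) :
    ∃ k', k'.Coprime n ∧ k' ≡ k [MOD m] := by
  have : NeZero n := ⟨hn⟩
  obtain ⟨a, ha⟩ := ZMod.unitsMap_surjective h (ZMod.unitOfCoprime k hk)
  refine ⟨(a : ZMod n).val, ZMod.val_coe_unit_coprime a, ?_⟩
  have := congrArg Units.val ha
  rw [ZMod.unitsMap_val, ZMod.coe_unitOfCoprime, ZMod.cast_eq_val] at this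
  exact (ZMod.natCast_eq_natCast_iff _ _ _).1 this

theorem Rat.quot [Finite G] (h : Rat G) (f : G →* G') (hf : Function.Surjective f) : Rat G' := by
  intro g k hk
  obtain ⟨x, rfl⟩ := hf g
  obtain ⟨k', h1, h2⟩ := ex_cop (orderOf_pos x).ne' (orderOf_map_dvd f x) hk
  rw [← pow_eq_pow_iff_modEq.2 h2, ← map_pow]
  exact f.map_isConj (h x k' h1)

theorem Rat.real [Finite G] (h : Rat G) (g : G) : ∃ e : G, e * g * e⁻¹ = g⁻¹ := by
  have h0 := orderOf_pos g
  obtain ⟨e, he⟩ := isConj_iff.1 (h g (orderOf g - 1) (by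
    rw [Nat.coprime_self_sub_left h0]; exact Nat.coprime_one_left _))
  refine ⟨e, he.trans (eq_inv_of_mul_eq_one_left ?_)⟩
  rw [← pow_succ, Nat.sub_add_cancel h0, pow_orderOf_eq_one]

theorem conj_part {x y x' y' e : G} (hc : Commute x y) (hc' : Commute x' y') {a b : ℕ}
    (hab : a.Coprime b) (hx : x ^ a = 1) (hx' : x' ^ a = 1) (hy : y ^ b = 1) (hy' : y' ^ b = 1)
    (he : e * (x * y) * e⁻¹ = x' * y') : e * x * e⁻¹ = x' ∧ e * y * e⁻¹ = y' := by
  obtain ⟨m, h1, h2⟩ := Nat.chineseRemainder hab 1 0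
  have k : ∀ {s t : G}, Commute s t → s ^ a = 1 → t ^ b = 1 → (s * t) ^ m = s := fun h hs ht => by
    rw [h.mul_pow, pow_eq_pow_of_modEq h1 hs, pow_eq_pow_of_modEq h2 ht, pow_one, pow_zero, mul_one]
  have e1 : e * x * e⁻¹ = x' := by rw [← k hc hx hy, ← conj_pow, he, k hc' hx' hy']
  refine ⟨e1, mul_left_cancel (a := x') ?_⟩
  rw [← he, ← e1]; group

/-- `y` is rational in the centralizer of a commuting element of coprime order -/
theorem Rat.comm [Finite G] (h : Rat G) {x y : G} (hc : Commute x y)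
    (hxy : (orderOf x).Coprime (orderOf y)) {k : ℕ} (hk : k.Coprime (orderOf y)) :
    ∃ e, Commute e x ∧ e * y * e⁻¹ = y ^ k := by
  obtain ⟨m, h1, h2⟩ := Nat.chineseRemainder hxy 1 k
  have hm : m.Coprime (orderOf (x * y)) := by
    rw [hc.orderOf_mul_eq_mul_orderOf_of_coprime hxy]
    refine Nat.Coprime.mul_right ?_ ?_
    · rw [Nat.Coprime, h1.gcd_eq]; exact Nat.coprime_one_left _
    · rw [Nat.Coprime, h2.gcd_eq]; exact hk
  obtain ⟨e, he⟩ := isConj_iff.1 (h _ m hm)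
  rw [hc.mul_pow, pow_eq_pow_iff_modEq.2 h1, pow_eq_pow_iff_modEq.2 h2, pow_one] at he
  obtain ⟨e1, e2⟩ := conj_part hc (hc.pow_right k) hxy (pow_orderOf_eq_one x) (pow_orderOf_eq_one x)
    (pow_orderOf_eq_one y) (by rw [← pow_mul, mul_comm, pow_mul, pow_orderOf_eq_one, one_pow]) he
  exact ⟨e, mul_inv_eq_iff_eq_mul.1 e1, e2⟩

theorem card_cls [Finite G] (x : G) : Nat.card {y // IsConj x y} * cc x = Nat.card G := by
  have h1 := (MulAction.stabilizer (ConjAct G) x).index_mul_card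
  rw [MulAction.index_stabilizer, ConjAct.orbit_eq_carrier_conjClasses] at h1
  rw [cc, nat_card_centralizer_nat_card_stabilizer, show Nat.card G = _ from h1.symm,
    ← Nat.card_coe_set_eq]
  rfl

theorem cc_pos [Finite G] (x : G) : 0 < cc x := Nat.card_pos

theorem cc_dvd (x : G) : cc x ∣ Nat.card G := card_subgroup_dvd_card _

theorem orderOf_dvd_cc (x : G) : orderOf x ∣ cc x := by
  rw [← Nat.card_zpowers]
  exact card_dvd_of_le (zpowers_le.2 (mem_cc.2 (Commute.refl x)))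

theorem cc_conj [Finite G] {x y : G} (h : IsConj x y) : cc x = cc y := by
  have h1 := card_cls x
  have h2 := card_cls y
  have h3 : Nat.card {z // IsConj x z} = Nat.card {z // IsConj y z} :=
    Nat.card_congr (Equiv.subtypeEquivRight fun z => ⟨h.symm.trans, h.trans⟩)
  have : Nonempty {z // IsConj y z} := ⟨⟨y, IsConj.refl y⟩⟩
  rw [h3, ← h2] at h1
  exact Nat.eq_of_mul_eq_mul_left Nat.card_pos h1

/-- centralizer orders do not grow in quotients -/
theorem cc_le [Finite G] (f : G →* G') (hf : Function.Surjective f) (x : G) : cc (f x) ≤ cc x := by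
  have := Finite.of_surjective f hf
  choose s hs using hf
  have h1 : Nat.card {y // IsConj x y} ≤ Nat.card ({y // IsConj (f x) y} × f.ker) :=
    Nat.card_le_card_of_injective
      (fun y => (⟨f y, f.map_isConj y.2⟩, ⟨(s (f y))⁻¹ * y, by simp [MonoidHom.mem_ker, hs]⟩))
      fun a b h => by
        obtain ⟨h1, h2⟩ := Prod.ext_iff.1 h
        have h3 : f a = f b := congrArg Subtype.val h1
        have h4 : (s (f a))⁻¹ * a = (s (f b))⁻¹ * b := congrArg Subtype.val h2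
        rw [h3] at h4
        exact Subtype.ext (mul_left_cancel h4)
  have h2 := f.ker.index_mul_card
  rw [index_ker, f.range_eq_top_of_surjective fun y => ⟨s y, hs y⟩, card_top, ← card_cls (f x),
    ← card_cls x] at h2
  rw [Nat.card_prod] at h1
  have : Nonempty {y // IsConj (f x) y} := ⟨⟨_, IsConj.refl _⟩⟩
  have h3 : 0 < Nat.card {y // IsConj (f x) y} * Nat.card f.ker := Nat.mul_pos Nat.card_pos Nat.card_pos
  refine Nat.le_of_mul_le_mul_left ?_ h3
  calc _ = _ := by rw [← h2]; ring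
    _ ≤ _ := Nat.mul_le_mul_right _ h1

/-- the powers act freely on the class -/
theorem Rat.dvd [Finite G] (h : Rat G) (g : G) : cc g * (orderOf g).totient ∣ Nat.card G := by
  have : NeZero (orderOf g) := ⟨(orderOf_pos g).ne'⟩
  have ho : ∀ y : {y // IsConj g y}, orderOf (y : G) = orderOf g := fun y => by
    obtain ⟨c, hc⟩ := isConj_iff.1 y.2
    rw [← hc]; exact orderOf_injective (MulAut.conj c).toMonoidHom (MulAut.conj c).injective g
  let : MulAction (ZMod (orderOf g))ˣ {y // IsConj g y} :=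
    { smul := fun a y => ⟨y ^ (a : ZMod (orderOf g)).val,
        y.2.trans (h _ _ (by rw [ho]; exact ZMod.val_coe_unit_coprime a))⟩
      one_smul := fun y => Subtype.ext (by
        change (y : G) ^ (1 : ZMod (orderOf g)).val = y
        rw [ZMod.val_one_eq_one_mod, ← ho y, pow_mod_orderOf, pow_one])
      mul_smul := fun a b y => Subtype.ext (by
        change (y : G) ^ ((a : ZMod (orderOf g)) * b).val = ((y : G) ^ _) ^ _
        rw [ZMod.val_mul, ← pow_mul, mul_comm (ZMod.val _), pow_eq_pow_iff_modEq, ho, mul_comm]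
        exact Nat.mod_modEq _ _) }
  have hs : ∀ y : {y // IsConj g y}, MulAction.stabilizer (ZMod (orderOf g))ˣ y = ⊥ := fun y =>
    eq_bot_iff.2 fun a ha => by
      have h1 : (y : G) ^ (a : ZMod (orderOf g)).val = y ^ 1 := by
        rw [pow_one]; exact congrArg Subtype.val ha
      rw [pow_eq_pow_iff_modEq, ho, ← ZMod.natCast_eq_natCast_iff, ZMod.natCast_zmod_val,
        Nat.cast_one] at h1
      exact Units.ext h1
  have := Nat.card_congr (MulAction.selfEquivOrbitsQuotientProd hs)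
  rw [Nat.card_prod, Nat.card_eq_fintype_card (α := (ZMod _)ˣ), ZMod.card_units_eq_totient] at this
  rw [← card_cls g, this]
  exact ⟨_, by ring⟩

theorem Rat.dvd' [Finite G] (h : Rat G) (g : G) : orderOf g * (orderOf g).totient ∣ Nat.card G :=
  (Nat.mul_dvd_mul_right (orderOf_dvd_cc g) _).trans (h.dvd g)

end Kit

/-! ### chunk statements -/

/-- trace lemma: a line fixed by `u` carries only the scalars `±1` -/
def D1 : Prop := ∀ (p : ℕ) [Fact p.Prime] (G V : Type u) [Group G] [Finite G] [AddCommGroup V]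
  [Module (ZMod p) V] [Finite V] (ρ : G →* Module.End (ZMod p) V) (g x : G) (v : V) (k : ZMod p),
  Commute g x → ¬ p ∣ orderOf x → (∀ i : ℕ, ∃ e, e * (g * x ^ i) * e⁻¹ = (g * x ^ i)⁻¹) → v ≠ 0 →
  ρ x v = v → (∀ w, ρ x w = w → ∃ c : ZMod p, w = c • v) → ρ g v = k • v → k ^ 2 = 1

def G11 : Prop := ∀ (p : ℕ) [Fact p.Prime] (H V : Type u) [Group H] [Finite H] [AddCommGroup V]
  [Module (ZMod p) V] [Finite V] (ρ : H →* Module.End (ZMod p) V), RM p ρ → p < 11

def S6 : Prop := ∀ (p : ℕ) [Fact p.Prime] (H V : Type u) [Group H] [Finite H] [AddCommGroup V]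
  [Module (ZMod p) V] [Finite V] (ρ : H →* Module.End (ZMod p) V), RM p ρ → 5 ≤ p →
  Group.IsSolvable H → ∀ h : H, h ^ 6 = 1 → (∀ v, ρ h v = v → v = 0) → 6 < cc h

def S49 : Prop := ∀ (H V : Type u) [Group H] [Finite H] [AddCommGroup V]
  [Module (ZMod 7) V] [Finite V] (ρ : H →* Module.End (ZMod 7) V), RM 7 ρ →
  Group.IsSolvable H → 49 < Nat.card V

def LA : Prop := ∀ (G : Type u) [Group G] [Finite G], Group.IsSolvable G → Rat G → ∀ x : G,
  (5 ∣ cc x → 25 ∣ cc x ∨ 16 ∣ cc x) ∧ (7 ∣ cc x → 49 ∣ cc x ∨ 729 ∣ cc x)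

/-- passage from the module statements to the group -/
def TOP : Prop := ∀ (G : Type u) [Group G] [Finite G], Group.IsSolvable G → Rat G →
  (∀ p, p.Prime → p ∣ Nat.card G → p ≤ 7) ∧ (∀ x : G, cc x ≠ 49) ∧
  ∀ p, p.Prime → 5 ≤ p → p ∣ Nat.card G → ∀ x : G, cc x ≠ 3 ∧ cc x ≠ 6

def C2 : Prop := ∀ (G : Type u) [Group G] [Finite G], (∀ x y : G, cc x = cc y → IsConj x y) →
  ∀ x : G, cc x = 2 → Nonempty (G ≃* Equiv.Perm (Fin 3))

def C3 : Prop := ∀ (G : Type u) [Group G] [Finite G] (s : G), cc s = 3 →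
  ∀ x : G, x ≠ 1 → 3 ∣ cc x → cc x = 3

def F4 : Prop := ∀ (G : Type u) [Group G] [Finite G], Rat G → ∀ w : G, cc w = 4 →
  ¬ 16 ∣ Nat.card G ∧ ∀ x y : G, x ≠ 1 → y ≠ 1 → 8 ∣ cc x → 8 ∣ cc y → cc x = cc y

/-- all prime divisors are at most `b` -/
def Sm (b c : ℕ) : Prop := c ≠ 0 ∧ ∀ q, q.Prime → q ∣ c → q ≤ b

def Ok (c : ℕ) : Prop := Sm 7 c ∧ (5 ∣ c → 25 ∣ c ∨ 16 ∣ c) ∧ (7 ∣ c → 49 ∣ c ∨ 729 ∣ c)

def SUM : Prop := ∀ S : Finset ℕ, ∑ c ∈ S, (1 : ℚ) / c = 1 →
  (¬ ∀ c ∈ S, Sm 3 c ∧ 5 ≤ c) ∧ (¬ ∀ c ∈ S, Sm 3 c ∧ 4 ≤ c ∧ ¬ 16 ∣ c) ∧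
  (∀ n, 6 ≤ n → ¬ ∀ c ∈ S, c = 3 ∨ c = n ∨ (Sm 2 c ∧ 4 ≤ c)) ∧
  (¬ ∀ c ∈ S, Ok c ∧ 5 ≤ c ∧ c ≠ 6 ∧ c ≠ 49) ∧
  ∀ a n, 8 ≤ a → 40 ≤ n → ¬ ∀ c ∈ S, Ok c ∧ 4 ≤ c ∧ c ≠ 6 ∧ (8 ∣ c → c = a ∨ c = n)

end H29.AH
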