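import Cfsg.Agent.H29.AH0

/-! S4162: module of an elementary abelian normal subgroup, fixed point lemma, chunk `TOP`. -/

set_option autoImplicit false

namespace H29.AH
open Subgroup

universe u
variable {G : Type u} [Group G]

theorem ex_rep0 {p : ℕ} [NeZero p] {A : Type u} [CommGroup A] (hp : ∀ x : A, x ^ p = 1)
    (φ : G →* MulAut A) : ∃ (V : Type u) (_ : AddCommGroup V) (_ : Module (ZMod p) V)
      (ρ : G →* Module.End (ZMod p) V) (ι : V ≃ A), (∀ g v, ι (ρ g v) = φ g (ι v)) ∧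
      (∀ (k : ZMod p) v, ι (k • v) = ι v ^ k.val) ∧ ι 0 = 1 := by
  obtain ⟨_⟩ : Nonempty (Module (ZMod p) (Additive A)) := ⟨AddCommGroup.zmodModule fun x =>
    Additive.toMul.injective (hp x.toMul)⟩
  let ρ : G →* Module.End (ZMod p) (Additive A) :=
    { toFun := fun g => (φ g).toMonoidHom.toAdditive.toZModLinearMap p
      map_one' := LinearMap.ext fun v => by simp
      map_mul' := fun a b => LinearMap.ext fun v => by simp }
  refine ⟨Additive A, inferInstance, inferInstance, ρ, Additive.toMul, fun g v => rfl,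
    fun k v => ?_, rfl⟩
  conv_lhs => rw [← ZMod.natCast_zmod_val k, Nat.cast_smul_eq_nsmul]
  rfl

theorem ex_rep {p : ℕ} [NeZero p] (N : Subgroup G) [N.Normal] (hc : IsMulCommutative N)
    (hp : ∀ x ∈ N, x ^ p = 1) : ∃ (V : Type u) (_ : AddCommGroup V) (_ : Module (ZMod p) V)
      (ρ : G →* Module.End (ZMod p) V) (ι : V ≃ N), (∀ g v, (ι (ρ g v) : G) = g * ι v * g⁻¹) ∧
      (∀ (k : ZMod p) v, (ι (k • v) : G) = ι v ^ k.val) ∧ (ι 0 : G) = 1 := by
  let : CommGroup N := { (inferInstance : Group N) with mul_comm := hc.is_comm.comm }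
  obtain ⟨V, _, _, ρ, ι, h1, h2, h3⟩ := ex_rep0 (A := N) (p := p)
    (fun x => Subtype.ext (hp _ x.2)) (MulAut.conjNormal (H := N))
  exact ⟨V, _, _, ρ, ι, fun g v => by rw [h1]; rfl, fun k v => by rw [h2]; rfl, by rw [h3]; rfl⟩

/-- an `l`-element fixes a point of an invariant coset of order prime to `l` -/
theorem fp [Finite G] {l : ℕ} [Fact l.Prime] (X M : Subgroup G) {a g : G} {n : ℕ}
    (ha : a ^ l ^ n = 1) (hX : ∀ x ∈ X, a * x * a⁻¹ ∈ X) (hM : ∀ x ∈ M, a * x * a⁻¹ ∈ M)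
    (hl : ¬ l ∣ Nat.card M) (hg : g ∈ X) (hf : g⁻¹ * (a * g * a⁻¹) ∈ M) :
    ∃ c ∈ X, g⁻¹ * c ∈ M ∧ Commute c a := by
  let f : Function.End {x // x ∈ X ∧ g⁻¹ * x ∈ M} := fun x => ⟨a * x * a⁻¹, hX _ x.2.1, by
    have := mul_mem hf (hM _ x.2.2)
    rwa [show g⁻¹ * (a * g * a⁻¹) * (a * (g⁻¹ * x) * a⁻¹) = g⁻¹ * (a * x * a⁻¹) by group] at this⟩
  have hf' : ∀ k x, ((f ^ k) x : G) = a ^ k * x * (a ^ k)⁻¹ := fun k => by
    induction k with
    | zero => intro x; change (x : G) = _; simp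
    | succ k ih =>
      intro x
      rw [pow_succ', pow_succ']
      change a * ((f ^ k) x : G) * a⁻¹ = _; rw [ih]; group
  have h1 : f ^ l ^ n = 1 := funext fun x => Subtype.ext (by rw [hf', ha]; simp; rfl)
  have h2 : Nat.card {x // x ∈ X ∧ g⁻¹ * x ∈ M} = Nat.card ↥(X ⊓ M) := Nat.card_congr
    { toFun := fun x => ⟨g⁻¹ * x, X.mul_mem (X.inv_mem hg) x.2.1, x.2.2⟩
      invFun := fun y => ⟨g * y, X.mul_mem hg y.2.1, by simpa using y.2.2⟩
      left_inv := fun x => by simp
      right_inv := fun x => by simp }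
  classical
  have := Fintype.ofFinite {x // x ∈ X ∧ g⁻¹ * x ∈ M}
  have h3 := Equiv.Perm.card_fixedPoints_modEq h1
  have h4 : Fintype.card (Function.fixedPoints f) ≠ 0 := fun h => hl <| by
    rw [h, ← Nat.card_eq_fintype_card, h2] at h3
    exact (Nat.modEq_zero_iff_dvd.1 h3).trans (card_dvd_of_le inf_le_right)
  obtain ⟨x, hx⟩ := Fintype.card_pos_iff.1 (Nat.pos_of_ne_zero h4)
  exact ⟨x, x.2.1, x.2.2, (mul_inv_eq_iff_eq_mul.1 (congrArg Subtype.val hx)).symm⟩

/-- lift of an element killed by `m` to one whose order has no prime outside `m` -/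
theorem lift_ord [Finite G] {G' : Type*} [Group G'] (f : G →* G') (x : G) {m : ℕ}
    (hm : f x ^ m = 1) : ∃ k n, f (x ^ k) = f x ∧ (x ^ k) ^ m ^ n = 1 := by
  rcases Nat.eq_zero_or_pos m with rfl | h0
  · exact ⟨1, 1, by simp, by simp⟩
  obtain ⟨a, b, h1, h2, h3⟩ : ∃ a b, orderOf x = a * b ∧ a ∣ m ^ orderOf x ∧ b.Coprime m := by
    refine ⟨(orderOf x).gcd (m ^ orderOf x), orderOf x / (orderOf x).gcd (m ^ orderOf x),
      (Nat.mul_div_cancel' (Nat.gcd_dvd_left _ _)).symm, Nat.gcd_dvd_right _ _, ?_⟩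
    refine Nat.coprime_of_dvd fun q hq h1 h2 => ?_
    have h4 := (Nat.dvd_div_iff_mul_dvd (Nat.gcd_dvd_left _ _)).1 h1
    have h5 := orderOf_pos x
    have h6 : (orderOf x).gcd (m ^ orderOf x) * q ∣ m ^ orderOf x := by
      rw [← Nat.factorization_prime_le_iff_dvd (by positivity [hq.pos]) (by positivity)] at h4 ⊢
      intro s hs
      have h7 := h4 s hs
      by_cases e : s = q
      · subst e
        have h8 := Nat.factorization_lt s h5.ne'
        have h9 := hs.factorization_pos_of_dvd h0.ne' h2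
        rw [Nat.factorization_pow, Finsupp.smul_apply, smul_eq_mul]; nlinarith
      · rw [Nat.factorization_mul (by positivity) hq.ne_zero, Finsupp.add_apply, hq.factorization,
          Finsupp.single_eq_of_ne e, add_zero]
        exact (Nat.factorization_le_iff_dvd (by positivity) (by positivity)).2
          (Nat.gcd_dvd_right _ _) s
    have h7 := Nat.le_of_dvd (by positivity) (Nat.dvd_gcd h4 h6)
    have := hq.two_le
    have : 0 < (orderOf x).gcd (m ^ orderOf x) := by positivity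
    nlinarith
  obtain ⟨k, k1, k2⟩ := Nat.chineseRemainder h3 0 1
  refine ⟨k, orderOf x, by rw [map_pow, pow_eq_pow_of_modEq k2 hm, pow_one], ?_⟩
  rw [← pow_mul, ← orderOf_dvd_iff_pow_eq_one, mul_comm]
  nth_rw 1 [h1]
  exact Nat.mul_dvd_mul h2 (Nat.modEq_zero_iff_dvd.1 k1)

theorem top_ind (π : ℕ → Prop) (Q : ∀ (G : Type u) [Group G], Prop)
    (hQ : ∀ (G : Type u) [Group G] [Finite G] (N : Subgroup G) [N.Normal], Q G → Q (G ⧸ N))
    (base : ∀ (G : Type u) [Group G] [Finite G] (p : ℕ) [Fact p.Prime] (N : Subgroup G) [N.Normal],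
      Group.IsSolvable G → Rat G → Q G → π p → N ≠ ⊥ → IsMulCommutative N → (∀ x ∈ N, x ^ p = 1) →
      ¬ p ∣ N.index → False)
    (G : Type u) [Group G] [Finite G] (hs : Group.IsSolvable G) (hr : Rat G) (hq : Q G) {p : ℕ}
    (hp : p.Prime) (h : π p) : ¬ p ∣ Nat.card G := by
  induction hn : Nat.card G using Nat.strong_induction_on generalizing G with | _ n ih =>
  intro hd
  have : Nontrivial G := Finite.one_lt_card_iff_nontrivial.1
    (hp.one_lt.trans_le (Nat.le_of_dvd Nat.card_pos (hn ▸ hd)))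
  obtain ⟨N, q, hq', -, h1, h2, ⟨h3, h4⟩, -⟩ :=
    H1.exists_minimal_normal_elementary_le (⊤ : Subgroup G) top_ne_bot inferInstance
  have h5 := ih (Nat.card (G ⧸ N)) (by
    rw [← hn, card_eq_card_quotient_mul_card_subgroup N]
    exact lt_mul_of_one_lt_right Nat.card_pos ((one_lt_card_iff_ne_bot N).2 h2)) (G ⧸ N)
    inferInstance (hr.quot _ (QuotientGroup.mk'_surjective N)) (hQ G N hq) rfl
  have : Fact p.Prime := ⟨hp⟩
  rw [← hn, card_eq_card_quotient_mul_card_subgroup N] at hd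
  obtain ⟨x, hx⟩ := exists_prime_orderOf_dvd_card' p ((hp.dvd_mul.1 hd).resolve_left h5)
  obtain rfl := (Nat.prime_dvd_prime_iff_eq hp hq').1
    (hx ▸ orderOf_dvd_of_pow_eq_one (Subtype.ext (h4 x x.2)))
  exact base G p N hs hr hq h h2 h3 h4 h5

/-- the rational module of a top chief factor -/
theorem ex_rm [Finite G] {p : ℕ} [hp : Fact p.Prime] (N : Subgroup G) [N.Normal] (hr : Rat G)
    (h0 : N ≠ ⊥) (hc : IsMulCommutative N) (he : ∀ x ∈ N, x ^ p = 1) (hi : ¬ p ∣ N.index) :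
    ∃ (H V : Type u) (_ : Group H) (_ : AddCommGroup V) (_ : Module (ZMod p) V) (_ : Finite V)
      (ρ : H →* Module.End (ZMod p) V) (f : G →* H), Function.Surjective f ∧ RM p ρ ∧
      Nat.card V = Nat.card N ∧ ∀ x v, v ≠ 0 → ρ (f x) v = v → ∃ y, orderOf y = p ∧ Commute x y := by
  obtain ⟨V, _, _, ρ, ι, h1, h2, h3⟩ := ex_rep N hc he
  have : Finite V := Finite.of_equiv _ ι.symm
  have inj : ∀ {v w}, (ι v : G) = ι w → v = w := fun h => ι.injective (Subtype.ext h)
  have hN : N ≤ ρ.ker := fun x hx => LinearMap.ext fun v => inj (by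
    rw [h1, show x * ι v = ι v * x from
      congrArg Subtype.val (hc.is_comm.comm ⟨x, hx⟩ (ι v)), mul_inv_cancel_right]; rfl)
  have cop : ¬ p ∣ Nat.card (G ⧸ ρ.ker) := fun h => hi (h.trans (index_dvd_of_le hN))
  have ho : ∀ v, v ≠ 0 → orderOf (ι v : G) = p := fun v hv =>
    orderOf_eq_prime (he _ (ι v).2) fun h => hv (inj (h.trans h3.symm))
  have hcm : ∀ x v, ρ x v = v → Commute x (ι v) := fun x v h =>
    mul_inv_eq_iff_eq_mul.1 (by rw [← h1, h])
  refine ⟨G ⧸ ρ.ker, V, inferInstance, inferInstance, inferInstance, this,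
    QuotientGroup.lift _ ρ fun _ h => h, QuotientGroup.mk' _, QuotientGroup.mk'_surjective _,
    ⟨(injective_iff_map_eq_one _).2 fun a => ?_, cop, hr.quot _ (QuotientGroup.mk'_surjective _), ?_,
      fun h v => ?_⟩, Nat.card_congr ι, fun x v hv h => ⟨_, ho v hv, hcm x v h⟩⟩
  · obtain ⟨a, rfl⟩ := QuotientGroup.mk_surjective a
    exact fun h => (QuotientGroup.eq_one_iff a).2 h
  · have := (nontrivial_iff_ne_bot N).2 h0
    exact ι.nontrivial
  · obtain ⟨x, rfl⟩ := QuotientGroup.mk_surjective h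
    intro hv k hk
    by_cases v0 : v = 0
    · exact ⟨1, Commute.one_left _, by simp [v0]⟩
    obtain ⟨m, n, e1, e2⟩ := lift_ord (QuotientGroup.mk' ρ.ker) x pow_card_eq_one'
    have e3 : ρ (x ^ m) v = v :=
      (congrArg (fun y => QuotientGroup.lift _ ρ (fun _ h => h) y v) e1).trans hv
    obtain ⟨e, c1, c2⟩ := hr.comm (hcm _ v e3) (k := k.val) (by
      rw [ho v v0]
      exact (Nat.Coprime.pow_left n ((Nat.coprime_comm.1 (hp.out.coprime_iff_not_dvd.2
        cop)))).coprime_dvd_left (orderOf_dvd_of_pow_eq_one e2)) (by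
      rw [ho v v0]; exact ZMod.val_coe_unit_coprime (Units.mk0 k hk))
    refine ⟨e, ?_, inj (by rw [h2, ← c2, ← h1]; rfl)⟩
    have := c1.map (QuotientGroup.mk' ρ.ker)
    rwa [e1] at this

theorem top (g11 : G11.{u}) (s6 : S6.{u}) (s49 : S49.{u}) : TOP.{u} := by
  intro G _ _ hs hr
  refine ⟨fun p hp hd => by_contra fun h => ?_, fun x hx => ?_, fun p hp h5 hd x => ?_⟩
  · refine top_ind (fun q => 11 ≤ q) (fun _ _ => True) (fun _ _ _ _ _ _ => trivial) ?_ G hs hr
      trivial hp ?_ hd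
    · intro G _ _ q _ N _ _ hr _ hq h0 hc he hi
      obtain ⟨H, V, _, _, _, _, ρ, f, hf, hm, -⟩ := ex_rm N hr h0 hc he hi
      have := Finite.of_surjective f hf
      exact (g11 q H V ρ hm).not_ge hq
    · by_contra h1
      have : p = 8 ∨ p = 9 ∨ p = 10 := by omega
      rcases this with rfl | rfl | rfl <;> norm_num at hp
  · refine top_ind (fun q => q = 7) (fun G _ => ∃ x : G, x ^ 7 ^ 2 = 1 ∧ cc x ≤ 49) ?_ ?_ G hs hr
      ⟨x, orderOf_dvd_iff_pow_eq_one.1 (by simpa [hx] using orderOf_dvd_cc x), hx.le⟩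
      (by norm_num) rfl (Dvd.dvd.trans (by rw [hx]; norm_num) (cc_dvd x))
    · rintro G _ _ N _ ⟨x, h1, h2⟩
      exact ⟨QuotientGroup.mk' N x, by rw [← map_pow, h1, map_one],
        (cc_le _ (QuotientGroup.mk'_surjective N) x).trans h2⟩
    · rintro G _ _ q _ N _ hs hr ⟨x, h1, h2⟩ rfl h0 hc he hi
      obtain ⟨H, V, _, _, _, _, ρ, f, hf, hm, hk, -⟩ := ex_rm N hr h0 hc he hi
      have := Finite.of_surjective f hf
      have h3 := s49 H V ρ hm (Group.isSolvable_of_surjective hf)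
      have hx : x ∈ N := by
        rw [← QuotientGroup.eq_one_iff, ← orderOf_eq_one_iff]
        exact Nat.eq_one_of_dvd_coprimes (Nat.Coprime.pow_left 2
          ((Nat.Prime.coprime_iff_not_dvd (by norm_num)).2 hi))
          (orderOf_dvd_of_pow_eq_one (by rw [← QuotientGroup.mk_pow, h1]; rfl))
          (orderOf_dvd_natCard _)
      have h4 : N ≤ centralizer {x} := fun y hy =>
        mem_cc.2 (congrArg Subtype.val (hc.is_comm.comm ⟨y, hy⟩ ⟨x, hx⟩))
      have := card_le_of_le h4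
      unfold cc at h2
      omega
  · suffices ¬ (x ^ 6 = 1 ∧ cc x ≤ 6) from ⟨fun h => this ⟨orderOf_dvd_iff_pow_eq_one.1
      ((h ▸ orderOf_dvd_cc x).trans (by norm_num)), by omega⟩,
      fun h => this ⟨orderOf_dvd_iff_pow_eq_one.1 (h ▸ orderOf_dvd_cc x), h.le⟩⟩
    refine fun hx => top_ind (fun q => 5 ≤ q) (fun G _ => ∃ x : G, x ^ 6 = 1 ∧ cc x ≤ 6) ?_ ?_ G hs
      hr ⟨x, hx⟩ hp h5 hd
    · rintro G _ _ N _ ⟨x, h1, h2⟩
      exact ⟨QuotientGroup.mk' N x, by rw [← map_pow, h1, map_one],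
        (cc_le _ (QuotientGroup.mk'_surjective N) x).trans h2⟩
    · rintro G _ _ q hq N _ hs hr ⟨x, h1, h2⟩ h5 h0 hc he hi
      obtain ⟨H, V, _, _, _, _, ρ, f, hf, hm, -, hk⟩ := ex_rm N hr h0 hc he hi
      have := Finite.of_surjective f hf
      refine ((s6 q H V ρ hm h5 (Group.isSolvable_of_surjective hf) (f x)
        (by rw [← map_pow, h1, map_one]) fun v hv => by_contra fun v0 => ?_).trans_le
        ((cc_le f hf x).trans h2)).false
      obtain ⟨y, hy, hc⟩ := hk x v v0 hv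
      have h6 : (orderOf x).Coprime (orderOf y) := by
        rw [hy]
        refine Nat.Coprime.coprime_dvd_left (orderOf_dvd_of_pow_eq_one h1)
          (Nat.coprime_comm.1 (hq.out.coprime_iff_not_dvd.2 fun h => ?_))
        have := Nat.le_of_dvd (by norm_num) h
        interval_cases q
        · omega
        · exact absurd hq.out (by norm_num)
      obtain ⟨e, e1, e2⟩ := hr.comm hc h6 (k := 2) (by
        rw [hy]; exact (Nat.coprime_primes Nat.prime_two hq.out).2 (by omega))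
      have h7 : zpowers y ≤ centralizer {x} := zpowers_le.2 (mem_cc.2 hc.symm)
      have h8 := card_dvd_of_le h7
      rw [Nat.card_zpowers, hy] at h8
      have h9 : zpowers y = centralizer {x} := eq_of_le_of_card_ge h7 (by
        rw [Nat.card_zpowers, hy]
        obtain ⟨c, hc⟩ := h8
        have := cc_pos x
        unfold cc at h2 this
        rw [hc] at h2 this ⊢
        rcases c with _ | _ | c <;> nlinarith)
      obtain ⟨j, rfl⟩ := mem_zpowers_iff.1 (h9 ▸ mem_cc.2 e1)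
      have : y = 1 := by
        rw [show y ^ j * y * (y ^ j)⁻¹ = y by group, pow_two, left_eq_mul] at e2; exact e2
      rw [this, orderOf_one] at hy
      omega

end H29.AH
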