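import Cfsg.Agent.H29.AH1

/-! S4162: small lemmas for chunk `LA`. -/

set_option autoImplicit false

namespace H29.AH
open Subgroup

universe u
variable {G : Type u} [Group G] [Finite G] {p : ℕ} [hp : Fact p.Prime]

theorem split (p : ℕ) [hp : Fact p.Prime] (x : G) : ∃ i j n : ℕ, x = x ^ i * x ^ j ∧
    (x ^ i) ^ p ^ n = 1 ∧ ¬ p ∣ orderOf (x ^ j) := by
  obtain ⟨n, b, hb, e⟩ := Nat.exists_eq_pow_mul_and_not_dvd (orderOf_pos x).ne' p hp.out.ne_one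
  have hc : (p ^ n).Coprime b := (hp.out.coprime_iff_not_dvd.2 hb).pow_left n
  obtain ⟨i, i1, i2⟩ := Nat.chineseRemainder hc 1 0
  obtain ⟨j, j1, j2⟩ := Nat.chineseRemainder hc 0 1
  refine ⟨i, j, n, ?_, ?_, fun h => hb (h.trans (orderOf_dvd_of_pow_eq_one ?_))⟩
  · rw [← pow_add]
    nth_rw 1 [← pow_one x]
    rw [pow_eq_pow_iff_modEq, e]
    exact ((Nat.modEq_and_modEq_iff_modEq_mul hc).1 ⟨i1.add j1, i2.add j2⟩).symm
  · rw [← pow_mul, ← orderOf_dvd_iff_pow_eq_one, e, mul_comm i]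
    exact Nat.mul_dvd_mul_left _ (Nat.modEq_zero_iff_dvd.1 i2)
  · rw [← pow_mul, ← orderOf_dvd_iff_pow_eq_one, e]
    exact Nat.mul_dvd_mul_right (Nat.modEq_zero_iff_dvd.1 j1) _

omit [Finite G] hp in
theorem pg_zp {a : G} {n : ℕ} (ha : a ^ p ^ n = 1) : IsPGroup p (zpowers a) := by
  rintro ⟨_, k, rfl⟩
  exact ⟨n, Subtype.ext (by
    change (a ^ k) ^ p ^ n = 1
    rw [← zpow_natCast, ← zpow_mul, mul_comm, zpow_mul, zpow_natCast, ha, one_zpow])⟩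

theorem sq_dvd {L K : Subgroup G} (hL : IsPGroup p L) (hK : L ≤ K) {y w : G} (hy : orderOf y = p)
    (hyL : y ∈ L) (hw : w ∈ L) (hn : w ∉ zpowers y) : p ^ 2 ∣ Nat.card K := by
  obtain ⟨j, hj⟩ := IsPGroup.iff_card.1 hL
  refine Dvd.dvd.trans ?_ (card_dvd_of_le hK)
  have h1 : Nat.card (zpowers y) < Nat.card L := by
    refine lt_of_le_of_ne (card_le_of_le (zpowers_le.2 hyL)) fun h => hn ?_
    rwa [eq_of_le_of_card_ge (zpowers_le.2 hyL) h.ge]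
  rw [Nat.card_zpowers, hy, hj] at h1
  rw [hj]
  refine pow_dvd_pow _ ?_
  nth_rw 1 [← pow_one p] at h1
  exact (Nat.pow_lt_pow_iff_right hp.out.one_lt).1 h1

theorem mem_of_ord {y z : G} (hy : orderOf y = p) (hz : z ∈ zpowers y) (h1 : z ≠ 1) :
    y ∈ zpowers z := by
  have h2 : zpowers z ≤ zpowers y := zpowers_le.2 hz
  have h3 := card_dvd_of_le h2
  rw [Nat.card_zpowers, Nat.card_zpowers, hy, Nat.dvd_prime hp.out, orderOf_eq_one_iff] at h3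
  rw [eq_of_le_of_card_ge h2 (by rw [Nat.card_zpowers, Nat.card_zpowers, hy, h3.resolve_left h1])]
  exact mem_zpowers y

theorem ex_out {y : G} (hy : orderOf y = p) (h : p ^ 2 ∣ Nat.card G) :
    ∃ a n, a ^ p ^ n = 1 ∧ Commute a y ∧ a ∉ zpowers y := by
  obtain ⟨P, hP⟩ := (pg_zp (n := 1) (by rw [pow_one, ← hy, pow_orderOf_eq_one]) :
    IsPGroup p (zpowers y)).exists_le_sylow
  have h1 := P.pow_dvd_card_of_pow_dvd_card h
  have h2 : ¬ (P : Subgroup G) ≤ zpowers y := fun h2 => by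
    have := Nat.le_of_dvd (by rw [Nat.card_zpowers, hy]; exact hp.out.pos)
      (h1.trans (card_dvd_of_le h2))
    rw [Nat.card_zpowers, hy] at this
    have := hp.out.one_lt
    nlinarith
  have : Nontrivial P := (nontrivial_iff_ne_bot _).2 fun h => h2 (h ▸ bot_le)
  have := P.isPGroup'.center_nontrivial
  obtain ⟨⟨z, hz⟩, z1⟩ := exists_ne (1 : center P)
  have hc : ∀ g ∈ (P : Subgroup G), Commute g z := fun g hg =>
    congrArg Subtype.val (mem_center_iff.1 hz ⟨g, hg⟩)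
  have hpe : ∀ g ∈ (P : Subgroup G), ∃ n, g ^ p ^ n = 1 := fun g hg =>
    (P.isPGroup' ⟨g, hg⟩).imp fun n hn => congrArg Subtype.val hn
  by_cases h3 : (z : G) ∈ zpowers y
  · obtain ⟨a, ha, hn⟩ := SetLike.not_le_iff_exists.1 h2
    obtain ⟨n, h4⟩ := hpe a ha
    obtain ⟨k, hk⟩ := mem_of_ord hy h3 fun h => z1 (Subtype.ext (Subtype.ext h))
    exact ⟨a, n, h4, hk ▸ (hc a ha).zpow_right k, hn⟩
  · obtain ⟨n, h4⟩ := hpe z z.2
    exact ⟨z, n, h4, (hc y (hP (mem_zpowers y))).symm, h3⟩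

theorem mono {Z : Type*} [Group Z] (φ : G →* Z) (hφ : Function.Surjective φ) {x : G} {n d : ℕ}
    (hx : x ^ p ^ n = 1) (hc : ∀ z, Commute z (φ x)) (h : p ^ d ∣ Nat.card Z) : p ^ d ∣ cc x := by
  have := Finite.of_surjective φ hφ
  obtain ⟨S, hS⟩ := (pg_zp hx).exists_le_sylow
  have h1 := (S.mapSurjective hφ).pow_dvd_card_of_pow_dvd_card h
  let x' : (S : Subgroup G) := ⟨x, hS (mem_zpowers x)⟩
  have h2 := cc_le (φ.subgroupMap S) (φ.subgroupMap_surjective S) x'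
  have h3 : centralizer {φ.subgroupMap S x'} = ⊤ :=
    eq_top_iff.2 fun z _ => mem_cc.2 (Subtype.ext (hc z))
  rw [cc, h3, card_top] at h2
  obtain ⟨j, hj⟩ := IsPGroup.iff_card.1 (S.isPGroup'.to_subgroup (centralizer {x'}))
  have h4 : p ^ d ≤ p ^ j := by rw [← hj]; exact (Nat.le_of_dvd Nat.card_pos h1).trans h2
  refine (pow_dvd_pow _ ((Nat.pow_le_pow_iff_right hp.out.one_lt).1 h4)).trans ?_
  rw [← hj, ← card_map_of_injective (subtype_injective _)]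
  refine card_dvd_of_le ?_
  rintro _ ⟨g, hg, rfl⟩
  exact mem_cc.2 (congrArg Subtype.val (mem_cc.1 hg))

theorem cnt (M : Subgroup G) {a : G} {n : ℕ} (ha : a ^ p ^ n = 1)
    (hM : ∀ x ∈ M, a * x * a⁻¹ ∈ M) : Nat.card M ≡ Nat.card ↥(M ⊓ centralizer {a}) [MOD p] := by
  let f : Function.End M := fun x => ⟨a * x * a⁻¹, hM _ x.2⟩
  have hf' : ∀ k x, ((f ^ k) x : G) = a ^ k * x * (a ^ k)⁻¹ := fun k => by
    induction k with
    | zero => intro x; change (x : G) = _; simp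
    | succ k ih =>
      intro x
      rw [pow_succ', pow_succ']
      change a * ((f ^ k) x : G) * a⁻¹ = _; rw [ih]; group
  have h1 : f ^ p ^ n = 1 := funext fun x => Subtype.ext (by rw [hf', ha]; simp; rfl)
  classical
  have := Fintype.ofFinite M
  have h3 := Equiv.Perm.card_fixedPoints_modEq h1
  rw [← Nat.card_eq_fintype_card, ← Nat.card_eq_fintype_card] at h3
  refine h3.trans (congrArg (· % p) ?_)
  exact Nat.card_congr
    { toFun := fun x => ⟨x.1, x.1.2, mem_cc.2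
        (mul_inv_eq_iff_eq_mul.1 (congrArg Subtype.val x.2)).symm⟩
      invFun := fun y => ⟨⟨y, y.2.1⟩, Subtype.ext (mul_inv_eq_iff_eq_mul.2 (mem_cc.1 y.2.2).symm)⟩
      left_inv := fun _ => rfl
      right_inv := fun _ => rfl }

/-- commutation with `x` on an abelian subgroup -/
def cm (M N : Subgroup G) [hN : N.Normal] (hc : IsMulCommutative N) (h : M ≤ N) (x : G) : M →* G :=
  MonoidHom.mk' (fun n => x * n * x⁻¹ * (n : G)⁻¹) fun a b => by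
    have : (x * b * x⁻¹ * (b : G)⁻¹) * (a : G)⁻¹ = (a : G)⁻¹ * (x * b * x⁻¹ * (b : G)⁻¹) :=
      congrArg Subtype.val (hc.is_comm.comm ⟨_, mul_mem (hN.conj_mem _ (h b.2) x) (inv_mem (h b.2))⟩
        ⟨_, inv_mem (h a.2)⟩)
    rw [mul_assoc _ (a : G)⁻¹, ← this]; push_cast; group

/-- the critical step -/
theorem crit {r d : ℕ} [hr : Fact r.Prime] (hpr : p ≠ r)
    (hd : ∀ j, 0 < j → r ^ j ≡ 1 [MOD p] → d ≤ j) (N : Subgroup G) [hN : N.Normal]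
    (hc : IsMulCommutative N) (he : ∀ x ∈ N, x ^ r = 1) {x y a : G} {n : ℕ} (hxy : Commute x y)
    (hay : Commute a y) (ha : a ^ p ^ n = 1) (hax : x⁻¹ * (a * x * a⁻¹) ∈ N)
    (h : ∀ m ∈ N, Commute m y → ¬ Commute (m * a) x) :
    r ^ d ∣ Nat.card ↥(centralizer {x} ⊓ centralizer ({y} : Set G)) := by
  have hNr : IsPGroup r N := fun g => ⟨1, Subtype.ext (by simpa using he g g.2)⟩
  have hpN : ¬ p ∣ Nat.card N := fun h => by
    obtain ⟨j, hj⟩ := IsPGroup.iff_card.1 hNr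
    exact hpr ((Nat.prime_dvd_prime_iff_eq hp.out hr.out).1 (hp.out.dvd_of_dvd_pow (hj ▸ h)))
  have cy : ∀ {b g : G}, Commute b y → g ∈ centralizer {y} → b * g * b⁻¹ ∈ centralizer {y} :=
    fun h1 h2 => mul_mem (mul_mem (mem_cc.2 h1) h2) (inv_mem (mem_cc.2 h1))
  obtain ⟨x0, c1, c2, c3⟩ := fp (centralizer {y}) N ha (fun _ => cy hay)
    (fun g hg => hN.conj_mem g hg a) hpN (mem_cc.2 hxy) hax
  have cN : ∀ {s t : G}, s ∈ N → t ∈ N → s * t = t * s := fun hs ht =>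
    congrArg Subtype.val (hc.is_comm.comm ⟨_, hs⟩ ⟨_, ht⟩)
  set M := N ⊓ centralizer {y}
  have aM : ∀ g ∈ M, a * g * a⁻¹ ∈ M := fun g hg => ⟨hN.conj_mem g hg.1 a, cy hay hg.2⟩
  let τ := cm M N hc inf_le_left x
  have τ0 : ∀ m : M, τ m = x0 * m * x0⁻¹ * (m : G)⁻¹ := fun m => by
    change x * m * x⁻¹ * _ = _
    rw [show x0 = x * (x⁻¹ * x0) by group, mul_assoc x (x⁻¹ * x0), cN c2 m.2.1]; group
  have TM : τ.range ≤ M := by
    rintro _ ⟨m, rfl⟩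
    exact mul_mem (show _ ∈ M from ⟨hN.conj_mem _ m.2.1 x, cy hxy m.2.2⟩) (inv_mem m.2)
  have aT : ∀ g ∈ τ.range, a * g * a⁻¹ ∈ τ.range := by
    rintro _ ⟨m, rfl⟩
    refine ⟨⟨_, aM _ m.2⟩, ?_⟩
    rw [τ0, τ0]
    calc _ = (x0 * a) * m * (x0 * a)⁻¹ * (a * (m : G)⁻¹ * a⁻¹) := by push_cast; group
      _ = _ := by rw [c3.eq]; group
  let F := (τ.range.comap (cm M N hc inf_le_left a)).map M.subtype
  have mF : ∀ {g}, g ∈ F ↔ g ∈ M ∧ a * g * a⁻¹ * g⁻¹ ∈ τ.range :=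
    ⟨by rintro ⟨m, hm, rfl⟩; exact ⟨m.2, hm⟩, fun h => ⟨⟨_, h.1⟩, h.2, rfl⟩⟩
  have TF : τ.range ≤ F := fun g hg => mF.2 ⟨TM hg, mul_mem (aT g hg) (inv_mem hg)⟩
  have FM : F ≤ M := map_subtype_le _
  have aF : ∀ g ∈ F, a * g * a⁻¹ ∈ F := fun g hg => by
    rw [show a * g * a⁻¹ = (a * g * a⁻¹ * g⁻¹) * g by group]
    exact mul_mem (TF (mF.1 hg).2) hg
  have hne : F ≠ M := fun e => by
    have n0 : x0 * x⁻¹ ∈ M := mem_inf.2
      ⟨by simpa using hN.conj_mem _ c2 x, mul_mem c1 (inv_mem (mem_cc.2 hxy))⟩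
    obtain ⟨m, hm⟩ := (mF.1 (e ▸ n0)).2
    change x * m * x⁻¹ * (m : G)⁻¹ = _ at hm
    refine h (m : G)⁻¹ (inv_mem m.2.1) (mem_cc.1 (inv_mem m.2.2)) ?_
    have e1 : a * x * a⁻¹ = (a * (x0 * x⁻¹) * a⁻¹)⁻¹ * x0 := by
      calc _ = (a * (x0 * x⁻¹) * a⁻¹)⁻¹ * (a * x0 * a⁻¹) := by group
        _ = _ := by rw [← c3.eq, mul_inv_cancel_right]
    have e2 : a * (x0 * x⁻¹) * a⁻¹ = (x0 * x⁻¹) * (x * m * x⁻¹ * (m : G)⁻¹) := by
      rw [← cN (s := x * m * x⁻¹ * (m : G)⁻¹) (TM ⟨m, rfl⟩).1 n0.1, hm]; group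
    have e3 : (x0 * x⁻¹)⁻¹ * x0 = x := by group
    rw [e2, mul_inv_rev, mul_assoc (_)⁻¹, e3] at e1
    have e4 : a * x * a⁻¹ = m * x * (m : G)⁻¹ := by rw [e1]; group
    change _ * _ = _ * _
    calc _ = (m : G)⁻¹ * (a * x * a⁻¹) * a := by group
      _ = _ := by rw [e4]; group
  have h1 := cnt M ha aM
  have h2 := cnt F ha aF
  have h3 : M ⊓ centralizer {a} = F ⊓ centralizer {a} := le_antisymm (fun g hg => ⟨mF.2 ⟨hg.1, by
    rw [← (mem_cc.1 hg.2).eq]; simp⟩, hg.2⟩) (inf_le_inf_right _ FM)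
  rw [h3] at h1
  have hM := hNr.to_le (inf_le_left : M ≤ N)
  obtain ⟨e, he⟩ := IsPGroup.iff_card.1 hM
  obtain ⟨f, hf⟩ := IsPGroup.iff_card.1 (hM.to_le FM)
  have hfe : f < e := by
    rw [← Nat.pow_lt_pow_iff_right hr.out.one_lt, ← he, ← hf]
    exact lt_of_le_of_ne (card_le_of_le FM) fun h => hne (eq_of_le_of_card_ge FM h.ge)
  obtain ⟨j, rfl⟩ := Nat.exists_eq_add_of_lt hfe
  have h4 := h1.trans h2.symm
  rw [he, hf, add_assoc, pow_add] at h4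
  have h5 := hd _ j.succ_pos (Nat.ModEq.cancel_left_of_coprime (c := r ^ f)
    (((Nat.coprime_primes hp.out hr.out).2 hpr).pow_right f) (by simpa using h4))
  have h6 := τ.ker.index_mul_card
  obtain ⟨t, ht⟩ := card_dvd_of_le TF
  rw [index_ker, he, add_assoc, pow_add, ← hf, ht, mul_assoc] at h6
  have h7 := Nat.eq_of_mul_eq_mul_left Nat.card_pos h6
  refine ((pow_dvd_pow r h5).trans (⟨t, by rw [mul_comm]; exact h7⟩ : _ ∣ Nat.card τ.ker)).trans ?_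
  rw [← card_map_of_injective M.subtype_injective]
  refine card_dvd_of_le ?_
  rintro _ ⟨m, hm, rfl⟩
  refine ⟨mem_cc.2 ?_, m.2.2⟩
  have : x * m * x⁻¹ * (m : G)⁻¹ = 1 := hm
  exact (mul_inv_eq_iff_eq_mul.1 (mul_inv_eq_one.1 this)).symm

end H29.AH
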