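import Cfsg.Agent.H29.AH2

/-! S4162: chunk `LA`. -/

set_option autoImplicit false

namespace H29.AH
open Subgroup

universe u

/-- elements whose order only involves primes of `m` are rational -/
def RatP (m : ℕ) (E : Type*) [Group E] : Prop :=
  ∀ g : E, (∃ n, g ^ m ^ n = 1) → ∀ k : ℕ, k.Coprime m → IsConj g (g ^ k)

variable {G : Type u} [Group G] [Finite G]

theorem RatP.quot {m : ℕ} (h : RatP m G) {G' : Type*} [Group G'] (f : G →* G')
    (hf : Function.Surjective f) : RatP m G' := by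
  rintro g ⟨n, hn⟩ k hk
  obtain ⟨x, rfl⟩ := hf g
  obtain ⟨i, j, e1, e2⟩ := lift_ord f x hn
  rw [← e1, ← map_pow]
  exact f.map_isConj (h _ ⟨_, by rwa [pow_mul]⟩ k hk)

omit [Finite G] in
theorem RatP.real {m : ℕ} (h : RatP m G) (hm : 0 < m) {g : G} {n : ℕ} (hn : g ^ m ^ n = 1) :
    ∃ e : G, e * g * e⁻¹ = g⁻¹ := by
  have h0 : 0 < m ^ (n + 1) := by positivity
  obtain ⟨e, he⟩ := isConj_iff.1 (h g ⟨n, hn⟩ (m ^ (n + 1) - 1) (Nat.Coprime.coprime_dvd_right
    (dvd_pow_self m n.succ_ne_zero)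
    (by rw [Nat.coprime_self_sub_left h0]; exact Nat.coprime_one_left _)))
  refine ⟨e, he.trans (eq_inv_of_mul_eq_one_left ?_)⟩
  rw [← pow_succ, Nat.sub_add_cancel h0, pow_succ, pow_mul, hn, one_pow]

omit [Finite G] in
theorem pw {g : G} {a b n : ℕ} (h : g ^ a ^ n = 1) (hab : a ∣ b) (k : ℕ) : g ^ b ^ (n + k) = 1 := by
  obtain ⟨c, rfl⟩ := hab
  rw [mul_pow, pow_add, mul_assoc, pow_mul, h, one_pow]

variable {p r d k0 : ℕ} [hp : Fact p.Prime] [hr : Fact r.Prime]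

theorem base (d1 : D1.{u}) (hpr : p ≠ r) (hk0 : k0.Coprime p)
    (hk : ∀ m, ¬ r ∣ m → ¬ (k0 ^ m) ^ 2 ≡ 1 [MOD p]) (h : RatP (p * r) G) (N : Subgroup G) [N.Normal]
    (hc : IsMulCommutative N) (he : ∀ x ∈ N, x ^ p = 1) {x y : G} {n : ℕ} (hx : x ^ r ^ n = 1)
    (hy : orderOf y = p) (hxy : Commute x y) (hN : y ∈ N) : p ^ 2 ∣ cc x := by
  classical
  by_contra h2
  have cp := (Nat.coprime_primes hp.out hr.out).2 hpr
  have y1 : y ^ p = 1 := he y hN
  obtain ⟨k, k1, k2⟩ := Nat.chineseRemainder (cp.symm.pow_left (n + 1)) 1 k0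
  have x1 : x ^ r ^ (n + 1) = 1 := pw hx dvd_rfl 1
  obtain ⟨e, e0⟩ := isConj_iff.1 (h (x * y) ⟨n + 1, by
    rw [hxy.mul_pow, pw hx (dvd_mul_left r p) 1, add_comm,
      pw (n := 1) (by rwa [pow_one]) (dvd_mul_right p r) n, mul_one]⟩ k (Nat.Coprime.mul_right
      (by rw [Nat.Coprime, k2.gcd_eq]; exact hk0) (Nat.Coprime.coprime_dvd_right
      (dvd_pow_self r n.succ_ne_zero) (by rw [Nat.Coprime, k1.gcd_eq]; exact Nat.coprime_one_left _))))
  rw [hxy.mul_pow, pow_eq_pow_of_modEq k1 x1, pow_eq_pow_of_modEq k2 y1, pow_one] at e0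
  obtain ⟨e1, e2⟩ := conj_part hxy (hxy.pow_right k0) (cp.symm.pow_left (n + 1)) x1 x1 y1
    (by rw [← pow_mul, mul_comm, pow_mul, y1, one_pow]) e0
  obtain ⟨a, b, hb, eo⟩ := Nat.exists_eq_pow_mul_and_not_dvd (orderOf_pos e).ne' r hr.out.ne_one
  have g1 : (e ^ b) ^ r ^ a = 1 := by rw [← pow_mul, mul_comm, ← eo, pow_orderOf_eq_one]
  have g2 : Commute (e ^ b) x := Commute.pow_left (mul_inv_eq_iff_eq_mul.1 e1) b
  have g3 : ∀ j, e ^ j * y * (e ^ j)⁻¹ = y ^ k0 ^ j := fun j => by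
    induction j with
    | zero => simp
    | succ j ih =>
      calc _ = e * (e ^ j * y * (e ^ j)⁻¹) * e⁻¹ := by rw [pow_succ']; group
        _ = _ := by rw [ih, ← conj_pow, e2, ← pow_mul, pow_succ']
  obtain ⟨V, _, _, ρ, ι, h1, h3, h4⟩ := ex_rep N hc he
  have : Finite V := Finite.of_equiv _ ι.symm
  have inj : ∀ {v w}, (ι v : G) = ι w → v = w := fun h => ι.injective (Subtype.ext h)
  obtain ⟨v, hv⟩ := ι.surjective ⟨y, hN⟩
  replace hv : (ι v : G) = y := congrArg Subtype.val hv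
  have := d1 p G V ρ (e ^ b) x v ((k0 ^ b : ℕ) : ZMod p) g2
    (fun h => hpr ((Nat.prime_dvd_prime_iff_eq hp.out hr.out).1 (hp.out.dvd_of_dvd_pow
      (h.trans (orderOf_dvd_of_pow_eq_one hx)))))
    (fun i => h.real (Nat.mul_pos hp.out.pos hr.out.pos) (n := a + n) (by
      rw [(g2.pow_right i).mul_pow, pw g1 (dvd_mul_left r p), ← pow_mul, mul_comm i, pow_mul,
        add_comm, pw hx (dvd_mul_left r p), one_pow, mul_one]))
    (fun h => hp.out.ne_one (by rw [← hy, ← hv, h, h4, orderOf_one]))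
    (inj (by rw [h1, hv, hxy.eq, mul_inv_cancel_right])) (fun w hw => ?_)
    (inj (by rw [h1, h3, hv, g3, ZMod.val_natCast, pow_eq_pow_iff_modEq, hy]; exact (Nat.mod_modEq _ _).symm))
  · refine hk b hb ((ZMod.natCast_eq_natCast_iff _ _ _).1 ?_)
    rw [Nat.cast_pow, this, Nat.cast_one]
  · have hw' : (ι w : G) ∈ zpowers y := by
      by_contra hn
      exact h2 (sq_dvd (L := N ⊓ centralizer {x}) (IsPGroup.to_le (K := N)
        (fun g => ⟨1, Subtype.ext (by simpa using he g g.2)⟩) inf_le_left) inf_le_right hy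
        ⟨hN, mem_cc.2 hxy.symm⟩ ⟨(ι w).2, mem_cc.2
          (mul_inv_eq_iff_eq_mul.1 (by rw [← h1, hw])).symm⟩ hn)
    obtain ⟨j, hj⟩ := (mem_zpowers_iff_mem_range_orderOf.1 hw') |> Finset.mem_image.1
    refine ⟨j, inj ?_⟩
    rw [h3, hv, ← hj.2, ZMod.val_natCast, pow_eq_pow_iff_modEq, hy]
    exact (Nat.mod_modEq _ _).symm

theorem lemA (d1 : D1.{u}) (hpr : p ≠ r) (hd : ∀ j, 0 < j → r ^ j ≡ 1 [MOD p] → d ≤ j)
    (hk0 : k0.Coprime p) (hk : ∀ m, ¬ r ∣ m → ¬ (k0 ^ m) ^ 2 ≡ 1 [MOD p])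
    (G : Type u) [Group G] [Finite G] (hs : Group.IsSolvable G) (h : RatP (p * r) G) {x y : G} {n : ℕ}
    (hx : x ^ r ^ n = 1) (hy : orderOf y = p) (hxy : Commute x y) (h2 : ¬ p ^ 2 ∣ cc x) :
    r ^ d ∣ Nat.card ↥(centralizer {x} ⊓ centralizer ({y} : Set G)) := by
  induction hn : Nat.card G using Nat.strong_induction_on generalizing G with | _ n' ih =>
  have y1 : y ^ p ^ 1 = 1 := by rw [pow_one, ← hy, pow_orderOf_eq_one]
  have : Nontrivial G := ⟨⟨y, 1, fun h => hp.out.ne_one (by rw [← hy, h, orderOf_one])⟩⟩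
  obtain ⟨N, q, hq, -, hN, h0, ⟨hc, he⟩, -⟩ :=
    H1.exists_minimal_normal_elementary_le (⊤ : Subgroup G) top_ne_bot inferInstance
  have : Fact q.Prime := ⟨hq⟩
  have hNq : IsPGroup q N := fun g => ⟨1, Subtype.ext (by simpa using he g g.2)⟩
  have nd : ∀ {s : ℕ}, s.Prime → s ≠ q → ¬ s ∣ Nat.card N := fun hs hne h => by
    obtain ⟨j, hj⟩ := IsPGroup.iff_card.1 hNq
    exact hne ((Nat.prime_dvd_prime_iff_eq hs hq).1 (hs.dvd_of_dvd_pow (hj ▸ h)))
  by_cases yN : y ∈ N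
  · obtain rfl := (Nat.prime_dvd_prime_iff_eq hp.out hq).1
      (hy ▸ orderOf_dvd_of_pow_eq_one (he y yN))
    exact (h2 (base d1 hpr hk0 hk h N hc he hx hy hxy yN)).elim
  set f := QuotientGroup.mk' N
  have hf : Function.Surjective f := QuotientGroup.mk'_surjective N
  have fN : ∀ {a b : G}, f a = f b ↔ a⁻¹ * b ∈ N := QuotientGroup.eq
  have fy : orderOf (f y) = p := orderOf_eq_prime (by rw [← map_pow, ← pow_one p, y1, map_one])
    fun h => yN ((QuotientGroup.eq_one_iff y).1 h)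
  have cy : ∀ {b g y : G}, Commute b y → g ∈ centralizer {y} → b * g * b⁻¹ ∈ centralizer {y} :=
    fun h1 h2 => mul_mem (mul_mem (mem_cc.2 h1) h2) (inv_mem (mem_cc.2 h1))
  have lf : ∀ {l j : ℕ} [Fact l.Prime] {a : G}, a ^ l ^ j = 1 → l ≠ q → ∀ g, Commute g (f a) →
      ∃ c, f c = g ∧ Commute c a := fun {l j} hl a ha hne g hg => by
    obtain ⟨g, rfl⟩ := hf g
    obtain ⟨c, -, c1, c2⟩ := fp ⊤ N (g := g) ha (fun _ _ => mem_top _) (fun g hg => hN.conj_mem g hg a)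
      (nd hl.out hne) (mem_top _) (fN.1 (by
        rw [map_mul, map_mul, map_inv, ← hg.eq, mul_inv_cancel_right]))
    exact ⟨c, (fN.2 c1).symm, c2⟩
  by_cases h3 : p ^ 2 ∣ cc (f x)
  · by_cases hrq : r = q
    · subst hrq
      obtain ⟨a, j, a1, a2, a3⟩ := ex_out (G := centralizer {f x})
        (y := ⟨f y, mem_cc.2 (hxy.symm.map f)⟩) (by rw [← fy]; exact (orderOf_coe _).symm) h3
      obtain ⟨c, c1, c2⟩ := lf y1 hpr a (congrArg Subtype.val a2)
      have a4 : (a : G ⧸ N) ^ p ^ j = 1 := congrArg Subtype.val a1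
      obtain ⟨i, l, e1, e2⟩ := lift_ord f c (c1 ▸ a4)
      rw [← pow_mul p] at e2
      refine crit hpr hd N hc he hxy (c2.pow_left i) e2 (fN.1 ?_) fun m hm m1 m2 => h2 ?_
      · rw [map_mul, map_mul, map_inv, e1, c1, (mem_cc.1 a.2).eq, mul_inv_cancel_right]
      have e3 : f (m * c ^ i) = a := by
        rw [map_mul, e1, c1, show f m = 1 from (QuotientGroup.eq_one_iff m).2 hm, one_mul]
      obtain ⟨i', l', e4, e5⟩ := lift_ord f (m * c ^ i) (e3 ▸ a4)
      rw [← pow_mul p] at e5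
      have e6 := (m1.mul_left (c2.pow_left i)).pow_left i'
      refine sq_dvd ((pg_zp y1).to_sup_of_normal_left' (pg_zp e5) (zpowers_le.2
        (centralizer_le_normalizer _ ?_))) (sup_le (zpowers_le.2 (mem_cc.2 hxy.symm))
        (zpowers_le.2 (mem_cc.2 (m2.pow_left i')))) hy (mem_sup_left (mem_zpowers y))
        (mem_sup_right (mem_zpowers _)) ?_
      · rintro _ ⟨k, rfl⟩
        exact (e6.zpow_right k).symm
      · rintro ⟨k, hk⟩
        refine a3 ⟨k, Subtype.ext ?_⟩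
        change f y ^ k = a
        rw [← map_zpow, ← e3, ← e4]; exact congrArg f hk
    · refine (h2 (h3.trans ?_)).elim
      have : (centralizer {x}).map f = centralizer {f x} := le_antisymm
        (by rintro _ ⟨g, hg, rfl⟩; exact mem_cc.2 ((mem_cc.1 hg).map f)) fun g hg => by
          obtain ⟨c, c1, c2⟩ := lf hx hrq g (mem_cc.1 hg)
          exact ⟨c, mem_cc.2 c2, c1⟩
      rw [cc, ← this]; exact card_map_dvd _ _
  have h4 := ih (Nat.card (G ⧸ N)) (by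
    rw [← hn, card_eq_card_quotient_mul_card_subgroup N]
    exact lt_mul_of_one_lt_right Nat.card_pos ((one_lt_card_iff_ne_bot N).2 h0)) (G ⧸ N)
    inferInstance (h.quot f hf) (by rw [← map_pow, hx, map_one]) fy (hxy.map f) h3 rfl
  set Z := centralizer {f x} ⊓ centralizer {f y}
  by_cases hpq : p = q
  · subst hpq
    refine h4.trans ((card_dvd_of_le fun g hg => ?_).trans (card_map_dvd _ f))
    obtain ⟨c, c1, c2⟩ := lf hx hpr.symm g (mem_cc.1 hg.1)
    refine ⟨c, ⟨mem_cc.2 c2, mem_cc.2 (by_contra fun hn => h2 ?_)⟩, c1⟩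
    have w1 : y⁻¹ * (c * y * c⁻¹) ∈ N := fN.1 (by
      rw [map_mul, map_mul, map_inv, c1, (mem_cc.1 hg.2).eq, mul_inv_cancel_right])
    refine sq_dvd (L := (N ⊔ zpowers y) ⊓ centralizer {x})
      ((hNq.to_sup_of_normal_left (pg_zp y1)).to_le inf_le_left) inf_le_right hy
      ⟨mem_sup_right (mem_zpowers y), mem_cc.2 hxy.symm⟩ (mem_inf.2 ⟨mem_sup_left w1,
        mul_mem (inv_mem (mem_cc.2 hxy.symm)) (cy c2 (mem_cc.2 hxy.symm))⟩) fun hw => yN ?_
    exact zpowers_le.2 w1 (mem_of_ord hy hw fun h1 =>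
      hn (mul_inv_eq_iff_eq_mul.1 (inv_mul_eq_one.1 h1).symm))
  · let X := Z.comap f ⊓ centralizer {y}
    let φ : X →* Z := (f.comp X.subtype).codRestrict Z fun g => g.2.1
    let x' : X := ⟨x, ⟨mem_cc.2 (Commute.refl _), mem_cc.2 (hxy.map f)⟩, mem_cc.2 hxy⟩
    have := mono φ (fun g => by
      obtain ⟨c, c1, c2⟩ := lf y1 hpq g (mem_cc.1 g.2.2)
      exact ⟨⟨c, by change f c ∈ Z; rw [c1]; exact g.2, mem_cc.2 c2⟩, Subtype.ext c1⟩)
      (x := x') (Subtype.ext hx) (fun z => Subtype.ext (mem_cc.1 z.2.1)) h4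
    refine this.trans ?_
    rw [cc, ← card_map_of_injective X.subtype_injective]
    refine card_dvd_of_le ?_
    rintro _ ⟨g, hg, rfl⟩
    exact ⟨mem_cc.2 (congrArg Subtype.val (mem_cc.1 hg)), g.2.2⟩

omit hp hr in
theorem la1 [hp : Fact p.Prime] [hr : Fact r.Prime] (d1 : D1.{u}) (hpr : p ≠ r)
    (hd : ∀ j, 0 < j → r ^ j ≡ 1 [MOD p] → d ≤ j)
    (hk0 : k0.Coprime p) (hk : ∀ m, ¬ r ∣ m → ¬ (k0 ^ m) ^ 2 ≡ 1 [MOD p])
    (hs : Group.IsSolvable G) (h : Rat G) (x : G) (h1 : p ∣ cc x) : p ^ 2 ∣ cc x ∨ r ^ d ∣ cc x := by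
  refine or_iff_not_imp_left.2 fun h2 => ?_
  obtain ⟨i, j, n, e1, e2, e3⟩ := split p x
  obtain ⟨i', j', n', e4, e5, e6⟩ := split r (x ^ j)
  rw [← pow_mul x j i', ← pow_mul x j j'] at e4
  rw [← pow_mul x j i'] at e5
  rw [← pow_mul x j j'] at e6
  have e7 : ¬ p ∣ orderOf (x ^ (j * j')) := fun h => e3 (h.trans (pow_mul x j j' ▸ orderOf_pow_dvd _))
  generalize j * i' = a, j * j' = b at e4 e5 e6 e7
  rw [e4] at e1
  have cw : (orderOf (x ^ b)).Coprime (p * r) :=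
    ((hp.out.coprime_iff_not_dvd.2 e7).mul_left (hr.out.coprime_iff_not_dvd.2 e6)).symm
  let E := centralizer {x ^ b}
  have hE : RatP (p * r) E := by
    rintro g ⟨m, hm⟩ k hk
    have o1 : orderOf (g : G) ∣ (p * r) ^ m := orderOf_dvd_of_pow_eq_one (congrArg Subtype.val hm)
    obtain ⟨e, c1, c2⟩ := h.comm (mem_cc.1 g.2).symm ((cw.pow_right m).coprime_dvd_right o1)
      ((hk.pow_right m).coprime_dvd_right o1)
    exact isConj_iff.2 ⟨⟨e, mem_cc.2 c1⟩, Subtype.ext c2⟩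
  have mE : ∀ k, x ^ k ∈ E := fun k => mem_cc.2 ((Commute.refl x).pow_pow k b)
  let x' : E := ⟨x ^ a, mE a⟩
  have key : ∀ g : E, Commute g x' → Commute (g : G) (x ^ i) → (g : G) ∈ centralizer {x} :=
    fun g c1 c2 => mem_cc.2 (by
      rw [e1]
      exact c2.mul_right (Commute.mul_right (congrArg Subtype.val c1) (mem_cc.1 g.2)))
  have fin : ∀ y : E, orderOf y = p → Commute x' y → ¬ p ^ 2 ∣ cc x' →
      (∀ g : E, Commute g x' → Commute g y → Commute (g : G) (x ^ i)) → r ^ d ∣ cc x :=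
    fun y hy c1 c2 c3 => by
      refine (lemA d1 hpr hd hk0 hk E inferInstance hE (Subtype.ext e5) hy c1 c2).trans ?_
      rw [← card_map_of_injective E.subtype_injective]
      refine card_dvd_of_le ?_
      rintro _ ⟨g, hg, rfl⟩
      exact key g (mem_cc.1 hg.1) (c3 g (mem_cc.1 hg.1) (mem_cc.1 hg.2))
  by_cases i1 : x ^ i = 1
  · obtain ⟨y, hy⟩ := exists_prime_orderOf_dvd_card' p h1
    have cy := mem_cc.1 y.2
    refine fin ⟨y, mem_cc.2 (cy.pow_right b)⟩ (by rw [← hy, ← orderOf_coe, ← orderOf_coe y])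
      (Subtype.ext (cy.pow_right a).symm) (fun h3 => h2 (h3.trans ?_)) fun g _ _ => by simp [i1]
    rw [cc, ← card_map_of_injective E.subtype_injective]
    refine card_dvd_of_le ?_
    rintro _ ⟨g, hg, rfl⟩
    exact key g (mem_cc.1 hg) (by simp [i1])
  · have hy : orderOf (x ^ i) = p := by
      obtain ⟨k, -, hk⟩ := (Nat.dvd_prime_pow hp.out).1 (orderOf_dvd_of_pow_eq_one e2)
      rcases k with _ | _ | k
      · exact (i1 (orderOf_eq_one_iff.1 hk)).elim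
      · rwa [zero_add, pow_one] at hk
      · exact (h2 ((pow_dvd_pow p (by omega)).trans
          (hk ▸ (orderOf_pow_dvd i).trans (orderOf_dvd_cc x)))).elim
    have c0 : Commute x' ⟨x ^ i, mE i⟩ := Subtype.ext ((Commute.refl x).pow_pow a i)
    refine fin ⟨x ^ i, mE i⟩ (by rw [← hy, ← orderOf_coe]) c0 (fun h3 => h2 ?_)
      fun g _ c => congrArg Subtype.val c
    obtain ⟨c, l, a1, a2, a3⟩ := ex_out (G := centralizer {x'})
      (y := ⟨⟨x ^ i, mE i⟩, mem_cc.2 c0.symm⟩) (by rw [← hy, ← orderOf_coe, ← orderOf_coe]) h3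
    have a4 : Commute ((c : E) : G) (x ^ i) := congrArg Subtype.val (congrArg Subtype.val a2)
    have a5 : ((c : E) : G) ^ p ^ l = 1 := congrArg Subtype.val (congrArg Subtype.val a1)
    refine sq_dvd ((pg_zp e2).to_sup_of_normal_left' (pg_zp a5) (zpowers_le.2
      (centralizer_le_normalizer _ ?_))) (sup_le (zpowers_le.2 (mem_cc.2 ((Commute.refl x).pow_left i)))
      (zpowers_le.2 (key c (mem_cc.1 c.2) a4))) hy (mem_sup_left (mem_zpowers _))
      (mem_sup_right (mem_zpowers _)) ?_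
    · rintro _ ⟨k, rfl⟩
      exact (a4.zpow_right k).symm
    · rintro ⟨k, hk⟩
      exact a3 ⟨k, Subtype.ext (Subtype.ext hk)⟩

theorem la (d1 : D1.{u}) : LA.{u} := by
  intro G _ _ hs h x
  have : Fact (Nat.Prime 5) := ⟨by norm_num⟩
  have : Fact (Nat.Prime 7) := ⟨by norm_num⟩
  refine ⟨la1 (p := 5) (r := 2) (d := 4) (k0 := 2) d1 (by norm_num) (fun j j0 hj => ?_)
    (by norm_num) (fun m hm h => ?_) hs h x,
    la1 (p := 7) (r := 3) (d := 6) (k0 := 2) d1 (by norm_num) (fun j j0 hj => ?_)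
    (by norm_num) (fun m hm h => ?_) hs h x⟩
  · by_contra hj'
    interval_cases j <;> simp_all [Nat.ModEq]
  · obtain ⟨c, rfl⟩ : ∃ c, m = 2 * c + 1 := ⟨m / 2, by omega⟩
    rw [← pow_mul, show (2 * c + 1) * 2 = 4 * c + 2 by ring, pow_add, pow_mul] at h
    have := ((show 2 ^ 4 ≡ 1 [MOD 5] by decide).pow c).mul_right (2 ^ 2)
    rw [one_pow] at this
    exact absurd (this.symm.trans h) (by decide)
  · by_contra hj'
    interval_cases j <;> simp_all [Nat.ModEq]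
  · obtain ⟨c, rfl | rfl⟩ : ∃ c, m = 3 * c + 1 ∨ m = 3 * c + 2 := ⟨m / 3, by omega⟩ <;>
    · rw [← pow_mul, add_mul, pow_add, mul_assoc, pow_mul] at h
      have := ((show 2 ^ 3 ≡ 1 [MOD 7] by decide).pow (c * 2))
      rw [one_pow] at this
      exact absurd ((this.symm.mul_right _).trans h) (by decide)

end H29.AH
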