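import Cfsg.Agent.H29.AH3
import Cfsg.Agent.H2.AH1
import Cfsg.Agent.H3.AH1

/-! S4162: assembly. -/

set_option autoImplicit false

namespace H29.AH
open Subgroup

universe u
variable {G : Type u} [Group G] [Finite G]

theorem card_car (x : G) : Nat.card (ConjClasses.mk x).carrier * cc x = Nat.card G := card_cls x

theorem main (d1 : D1.{u}) (g11 : G11.{u}) (s6 : S6.{u}) (s49 : S49.{u}) [Nontrivial G]
    (hs : Group.IsSolvable G)
    (h : Function.Injective fun C : ConjClasses G => Nat.card C.carrier) :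
    Nonempty (G ≃* Equiv.Perm (Fin 3)) := by
  classical
  have ah : ∀ x y : G, cc x = cc y → IsConj x y := fun x y e =>
    ConjClasses.mk_eq_mk_iff_isConj.1 (h (Nat.eq_of_mul_eq_mul_right (cc_pos y)
      (by rw [card_car, ← e, card_car])))
  have hr : Rat G := fun g k hk => ah _ _ (by
    have : centralizer {g} = centralizer {g ^ k} := le_antisymm
      (fun a ha => mem_cc.2 ((mem_cc.1 ha).pow_right k)) fun a ha => by
        obtain ⟨m, hm⟩ := exists_pow_eq_self_of_coprime hk
        rw [mem_cc, ← hm]; exact (mem_cc.1 ha).pow_right m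
    rw [cc, cc, this])
  by_contra hn
  have c2 : ∀ x : G, cc x ≠ 2 := fun x e => hn (H2.AH.c2 G ah x e)
  have c0 : cc (1 : G) = Nat.card G := by
    rw [cc, show centralizer {(1 : G)} = ⊤ from eq_top_iff.2 fun g _ => mem_cc.2 (Commute.one_right g),
      card_top]
  have c1 : ∀ x : G, cc x ≠ 1 := fun x e => by
    have := orderOf_eq_one_iff.1 (Nat.dvd_one.1 (e ▸ orderOf_dvd_cc x))
    rw [this, c0] at e
    exact Finite.one_lt_card.ne' e
  have := Fintype.ofFinite (ConjClasses G)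
  let F : ConjClasses G → ℕ := fun C => Nat.card G / Nat.card C.carrier
  have hF : ∀ x, F (ConjClasses.mk x) = cc x := fun x => by
    have : 0 < Nat.card (ConjClasses.mk x).carrier := Nat.pos_of_mul_pos_right
      (card_car x ▸ Nat.card_pos)
    exact Nat.div_eq_of_eq_mul_right this (card_car x).symm
  have hS : ∑ c ∈ Finset.univ.image F, (1 : ℚ) / c = 1 := by
    rw [Finset.sum_image fun a _ b _ e => by
      obtain ⟨x, rfl⟩ := ConjClasses.mk_surjective a
      obtain ⟨y, rfl⟩ := ConjClasses.mk_surjective b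
      exact ConjClasses.mk_eq_mk_iff_isConj.2 (ah _ _ (by rwa [hF, hF] at e))]
    have h1 := Group.sum_card_conj_classes_eq_card G
    rw [finsum_eq_sum_of_fintype] at h1
    have h0 : (Nat.card G : ℚ) ≠ 0 := Nat.cast_ne_zero.2 Nat.card_pos.ne'
    refine mul_left_cancel₀ h0 ?_
    rw [mul_one, Finset.mul_sum]
    nth_rw 2 [← h1]
    rw [Nat.cast_sum]
    refine Finset.sum_congr rfl fun C _ => ?_
    obtain ⟨x, rfl⟩ := ConjClasses.mk_surjective C
    have : (cc x : ℚ) ≠ 0 := Nat.cast_ne_zero.2 (cc_pos x).ne'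
    rw [hF, ← card_car x, ← Nat.card_coe_set_eq]
    push_cast; field_simp
  have key : ∀ P : ℕ → Prop, (∀ x : G, P (cc x)) → ∀ c ∈ Finset.univ.image F, P c := fun P hP c hc => by
    obtain ⟨C, -, rfl⟩ := Finset.mem_image.1 hc
    obtain ⟨x, rfl⟩ := ConjClasses.mk_surjective C
    rw [hF]; exact hP x
  obtain ⟨s1, s2, s3, s4, s5⟩ := H3.AH.sum _ hS
  obtain ⟨t1, t2, t3⟩ := top g11 s6 s49 G hs hr
  have cp := fun x : G => cc_pos x
  by_cases hA : ∀ p, p.Prime → p ∣ Nat.card G → p ≤ 3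
  · have sm : ∀ x : G, Sm 3 (cc x) := fun x =>
      ⟨(cp x).ne', fun q hq hd => hA q hq (hd.trans (cc_dvd x))⟩
    by_cases h3 : ∃ s : G, cc s = 3
    · obtain ⟨s, h3⟩ := h3
      obtain ⟨y, hy⟩ := exists_ne (1 : G)
      refine s3 (Nat.card G) ?_ (key _ fun x => ?_)
      · obtain ⟨k, hk⟩ := cc_dvd y
        have := c1 y; have := c2 y; have := cp y
        have : k ≠ 1 := fun e => hy (isConj_one_left.1 (ah _ _ (by rw [c0, hk, e, mul_one])))
        have : k ≠ 0 := fun e => (Nat.card_pos (α := G)).ne' (by rw [hk, e, mul_zero])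
        have : 3 ≤ cc y := by omega
        have : 2 ≤ k := by omega
        rw [hk]; nlinarith
      · by_cases x1 : x = 1
        · exact Or.inr (Or.inl (x1 ▸ c0))
        by_cases e : cc x = 3
        · exact Or.inl e
        have := c1 x; have := c2 x; have := cp x
        refine Or.inr (Or.inr ⟨⟨(cp x).ne', fun q hq hd => ?_⟩, by omega⟩)
        have := (sm x).2 q hq hd
        have : q ≠ 3 := fun e' => e (H2.AH.c3 G s h3 x x1 (e' ▸ hd))
        omega
    push Not at h3
    by_cases h4 : ∃ w : G, cc w = 4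
    · obtain ⟨w, h4⟩ := h4
      refine s2 (key _ fun x => ⟨sm x, ?_, fun h => (H2.AH.f4 G hr w h4).1 (h.trans (cc_dvd x))⟩)
      have := c1 x; have := c2 x; have := cp x; have := h3 x; omega
    · push Not at h4
      refine s1 (key _ fun x => ⟨sm x, ?_⟩)
      have := c1 x; have := c2 x; have := cp x; have := h3 x; have := h4 x; omega
  push Not at hA
  obtain ⟨p, hp, hd, h3⟩ := hA
  have p5 : 5 ≤ p := by
    by_contra h5
    obtain rfl : p = 4 := by omega
    norm_num at hp
  have ok : ∀ x : G, Ok (cc x) := fun x =>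
    ⟨⟨(cp x).ne', fun q hq hd => t1 q hq (hd.trans (cc_dvd x))⟩, la d1 G hs hr x⟩
  have t4 := t3 p hp p5 hd
  by_cases h4 : ∃ w : G, cc w = 4
  · obtain ⟨w, h4⟩ := h4
    obtain ⟨a, a1, a2⟩ : ∃ a, 8 ≤ a ∧ ∀ x : G, x ≠ 1 → 8 ∣ cc x → cc x = a := by
      by_cases e : ∃ z : G, z ≠ 1 ∧ 8 ∣ cc z
      · obtain ⟨z, z1, z2⟩ := e
        exact ⟨cc z, Nat.le_of_dvd (cp z) z2, fun x x1 x2 => (H2.AH.f4 G hr w h4).2 x z x1 z1 x2 z2⟩
      · exact ⟨8, le_rfl, fun x x1 x2 => (e ⟨x, x1, x2⟩).elim⟩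
    refine s5 a (max 40 (Nat.card G)) a1 (le_max_left _ _) (key _ fun x => ⟨ok x, ?_, (t4 x).2,
      fun h8 => ?_⟩)
    · have := c1 x; have := c2 x; have := cp x; have := (t4 x).1; omega
    by_cases x1 : x = 1
    · rw [x1, c0] at h8 ⊢
      have := Nat.le_of_dvd Nat.card_pos (Nat.Coprime.mul_dvd_of_dvd_of_dvd
        (show (2 ^ 3).Coprime p from ((Nat.coprime_primes Nat.prime_two hp).2 (by omega)).pow_left 3)
        h8 hd)
      exact Or.inr (max_eq_right (by omega)).symm
    · exact Or.inl (a2 x x1 h8)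
  · push Not at h4
    refine s4 (key _ fun x => ⟨ok x, ?_, (t4 x).2, t2 x⟩)
    have := c1 x; have := c2 x; have := cp x; have := (t4 x).1; have := h4 x; omega

end H29.AH
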