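import Mathlib

/-! S3235, element-level base: a normal set `E` of elements of order `p ≥ 5`, two non-commuting members
of which are opposite transvections of an image of `SL₂(K)`. -/

set_option autoImplicit false
set_option linter.unusedSectionVars false
set_option linter.unusedSimpArgs false
set_option linter.style.haveILetI false

namespace H29.AS

open Matrix MatrixGroups Subgroup

section SL
variable {K : Type*} [Field K]

def up (s : K) : SL(2, K) := ⟨!![1, s; 0, 1], by simp [det_fin_two]⟩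
def lo (t : K) : SL(2, K) := ⟨!![1, 0; t, 1], by simp [det_fin_two]⟩
def dg (l : K) (h : l ≠ 0) : SL(2, K) := ⟨!![l, 0; 0, l⁻¹], by simp [det_fin_two, h]⟩

def mk (a b c d : K) (h : a * d - b * c = 1) : SL(2, K) := ⟨!![a, b; c, d], by simp [det_fin_two, h]⟩

theorem mk_val (a b c d : K) (h : a * d - b * c = 1) : (mk a b c d h).1 = !![a, b; c, d] := rfl
theorem ex_mk (g : SL(2, K)) : ∃ a b c d h, g = mk a b c d h :=
  ⟨g 0 0, g 0 1, g 1 0, g 1 1, by have := g.2; rwa [det_fin_two] at this, Subtype.ext (eta_fin_two _)⟩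
theorem up_val (s : K) : (up s).1 = !![1, s; 0, 1] := rfl
theorem lo_val (s : K) : (lo s).1 = !![1, 0; s, 1] := rfl
theorem dg_val (l : K) (h : l ≠ 0) : (dg l h).1 = !![l, 0; 0, l⁻¹] := rfl
theorem mat_eq {a b c d a' b' c' d' : K} (h0 : a = a') (h1 : b = b') (h2 : c = c') (h3 : d = d') :
    !![a, b; c, d] = !![a', b'; c', d'] := by rw [h0, h1, h2, h3]
theorem mat_inj {a b c d a' b' c' d' : K} (h : !![a, b; c, d] = !![a', b'; c', d']) :
    a = a' ∧ b = b' ∧ c = c' ∧ d = d' :=
  ⟨congrFun (congrFun h 0) 0, congrFun (congrFun h 0) 1, congrFun (congrFun h 1) 0, congrFun (congrFun h 1) 1⟩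
theorem one_val : (1 : SL(2, K)).1 = !![1, 0; 0, 1] := one_fin_two
theorem mone_val : (-1 : SL(2, K)).1 = !![-1, 0; 0, -1] := by
  ext i j; fin_cases i <;> fin_cases j <;> simp
theorem mul_val (g h : SL(2, K)) : (g * h).1 = g.1 * h.1 := rfl

scoped macro "slv" h:ident : tactic => `(tactic| (
  replace $h := congrArg Subtype.val $h
  simp only [mul_val, mk_val, up_val, lo_val, dg_val, one_val, mone_val, Matrix.mul_fin_two] at $h:ident
  replace $h := mat_inj $h))
scoped macro "slx" : tactic => `(tactic| (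
  apply Subtype.ext
  simp only [mul_val, mk_val, up_val, lo_val, dg_val, one_val, mone_val, Matrix.mul_fin_two]
  apply mat_eq))

theorem up_add (s t : K) : up (s + t) = up s * up t := by slx <;> ring
theorem lo_add (s t : K) : lo (s + t) = lo s * lo t := by slx <;> ring
theorem up_zero : up (0 : K) = 1 := Subtype.ext one_fin_two.symm
theorem lo_zero : lo (0 : K) = 1 := Subtype.ext one_fin_two.symm
theorem up_neg (s : K) : up (-s) = (up s)⁻¹ := eq_inv_of_mul_eq_one_left (by rw [← up_add]; simp [up_zero])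
theorem lo_neg (s : K) : lo (-s) = (lo s)⁻¹ := eq_inv_of_mul_eq_one_left (by rw [← lo_add]; simp [lo_zero])
theorem up_pow (s : K) (n : ℕ) : up s ^ n = up (n * s) := by
  induction n with
  | zero => simp [up_zero]
  | succ n ih => rw [pow_succ, ih, ← up_add]; congr 1; push_cast; ring
theorem lo_pow (s : K) (n : ℕ) : lo s ^ n = lo (n * s) := by
  induction n with
  | zero => simp [lo_zero]
  | succ n ih => rw [pow_succ, ih, ← lo_add]; congr 1; push_cast; ring
theorem up_zpow (s : K) (n : ℤ) : up s ^ n = up (n * s) := by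
  obtain ⟨n, rfl | rfl⟩ := n.eq_nat_or_neg <;> simp [up_pow, up_neg]
theorem lo_zpow (s : K) (n : ℤ) : lo s ^ n = lo (n * s) := by
  obtain ⟨n, rfl | rfl⟩ := n.eq_nat_or_neg <;> simp [lo_pow, lo_neg]
theorem up_comm (s t : K) : Commute (up s) (up t) := by
  rw [Commute, SemiconjBy, ← up_add, ← up_add, add_comm]
theorem lo_comm (s t : K) : Commute (lo s) (lo t) := by
  rw [Commute, SemiconjBy, ← lo_add, ← lo_add, add_comm]
theorem dg_up (l : K) (h : l ≠ 0) (s : K) : dg l h * up s * (dg l h)⁻¹ = up (l ^ 2 * s) := by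
  rw [mul_inv_eq_iff_eq_mul]; slx <;> field_simp <;> ring
theorem dg_lo (l : K) (h : l ≠ 0) (s : K) : (dg l h)⁻¹ * lo s * dg l h = lo (l ^ 2 * s) := by
  rw [mul_assoc, inv_mul_eq_iff_eq_mul]; slx <;> field_simp <;> ring
theorem braid {s t : K} (h : s * t = -1) : up s * lo t * up s = lo t * up s * lo t := by
  slx
  · ring
  · linear_combination s * h
  · linear_combination (-t) * h
  · ring
theorem braid_sq {s t : K} (h : s * t = -1) : (up s * lo t * up s) ^ 2 = -1 := by
  rw [sq]; slx
  · linear_combination (2 * s * t + 2) * h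
  · linear_combination (2 * s * (s * t + 2)) * h
  · linear_combination (2 * t) * h
  · linear_combination (2 * s * t + 2) * h
theorem of_braid {s t : K} (h2 : (2 : K) ≠ 0) (hs : s ≠ 0) {e : SL(2, K)} (he : e = 1 ∨ e = -1)
    (h : up s * lo t * up s = lo t * up s * lo t * e) : s * t = -1 := by
  rcases he with rfl | rfl <;> slv h
  · exact mul_left_cancel₀ hs (by linear_combination h.2.1)
  · exact mul_left_cancel₀ h2 (by linear_combination h.1)

theorem up_ne {s : K} (hs : s ≠ 0) : ¬ (up s = 1 ∨ up s = -1) := by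
  rintro (h | h) <;> slv h <;> exact hs h.2.1

theorem up_lo {s t : K} (h2 : (2 : K) ≠ 0) (hs : s ≠ 0) (ht : t ≠ 0) {e : SL(2, K)} (he : e = 1 ∨ e = -1) :
    up s * lo t ≠ lo t * up s * e := by
  intro h
  rcases he with rfl | rfl <;> slv h
  · exact mul_ne_zero hs ht (by linear_combination h.1)
  · exact mul_ne_zero h2 hs (by linear_combination h.2.1)

/-- `w = up s * lo t * up s` swaps the two root groups. -/
theorem w_up {s t : K} (h : s * t = -1) (u : K) :
    (up s * lo t * up s) * up u * (up s * lo t * up s)⁻¹ = lo (-(t ^ 2 * u)) := by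
  rw [mul_inv_eq_iff_eq_mul]; slx
  · ring
  · linear_combination u * h
  · linear_combination (t ^ 2 * u) * h
  · linear_combination (t * u * (s * t + 1)) * h
theorem w_lo {s t : K} (h : s * t = -1) (u : K) :
    (up s * lo t * up s) * lo u * (up s * lo t * up s)⁻¹ = up (-(s ^ 2 * u)) := by
  rw [mul_inv_eq_iff_eq_mul]; slx
  · linear_combination (2 * s * u) * h
  · linear_combination (s ^ 2 * u) * h
  · linear_combination u * h
  · ring

/-- `SL₂(K)` is generated by the two root groups. -/
theorem sl_ind {M : Subgroup SL(2, K)} (hu : ∀ s, up s ∈ M) (hl : ∀ s, lo s ∈ M) (g : SL(2, K)) : g ∈ M := by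
  have k : ∀ a b c d h, c ≠ 0 → mk a b c d h ∈ M := fun a b c d h n => by
    have : mk a b c d h = up ((a - 1) / c) * lo c * up ((d - 1) / c) := by
      slx <;> field_simp
      · ring
      · linear_combination (-1 : K) * h
      · ring
      · ring
    rw [this]; exact mul_mem (mul_mem (hu _) (hl _)) (hu _)
  obtain ⟨a, b, c, d, h, rfl⟩ := ex_mk g
  by_cases n : c = 0
  · have : mk a b c d h = (lo 1)⁻¹ * mk a b (a + c) (b + d) (by linear_combination h) := by
      rw [eq_inv_mul_iff_mul_eq]; slx <;> ring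
    rw [this]; refine mul_mem (inv_mem (hl 1)) (k _ _ _ _ _ ?_)
    subst n; rintro e; rw [add_zero] at e; simp [e] at h
  · exact k _ _ _ _ _ n

theorem cen_sl {g : SL(2, K)} (h : g ∈ center SL(2, K)) : g = 1 ∨ g = -1 := by
  have x := mem_center_iff.1 h (up 1); have y := mem_center_iff.1 h (lo 1)
  obtain ⟨a, b, c, d, e, rfl⟩ := ex_mk g
  slv x; slv y
  obtain rfl : c = 0 := by linear_combination x.1
  obtain rfl : b = 0 := by linear_combination (-1 : K) * y.1
  obtain rfl : d = a := by linear_combination x.2.1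
  rcases mul_self_eq_one_iff.1 (show d * d = 1 by linear_combination e) with rfl | rfl
  · exact .inl (Subtype.ext one_val.symm)
  · exact .inr (Subtype.ext mone_val.symm)

/-- An element of order `p` fixes a non-zero vector. -/
theorem fix_vec {p : ℕ} [Fact p.Prime] [CharP K p] {a b c d : K} {e : a * d - b * c = 1} (h : mk a b c d e ^ p = 1) :
    ∃ x y : K, (x ≠ 0 ∨ y ≠ 0) ∧ a * x + b * y = x ∧ c * x + d * y = y := by
  have n : ((mk a b c d e).1 - 1) ^ p = 0 := by
    haveI : CharP (Matrix (Fin 2) (Fin 2) K) p := Matrix.charP p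
    rw [sub_pow_char_of_commute _ (Commute.one_right _), one_pow, sub_eq_zero]
    exact congrArg Subtype.val h
  have d : ((mk a b c d e).1 - 1).det = 0 := by
    have := congrArg det n
    rw [det_pow, det_zero] at this; exact pow_eq_zero_iff (Fact.out : p.Prime).ne_zero |>.1 this
  obtain ⟨v, hv, e⟩ := exists_mulVec_eq_zero_iff.2 d
  refine ⟨v 0, v 1, by_contra fun c => hv ?_, ?_, ?_⟩
  · push Not at c; ext i; fin_cases i; exacts [c.1, c.2]
  · have := congrFun e 0; simp [mk_val, mulVec, dotProduct, Fin.sum_univ_two] at this; linear_combination this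
  · have := congrFun e 1; simp [mk_val, mulVec, dotProduct, Fin.sum_univ_two] at this; linear_combination this

theorem tri_up {a b c d x y u v : K} (e : a * d - b * c = 1) (D : x * v - u * y = 1) (e1 : a * x + b * y = x)
    (e2 : c * x + d * y = y) : ∃ s, mk a b c d e = mk x u y v D * up s * (mk x u y v D)⁻¹ := by
  refine ⟨v * (a * u + b * v) - u * (c * u + d * v), eq_mul_inv_of_mul_eq ?_⟩
  have k : x * (c * u + d * v) - y * (a * u + b * v) = 1 := by
    linear_combination (x * v - u * y) * e + D - (c * u + d * v) * e1 + (a * u + b * v) * e2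
  slx
  · linear_combination e1
  · linear_combination (-(a * u + b * v)) * D + u * k
  · linear_combination e2
  · linear_combination (-(c * u + d * v)) * D + v * k

theorem tri_lo {a b c d x y u v : K} (e : a * d - b * c = 1) (D : x * v - u * y = 1) (e1 : a * u + b * v = u)
    (e2 : c * u + d * v = v) : ∃ s, mk a b c d e = mk x u y v D * lo s * (mk x u y v D)⁻¹ := by
  refine ⟨x * (c * x + d * y) - y * (a * x + b * y), eq_mul_inv_of_mul_eq ?_⟩
  have k : v * (a * x + b * y) - u * (c * x + d * y) = 1 := by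
    linear_combination (x * v - u * y) * e + D + (c * x + d * y) * e1 - (a * x + b * y) * e2
  slx
  · linear_combination (-(a * x + b * y)) * D + x * k
  · linear_combination e1
  · linear_combination (-(c * x + d * y)) * D + y * k
  · linear_combination e2

/-- Two non-commuting elements of order `p` are conjugate to `up s`, `lo t`. -/
theorem std_pair {p : ℕ} [Fact p.Prime] [CharP K p] {g h : SL(2, K)} (hg : g ^ p = 1) (hh : h ^ p = 1)
    (nc : ¬ Commute g h) : ∃ (P : SL(2, K)) (s t : K), g = P * up s * P⁻¹ ∧ h = P * lo t * P⁻¹ := by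
  obtain ⟨a, b, c, d, e, rfl⟩ := ex_mk g
  obtain ⟨a', b', c', d', e', rfl⟩ := ex_mk h
  obtain ⟨x, y, n, e1, e2⟩ := fix_vec hg
  obtain ⟨u, v, m, f1, f2⟩ := fix_vec hh
  by_cases D : x * v - u * y = 0
  · exfalso; apply nc
    have f3 : a' * x + b' * y = x ∧ c' * x + d' * y = y := by
      rcases m with m | m
      · exact ⟨mul_left_cancel₀ m (by linear_combination x * f1 - b' * D),
          mul_left_cancel₀ m (by linear_combination x * f2 - d' * D + D)⟩
      · exact ⟨mul_left_cancel₀ m (by linear_combination y * f1 + a' * D - D),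
          mul_left_cancel₀ m (by linear_combination y * f2 + c' * D)⟩
    obtain ⟨w, z, D'⟩ : ∃ w z, x * z - w * y = 1 := by
      rcases n with n | n
      · exact ⟨0, x⁻¹, by simp [n]⟩
      · exact ⟨-y⁻¹, 0, by simp [n]⟩
    obtain ⟨s, hs⟩ := tri_up e D' e1 e2
    obtain ⟨t, ht⟩ := tri_up e' D' f3.1 f3.2
    rw [hs, ht]; exact (up_comm s t).conj _
  · have D' : x * (v / (x * v - u * y)) - u / (x * v - u * y) * y = 1 := by field_simp
    obtain ⟨s, hs⟩ := tri_up e D' e1 e2
    obtain ⟨t, ht⟩ := tri_lo e' D' (by linear_combination (x * v - u * y)⁻¹ * f1)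
      (by linear_combination (x * v - u * y)⁻¹ * f2)
    exact ⟨_, s, t, hs, ht⟩

end SL

variable {G : Type*} [Group G]

/-- `a`, `b` are opposite transvections of the image of `φ`. -/
structure Pr (p : ℕ) (a b : G) {K : Type} [Field K] (φ : SL(2, K) →* G) (s t : K) : Prop where
  ch : CharP K p
  ker : ∀ g, φ g = 1 → g = 1 ∨ g = -1
  ha : φ (up s) = a
  hb : φ (lo t) = b
  gen : φ.range = closure {a, b}
  hs : s ≠ 0
  ht : t ≠ 0

/-- The element-level hypothesis. -/
structure Hy (p : ℕ) (E : Set G) : Prop where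
  pp : p.Prime
  p5 : 5 ≤ p
  ord : ∀ a ∈ E, orderOf a = p
  cj : ∀ a ∈ E, ∀ g, g * a * g⁻¹ ∈ E
  pw : ∀ a ∈ E, ∀ n : ℤ, a ^ n ≠ 1 → a ^ n ∈ E
  pr : ∀ a ∈ E, ∀ b ∈ E, ¬ Commute a b →
    ∃ (K : Type) (_ : Field K) (_ : Fintype K) (φ : SL(2, K) →* G) (s t : K), Pr p a b φ s t

/-- From an abstract isomorphism type of `⟨a, b⟩` to `Pr`. -/
theorem pr_of {p : ℕ} (pp : p.Prime) (p5 : 5 ≤ p) {a b : G} (oa : orderOf a = p) (ob : orderOf b = p)
    (nc : ¬ Commute a b) {K : Type} [Field K] [Fintype K] {m : ℕ} (hK : Fintype.card K = p ^ m)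
    (φ : SL(2, K) →* G) (ker : ∀ g, φ g = 1 → g = 1 ∨ g = -1) (gen : φ.range = closure {a, b}) :
    ∃ (φ : SL(2, K) →* G) (s t : K), Pr p a b φ s t := by
  haveI := Fact.mk pp
  haveI ch : CharP K p := by
    obtain ⟨r, hr⟩ := CharP.exists K
    obtain ⟨n, rp, e⟩ := FiniteField.card K r
    have : r = p := (Nat.prime_dvd_prime_iff_eq rp pp).1 (rp.dvd_of_dvd_pow (n := m) (by
      rw [← hK, e]; exact dvd_pow_self _ n.ne_zero))
    exact this ▸ hr
  have od : Odd p := pp.odd_of_ne_two (by omega)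
  have lift : ∀ a ∈ φ.range, orderOf a = p → ∃ g, φ g = a ∧ g ^ p = 1 := by
    rintro _ ⟨g, rfl⟩ o
    have e : φ g ^ p = 1 := o ▸ pow_orderOf_eq_one _
    refine ⟨g ^ (p + 1), by rw [map_pow, pow_succ, e, one_mul], ?_⟩
    rw [← pow_mul, mul_comm, pow_mul]
    rcases ker (g ^ p) (by rw [map_pow, e]) with h | h <;> rw [h]
    · simp
    · exact od.add_one.neg_one_pow
  obtain ⟨g, rfl, hg⟩ := lift a (gen ▸ subset_closure (by simp)) oa
  obtain ⟨h, rfl, hh⟩ := lift b (gen ▸ subset_closure (by simp)) ob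
  obtain ⟨P, s, t, rfl, rfl⟩ := std_pair hg hh fun c => nc (c.map φ)
  refine ⟨φ.comp (MulAut.conj P).toMonoidHom, s, t, ch, fun g e => ?_, rfl, rfl, ?_, ?_, ?_⟩
  · rcases ker _ e with k | k
    · left; simpa using k
    · right; have : P * g * P⁻¹ = -1 := k
      calc g = P⁻¹ * (P * g * P⁻¹) * P := by group
        _ = -1 := by rw [this]; simp
  · rw [← gen, MonoidHom.range_comp, MonoidHom.range_eq_top.2 (MulAut.conj P).surjective, MonoidHom.range_eq_map]
  · rintro rfl; simp [up_zero] at nc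
  · rintro rfl; simp [lo_zero] at nc

namespace Pr
variable {p : ℕ} {a b : G} {K : Type} [Field K] {φ : SL(2, K) →* G} {s t : K}

theorem cast_ne (h : Pr p a b φ s t) (p5 : 5 ≤ p) {n : ℕ} (h0 : 0 < n) (h5 : n < 5) : (n : K) ≠ 0 := fun e => by
  haveI := h.ch
  have := Nat.le_of_dvd h0 ((CharP.cast_eq_zero_iff K p n).1 e); omega
theorem two (h : Pr p a b φ s t) (p5 : 5 ≤ p) : (2 : K) ≠ 0 := by simpa using h.cast_ne p5 (n := 2) (by omega) (by omega)
theorem three (h : Pr p a b φ s t) (p5 : 5 ≤ p) : (3 : K) ≠ 0 := by simpa using h.cast_ne p5 (n := 3) (by omega) (by omega)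
theorem eq (h : Pr p a b φ s t) {x y : SL(2, K)} (e : φ x = φ y) : ∃ c, (c = 1 ∨ c = -1) ∧ x = y * c :=
  ⟨y⁻¹ * x, h.ker _ (by simp [e]), by simp⟩
theorem up_one (h : Pr p a b φ s t) {u : K} (e : φ (up u) = 1) : u = 0 := by_contra fun n => up_ne n (h.ker _ e)
theorem mem (h : Pr p a b φ s t) (g : SL(2, K)) : φ g ∈ closure {a, b} := h.gen ▸ ⟨g, rfl⟩
theorem comm (h : Pr p a b φ s t) {y : G} (ya : Commute y a) (yb : Commute y b) (g : SL(2, K)) : Commute y (φ g) := by
  have : closure {a, b} ≤ centralizer {y} := (closure_le _).2 (by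
    rintro _ (rfl | rfl) _ rfl; exacts [ya.eq, yb.eq])
  exact this (h.mem g) y rfl
/-- `⟨a, b⟩` is perfect. -/
theorem perf (h : Pr p a b φ s t) (p5 : 5 ≤ p) (g : SL(2, K)) : φ g ∈ ⁅closure {a, b}, closure {a, b}⁆ := by
  have h2 := h.two p5; have h3 := h.three p5
  refine sl_ind (M := comap φ ⁅closure {a, b}, closure {a, b}⁆) (fun u => ?_) (fun u => ?_) g
  · have := commutator_mem_commutator (h.mem (dg 2 h2)) (h.mem (up (u / 3)))
    rw [← map_commutatorElement, commutatorElement_def, dg_up, ← up_neg, ← up_add] at this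
    rwa [show 2 ^ 2 * (u / 3) + -(u / 3) = u by field_simp; ring] at this
  · have := commutator_mem_commutator (h.mem (dg 2 h2)⁻¹) (h.mem (lo (u / 3)))
    rw [← map_commutatorElement, commutatorElement_def, inv_inv, dg_lo, ← lo_neg, ← lo_add] at this
    rwa [show 2 ^ 2 * (u / 3) + -(u / 3) = u by field_simp; ring] at this
/-- The centre of `⟨a, b⟩` has exponent `2`. -/
theorem cen (h : Pr p a b φ s t) (p5 : 5 ≤ p) {y : G} (hy : y ∈ closure {a, b}) (ya : Commute y a) (yb : Commute y b) :
    y * y = 1 := by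
  obtain ⟨g, rfl⟩ := h.gen ▸ hy
  have h2 := h.two p5
  have k : ∀ x, ∃ c, (c = 1 ∨ c = -1) ∧ g * x = x * g * c := fun x =>
    h.eq (by simpa using (h.comm ya yb x).eq)
  obtain ⟨c, hc, x⟩ := k (up 1); obtain ⟨c', hc', y⟩ := k (lo 1)
  have : g = 1 ∨ g = -1 := by
    obtain ⟨a, b, c, d, e, rfl⟩ := ex_mk g
    have : c = 0 ∧ d = a := by
      rcases hc with rfl | rfl <;> slv x
      · exact ⟨by linear_combination (-1 : K) * x.1, by linear_combination (-1 : K) * x.2.1⟩
      · obtain rfl : c = 0 := mul_left_cancel₀ h2 (by linear_combination x.2.2.1)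
        obtain rfl : a = 0 := mul_left_cancel₀ h2 (by linear_combination x.1)
        simp at e
    obtain ⟨rfl, rfl⟩ := this
    obtain rfl : b = 0 := by
      rcases hc' with rfl | rfl <;> slv y
      · linear_combination y.1
      · exact mul_left_cancel₀ h2 (by linear_combination y.2.1)
    rcases mul_self_eq_one_iff.1 (show d * d = 1 by linear_combination e) with rfl | rfl
    · exact .inl (Subtype.ext one_val.symm)
    · exact .inr (Subtype.ext mone_val.symm)
  rcases this with rfl | rfl <;> simp [← map_mul]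
end Pr

end H29.AS
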