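import Cfsg.Agent.H29.AS1

/-! S3235: perps, matched pairs and the braid lemma `M1`. -/

set_option autoImplicit false
set_option linter.unusedSectionVars false
set_option linter.style.haveILetI false

namespace H29.AS

open MatrixGroups Subgroup
open scoped commutatorElement

variable {G : Type*} [Group G] {p : ℕ} {E : Set G} {a b c e y : G}

/-- same perp -/
def Sp (E : Set G) (a c : G) : Prop := ∀ e ∈ E, Commute e a ↔ Commute e c

theorem Sp.rfl : Sp E a a := fun _ _ => Iff.rfl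
theorem Sp.symm (h : Sp E a c) : Sp E c a := fun e he => (h e he).symm
theorem Sp.trans (h : Sp E a b) (k : Sp E b c) : Sp E a c := fun e he => (h e he).trans (k e he)
theorem Sp.comm (h : Sp E a c) (ha : a ∈ E) : Commute a c := (h a ha).1 (Commute.refl a)

/-- matched pair -/
structure Mt (E : Set G) (a b : G) : Prop where
  l : a ∈ E
  r : b ∈ E
  nc : ¬ Commute a b
  br : a * b * a = b * a * b

/-- the central involution (or `1`) of a matched pair -/
def zz (a b : G) : G := (a * b * a) ^ 2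

theorem Mt.symm (h : Mt E a b) : Mt E b a := ⟨h.r, h.l, fun c => h.nc c.symm, h.br.symm⟩
theorem br_zs (h : a * b * a = b * a * b) : zz b a = zz a b := by rw [zz, zz, h]
theorem br_wa (h : a * b * a = b * a * b) : a * b * a * a = b * (a * b * a) := by rw [h]; nth_rw 2 [← h]; simp [mul_assoc]
theorem br_wb (h : a * b * a = b * a * b) : a * b * a * b = a * (a * b * a) := by nth_rw 2 [h]; simp [mul_assoc]
theorem br_za (h : a * b * a = b * a * b) : Commute (zz a b) a := by
  rw [zz, sq, Commute, SemiconjBy, mul_assoc _ _ a, br_wa h, ← mul_assoc _ b, br_wb h]; simp [mul_assoc]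
theorem br_zb (h : a * b * a = b * a * b) : Commute (zz a b) b := br_zs h ▸ br_za h.symm
theorem br_zz (h : a * b * a = b * a * b) : zz a b = (a * b) ^ 3 := by
  rw [zz, sq]; nth_rw 2 [h]; simp [pow_succ, mul_assoc]
theorem br_cj (h : a * b * a = b * a * b) : a⁻¹ * b * a = b * a * b⁻¹ := by
  calc _ = a⁻¹ * (b * a * b) * b⁻¹ := by group
    _ = _ := by rw [← h]; group
theorem Mt.zs (h : Mt E a b) : zz b a = zz a b := br_zs h.br
theorem Mt.za (h : Mt E a b) : Commute (zz a b) a := br_za h.br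
theorem Mt.zb (h : Mt E a b) : Commute (zz a b) b := br_zb h.br

namespace Hy
variable (H : Hy p E)
include H

theorem odd : Odd p := H.pp.odd_of_ne_two (by have := H.p5; omega)
theorem pow_p (ha : a ∈ E) : a ^ p = 1 := H.ord a ha ▸ pow_orderOf_eq_one a
theorem ne_one (ha : a ∈ E) : a ≠ 1 := fun e => H.pp.one_lt.ne' (by simpa [e] using (H.ord a ha).symm)
theorem inv (ha : a ∈ E) : a⁻¹ ∈ E := by simpa using H.pw a ha (-1) (by simpa using H.ne_one ha)
theorem cj' (ha : a ∈ E) (g : G) : g⁻¹ * a * g ∈ E := by simpa using H.cj a ha g⁻¹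
theorem zpow_one (ha : a ∈ E) {n : ℤ} : a ^ n = 1 ↔ (p : ℤ) ∣ n := by
  rw [← orderOf_dvd_iff_zpow_eq_one, H.ord a ha]
theorem pw' (ha : a ∈ E) {n : ℤ} (h : ¬ (p : ℤ) ∣ n) : a ^ n ∈ E := H.pw a ha n (mt (H.zpow_one ha).1 h)
theorem nd {n : ℤ} (h0 : n ≠ 0) (h : |n| < 5) : ¬ (p : ℤ) ∣ n := fun d => by
  have := Int.le_of_dvd (abs_pos.2 h0) ((dvd_abs _ _).2 d); have := H.p5; omega
theorem one_of (h2 : y * y = 1) (hp : y ^ p = 1) : y = 1 := by
  obtain ⟨k, hk⟩ := H.odd
  rwa [hk, pow_succ, pow_mul, sq, h2, one_pow, one_mul] at hp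
theorem ex_inv {n : ℤ} (h : ¬ (p : ℤ) ∣ n) : ∃ m : ℤ, (p : ℤ) ∣ n * m - 1 := by
  obtain ⟨u, v, e⟩ := (Nat.prime_iff_prime_int.1 H.pp).coprime_iff_not_dvd.2 h
  exact ⟨v, -u, by linear_combination e⟩
theorem root (hp : y ^ p = 1) {n m : ℤ} (h : (p : ℤ) ∣ n * m - 1) : (y ^ n) ^ m = y := by
  obtain ⟨k, hk⟩ := h
  rw [← zpow_mul, show n * m = p * k + 1 by linear_combination hk, zpow_add, zpow_mul, zpow_natCast, hp]; simp
theorem comm_pow (hp : y ^ p = 1) {n : ℤ} (h : ¬ (p : ℤ) ∣ n) (c : Commute e (y ^ n)) : Commute e y := by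
  obtain ⟨m, hm⟩ := H.ex_inv h
  exact H.root hp hm ▸ c.zpow_right m
theorem sp_pow (ha : a ∈ E) {n : ℤ} (h : a ^ n ≠ 1) : Sp E a (a ^ n) := fun _ _ =>
  ⟨fun c => c.zpow_right n, H.comm_pow (H.pow_p ha) (mt (H.zpow_one ha).2 h)⟩
theorem sp_cj (h : Sp E a c) (g : G) : Sp E (g * a * g⁻¹) (g * c * g⁻¹) := fun e he => by
  have k : ∀ x, Commute e (g * x * g⁻¹) ↔ Commute (g⁻¹ * e * g) x := fun x =>
    ⟨fun c => by simpa [mul_assoc] using c.conj g⁻¹, fun c => by simpa [mul_assoc] using c.conj g⟩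
  rw [k, k]; exact h _ (H.cj' he g)

theorem perf (ha : a ∈ E) (hb : b ∈ E) (nc : ¬ Commute a b) {x : G} (hx : x ∈ closure {a, b}) :
    x ∈ ⁅closure {a, b}, closure {a, b}⁆ := by
  obtain ⟨K, _, _, φ, s, t, h⟩ := H.pr a ha b hb nc
  obtain ⟨g, rfl⟩ := h.gen ▸ hx
  exact h.perf H.p5 g

theorem cen (ha : a ∈ E) (hb : b ∈ E) (nc : ¬ Commute a b) (hy : y ∈ closure {a, b}) (ya : Commute y a)
    (yb : Commute y b) : y * y = 1 := by
  obtain ⟨K, _, _, φ, s, t, h⟩ := H.pr a ha b hb nc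
  exact h.cen H.p5 hy ya yb

/-- `L1'` -/
theorem l1' (ha : a ∈ E) (hb : b ∈ E) (nc : ¬ Commute a b) (ya : Commute y a) (yb : Commute y b) (hp : y ^ p = 1)
    (h : a * y ∈ E) : y = 1 := by
  have nc' : ¬ Commute (a * y) b := fun c => nc (by simpa using c.mul_left yb.inv_left)
  have cy : ∀ x ∈ closure {a, b}, Commute y x := fun x hx => by
    have : closure {a, b} ≤ centralizer {y} := (closure_le _).2 (by
      rintro _ (rfl | rfl) _ rfl; exacts [ya.eq, yb.eq])
    exact this hx y rfl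
  have k : ∀ g ∈ closure {a * y, b}, ∃ x ∈ closure {a, b}, ∃ i : ℤ, g = x * y ^ i := fun g hg => by
    induction hg using closure_induction with
    | mem x hx =>
      rcases hx with rfl | rfl
      · exact ⟨a, subset_closure (by simp), 1, by simp⟩
      · exact ⟨x, subset_closure (by simp), 0, by simp⟩
    | one => exact ⟨1, one_mem _, 0, by simp⟩
    | mul _ _ _ _ h1 h2 =>
      obtain ⟨x, hx, i, rfl⟩ := h1; obtain ⟨x', hx', j, rfl⟩ := h2
      refine ⟨x * x', mul_mem hx hx', i + j, ?_⟩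
      rw [zpow_add, mul_assoc, ← mul_assoc (y ^ i), ((cy x' hx').zpow_left i).eq]; group
    | inv _ _ h1 =>
      obtain ⟨x, hx, i, rfl⟩ := h1
      exact ⟨x⁻¹, inv_mem hx, -i, by rw [_root_.mul_inv_rev, ← zpow_neg, ((cy _ (inv_mem hx)).zpow_left _).eq]⟩
  have le : ⁅closure {a * y, b}, closure {a * y, b}⁆ ≤ closure {a, b} := commutator_le.2 fun g hg g' hg' => by
    obtain ⟨x, hx, i, rfl⟩ := k g hg; obtain ⟨x', hx', j, rfl⟩ := k g' hg'
    have e1 := ((cy x hx).zpow_left j).eq; have e2 := ((cy x' hx').zpow_left i).eq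
    have : ⁅x * y ^ i, x' * y ^ j⁆ = ⁅x, x'⁆ := by
      rw [commutatorElement_def, commutatorElement_def]
      calc _ = x * (y ^ i * x') * y ^ j * (y ^ i)⁻¹ * ((y ^ j * x)⁻¹ * x'⁻¹) := by group
        _ = _ := by rw [e1, e2]; group
    rw [this]; exact mul_mem (mul_mem (mul_mem hx hx') (inv_mem hx)) (inv_mem hx')
  have := le (H.perf h hb nc' (subset_closure (Set.mem_insert _ _)))
  have hy : y ∈ closure {a, b} := by simpa using mul_mem (inv_mem (subset_closure (Set.mem_insert a {b}))) this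
  exact H.one_of (H.cen ha hb nc hy ya yb) hp

/-- `L1` -/
theorem l1 (ha : a ∈ E) (hc : c ∈ E) (he : e ∈ E) (ac : Commute a c) (n : a * c ≠ 1) (h : Commute e (a * c)) :
    Commute e a := by
  by_contra nc
  refine n (H.l1' (H.inv ha) he (fun k => nc (by simpa using k.inv_left.symm))
    ((Commute.refl a).mul_left ac.symm).inv_right h.symm ?_ (by simpa using hc))
  rw [ac.mul_pow, H.pow_p ha, H.pow_p hc, one_mul]

theorem sp_mul (ha : a ∈ E) (hc : c ∈ E) (ac : Commute a c) (h : a * c ∈ E) : Sp E a (a * c) := fun e he =>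
  ⟨fun k => by
    have := H.l1 h (H.inv hc) he ((ac.mul_left (Commute.refl c)).inv_right) (by simpa using H.ne_one ha)
    simpa using this (by simpa using k), H.l1 ha hc he ac (H.ne_one h)⟩

theorem sp_mul' (ha : a ∈ E) (hc : c ∈ E) (ac : Commute a c) (h : a * c ∈ E) : Sp E a c :=
  (H.sp_mul ha hc ac h).trans (by rw [ac.eq] at h ⊢; exact (H.sp_mul hc ha ac.symm h).symm)

/-- All members of `E` in a root group have the same perp. -/
theorem sp_up {K : Type} [Field K] {φ : SL(2, K) →* G} {s t u v : K} (h : Pr p a b φ s t) (hu : φ (up u) ∈ E)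
    (hv : φ (up v) ∈ E) : Sp E (φ (up u)) (φ (up v)) := by
  haveI := h.ch
  have nz : ∀ {u}, φ (up u) ∈ E → u ≠ 0 := fun hu e => H.ne_one hu (by simp [e, up_zero])
  have key : ∀ {u v}, φ (up u) ∈ E → φ (up v) ∈ E → ∀ e ∈ E, Commute e (φ (up v)) → Commute e (φ (up u)) := by
    intro u v hu hv e he c
    have sq : ∀ l, l ≠ 0 → φ (up (l ^ 2 * u)) ∈ E := fun l hl => by
      rw [← dg_up l hl]; simpa using H.cj _ hu _
    have pv : ∀ n : ℤ, Commute e (φ (up (n * v))) := fun n => by rw [← up_zpow, map_zpow]; exact c.zpow_right n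
    have back : ∀ (n : ℤ) (w : K), ¬ (p : ℤ) ∣ n → Commute e (φ (up (n * w))) → Commute e (φ (up w)) :=
      fun n w hn k => H.comm_pow (by rw [← map_pow, up_pow]; simp [up_zero]) hn (by rwa [← map_zpow, up_zpow])
    have u0 := nz hu
    have st : ∀ n : ℤ, ¬ (p : ℤ) ∣ n → ¬ (p : ℤ) ∣ 4 * n →
        Commute e (φ (up u)) ∨ Commute e (φ (up (u + n ^ 2 * (v ^ 2 / u)))) := fun n hn h4 => by
      by_cases e1 : u - n * v = 0
      · left; rw [sub_eq_zero.1 e1]; exact pv n
      by_cases e2 : u + n * v = 0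
      · left; rw [eq_neg_of_add_eq_zero_left e2]; simpa using pv (-n)
      right
      have m := sq _ (div_ne_zero e1 u0); have m' := sq _ (div_ne_zero e2 u0)
      have f : φ (up ((4 * n : ℤ) * v)) ∈ E := by rw [← up_zpow, map_zpow]; exact H.pw' hv h4
      have i : φ (up ((4 * n : ℤ) * v)) * φ (up (((u - n * v) / u) ^ 2 * u)) = φ (up (((u + n * v) / u) ^ 2 * u)) := by
        rw [← map_mul, ← up_add]; congr 2; push_cast; field_simp; ring
      have := (H.sp_mul f m ((up_comm _ _).map φ) (i ▸ m') e he).1 (pv _)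
      rw [i] at this
      have := this.mul_right (pv (-2 * n))
      rw [← map_mul, ← up_add] at this
      refine (congrArg _ (congrArg _ (congrArg _ ?_))).mp this; push_cast; field_simp; ring
    rcases st 1 (H.nd (by decide) (by decide)) (H.nd (by decide) (by decide)) with k | k1
    · exact k
    have p8 : ¬ (p : ℤ) ∣ 4 * 2 := fun d => by
      rcases (Nat.prime_iff_prime_int.1 H.pp).dvd_or_dvd d with d | d <;> exact H.nd (by decide) (by decide) d
    rcases st 2 (H.nd (by decide) (by decide)) p8 with k | k2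
    · exact k
    have := (k1.zpow_right 4).mul_right k2.inv_right
    rw [← map_zpow, up_zpow, ← map_inv, ← up_neg, ← map_mul, ← up_add] at this
    refine back 3 u (H.nd (by decide) (by decide)) ?_
    refine (congrArg _ (congrArg _ (congrArg _ ?_))).mp this; push_cast; ring
  exact fun e he => ⟨key hv hu e he, key hu hv e he⟩

theorem mt_of {K : Type} [Field K] {φ : SL(2, K) →* G} {s t u v : K} (h : Pr p a b φ s t) (hu : φ (up u) ∈ E)
    (hv : φ (lo v) ∈ E) (e : u * v = -1) : Mt E (φ (up u)) (φ (lo v)) := by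
  refine ⟨hu, hv, fun c => ?_, by simpa using congrArg φ (braid e)⟩
  obtain ⟨x, hx, k⟩ := h.eq (x := up u * lo v) (y := lo v * up u) (by simpa using c.eq)
  exact up_lo (h.two H.p5) (by rintro rfl; simp at e) (by rintro rfl; simp at e) hx k

theorem ex_mt (ha : a ∈ E) (hb : b ∈ E) (nc : ¬ Commute a b) : ∃ a' ∈ closure {a, b}, Sp E a a' ∧ Mt E a' b := by
  obtain ⟨K, _, _, φ, s, t, h⟩ := H.pr a ha b hb nc
  have e : -t⁻¹ * t = -1 := by simp [h.ht]
  have m : φ (up (-t⁻¹)) ∈ E := by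
    have := w_lo e t
    rw [show -((-t⁻¹) ^ 2 * t) = -t⁻¹ by have := h.ht; field_simp] at this
    rw [← this, map_mul, map_mul, map_inv, h.hb]; exact H.cj b hb _
  exact ⟨_, h.mem _, h.ha ▸ H.sp_up h (h.ha ▸ ha) m, h.hb ▸ H.mt_of h m (h.hb ▸ hb) e⟩

theorem mt_pr (m : Mt E a b) : ∃ (K : Type) (_ : Field K) (_ : Fintype K) (φ : SL(2, K) →* G) (s t : K),
    Pr p a b φ s t ∧ s * t = -1 := by
  obtain ⟨K, _, _, φ, s, t, h⟩ := H.pr a m.l b m.r m.nc
  obtain ⟨x, hx, k⟩ := h.eq (x := up s * lo t * up s) (y := lo t * up s * lo t) (by simpa [h.ha, h.hb] using m.br)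
  exact ⟨K, _, ‹_›, φ, s, t, h, of_braid (h.two H.p5) h.hs hx k⟩

theorem zz_sq (m : Mt E a b) : zz a b * zz a b = 1 := by
  obtain ⟨K, _, _, φ, s, t, h, e⟩ := H.mt_pr m
  have : zz a b = φ (-1) := by rw [← braid_sq e]; simp [zz, h.ha, h.hb]
  rw [this, ← map_mul]; simp

theorem mt_pow (m : Mt E a b) {i j : ℤ} (ij : (p : ℤ) ∣ i * j - 1) :
    Mt E (a ^ i) (b ^ j) ∧ zz (a ^ i) (b ^ j) = zz a b := by
  obtain ⟨K, _, _, φ, s, t, h, e⟩ := H.mt_pr m
  haveI := h.ch
  have e' : i * s * (j * t) = -1 := by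
    have := (CharP.intCast_eq_zero_iff K p _).2 ij
    push_cast at this; linear_combination (s * t) * this + e
  have n : ¬ (p : ℤ) ∣ i * j := fun d => H.nd (n := 1) (by decide) (by decide) (by simpa using d.sub ij)
  have ea : φ (up (i * s)) = a ^ i := by rw [← up_zpow, map_zpow, h.ha]
  have eb : φ (lo (j * t)) = b ^ j := by rw [← lo_zpow, map_zpow, h.hb]
  refine ⟨ea ▸ eb ▸ H.mt_of h (ea ▸ H.pw' m.l fun d => n (d.mul_right _)) (eb ▸ H.pw' m.r fun d => n (d.mul_left _)) e', ?_⟩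
  have k : ∀ {s t : K}, s * t = -1 → zz (φ (up s)) (φ (lo t)) = φ (-1) := fun e => by rw [← braid_sq e]; simp [zz]
  rw [← ea, ← eb, k e', ← k e, h.ha, h.hb]

end Hy
end H29.AS
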