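import Cfsg.Agent.H29.AS2

/-! S3235: the braid lemma `M1`. -/

set_option autoImplicit false
set_option linter.unusedSectionVars false
set_option linter.style.haveILetI false

namespace H29.AS

open MatrixGroups Subgroup
open scoped commutatorElement

variable {G : Type*} [Group G] {p : ℕ} {E : Set G} {a b c e x y m d : G}

scoped macro "grp" : tactic => `(tactic| simp only [sq, mul_assoc, mul_inv_rev, inv_inv, mul_inv_cancel_left,
  inv_mul_cancel_left, mul_inv_cancel, inv_mul_cancel, mul_one, one_mul, inv_one])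

/-- Structure of `⟨a, b, c⟩` for commuting `a`, `c` both matched with `b`. -/
structure M1 (p : ℕ) (a b c x m d : G) : Prop where
  dp : d ^ p = 1
  mp : m ^ p = 1
  xp : x ^ p = 1
  da : Commute d a
  db : Commute d b
  dc : Commute d c
  ma : Commute m a
  xb : Commute x b
  ec : c = a * m * d
  ax : x⁻¹ * a * x = c
  mx : x⁻¹ * m * x = m * d ^ 2
  mb : b * m * b⁻¹ = m * x⁻¹ * d
  zm : zz a b * m * (zz a b)⁻¹ = m⁻¹
  zx : zz a b * x * (zz a b)⁻¹ = x⁻¹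
  wm : a * b * a * m * (a * b * a)⁻¹ = x⁻¹
  wx : a * b * a * x * (a * b * a)⁻¹ = m
  hx : x ∈ closure {a, b, c}
  hm : m ∈ closure {a, b, c}
  hd : d ∈ closure {a, b, c}

theorem comm_cl {S : Set G} (h : ∀ s ∈ S, Commute y s) (hx : x ∈ closure S) : Commute y x := by
  have : closure S ≤ centralizer {y} := (closure_le _).2 fun s hs _ e => e ▸ (h s hs).eq
  exact this hx y rfl

theorem comm3 (ha : Commute y a) (hb : Commute y b) (hc : Commute y c) (hx : x ∈ closure {a, b, c}) : Commute y x :=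
  comm_cl (by rintro _ (rfl | rfl | rfl) <;> assumption) hx

theorem cj_comm (h : Commute a b) (g : G) : Commute (g * a * g⁻¹) (g * b * g⁻¹) := h.conj g

theorem br_comm (ma : a * b * a = b * a * b) (mc : c * b * c = b * c * b) (ac : Commute a c) :
    Commute b (a * c⁻¹ * b * (a * c⁻¹)⁻¹) := by
  have := cj_comm (cj_comm ac b) a
  rw [← br_cj ma, ← br_cj mc] at this
  convert this using 1 <;> group

theorem m1 (od : Odd p) (ap : a ^ p = 1) (bp : b ^ p = 1) (cp : c ^ p = 1) (ma : a * b * a = b * a * b)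
    (mc : c * b * c = b * c * b) (z2 : zz a b * zz a b = 1) (ac : Commute a c) : ∃ x m d, M1 p a b c x m d := by
  obtain ⟨h, hp⟩ := od
  set n := a * c⁻¹ with hn
  have na : Commute n a := (Commute.refl a).mul_left ac.symm.inv_left
  have nc : Commute n c := ac.mul_left (Commute.refl c).inv_left
  have b1 : Commute b (n * b * n⁻¹) := br_comm ma mc ac
  set v := b * (n * b * n⁻¹)⁻¹ with hv
  have bv : Commute b v := (Commute.refl b).mul_right b1.inv_right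
  have bn : b * n * b⁻¹ = v * n := by rw [hv]; group
  have av : a * v * a⁻¹ = v * n⁻¹ := by
    have e1 := ma; have e2 := br_cj mc
    calc a * v * a⁻¹ = (a * b * a) * c⁻¹ * b⁻¹ * (a * n * a⁻¹ * a)⁻¹ * 1 := by rw [hv, hn]; group
      _ = b * a * (b * c * b⁻¹)⁻¹ * (n * a)⁻¹ := by rw [e1, ← na.eq]; group
      _ = b * (a * c⁻¹) * b⁻¹ * (c * a⁻¹) * n⁻¹ := by rw [← e2]; group
      _ = v * n⁻¹ := by rw [hv, hn]; group
  have an : a * n * a⁻¹ = n := by rw [← na.eq]; group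
  have cn : c * n * c⁻¹ = n := by rw [← nc.eq]; group
  have ce : c = n⁻¹ * a := by rw [hn]; group
  have cv : c * v * c⁻¹ = n⁻¹ * v := by
    calc _ = n⁻¹ * (a * v * a⁻¹) * n := by rw [ce]; group
      _ = _ := by rw [av]; group
  have bv' : b * v * b⁻¹ = v := by rw [bv.eq]; group
  set k := n * v * n⁻¹ * v⁻¹ with hk
  have wn : a * b * a * n * (a * b * a)⁻¹ = v := by
    calc _ = a * (b * (a * n * a⁻¹) * b⁻¹) * a⁻¹ := by group
      _ = a * (v * n) * a⁻¹ := by rw [an, bn]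
      _ = (a * v * a⁻¹) * (a * n * a⁻¹) := by group
      _ = v := by rw [av, an]; group
  have wv : a * b * a * v * (a * b * a)⁻¹ = v * n⁻¹ * v⁻¹ := by
    calc _ = a * (b * (a * v * a⁻¹) * b⁻¹) * a⁻¹ := by group
      _ = a * ((b * v * b⁻¹) * (b * n * b⁻¹)⁻¹) * a⁻¹ := by rw [av]; group
      _ = (a * v * a⁻¹) * (a * n * a⁻¹)⁻¹ * (a * v * a⁻¹)⁻¹ := by rw [bv', bn]; group
      _ = _ := by rw [av, an]; group
  have zn : zz a b * n * (zz a b)⁻¹ = v * n⁻¹ * v⁻¹ := by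
    calc _ = a * b * a * (a * b * a * n * (a * b * a)⁻¹) * (a * b * a)⁻¹ := by rw [zz]; grp
      _ = _ := by rw [wn, wv]
  have zv : zz a b * v * (zz a b)⁻¹ = v * n⁻¹ * v⁻¹ * n * v⁻¹ := by
    calc _ = a * b * a * (a * b * a * v * (a * b * a)⁻¹) * (a * b * a)⁻¹ := by rw [zz]; grp
      _ = (a * b * a * v * (a * b * a)⁻¹) * (a * b * a * n * (a * b * a)⁻¹)⁻¹ * (a * b * a * v * (a * b * a)⁻¹)⁻¹ := by
        nth_rw 1 [wv]; grp
      _ = _ := by rw [wn, wv]; grp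
  have zi : ∀ y, y = zz a b * (zz a b * y * (zz a b)⁻¹) * (zz a b)⁻¹ := fun y => by
    calc y = (zz a b * zz a b) * y * (zz a b * zz a b)⁻¹ := by rw [z2]; simp
      _ = _ := by grp
  have un : Commute (v * n⁻¹ * v⁻¹ * n) n := by
    have : n = (v * n⁻¹ * v⁻¹ * n) * n * (v * n⁻¹ * v⁻¹ * n)⁻¹ := by
      calc n = (zz a b * v * (zz a b)⁻¹) * (zz a b * n * (zz a b)⁻¹)⁻¹ * (zz a b * v * (zz a b)⁻¹)⁻¹ := by
            nth_rw 1 [zi n, zn]; grp
        _ = _ := by rw [zn, zv]; grp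
    exact (mul_inv_eq_iff_eq_mul.1 this.symm)
  have ek : k = v * n⁻¹ * v⁻¹ * n := by
    calc k = n * (v * n⁻¹ * v⁻¹ * n) * n⁻¹ := by rw [hk]; grp
      _ = _ := by rw [← un.eq]; grp
  have kn : Commute k n := ek ▸ un
  have ka : Commute k a := by
    have : a * k * a⁻¹ = k := by
      calc _ = (a * v * a⁻¹) * (a * n * a⁻¹)⁻¹ * (a * v * a⁻¹)⁻¹ * (a * n * a⁻¹) := by rw [ek]; grp
        _ = _ := by rw [av, an, ek]; grp
    exact (mul_inv_eq_iff_eq_mul.1 this).symm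
  have kb : Commute k b := by
    have : b * k * b⁻¹ = k := by
      calc _ = (b * v * b⁻¹) * (b * n * b⁻¹)⁻¹ * (b * v * b⁻¹)⁻¹ * (b * n * b⁻¹) := by rw [ek]; grp
        _ = _ := by rw [bv', bn, ek]; grp
    exact (mul_inv_eq_iff_eq_mul.1 this).symm
  have kc : Commute k c := ce ▸ kn.inv_right.mul_right ka
  have ia : a ∈ closure ({a, b, c} : Set G) := subset_closure (by simp)
  have ib : b ∈ closure ({a, b, c} : Set G) := subset_closure (by simp)
  have ic : c ∈ closure ({a, b, c} : Set G) := subset_closure (by simp)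
  have iN : n ∈ closure ({a, b, c} : Set G) := mul_mem ia (inv_mem ic)
  have iv : v ∈ closure ({a, b, c} : Set G) := mul_mem ib (inv_mem (mul_mem (mul_mem iN ib) (inv_mem iN)))
  have ik : k ∈ closure ({a, b, c} : Set G) := mul_mem (mul_mem (mul_mem iN iv) (inv_mem iN)) (inv_mem iv)
  have kv : Commute k v := comm3 ka kb kc iv
  have np : n ^ p = 1 := by rw [hn, ac.inv_right.mul_pow, inv_pow, ap, cp]; simp
  have vp : v ^ p = 1 := by rw [hv, b1.inv_right.mul_pow, inv_pow, conj_pow, bp]; simp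
  have vn : v * n⁻¹ * v⁻¹ = n⁻¹ * k := by rw [hk]; group
  have kp : k ^ p = 1 := by
    have := congrArg (· ^ p) vn
    simpa [conj_pow, kn.symm.inv_left.mul_pow, np] using this.symm
  set d := k ^ h with hd
  have dk : d * d * k = 1 := by rw [hd, ← pow_add, ← pow_succ, ← kp, hp]; congr 1; ring
  have dY : ∀ y ∈ closure ({a, b, c} : Set G), Commute d y := fun y hy => (comm3 ka kb kc hy).pow_left h
  have dn := dY n iN; have dv := dY v iv
  have dp : d ^ p = 1 := by rw [hd, ← pow_mul, mul_comm, pow_mul, kp, one_pow]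
  have kd : k = (d * d)⁻¹ := eq_inv_of_mul_eq_one_right dk
  have cjd : ∀ y ∈ closure ({a, b, c} : Set G), y * d * y⁻¹ = d := fun y hy => by rw [← (dY y hy).eq]; group
  have wd := cjd _ (mul_mem (mul_mem ia ib) ia)
  have wm : a * b * a * (n⁻¹ * d⁻¹) * (a * b * a)⁻¹ = (v * d)⁻¹ := by
    calc _ = (a * b * a * n * (a * b * a)⁻¹)⁻¹ * (a * b * a * d * (a * b * a)⁻¹)⁻¹ := by group
      _ = _ := by rw [wn, wd, ← dv.eq]; group
  have wx : a * b * a * (v * d) * (a * b * a)⁻¹ = n⁻¹ * d⁻¹ := by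
    calc _ = (a * b * a * v * (a * b * a)⁻¹) * (a * b * a * d * (a * b * a)⁻¹) := by group
      _ = _ := by rw [wv, wd, vn, kd]; group
  refine ⟨v * d, n⁻¹ * d⁻¹, d, dp, ?_, ?_, dY a ia, dY b ib, dY c ic, na.inv_left.mul_left (dY a ia).inv_left,
    bv.symm.mul_left (dY b ib), ?_, ?_, ?_, ?_, ?_, ?_, wm, wx, mul_mem iv (pow_mem ik h),
    mul_mem (inv_mem iN) (inv_mem (pow_mem ik h)), pow_mem ik h⟩
  · rw [dn.symm.inv_left.inv_right.mul_pow]; simp [np, dp]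
  · rw [dv.symm.mul_pow]; simp [vp, dp]
  · rw [ce, na.inv_left.eq]; group
  · calc _ = d⁻¹ * (v⁻¹ * (a * v * a⁻¹) * a) * d := by group
      _ = d⁻¹ * (c * d) := by rw [av, ce]; group
      _ = c := by rw [← (dY c ic).eq]; group
  · have e : v⁻¹ * n⁻¹ * v = n⁻¹ * (d * d) := by
      calc _ = v⁻¹ * (n⁻¹ * k) * (k⁻¹ * v) := by group
        _ = _ := by rw [← vn, kv.inv_left.eq, kd]; grp
    calc _ = d⁻¹ * (v⁻¹ * n⁻¹ * (d⁻¹ * v)) * d := by group
      _ = d⁻¹ * (v⁻¹ * n⁻¹ * v) := by rw [dv.inv_left.eq]; group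
      _ = _ := by rw [e, ← mul_assoc, dn.inv_left.inv_right.eq]; grp
  · calc _ = (b * n * b⁻¹)⁻¹ * (b * d * b⁻¹)⁻¹ := by group
      _ = n⁻¹ * (d * v)⁻¹ := by rw [bn, cjd b ib]; group
      _ = n⁻¹ * d⁻¹ * (d * v)⁻¹ * d := by nth_rw 1 [dv.eq]; grp
      _ = _ := by rw [dv.eq]
  · calc _ = a * b * a * (a * b * a * (n⁻¹ * d⁻¹) * (a * b * a)⁻¹) * (a * b * a)⁻¹ := by rw [zz, sq]; group
      _ = (a * b * a * (v * d) * (a * b * a)⁻¹)⁻¹ := by rw [wm]; group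
      _ = _ := by rw [wx]
  · calc _ = a * b * a * (a * b * a * (v * d) * (a * b * a)⁻¹) * (a * b * a)⁻¹ := by rw [zz, sq]; group
      _ = _ := by rw [wx, wm]

theorem Hy.m1 (H : Hy p E) (ma : Mt E a b) (mc : Mt E c b) (ac : Commute a c) : ∃ x m d, M1 p a b c x m d :=
  AS.m1 H.odd (H.pow_p ma.l) (H.pow_p ma.r) (H.pow_p mc.l) ma.br mc.br (H.zz_sq ma) ac

namespace M1
variable (h : M1 p a b c x m d)
include h
theorem dY (hy : y ∈ closure {a, b, c}) : Commute d y := comm3 h.da h.db h.dc hy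
theorem dx : Commute d x := h.dY h.hx
theorem dm : Commute d m := h.dY h.hm
theorem mx' : x * m * x⁻¹ = m * (d ^ 2)⁻¹ := by
  have := (h.dx.pow_left 2).eq
  calc _ = x * (m * d ^ 2) * x⁻¹ * (x * (d ^ 2 * x)⁻¹) := by rw [this]; group
    _ = _ := by rw [← h.mx]; group
theorem ax' : x * a * x⁻¹ = a * m⁻¹ * d := by
  have e : a = c * d⁻¹ * m⁻¹ := by rw [h.ec]; group
  calc _ = (x * c * x⁻¹) * (x * d * x⁻¹)⁻¹ * (x * m * x⁻¹)⁻¹ := by rw [e]; group
    _ = a * (d * m⁻¹) := by rw [← h.ax, h.mx', ← h.dx.eq]; grp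
    _ = _ := by rw [h.dm.inv_right.eq, mul_assoc]
theorem pw (t : ℤ) : (x ^ t)⁻¹ * a * x ^ t = a * m ^ t * d ^ (t ^ 2) := by
  have dm : ∀ i j : ℤ, d ^ i * m ^ j = m ^ j * d ^ i := fun i j => ((h.dm.zpow_left i).zpow_right j).eq
  have dx : ∀ i : ℤ, x⁻¹ * d ^ i * x = d ^ i := fun i => by rw [mul_assoc, (h.dx.zpow_left i).eq]; simp
  have dx' : ∀ i : ℤ, x * d ^ i * x⁻¹ = d ^ i := fun i => by rw [← (h.dx.zpow_left i).eq]; simp
  induction t using Int.induction_on with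
  | zero => simp
  | succ t ih =>
    calc _ = x⁻¹ * ((x ^ (t : ℤ))⁻¹ * a * x ^ (t : ℤ)) * x := by group
      _ = (x⁻¹ * a * x) * (x⁻¹ * m * x⁻¹⁻¹) ^ (t : ℤ) * (x⁻¹ * d ^ ((t : ℤ) ^ 2) * x) := by rw [ih, conj_zpow]; group
      _ = a * m * (d ^ (1 : ℤ) * m ^ (t : ℤ)) * ((d ^ 2) ^ (t : ℤ) * d ^ ((t : ℤ) ^ 2)) := by
        rw [inv_inv, h.ax, h.mx, dx, (h.dm.pow_left 2).symm.mul_zpow]; nth_rw 1 [h.ec]; group
      _ = _ := by rw [dm]; group
  | pred t ih =>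
    calc _ = x * ((x ^ (-t : ℤ))⁻¹ * a * x ^ (-t : ℤ)) * x⁻¹ := by group
      _ = (x * a * x⁻¹) * (x * m * x⁻¹) ^ (-t : ℤ) * (x * d ^ ((-t : ℤ) ^ 2) * x⁻¹) := by rw [ih, conj_zpow]; group
      _ = a * m⁻¹ * (d ^ (1 : ℤ) * m ^ (-t : ℤ)) * ((d ^ 2)⁻¹ ^ (-t : ℤ) * d ^ ((-t : ℤ) ^ 2)) := by
        rw [h.ax', h.mx', dx', (h.dm.pow_left 2).symm.inv_right.mul_zpow]; group
      _ = _ := by rw [dm]; group
theorem zd : Commute d (zz a b) := ((h.da.mul_right h.db).mul_right h.da).pow_right 2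
theorem cz (ma : a * b * a = b * a * b) : zz a b * c * (zz a b)⁻¹ = a * m⁻¹ * d := by
  calc _ = (zz a b * a * (zz a b)⁻¹) * (zz a b * m * (zz a b)⁻¹) * (zz a b * d * (zz a b)⁻¹) := by rw [h.ec]; group
    _ = _ := by rw [h.zm, (br_za ma).eq, ← h.zd.eq]; group
theorem cz' (ma : a * b * a = b * a * b) : zz a b * c * (zz a b)⁻¹ = x * a * x⁻¹ := by rw [h.cz ma, h.ax']
theorem mem (H : Hy p E) (ha : a ∈ E) (t : ℤ) : a * m ^ t * d ^ (t ^ 2) ∈ E := h.pw t ▸ H.cj' ha _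
theorem sp (H : Hy p E) (ha : a ∈ E) (hc : c ∈ E) (ac : Commute a c) (d1 : d = 1) : Sp E a c := by
  have k := h.mem H ha 2
  have e : a * m ^ (2 : ℤ) * d ^ ((2 : ℤ) ^ 2) = a⁻¹ * c ^ (2 : ℤ) := by
    rw [h.ec, d1, mul_one, h.ma.symm.mul_zpow]; group
  have c2 : c ^ (2 : ℤ) ∈ E := H.pw' hc (H.nd (by decide) (by decide))
  have := H.sp_mul' (H.inv ha) c2 (ac.inv_left.zpow_right 2) (e ▸ k)
  have i := H.sp_pow ha (n := -1) (by simpa using H.ne_one ha)
  exact (by simpa using i : Sp E a a⁻¹).trans (this.trans (H.sp_pow hc (H.ne_one c2)).symm)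
end M1

end H29.AS
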