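import Cfsg.Agent.H29.AS3
import Cfsg.Agent.H3.AS0

/-! S3235: translation of the hypotheses (`H3.AS.SL`). -/

set_option autoImplicit false
set_option linter.unusedSectionVars false
set_option linter.style.haveILetI false

namespace H29.AS

open MatrixGroups Subgroup
universe u

variable {G : Type*} [Group G] {p : ℕ} {E : Set G} {a b c e x y : G}

/-- the non-trivial elements of the conjugates of `A₀` -/
def DD (A₀ : Subgroup G) : Set G := {x | x ≠ 1 ∧ ∃ g : G, x ∈ A₀.map (MulAut.conj g).toMonoidHom}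

theorem hy_of [Finite G] (pp : p.Prime) (p5 : 5 ≤ p) (A₀ : Subgroup G) (hA : Nat.card A₀ = p)
    (hp : ∀ g h : G, A₀.map (MulAut.conj g).toMonoidHom ≠ A₀.map (MulAut.conj h).toMonoidHom →
    Nonempty (↥(A₀.map (MulAut.conj g).toMonoidHom ⊔ A₀.map (MulAut.conj h).toMonoidHom) ≃*
      (Multiplicative (ZMod p) × Multiplicative (ZMod p))) ∨
    ∃ (K : Type) (_ : Field K) (_ : Fintype K) (m : ℕ), 1 ≤ m ∧ Fintype.card K = p ^ m ∧
      (Nonempty (↥(A₀.map (MulAut.conj g).toMonoidHom ⊔ A₀.map (MulAut.conj h).toMonoidHom) ≃*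
          Matrix.ProjectiveSpecialLinearGroup (Fin 2) K) ∨
        Nonempty (↥(A₀.map (MulAut.conj g).toMonoidHom ⊔ A₀.map (MulAut.conj h).toMonoidHom) ≃*
          Matrix.SpecialLinearGroup (Fin 2) K))) :
    Hy p (DD A₀) ∧ ∀ x g, x ≠ 1 → x ∈ A₀.map (MulAut.conj g).toMonoidHom → zpowers x = A₀.map (MulAut.conj g).toMonoidHom := by
  haveI := Fact.mk pp
  have cd : ∀ g, Nat.card (A₀.map (MulAut.conj g).toMonoidHom) = p := fun g => by
    rw [card_map_of_injective (MulAut.conj g).injective, hA]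
  have od : ∀ x g, x ≠ 1 → x ∈ A₀.map (MulAut.conj g).toMonoidHom → orderOf x = p := fun x g n h =>
    ((Nat.dvd_prime pp).1 (cd g ▸ orderOf_dvd_natCard _ h)).resolve_left (by simpa using n)
  have zp : ∀ x g, x ≠ 1 → x ∈ A₀.map (MulAut.conj g).toMonoidHom → zpowers x = A₀.map (MulAut.conj g).toMonoidHom :=
    fun x g n h => eq_of_le_of_card_ge (zpowers_le.2 h) (by rw [cd, Nat.card_zpowers, od x g n h])
  refine ⟨⟨pp, p5, fun a ⟨n, g, h⟩ => od a g n h, fun a ⟨n, g, h⟩ k => ⟨by simpa using n, k * g, ?_⟩,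
    fun a ⟨_, g, h⟩ n k => ⟨k, g, zpow_mem h n⟩, fun a ⟨na, g, ha⟩ b ⟨nb, h, hb⟩ nc => ?_⟩, zp⟩
  · obtain ⟨y, hy, rfl⟩ := h; exact ⟨y, hy, by simp [mul_assoc]⟩
  have e : A₀.map (MulAut.conj g).toMonoidHom ⊔ A₀.map (MulAut.conj h).toMonoidHom = closure {a, b} := by
    rw [← zp a g na ha, ← zp b h nb hb, zpowers_eq_closure, zpowers_eq_closure, ← Subgroup.closure_union]; rfl
  have ia : a ∈ closure ({a, b} : Set G) := subset_closure (by simp)
  have ib : b ∈ closure ({a, b} : Set G) := subset_closure (by simp)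
  rcases hp g h (fun k => nc (by
    obtain ⟨i, rfl⟩ : b ∈ zpowers a := by rw [zp a g na ha, k]; exact hb
    exact Commute.self_zpow a i)) with ⟨⟨f⟩⟩ | ⟨K, _, _, m, -, hK, ⟨⟨f⟩⟩ | ⟨⟨f⟩⟩⟩ <;> rw [e] at f
  · exact absurd (congrArg Subtype.val (f.injective (show f (⟨a, ia⟩ * ⟨b, ib⟩) = f (⟨b, ib⟩ * ⟨a, ia⟩) by
      rw [map_mul, map_mul, mul_comm]))) nc
  · refine ⟨K, _, ‹_›, pr_of pp p5 (od a g na ha) (od b h nb hb) nc hK
      (((closure {a, b}).subtype.comp f.symm.toMonoidHom).comp (QuotientGroup.mk' _)) (fun x k => cen_sl ?_) ?_⟩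
    · exact (QuotientGroup.eq_one_iff x).1 (f.symm.injective (by simpa using k))
    · rw [MonoidHom.range_comp, MonoidHom.range_eq_top.2 (QuotientGroup.mk'_surjective _), ← MonoidHom.range_eq_map,
        MonoidHom.range_comp, MonoidHom.range_eq_top.2 f.symm.surjective, ← MonoidHom.range_eq_map, range_subtype]
  · refine ⟨K, _, ‹_›, pr_of pp p5 (od a g na ha) (od b h nb hb) nc hK
      ((closure {a, b}).subtype.comp f.symm.toMonoidHom) (fun x k => .inl (f.symm.injective (by simpa using k))) ?_⟩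
    rw [MonoidHom.range_comp, MonoidHom.range_eq_top.2 f.symm.surjective, ← MonoidHom.range_eq_map, range_subtype]

/-- the points: perps of members of `E` -/
abbrev Pt (E : Set G) : Type _ := {A : Set G // ∃ x ∈ E, A = {s | s ∈ E ∧ Commute s x}}

theorem cj_iff {s g : G} : Commute s (g * x * g⁻¹) ↔ Commute (g⁻¹ * s * g) x :=
  ⟨fun c => by simpa [mul_assoc] using c.conj g⁻¹, fun c => by simpa [mul_assoc] using c.conj g⟩

@[reducible] def Hy.act (H : Hy p E) : MulAction G (Pt E) where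
  smul g A := ⟨{s | g⁻¹ * s * g ∈ A.1}, by
    obtain ⟨_, x, hx, rfl⟩ := A
    exact ⟨_, H.cj x hx g, Set.ext fun s => and_congr ⟨fun h => by simpa [mul_assoc] using H.cj _ h g, fun h => H.cj' h g⟩
      cj_iff.symm⟩⟩
  one_smul A := Subtype.ext (Set.ext fun s => show 1⁻¹ * s * 1 ∈ A.1 ↔ _ by simp)
  mul_smul g h A := Subtype.ext (Set.ext fun s => show (g * h)⁻¹ * s * (g * h) ∈ A.1 ↔ h⁻¹ * (g⁻¹ * s * g) * h ∈ A.1 by
    simp [mul_assoc])

open Classical in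
noncomputable def pt (h : E.Nonempty) (x : G) : Pt E :=
  if k : x ∈ E then ⟨_, x, k, rfl⟩ else ⟨_, h.some, h.some_mem, rfl⟩

theorem pt_val (h : E.Nonempty) (k : x ∈ E) : (pt h x).1 = {s | s ∈ E ∧ Commute s x} := by rw [pt, dif_pos k]
theorem pt_eq (h : E.Nonempty) (k : x ∈ E) (l : y ∈ E) : pt h x = pt h y ↔ Sp E x y := by
  rw [Subtype.ext_iff, pt_val h k, pt_val h l, Set.ext_iff]
  exact forall_congr' fun s => and_congr_right_iff

def rl (h : E.Nonempty) (A B : Pt E) : Prop := ∃ x ∈ E, ∃ y ∈ E, pt h x = A ∧ pt h y = B ∧ x * y = y * x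

theorem rl_iff (h : E.Nonempty) (k : x ∈ E) (l : y ∈ E) : rl h (pt h x) (pt h y) ↔ Commute x y :=
  ⟨fun ⟨_, hu, v, hv, e, f, c⟩ => ((pt_eq h hv l).1 f x k).1 (((pt_eq h hu k).1 e v hv).1 (Commute.symm c)).symm,
    fun c => ⟨x, k, y, l, rfl, rfl, c⟩⟩

theorem Hy.bp (H : Hy p E) (m : Mt E a b) : H3.AS.Bp a b :=
  ⟨m.br, by rw [show 6 = 3 + 3 from rfl, pow_add, ← br_zz m.br, H.zz_sq m]⟩

theorem Hy.h3 (H : Hy p E) (h : E.Nonempty) (gen : closure E = ⊤) (tr : ∀ a ∈ E, ∀ b ∈ E, ∃ (g : G) (n : ℤ), g * a * g⁻¹ = b ^ n)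
    (sol : ∀ M : Subgroup G, M.Normal → Group.IsSolvable M → M = ⊥) :
    letI := H.act; H3.AS.Hy p E (pt h) (rl h) := by
  letI := H.act
  have sur : ∀ A, ∃ x ∈ E, pt h x = A := fun ⟨_, x, hx, e⟩ => ⟨x, hx, Subtype.ext (by rw [pt_val h hx]; exact e.symm)⟩
  have eqv : ∀ g : G, ∀ x ∈ E, pt h (g * x * g⁻¹) = g • pt h x := fun g x hx => Subtype.ext (by
    rw [pt_val h (H.cj x hx g)]
    ext s; change _ ↔ g⁻¹ * s * g ∈ (pt h x).1
    rw [pt_val h hx]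
    exact and_congr ⟨fun h => H.cj' h g, fun h => by simpa [mul_assoc] using H.cj _ h g⟩ cj_iff)
  refine ⟨H.pp, H.p5, fun x hx => ⟨H.pow_p hx, H.ne_one hx⟩, fun g x hx => H.cj x hx g, eqv, sur,
    fun x hx y hy => rl_iff h hx hy, fun A B k => ?_, fun A B => ?_, gen, sol, fun s hs a ha b hb k c n n' e cs ca cp => ?_,
    fun A y hy n => ?_⟩
  · obtain ⟨x, hx, rfl⟩ := sur A; obtain ⟨y, hy, rfl⟩ := sur B
    exact (pt_eq h hx hy).2 fun s hs => by simpa only [rl_iff h hs, hx, hy] using k (pt h s)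
  · obtain ⟨x, hx, rfl⟩ := sur A; obtain ⟨y, hy, rfl⟩ := sur B
    obtain ⟨g, n, e⟩ := tr x hx y hy
    have m := H.cj x hx g
    exact ⟨g, by rw [← eqv g x hx, pt_eq h m hy, e]; exact (H.sp_pow hy (e ▸ H.ne_one m)).symm⟩
  · by_cases k1 : a ^ k = 1
    · exact absurd (by rw [e, k1, one_mul, cs]) n'
    have m : a ^ k ∈ E := by simpa using H.pw a ha k (by simpa using k1)
    refine H.l1' m hs (fun c => n ?_) (Commute.pow_right ca k) cs cp (e ▸ hb)
    exact (H.sp_pow ha (n := k) (by simpa using k1) s hs).2 (by simpa using c.symm)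
  · obtain ⟨x, hx, rfl⟩ := sur A
    obtain ⟨x', -, s, m⟩ := H.ex_mt hx hy (mt (rl_iff h hx hy).2 n)
    exact ⟨x', m.l, ((pt_eq h hx m.l).2 s).symm, H.bp m⟩

theorem dd_top [Finite G] (pp : p.Prime) {A₀ : Subgroup G} (hA : Nat.card A₀ = p)
    (gen : (⨆ g : G, A₀.map (MulAut.conj g).toMonoidHom) = ⊤)
    (zp : ∀ x g, x ≠ 1 → x ∈ A₀.map (MulAut.conj g).toMonoidHom → zpowers x = A₀.map (MulAut.conj g).toMonoidHom) :
    (DD A₀).Nonempty ∧ closure (DD A₀) = ⊤ ∧ ∀ a ∈ DD A₀, ∀ b ∈ DD A₀, ∃ (g : G) (n : ℤ), g * a * g⁻¹ = b ^ n := by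
  refine ⟨?_, eq_top_iff.2 (gen ▸ iSup_le fun g x hx => ?_), fun a ⟨_, g, x, hx, e⟩ b ⟨nb, h, hb⟩ => ?_⟩
  · obtain ⟨x, hx, n⟩ := (bot_or_exists_ne_one A₀).resolve_left (by rintro rfl; exact pp.one_lt.ne (by simpa using hA))
    exact ⟨x, n, 1, x, hx, by simp⟩
  · by_cases n : x = 1
    · exact n ▸ one_mem _
    · exact subset_closure ⟨n, g, hx⟩
  · obtain ⟨n, hn⟩ : h * x * h⁻¹ ∈ zpowers b := zp b h nb hb ▸ ⟨x, hx, rfl⟩
    exact ⟨h * g⁻¹, n, by rw [← e]; simpa [mul_assoc] using hn.symm⟩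

theorem sl : H3.AS.SL.{u} := fun G _ _ p pp p5 sol A₀ hA gen hp => by
  obtain ⟨H, zp⟩ := hy_of pp p5 A₀ hA hp
  obtain ⟨ne, g, tr⟩ := dd_top pp hA gen zp
  exact ⟨_, H.act, inferInstance, _, _, H.h3 ne g tr sol⟩

end H29.AS
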