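import Cfsg.Agent.H29.AS4

/-! S3235, rank at least two: the polar space (`PS`), faithfulness and uniqueness of partners (`FU`). -/

set_option autoImplicit false
set_option linter.unusedSectionVars false
set_option linter.style.haveILetI false

namespace H29.AS

open Subgroup H19
open H3.AS (Ln Bp Pol Un)
universe u

variable {G P : Type*} [Group G] [MulAction G P] {p : ℕ} {D : Set G} {pt : G → P} {r : P → P → Prop}
  {a b c d s t : P} {x x' y y' v m w g : G}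

theorem bp_symm (k : Bp x y) : Bp y x := ⟨k.1.symm, by
  have : y * x = y * (x * y) * y⁻¹ := by group
  rw [this, conj_pow, k.2]; simp⟩
theorem bp_z (k : Bp x y) : zz x y * zz x y = 1 := by rw [br_zz k.1, ← pow_add]; exact k.2
theorem bp_cj (k : Bp x y) (g : G) : Bp (g * x * g⁻¹) (g * y * g⁻¹) :=
  ⟨by rw [conj_mul, conj_mul, conj_mul, conj_mul, k.1], by rw [conj_mul, conj_pow, k.2]; simp⟩
theorem bp_xy (k : Bp x y) : x * y * x * (x * y)⁻¹ = y := by rw [k.1]; group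

theorem dvd_of_free [Finite P] (pp : p.Prime) {S : Set P} (vp : v ^ p = 1) (hS : ∀ s ∈ S, v • s ∈ S)
    (hf : ∀ s ∈ S, v • s ≠ s) : p ∣ S.ncard := by
  classical
  haveI := Fact.mk pp
  haveI := Fintype.ofFinite S
  by_contra n
  have hi : ∀ s, MulAction.toPerm v s ∈ S ↔ s ∈ S := fun s => ⟨fun k => by
    have : ∀ i, v ^ (i + 1) • s ∈ S := fun i => by
      induction i with
      | zero => simpa using k
      | succ i ih => rw [pow_succ', mul_smul]; exact hS _ ih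
    simpa [Nat.sub_add_cancel pp.one_le, vp] using this (p - 1), hS s⟩
  obtain ⟨s, e⟩ := Equiv.Perm.exists_fixed_point_of_prime (p := p) (n := 1) (α := S)
    (by rwa [← Nat.card_eq_fintype_card]) (σ := (MulAction.toPerm v).subtypePerm hi) (by
      rw [pow_one, Equiv.Perm.subtypePerm_pow]; ext s
      change (MulAction.toPermHom G P v ^ p) s.1 = s.1
      rw [← map_pow, vp]; simp)
  exact hf s s.2 (congrArg Subtype.val e)

/-- a translation along a line -/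
structure Tv (p : ℕ) (r : P → P → Prop) (a b : P) (y v : G) : Prop where
  vp : v ^ p = 1
  vy : Commute v y
  ab : v⁻¹ • a = b
  ln : ∀ i j : ℤ, ¬ (p : ℤ) ∣ i → Ln r a (v ^ i • a) (v ^ j • a)

namespace H3
variable (h : H3.AS.Hy p D pt r)
include h

theorem nd {n : ℤ} (h0 : n ≠ 0) (k : |n| < 5) : ¬ (p : ℤ) ∣ n := fun d => by
  have := Int.le_of_dvd (abs_pos.2 h0) ((dvd_abs _ _).2 d); have := h.p5; omega
theorem nd6 : ¬ (p : ℤ) ∣ 2 * 3 := fun d => by
  rcases (Nat.prime_iff_prime_int.1 h.pp).dvd_or_dvd d with d | d <;> exact nd h (by decide) (by decide) d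
theorem root (hp : y ^ p = 1) {n : ℤ} (k : ¬ (p : ℤ) ∣ n) : ∃ m : ℤ, (y ^ n) ^ m = y := by
  obtain ⟨u, v, e⟩ := (Nat.prime_iff_prime_int.1 h.pp).coprime_iff_not_dvd.2 k
  refine ⟨v, ?_⟩
  rw [← zpow_mul, show n * v = p * (-u) + 1 by linear_combination e, zpow_add, zpow_mul, zpow_natCast, hp]; simp
theorem cpw (hp : y ^ p = 1) {n : ℤ} (k : ¬ (p : ℤ) ∣ n) (c : Commute x (y ^ n)) : Commute x y := by
  obtain ⟨m, e⟩ := root h hp k; exact e ▸ c.zpow_right m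
theorem fpw (hp : y ^ p = 1) {n : ℤ} (k : ¬ (p : ℤ) ∣ n) (c : y ^ n • a = a) : y • a = a := by
  obtain ⟨m, e⟩ := root h hp k; exact e ▸ zpow_mem (show y ^ n ∈ MulAction.stabilizer G a from c) m
theorem odd : Odd p := h.pp.odd_of_ne_two (by have := h.p5; omega)
theorem rc (hx : x ∈ D) (hy : y ∈ D) : r (pt x) (pt y) ↔ Commute x y := h.rel x hx y hy
theorem rf (a : P) : r a a := by obtain ⟨x, hx, rfl⟩ := h.sur a; exact (rc h hx hx).2 rfl
theorem sy (k : r a b) : r b a := by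
  obtain ⟨x, hx, rfl⟩ := h.sur a; obtain ⟨y, hy, rfl⟩ := h.sur b; exact (rc h hy hx).2 ((rc h hx hy).1 k).symm
theorem iv (g : G) {a b : P} (k : r a b) : r (g • a) (g • b) := by
  obtain ⟨x, hx, rfl⟩ := h.sur a; obtain ⟨y, hy, rfl⟩ := h.sur b
  rw [← h.eqv g x hx, ← h.eqv g y hy]; exact (rc h (h.cj g x hx) (h.cj g y hy)).2 (((rc h hx hy).1 k).conj g)
theorem ii (g : G) : r (g • a) (g • b) ↔ r a b := ⟨fun k => by simpa using iv h g⁻¹ k, iv h g⟩
theorem fc (hy : y ∈ D) (k : Commute g y) : g • pt y = pt y := by rw [← h.eqv g y hy, k.eq]; simp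
theorem fx (hx : x ∈ D) (k : r (pt x) b) : x • b = b := by
  obtain ⟨y, hy, rfl⟩ := h.sur b; exact fc h hy ((rc h hx hy).1 k)
theorem cj' (hx : x ∈ D) (g : G) : g⁻¹ * x * g ∈ D := by simpa using h.cj g⁻¹ x hx
theorem eq' (hx : x ∈ D) (g : G) : pt (g⁻¹ * x * g) = g⁻¹ • pt x := by simpa using h.eqv g⁻¹ x hx
theorem nc (hx : x ∈ D) (k : Bp x y) : ¬ Commute x y := fun c => by
  have e : x = y := by have := k.1; rw [← c.eq] at this; exact mul_left_cancel this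
  subst e
  have : x ^ ((2 * 3 : ℤ) * 2) = 1 := by rw [← k.2, ← sq, ← pow_mul]; norm_cast
  obtain ⟨m, e⟩ := root h (h.ord x hx).1 (n := (2 * 3) * 2) fun d => by
    rcases (Nat.prime_iff_prime_int.1 h.pp).dvd_or_dvd d with d | d; exacts [nd6 h d, nd h (by decide) (by decide) d]
  exact (h.ord x hx).2 (by rw [← e, this, one_zpow])
theorem nr (hx : x ∈ D) (hy : y ∈ D) (k : Bp x y) : ¬ r (pt x) (pt y) := mt (rc h hx hy).1 (nc h hx k)
theorem sw (hx : x ∈ D) (k : Bp x y) : (x * y) • pt x = pt y := by rw [← h.eqv _ x hx, bp_xy k]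
theorem mm (hx : x ∈ D) (hx' : x' ∈ D) (hy : y ∈ D) (k : Bp x y) (k' : Bp x' y) (c : Commute x x') :
    ∃ v m w, M1 p x y x' v m w := m1 (odd h) (h.ord x hx).1 (h.ord y hy).1 (h.ord x' hx').1 k.1 k'.1 (bp_z k) c
theorem sp (hx : x ∈ D) (hy : y ∈ D) (k : ∀ s ∈ D, Commute s x ↔ Commute s y) : pt x = pt y := h.nd _ _ fun s => by
  obtain ⟨s, hs, rfl⟩ := h.sur s; rw [rc h hs hx, rc h hs hy]; exact k s hs

/-- the key lemma: a common neighbour of two points of a chain centralizes the chain -/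
theorem key (hc : ∀ t : ℤ, x * m ^ t * w ^ (t ^ 2) ∈ D) (mp : m ^ p = 1) (wp : w ^ p = 1) (mx : Commute m x)
    (wx : Commute w x) (wm : Commute w m) (n : pt x ≠ pt (x * m * w)) (hg : g ∈ D) (c0 : Commute g x)
    (c1 : Commute g (x * m * w)) : Commute g m ∧ Commute g w := by
  have hx : x ∈ D := by simpa using hc 0
  have h1 : x * m * w ∈ D := by simpa using hc 1
  have u : Commute g (m * w) := by simpa [mul_assoc] using c0.inv_right.mul_right c1
  suffices k : Commute g w from ⟨by simpa using u.mul_right k.inv_right, k⟩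
  by_contra k
  have ux : Commute (m * w) x := mx.mul_left wx
  have uw : Commute (m * w) w := wm.symm.mul_left (Commute.refl w)
  have e : ∀ t : ℤ, x * m ^ t * w ^ (t ^ 2) = x * (m * w) ^ t * w ^ (t ^ 2 - t) := fun t => by
    rw [wm.symm.mul_zpow]; group
  have nc : ∀ t : ℤ, ¬ (p : ℤ) ∣ t ^ 2 - t → g * (x * m ^ t * w ^ (t ^ 2)) ≠ x * m ^ t * w ^ (t ^ 2) * g := fun t ht c => by
    rw [e] at c
    exact k (cpw h wp ht (by simpa [mul_assoc] using (c0.mul_right (u.zpow_right t)).inv_right.mul_right c))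
  have := h.tk g hg _ (hc 2) _ (hc 3) 3 ((x ^ 2 * (m * w) ^ 3)⁻¹) (nc 2 (nd h (by decide) (by decide))) (nc 3 (nd6 h)) ?_
    ((c0.pow_right 2).mul_right (u.pow_right 3)).inv_right.symm ?_ ?_
  · have e : x = (x * m * w) ^ (3 : ℤ) := by
      rw [mul_assoc, ux.symm.mul_zpow]
      calc x = x * (x ^ 2 * (m * w) ^ 3) := by rw [inv_eq_one.1 this, mul_one]
        _ = _ := by group
    exact n (sp h hx h1 fun s _ => ⟨fun c => cpw h (h.ord _ h1).1 (nd h (by decide) (by decide)) (e ▸ c),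
      fun c => e ▸ c.zpow_right 3⟩)
  · rw [e, e, ((wx.zpow_left _).mul_right (uw.symm.zpow_zpow _ _)).symm.mul_pow, (ux.zpow_left _).symm.mul_pow,
      eq_mul_inv_iff_mul_eq]
    clear u; generalize m * w = u at *
    have a1 := ((ux.zpow_left 3).pow_right 2).eq
    have a2 := ((wx.zpow_left 6).pow_right 2).eq
    have a3 := ((uw.pow_left 3).zpow_right 6).eq
    calc _ = x * (u ^ (3 : ℤ) * (w ^ (6 : ℤ) * x ^ 2)) * u ^ 3 := by norm_num [mul_assoc]
      _ = x * (u ^ (3 : ℤ) * x ^ 2) * (u ^ 3 * w ^ (6 : ℤ)) := by rw [a2, a3]; simp [mul_assoc]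
      _ = _ := by rw [a1]; group
  · rw [e]
    have a1 : Commute x (x * (m * w) ^ (2 : ℤ) * w ^ ((2 : ℤ) ^ 2 - 2)) :=
      ((Commute.refl x).mul_right (ux.symm.zpow_right _)).mul_right (wx.symm.zpow_right _)
    have a2 : Commute (m * w) (x * (m * w) ^ (2 : ℤ) * w ^ ((2 : ℤ) ^ 2 - 2)) :=
      (ux.mul_right ((Commute.refl _).zpow_right _)).mul_right (uw.zpow_right _)
    exact ((a1.pow_left 2).mul_left (a2.pow_left 3)).inv_left
  · rw [inv_pow, ((ux.pow_left 3).pow_right 2).symm.mul_pow, ← pow_mul, ← pow_mul, mul_comm 2, mul_comm 3, pow_mul,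
      pow_mul, wm.symm.mul_pow, mp, wp, (h.ord x hx).1]; simp

theorem key1 (M : M1 p x y x' v m w) (hx : x ∈ D) (n : pt x ≠ pt x') (hg : g ∈ D) (c0 : Commute g x) (c1 : Commute g x') :
    Commute g m ∧ Commute g w :=
  key h (fun t => M.pw t ▸ cj' h hx _) M.mp M.dp M.ma M.da M.dm (M.ec ▸ n) hg c0 (M.ec ▸ c1)

theorem tv (M : M1 p x y x' v m w) (hx : x ∈ D) (n : pt x ≠ pt x') : Tv p r (pt x) (pt x') y v := by
  have ab : v⁻¹ • pt x = pt x' := by rw [← eq' h hx, M.ax]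
  have e : ∀ i : ℤ, v ^ i • pt x = pt (x * m ^ (-i) * w ^ ((-i) ^ 2)) := fun i => by
    rw [← M.pw, eq' h hx]; simp
  have mem : ∀ t : ℤ, x * m ^ t * w ^ (t ^ 2) ∈ D := fun t => M.pw t ▸ cj' h hx _
  refine ⟨M.xp, M.xb, ab, fun i j hi s c0 c1 => ?_⟩
  obtain ⟨g, hg, rfl⟩ := h.sur s
  have ne : pt x ≠ v ^ i • pt x := fun k => n (by rw [← ab, eq_inv_smul_iff, fpw h M.xp hi k.symm])
  rw [e] at c1 ne ⊢
  rw [rc h hg (mem _)] at c1 ⊢; rw [rc h hg hx] at c0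
  obtain ⟨k1, k2⟩ := key h (x := x) (m := m ^ (-i)) (w := w ^ ((-i) ^ 2))
    (fun t => by rw [← zpow_mul, ← zpow_mul, ← mul_pow]; exact mem _)
    (by rw [← zpow_natCast, ← zpow_mul, mul_comm, zpow_mul, zpow_natCast, M.mp, one_zpow])
    (by rw [← zpow_natCast, ← zpow_mul, mul_comm, zpow_mul, zpow_natCast, M.dp, one_zpow])
    (M.ma.zpow_left _) (M.da.zpow_left _) (M.dm.zpow_zpow _ _) ne hg c0 c1
  exact (c0.mul_right ((cpw h M.mp (by simpa using hi) k1).zpow_right _)).mul_right ((cpw h M.dp (fun d => hi (by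
    simpa using (Nat.prime_iff_prime_int.1 h.pp).dvd_of_dvd_pow d)) k2).zpow_right _)

theorem ex_tv (k : r a b) (n : a ≠ b) (hy : y ∈ D) (na : ¬ r a (pt y)) (nb : ¬ r b (pt y)) : ∃ v, Tv p r a b y v := by
  obtain ⟨x, hx, rfl, k1⟩ := h.br a y hy na; obtain ⟨x', hx', rfl, k2⟩ := h.br b y hy nb
  obtain ⟨v, m, w, M⟩ := mm h hx hx' hy k1 k2 ((rc h hx hx').1 k)
  exact ⟨v, tv h M hx n⟩

theorem path (k1 : ¬ r a c) (k2 : ¬ r c d) (k3 : ¬ r d b) : ∃ e, ¬ r e a ∧ ¬ r e b := by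
  by_cases e1 : r d a; swap
  · exact ⟨d, e1, k3⟩
  by_cases e2 : r c b; swap
  · exact ⟨c, mt (sy h) k1, e2⟩
  obtain ⟨y, hy, rfl⟩ := h.sur d
  obtain ⟨x, hx, rfl, k⟩ := h.br c y hy k2
  refine ⟨y • pt x, fun e => k1 (sy h ((ii h y).1 (by rwa [fx h hy e1]))), fun e => k3 ((ii h x⁻¹).1 ?_)⟩
  rwa [← eq' h hy, br_cj k.1, h.eqv y x hx, inv_smul_eq_iff.2 (fx h hx e2).symm]

theorem cn (n : c ≠ d) (a b : P) : ∃ e, ¬ r e a ∧ ¬ r e b := by
  have o : ∃ e, ¬ r e a := by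
    by_contra! k
    refine n (h.nd _ _ fun s => ?_)
    have : ∀ b, r s b := fun b => by obtain ⟨g, rfl⟩ := h.tr a b; simpa using iv h g (k (g⁻¹ • s))
    exact ⟨fun _ => this _, fun _ => this _⟩
  have st : ∀ b b' d, ¬ r d b → ¬ r d b' → (∃ e, ¬ r e a ∧ ¬ r e b) → ∃ e, ¬ r e a ∧ ¬ r e b' :=
    fun b b' d k1 k2 ⟨e, e1, e2⟩ => by
      obtain ⟨f, f1, f2⟩ := path h e2 (mt (sy h) k1) k2
      exact path h (mt (sy h) e1) (mt (sy h) f1) f2
  let H : Subgroup G :=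
    { carrier := {g | ∀ b, (∃ e, ¬ r e a ∧ ¬ r e b) ↔ ∃ e, ¬ r e a ∧ ¬ r e (g • b)}
      one_mem' := fun b => by simp
      mul_mem' := fun {x y} hx hy b => by rw [mul_smul]; exact (hy b).trans (hx _)
      inv_mem' := fun {x} hx b => by simpa using (hx (x⁻¹ • b)).symm }
  have : closure D ≤ H := (closure_le _).2 fun y hy b => by
    by_cases e : r (pt y) b
    · rw [fx h hy e]
    · have e' : ¬ r (pt y) (y • b) := fun k => e ((ii h y).1 (by rwa [fx h hy (rf h _)]))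
      exact ⟨st _ _ _ e e', st _ _ _ e' e⟩
  obtain ⟨g, rfl⟩ := h.tr a b
  obtain ⟨e, he⟩ := o
  exact (this (h.gen ▸ mem_top g) a).1 ⟨e, he, he⟩

theorem sub_eq [Finite P] {S T : P → Prop} (g : G) (hg : ∀ s, T (g • s) ↔ S s) (le : ∀ s, S s → T s) (s : P) (k : T s) : S s := by
  have : {s | S s} = {s | T s} := Set.eq_of_subset_of_ncard_le le (by
    have : {s | T s} = (g • ·) '' {s | S s} := Set.ext fun s =>
      ⟨fun k => ⟨g⁻¹ • s, (hg _).1 (by simpa using k), by simp⟩, fun ⟨t, k, e⟩ => e ▸ (hg t).2 k⟩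
    rw [this, Set.ncard_image_of_injective _ (MulAction.injective g)])
  exact (this ▸ k : s ∈ {s | S s})

theorem nd' [Finite P] (k : ∀ s, r s a → r s b) : a = b := by
  obtain ⟨g, rfl⟩ := h.tr a b
  exact h.nd _ _ fun s => ⟨k s, sub_eq h (S := (r · a)) (T := (r · (g • a))) g (fun _ => ii h g) k s⟩
theorem exn [Finite P] (e : a ≠ b) : ∃ s, r s a ∧ ¬ r s b := by
  by_contra! k; exact e (nd' h k)
end H3

namespace Tv
variable (h : H3.AS.Hy p D pt r) (T : Tv p r a b y v)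
include h T
theorem l1 (j : ℤ) : Ln r a b (v ^ j • a) := by simpa [T.ab] using T.ln (-1) j (H3.nd h (by decide) (by decide))
theorem e2 : v⁻¹ • b = v ^ (-2 : ℤ) • a := by rw [← T.ab, smul_smul]; congr 1; group
theorem l2 : Ln r a (v⁻¹ • b) b := by
  have := T.ln (-2) (-1) (H3.nd h (by decide) (by decide))
  rwa [← T.e2 h, zpow_neg_one, T.ab] at this
theorem l3 : Ln r b (v⁻¹ • b) a := by simpa [T.ab] using (T.l1 h 1).smul (H3.iv h) v⁻¹
theorem l0 : Ln r a b (v⁻¹ • b) := T.e2 h ▸ T.l1 h _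
theorem n1 (n : a ≠ b) : v⁻¹ • b ≠ a := fun e => n (by
  rw [T.e2 h] at e; rw [← T.ab, eq_inv_smul_iff, H3.fpw h T.vp (H3.nd h (by decide) (by decide)) e])
theorem n2 (n : a ≠ b) : v⁻¹ • b ≠ b := fun e => n (MulAction.injective v⁻¹ (T.ab.trans e.symm))
end Tv

namespace H3
variable [Finite P] (h : H3.AS.Hy p D pt r)
include h

theorem third (k : r a b) (n : a ≠ b) : ∃ t, Ln r a b t ∧ Ln r a t b ∧ Ln r b t a ∧ t ≠ a ∧ t ≠ b := by
  obtain ⟨e, e1, e2⟩ := cn h n a b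
  obtain ⟨y, hy, rfl⟩ := h.sur e
  obtain ⟨v, T⟩ := ex_tv h k n hy (mt (sy h) e1) (mt (sy h) e2)
  exact ⟨_, T.l0 h, T.l2 h, T.l3 h, T.n1 h n, T.n2 h n⟩

theorem tr2 (k : r a b) (n : a ≠ b) (k' : r a c) (n' : a ≠ c) : ∃ g : G, g • a = a ∧ g • b = c := by
  have st : ∀ {b c}, r b a → r c a → ¬ r b c → ∃ g : G, g • a = a ∧ g • b = c := fun {b c} k k' n => by
    obtain ⟨y, hy, rfl⟩ := h.sur c
    obtain ⟨x, hx, rfl, e⟩ := h.br b y hy n
    exact ⟨x * y, by rw [mul_smul, fx h hy k', fx h hx k], sw h hx e⟩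
  have cp : ∀ {b c d : P}, (∃ g : G, g • a = a ∧ g • b = c) → (∃ g : G, g • a = a ∧ g • c = d) → ∃ g : G, g • a = a ∧ g • b = d :=
    fun ⟨g, g1, g2⟩ ⟨k, k1, k2⟩ => ⟨k * g, by rw [mul_smul, g1, k1], by rw [mul_smul, g2, k2]⟩
  have via : ∀ t, r t a → ¬ r t b → ¬ r t c → ∃ g : G, g • a = a ∧ g • b = c := fun t t1 t2 t3 =>
    cp (st (sy h k) t1 (mt (sy h) t2)) (st t1 (sy h k') t3)
  obtain ⟨d, d1, d2⟩ := exn h n; obtain ⟨e, e1, e2⟩ := exn h n'
  by_cases d3 : r d c; swap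
  · exact via d d1 d2 d3
  by_cases e3 : r e b; swap
  · exact via e e1 e3 e2
  by_cases de : r d e; swap
  · exact cp (cp (st (sy h k) d1 (mt (sy h) d2)) (st d1 e1 de)) (st e1 (sy h k') e2)
  obtain ⟨t, t1, t2, t3, -⟩ := third h de fun q => e2 (q ▸ d3)
  exact via t (sy h (t1 a (sy h d1) (sy h e1))) (fun q => d2 (sy h (t3 b (sy h e3) (sy h q))))
    fun q => e2 (sy h (t2 c (sy h d3) (sy h q)))

theorem ex (k : r a b) (l : Ln r a b s) (n : s ≠ a) : Ln r a s b := by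
  have ab : a ≠ b := by rintro rfl; exact n (nd' h fun t k => l t k k).symm
  obtain ⟨g, g1, g2⟩ := tr2 h k ab (l a (rf h a) k) n.symm
  exact fun t k1 k2 => (sub_eq h (S := fun t => r t a ∧ r t b) (T := fun t => r t a ∧ r t s) g
    (fun t => by rw [← g2, ii h]; nth_rw 1 [← g1]; rw [ii h]) (fun t k => ⟨k.1, l t k.1 k.2⟩) t ⟨k1, k2⟩).2

theorem span (k : r a b) (l : Ln r a b s) (l' : Ln r a b t) (e : s ≠ t) (m : Ln r a b c) : Ln r s t c := by
  have k1 : ∀ {a b s t : P}, r a b → Ln r a b s → Ln r a b t → s ≠ t → s ≠ a → Ln r s t a ∧ Ln r s t b := by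
    intro a b s t k l l' e e'
    have l1 := ex h k l e'
    have l2 := ex h (sy h (l a (rf h a) k)) (Ln.left.trans l1 l').swap e.symm
    exact ⟨l2, l2.trans .left l1⟩
  by_cases e' : s = a
  · subst e'
    exact Ln.left.trans (ex h k l' e.symm) m
  · exact (k1 k l l' e e').1.trans (k1 k l l' e e').2 m

theorem rr (k : r a b) (l : Ln r a b s) (l' : Ln r a b t) : r s t :=
  l' s (sy h (l a (rf h a) k)) (sy h (l b (sy h k) (rf h b)))

/-- the translations attached to `y` and to one line commute -/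
theorem vv {x'' v' m' w' : G} (M : M1 p x y x' v m w) (M' : M1 p x y x'' v' m' w') (hx : x ∈ D) (h1 : x' ∈ D) (h2 : x'' ∈ D)
    (n : pt x ≠ pt x') (n' : pt x ≠ pt x'') (c1 : Commute x x') (c2 : Commute x x'') (c : Commute x' x'') :
    Commute m m' ∧ Commute v v' := by
  obtain ⟨a1, a2⟩ := key1 h M hx n h2 c2.symm c.symm
  obtain ⟨b1, b2⟩ := key1 h M' hx n' h1 c1.symm c
  have ww : Commute w w' := comm3 M.da M.db a2.symm M'.hd
  have e : m = x⁻¹ * x' * w⁻¹ := by rw [M.ec]; group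
  have wm : Commute w m' := comm3 M.da M.db a2.symm M'.hm
  have mm : Commute m m' := e ▸ (M'.ma.symm.inv_left.mul_left b1).mul_left wm.inv_left
  have := mm.conj (x * y * x)
  rw [M.wm, M'.wm] at this
  exact ⟨mm, by simpa using this.inv_inv⟩

theorem dv (k : r a b) (l1 : Ln r a b s) (l2 : Ln r a b t) (n : s ≠ t) (n1 : ¬ r s c) (n2 : ¬ r t c) :
    p ∣ {e | Ln r a b e ∧ ¬ r e c}.ncard := by
  obtain ⟨y, hy, rfl⟩ := h.sur c
  obtain ⟨x, hx, rfl, k1⟩ := h.br s y hy n1; obtain ⟨x', hx', rfl, k2⟩ := h.br t y hy n2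
  have c1 := (rc h hx hx').1 (rr h k l1 l2)
  obtain ⟨v, m, w, M⟩ := mm h hx hx' hy k1 k2 c1
  have T := tv h M hx n
  refine dvd_of_free (v := v⁻¹) h.pp (by simp [M.xp]) (fun e ⟨e1, e2⟩ => ⟨?_, fun q => e2 ((ii h v⁻¹).1 ?_)⟩) fun e ⟨e1, e2⟩ q => ?_
  · have := (span h k l1 l2 n e1).smul (iv h) v⁻¹
    rw [T.ab] at this
    exact l2.trans (l1.trans l2 (T.l0 h)) this
  · rwa [fc h hy M.xb.inv_left]
  · obtain ⟨x'', h2, rfl, k3⟩ := h.br e y hy e2
    have n' : pt x ≠ pt x'' := fun e => n (by rw [← T.ab, e, q])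
    have c2 := (rc h hx h2).1 (rr h k l1 e1)
    obtain ⟨v', m', w', M'⟩ := mm h hx h2 hy k1 k3 c2
    have c := (vv h M M' hx hx' h2 n n' c1 c2 ((rc h hx' h2).1 (rr h k l2 e1))).2
    rw [← (tv h M' hx n').ab, smul_smul, c.inv_inv.eq, mul_smul, T.ab] at q
    exact n (MulAction.injective _ q).symm

theorem pol (k : ∃ a b, r a b ∧ a ≠ b) : Pol r := by
  refine ⟨rf h, sy h, nd' h, ex h, fun {a b} k n c => ?_, fun k n => ?_, fun a => ?_⟩
  · by_contra! q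
    have d1 := dv h k .left .right n (q a .left) (q b .right)
    obtain ⟨d, e1, e2⟩ := exn h n
    obtain ⟨t, t1, -, -, t2, t3⟩ := third h k n
    have u : ∀ e, Ln r a b e → (¬ r e d ↔ e ≠ a) := fun e l =>
      ⟨fun q e' => q (e' ▸ sy h e1), fun q e' => e2 (ex h k l q d e1 (sy h e'))⟩
    have d2 := dv h k .right t1 t3.symm (mt (sy h) e2) ((u t t1).2 t2)
    have : {e | Ln r a b e ∧ ¬ r e c} = insert a {e | Ln r a b e ∧ ¬ r e d} := Set.ext fun e =>
      ⟨fun l => or_iff_not_imp_left.2 fun e' => ⟨l.1, (u e l.1).2 e'⟩,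
        fun l => l.elim (fun e' => by rw [e']; exact ⟨.left, q a .left⟩) fun l => ⟨l.1, q e l.1⟩⟩
    rw [this, Set.ncard_insert_of_notMem fun l => l.2 (sy h e1)] at d1
    exact h.pp.one_lt.ne' (Nat.dvd_one.1 ((Nat.dvd_add_right d2).1 d1))
  · obtain ⟨t, t1, -, -, t2, t3⟩ := third h k n
    exact ⟨t, t1, t2, t3⟩
  · obtain ⟨c, d, k, n⟩ := k
    obtain ⟨g, rfl⟩ := h.tr c a
    exact ⟨g • d, iv h g k, fun e => n (MulAction.injective g e)⟩

omit [Finite P] in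
theorem fa [Finite G] (g : G) (hg : ∀ a : P, g • a = a) : g = 1 := by
  let K := (MulAction.toPermHom G P).ker
  have mK : ∀ {g}, g ∈ K ↔ ∀ a : P, g • a = a := fun {g} => Equiv.ext_iff
  have F : Fit K = ⊥ := h.sol _ (normalIn_top.Fit).normal (sol_of_nil (Fit_nil K))
  have c : ∀ g ∈ K, ∀ x ∈ D, Commute g x := fun g hg x hx => by
    let T := closure {y | y ∈ D ∧ pt y = pt x}
    have ab : ∀ y ∈ T, ∀ z ∈ T, Commute y z := fun y hy z hz => comm_cl (fun s hs => (comm_cl (fun t ht =>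
      (rc h hs.1 ht.1).1 (by rw [hs.2, ht.2]; exact rf h _)) hy).symm) hz
    have nT : ∀ k ∈ K, ∀ y ∈ T, k * y * k⁻¹ ∈ T := fun k hk y hy => by
      have : T ≤ comap (MulAut.conj k).toMonoidHom T := (closure_le _).2 fun s hs =>
        subset_closure ⟨h.cj k s hs.1, by rw [← hs.2]; exact (h.eqv k s hs.1).trans (mK.1 hk _)⟩
      exact this hy
    have : K ⊓ T ≤ Fit K := le_Fit ⟨inf_le_left, fun k hk => mem_norm_of_cj_le (by
      rintro _ ⟨y, hy, rfl⟩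
      exact ⟨K.mul_mem (K.mul_mem hk hy.1) (K.inv_mem hk), nT k hk y hy.2⟩)⟩
      (nil_of_ab ⟨⟨fun y z => Subtype.ext (ab _ y.2.2 _ z.2.2)⟩⟩)
    have xT : x ∈ T := subset_closure ⟨hx, rfl⟩
    have := this (x := g * x * g⁻¹ * x⁻¹) ⟨by
      simpa [mul_assoc] using mul_mem hg ((inferInstance : K.Normal).conj_mem _ (inv_mem hg) x), T.mul_mem (nT g hg x xT) (T.inv_mem xT)⟩
    rw [F, mem_bot, mul_inv_eq_one, mul_inv_eq_iff_eq_mul] at this
    exact this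
  have : g ∈ center G := mem_center_iff.2 fun x => (comm_cl (c g (mK.2 hg)) (h.gen ▸ mem_top x)).eq.symm
  rwa [h.sol (center G) inferInstance (sol_of_ab inferInstance)] at this

theorem un [Finite G] (H : Pol r) : Un D pt := fun x hx x' hx' y hy e k k' => by
  refine mul_inv_eq_one.1 (fa h _ (H.fix (iv h) (a := pt x) (c := pt y) (fun b l => ?_) (nr h hx hy k) ?_))
  · rw [mul_smul, inv_smul_eq_iff.2 (fx h hx' (e ▸ l)).symm, fx h hx l]
  · rw [mul_smul, ← eq' h hy, br_cj k'.1, h.eqv y x' hx', ← e, ← mul_smul, sw h hx k]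
end H3

theorem ps : H3.AS.PS.{u} := fun _ _ _ _ _ _ _ _ _ _ h k => H3.pol h k
theorem fu : H3.AS.FU.{u} := fun _ _ _ _ _ _ _ _ _ _ h k => ⟨H3.fa h, H3.un h k⟩

end H29.AS
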