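import Cfsg.Agent.H29.AS5
import Cfsg.Agent.H5.AS0

/-! S3235: the final assembly from the two halves. -/

set_option autoImplicit false
set_option linter.unusedSectionVars false
set_option linter.style.haveILetI false

namespace H29.AS

open Subgroup H19
universe u

/-- the rank one theorem -/
def R1 : Prop := ∀ (G Ω : Type u) [Group G] [Finite G] [Finite Ω] [MulAction G Ω] (p : ℕ) (E : Ω → Set G),
  H5.AS.Tp p Eq E → H5.AS.Concl G p

theorem tp1 {G P : Type u} [Group G] [Finite G] [MulAction G P] [Finite P] {p : ℕ} {D : Set G} {pt : G → P}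
    {r : P → P → Prop} (H : Hy p D) (h : H3.AS.Hy p D pt r) (ne : D.Nonempty) (k : ∀ a b, r a b → a = b) :
    H5.AS.Tp p Eq fun α => {a | a ∈ D ∧ pt a = α} := by
  refine ⟨⟨h.pp, h.p5, fun α => h.sur α, fun _ a ha => H.ord a ha.1, fun α a ha n hn => ⟨H.pw' ha.1 hn, ?_⟩,
    fun α a ha g => ⟨h.cj g a ha.1, ha.2 ▸ h.eqv g a ha.1⟩, fun _ => rfl, fun _ _ => Eq.symm, fun α β e a ha b hb =>
      (H3.rc h ha.1 hb.1).1 (by rw [ha.2, hb.2, e]; exact H3.rf h _), fun α β n a ha b hb => ?_, fun α β e => e α rfl⟩,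
    H3.fa h, h.tr, eq_top_iff.2 (h.gen ▸ (closure_le _).2 fun a ha =>
      mem_iSup_of_mem (pt a) (mem_iSup_of_mem trivial (subset_closure ⟨ha, rfl⟩))), ?_⟩
  · rw [← ha.2]; exact k _ _ ((H3.rc h (H.pw' ha.1 hn) ha.1).2 (Commute.zpow_self a n))
  · obtain ⟨K, _, _, φ, s, t, e⟩ := H.pr a ha.1 b hb.1 fun c => n (by
      rw [← ha.2, ← hb.2]; exact k _ _ ((H3.rc h ha.1 hb.1).2 c))
    exact ⟨K, _, ‹_›, e.ch, φ, e.gen⟩
  · by_contra! q
    obtain ⟨x, hx⟩ := ne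
    have c : ∀ y ∈ (⊤ : Subgroup G), ∀ z ∈ (⊤ : Subgroup G), Commute y z := h.gen ▸ fun y hy z hz =>
      comm_cl (fun s hs => (comm_cl (fun t ht => (H3.rc h hs ht).1 (by rw [q (pt s) (pt t)]; exact H3.rf h _)) hy).symm) hz
    have := h.sol ⊤ inferInstance (sol_of_ab ⟨⟨fun y z => Subtype.ext (c _ y.2 _ z.2)⟩⟩)
    exact (h.ord x hx).2 (mem_bot.1 (this ▸ mem_top x))

theorem fin (qq : H3.AS.QQ.{u}) (rr : H3.AS.RR.{u}) (fl : H3.AS.FL) (id : H3.AS.ID.{u}) (r1 : R1.{u})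
    {G : Type u} [Group G] [Finite G] (p : ℕ) (pp : p.Prime) (p5 : 5 ≤ p)
    (sol : ∀ M : Subgroup G, M.Normal → Group.IsSolvable M → M = ⊥) (A₀ : Subgroup G) (hA : Nat.card A₀ = p)
    (gen : (⨆ g : G, A₀.map (MulAut.conj g).toMonoidHom) = ⊤)
    (hp : ∀ g h : G, A₀.map (MulAut.conj g).toMonoidHom ≠ A₀.map (MulAut.conj h).toMonoidHom →
      Nonempty (↥(A₀.map (MulAut.conj g).toMonoidHom ⊔ A₀.map (MulAut.conj h).toMonoidHom) ≃*
        (Multiplicative (ZMod p) × Multiplicative (ZMod p))) ∨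
      ∃ (K : Type) (_ : Field K) (_ : Fintype K) (m : ℕ), 1 ≤ m ∧ Fintype.card K = p ^ m ∧
        (Nonempty (↥(A₀.map (MulAut.conj g).toMonoidHom ⊔ A₀.map (MulAut.conj h).toMonoidHom) ≃*
            Matrix.ProjectiveSpecialLinearGroup (Fin 2) K) ∨
          Nonempty (↥(A₀.map (MulAut.conj g).toMonoidHom ⊔ A₀.map (MulAut.conj h).toMonoidHom) ≃*
            Matrix.SpecialLinearGroup (Fin 2) K))) : H3.AS.Cn p G := by
  obtain ⟨H, zp⟩ := hy_of pp p5 A₀ hA hp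
  obtain ⟨ne, g, tr⟩ := dd_top pp hA gen zp
  letI := H.act
  have h := H.h3 ne g tr sol
  by_cases k : ∃ a b, rl ne a b ∧ a ≠ b
  · exact H3.AS.half ps fu qq rr fl id _ _ _ _ _ _ h k
  · push Not at k
    exact r1 _ _ p _ (tp1 H h ne k)

end H29.AS
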