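import Cfsg.Agent.H29.AS5

/-! S3235, rank at least two: the unipotent radicals (`QQ`). -/

set_option autoImplicit false
set_option linter.unusedSectionVars false
set_option linter.style.haveILetI false

namespace H29.AS

open Subgroup H19
open H3.AS (Ln Bp Pol Un PE PF)
universe u

variable {G P : Type*} [Group G] [MulAction G P] {p : ℕ} {D : Set G} {pt : G → P} {r : P → P → Prop}
  {a b c d d' s t : P} {x x' y y' v m w g z z' e : G}

def Zz (D : Set G) (pt : G → P) (a c : P) (z : G) : Prop := ∃ x ∈ D, ∃ y ∈ D, pt x = a ∧ pt y = c ∧ Bp x y ∧ z = zz x y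
/-- the affine part of a line -/
def Om (r : P → P → Prop) (a b s : P) : Prop := Ln r a b s ∧ s ≠ a
/-- the translation group -/
def Eg (D : Set G) (pt : G → P) (r : P → P → Prop) (a b : P) (y : G) : Subgroup G := closure {g | ∃ x ∈ D, ∃ x' ∈ D,
  Om r a b (pt x) ∧ Om r a b (pt x') ∧ Bp x y ∧ Bp x' y ∧ g = y * (x * x'⁻¹) * y⁻¹}
def Za (G : Type*) [Group G] [MulAction G P] (r : P → P → Prop) (a : P) : Subgroup G where
  carrier := {g | ∀ b, r a b → g • b = b}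
  one_mem' := fun _ _ => one_smul _ _
  mul_mem' := fun hx hy b k => by rw [mul_smul, hy b k, hx b k]
  inv_mem' := fun hx b k => inv_smul_eq_iff.2 (hx b k).symm
def Qa (D : Set G) (pt : G → P) (r : P → P → Prop) (a : P) : Subgroup G :=
  closure {g | ∃ c c' z z', Zz D pt a c z ∧ Zz D pt a c' z' ∧ g = z * z'} ⊔ Za G r a

theorem zz_cj (x y g : G) : g * zz x y * g⁻¹ = zz (g * x * g⁻¹) (g * y * g⁻¹) := by rw [zz, zz]; grp
theorem Zz.symm (k : Zz D pt a c z) : Zz D pt c a z :=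
  let ⟨x, hx, y, hy, e1, e2, k, e⟩ := k; ⟨y, hy, x, hx, e2, e1, bp_symm k, e.trans (br_zs k.1).symm⟩
theorem Zz.sq (k : Zz D pt a c z) : z * z = 1 := let ⟨_, _, _, _, _, _, k, e⟩ := k; e ▸ bp_z k
theorem Zz.inv (k : Zz D pt a c z) : z⁻¹ = z := inv_eq_of_mul_eq_one_right k.sq

structure HQ (p : ℕ) (D : Set G) (pt : G → P) (r : P → P → Prop) : Prop where
  h : H3.AS.Hy p D pt r
  H : Pol r
  f : ∀ g : G, (∀ a : P, g • a = a) → g = 1
  u : Un D pt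

/-- `y` has centre collinear with `a` only, on the line `ab` -/
structure Cf (D : Set G) (pt : G → P) (r : P → P → Prop) (a b : P) (y : G) : Prop where
  ab : r a b
  hy : y ∈ D
  ya : r (pt y) a
  yb : ¬ r (pt y) b

namespace HQ
variable [Finite P] (q : HQ p D pt r)
include q

theorem zcj (k : Zz D pt a c z) (g : G) : Zz D pt (g • a) (g • c) (g * z * g⁻¹) :=
  let ⟨x, hx, y, hy, e1, e2, k, e⟩ := k
  ⟨_, q.h.cj g x hx, _, q.h.cj g y hy, e1 ▸ q.h.eqv g x hx, e2 ▸ q.h.eqv g y hy, bp_cj k g, e ▸ zz_cj x y g⟩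
theorem znr (k : Zz D pt a c z) : ¬ r a c := let ⟨_, hx, _, hy, e1, e2, k, _⟩ := k; e1 ▸ e2 ▸ H3.nr q.h hx hy k
theorem zex (n : ¬ r a c) : ∃ z, Zz D pt a c z := by
  obtain ⟨y, hy, rfl⟩ := q.h.sur c
  obtain ⟨x, hx, rfl, k⟩ := q.h.br a y hy n
  exact ⟨_, x, hx, y, hy, rfl, rfl, k, rfl⟩
theorem zc (k : Zz D pt a c z) (hg : g ∈ D) (k1 : r (pt g) a) (k2 : r (pt g) c) : Commute z g := by
  obtain ⟨x, hx, y, hy, rfl, rfl, -, rfl⟩ := k
  have c1 := (H3.rc q.h hg hx).1 k1; have c2 := (H3.rc q.h hg hy).1 k2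
  exact (((c1.mul_right c2).mul_right c1).pow_right 2).symm
theorem zf (k : Zz D pt a c z) (k1 : r s a) (k2 : r s c) : z • s = s := by
  obtain ⟨g, hg, rfl⟩ := q.h.sur s; exact H3.fc q.h hg (q.zc k hg k1 k2)
theorem za (k : Zz D pt a c z) : z • a = a := by
  obtain ⟨x, hx, y, hy, rfl, rfl, k, rfl⟩ := k; exact H3.fc q.h hx (br_za k.1)
theorem prj (k : r a b) (n : a ≠ b) (n' : ¬ r a c) : ∃ t, Om r a b t ∧ r t c :=
  let ⟨t, t1, t2⟩ := q.H.one k n c; ⟨t, ⟨t1, fun e => n' (e ▸ t2)⟩, t2⟩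
/-- an element fixing `a` and mapping one point of the line into the line stabilizes it -/
theorem stab (k : r a b) (ga : g • a = a) (ht : Om r a b t) (gt : Ln r a b (g • t)) (l : Om r a b s) : Om r a b (g • s) := by
  have := (Ln.left.trans (q.H.ex k ht.1 ht.2) l.1).smul (H3.iv q.h) g
  rw [ga] at this
  exact ⟨Ln.left.trans gt this, fun e => l.2 (MulAction.injective g (e.trans ga.symm))⟩
theorem zom (k : Zz D pt a c z) (ab : r a b) (l : Om r a b s) : Om r a b (z • s) := by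
  obtain ⟨t, t1, t2⟩ := q.prj ab (fun e => l.2 (q.H.self (e ▸ l.1))) (q.znr k)
  exact q.stab ab (q.za k) t1 (by rw [q.zf k (q.H.symm (q.H.ra ab t1.1)) t2]; exact t1.1) l

section
variable (C : Cf D pt r a b y)
include C
theorem ne : a ≠ b := fun e => C.yb (e ▸ C.ya)
theorem ob : Om r a b b := ⟨.right, (q.ne C).symm⟩
theorem nr (l : Om r a b s) : ¬ r s (pt y) := fun k => C.yb (q.H.ex C.ab l.1 l.2 _ C.ya (q.H.symm k))
theorem par (l : Om r a b s) : ∃ x ∈ D, pt x = s ∧ Bp x y := q.h.br s y C.hy (q.nr C l)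
theorem fl (hx : x ∈ D) (l : Ln r a b (pt x)) (l' : Ln r a b s) : x • s = s := H3.fx q.h hx (q.H.rr C.ab l l')
theorem egen (hx : x ∈ D) (hx' : x' ∈ D) (l : Om r a b (pt x)) (l' : Om r a b (pt x')) (M : M1 p x y x' v m w) :
    (y * (x * x'⁻¹) * y⁻¹)⁻¹ • pt x = pt x' ∧ (y * (x * x'⁻¹) * y⁻¹) • pt x = v • pt x := by
  have e : x * x'⁻¹ = (m * w)⁻¹ := by rw [M.ec, mul_assoc x, ← (M.ma.mul_left M.da).eq]; group
  have e1 : (y * (x * x'⁻¹) * y⁻¹)⁻¹ = (x * x'⁻¹)⁻¹ * v⁻¹ * w := by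
    calc _ = (y * m * y⁻¹) * (y * w * y⁻¹) := by rw [e]; group
      _ = m * (v⁻¹ * w) * w := by rw [M.mb, ← M.db.eq]; group
      _ = _ := by rw [e, ← M.dx.inv_right.eq]; group
  have f : ∀ {s}, Ln r a b s → (x * x'⁻¹) • s = s := fun k => by
    rw [mul_smul, inv_smul_eq_iff.2 (q.fl C hx' l'.1 k).symm, q.fl C hx l.1 k]
  constructor
  · rw [e1, mul_smul, mul_smul, H3.fc q.h hx M.da, ← H3.eq' q.h hx, M.ax, inv_smul_eq_iff, f l'.1]
  · rw [← inv_inv (y * _ * _), e1, mul_inv_rev, mul_inv_rev, inv_inv, inv_inv, ← mul_assoc, M.dx.inv_left.eq, mul_smul,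
      f l.1, mul_smul, H3.fc q.h hx M.da.inv_left]
theorem exm (hx : x ∈ D) (hx' : x' ∈ D) (l : Om r a b (pt x)) (l' : Om r a b (pt x')) (k : Bp x y) (k' : Bp x' y) :
    ∃ v m w, M1 p x y x' v m w := H3.mm q.h hx hx' C.hy k k' ((H3.rc q.h hx hx').1 (q.H.rr C.ab l.1 l'.1))
theorem etr (l : Om r a b s) (l' : Om r a b t) : ∃ e ∈ Eg D pt r a b y, e • s = t := by
  obtain ⟨x, hx, rfl, k⟩ := q.par C l; obtain ⟨x', hx', rfl, k'⟩ := q.par C l'
  obtain ⟨v, m, w, M⟩ := q.exm C hx hx' l l' k k'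
  exact ⟨_, inv_mem (subset_closure ⟨x, hx, x', hx', l, l', k, k', rfl⟩), (q.egen C hx hx' l l' M).1⟩
theorem eab (he : e ∈ Eg D pt r a b y) (hg : g ∈ Eg D pt r a b y) : Commute e g := by
  refine comm_cl (fun s hs => (comm_cl (fun t ht => ?_) he).symm) hg
  obtain ⟨x1, h1, x2, h2, l1, l2, -, -, rfl⟩ := hs; obtain ⟨x3, h3, x4, h4, l3, l4, -, -, rfl⟩ := ht
  have c : ∀ {x x'}, x ∈ D → x' ∈ D → Om r a b (pt x) → Om r a b (pt x') → Commute x x' := fun h h' l l' =>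
    (H3.rc q.h h h').1 (q.H.rr C.ab l.1 l'.1)
  exact (((c h1 h3 l1 l3).mul_right (c h1 h4 l1 l4).inv_right).mul_left
    ((c h2 h3 l2 l3).mul_right (c h2 h4 l2 l4).inv_right).inv_left).conj y
theorem ep (he : e ∈ Eg D pt r a b y) : e ^ p = 1 := by
  induction he using closure_induction with
  | mem x hx =>
    obtain ⟨x1, h1, x2, h2, l1, l2, -, -, rfl⟩ := hx
    rw [conj_pow, ((H3.rc q.h h1 h2).1 (q.H.rr C.ab l1.1 l2.1)).inv_right.mul_pow]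
    simp [(q.h.ord _ h1).1, (q.h.ord _ h2).1]
  | one => simp
  | mul x y hx hy h1 h2 => rw [(q.eab C hx hy).mul_pow, h1, h2, one_mul]
  | inv x _ h1 => simp [h1]
theorem eom (he : e ∈ Eg D pt r a b y) (l : Om r a b s) : Om r a b (e • s) := by
  suffices e • a = a ∧ ∀ s, (Om r a b s → Om r a b (e • s)) ∧ (Om r a b s → Om r a b (e⁻¹ • s)) from (this.2 s).1 l
  induction he using closure_induction with
  | mem x hx =>
    obtain ⟨x, hx, x', hx', l, l', k, k', rfl⟩ := hx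
    obtain ⟨v, m, w, M⟩ := q.exm C hx hx' l l' k k'
    have ya := H3.fx q.h C.hy C.ya
    have fa : (y * (x * x'⁻¹) * y⁻¹) • a = a := by
      simp only [mul_smul, inv_smul_eq_iff.2 ya.symm, inv_smul_eq_iff.2 (q.fl C hx' l'.1 .left).symm, q.fl C hx l.1 .left, ya]
    have e := (q.egen C hx hx' l l' M).1
    exact ⟨fa, fun s => ⟨q.stab C.ab fa l' (by rw [← e, smul_inv_smul]; exact l.1),
      q.stab C.ab (inv_smul_eq_iff.2 fa.symm) l (e ▸ l'.1)⟩⟩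
  | one => simp
  | mul x y _ _ h1 h2 => exact ⟨by rw [mul_smul, h2.1, h1.1], fun s => ⟨fun l => mul_smul x y s ▸ (h1.2 _).1 ((h2.2 _).1 l),
      fun l => by rw [mul_inv_rev, mul_smul]; exact (h2.2 _).2 ((h1.2 _).2 l)⟩⟩
  | inv x _ h1 => exact ⟨inv_smul_eq_iff.2 h1.1.symm, fun s => ⟨(h1.2 s).2, by simpa using (h1.2 s).1⟩⟩
theorem eag (he : e ∈ Eg D pt r a b y) (hg : g ∈ Eg D pt r a b y) (l : Om r a b s) (k : e • s = g • s) (l' : Om r a b t) :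
    e • t = g • t := by
  obtain ⟨f, hf, rfl⟩ := q.etr C l l'
  rw [smul_smul, (q.eab C he hf).eq, mul_smul, k, smul_smul, smul_smul, (q.eab C hg hf).eq]
theorem half (l : Om r a b s) (l' : Om r a b t) : ∃ e ∈ Eg D pt r a b y, e • e • s = t := by
  obtain ⟨f, hf, rfl⟩ := q.etr C l l'
  obtain ⟨j, e⟩ := H3.root q.h (q.ep C hf) (n := 2) (H3.nd q.h (by decide) (by decide))
  exact ⟨f ^ j, zpow_mem hf j, by rw [smul_smul, ← zpow_two, ← zpow_mul, mul_comm, zpow_mul, e]⟩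
theorem t1 (hx : x ∈ D) (l : Om r a b (pt x)) (k : Bp x y) (he : e ∈ Eg D pt r a b y) : zz x y • e • pt x = e⁻¹ • pt x := by
  obtain ⟨x', hx', e', k'⟩ := q.par C (q.eom C he l)
  have l' : Om r a b (pt x') := e' ▸ q.eom C he l
  obtain ⟨v, m, w, M⟩ := q.exm C hx hx' l l' k k'
  obtain ⟨e1, e2⟩ := q.egen C hx hx' l l' M
  have m0 : y * (x * x'⁻¹) * y⁻¹ ∈ Eg D pt r a b y := subset_closure ⟨x, hx, x', hx', l, l', k, k', rfl⟩
  rw [← e', ← q.h.eqv _ _ hx', M.cz' k.1, q.h.eqv _ _ hx, ← e2, eq_inv_smul_iff,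
    q.eag C he (inv_mem m0) l (e'.symm.trans e1.symm) (q.eom C m0 l), inv_smul_smul]
theorem ecj {W : G} (hW : ∀ s, Om r a b s → Om r a b (W • s)) (he : e ∈ Eg D pt r a b y) :
    W * e * W⁻¹ ∈ Eg D pt r a b (W * y * W⁻¹) := by
  have : Eg D pt r a b y ≤ comap (MulAut.conj W).toMonoidHom (Eg D pt r a b (W * y * W⁻¹)) := (closure_le _).2 (by
    rintro _ ⟨x, hx, x', hx', l, l', k, k', rfl⟩
    exact subset_closure ⟨_, q.h.cj W x hx, _, q.h.cj W x' hx', q.h.eqv W x hx ▸ hW _ l, q.h.eqv W x' hx' ▸ hW _ l',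
      bp_cj k W, bp_cj k' W, by simp [mul_assoc]⟩)
  exact this he
end

theorem nf (k : Zz D pt a c z) (ab : r a b) (l : Om r a b s) (n : ¬ r s c) : z • s ≠ s := fun f => by
  obtain ⟨x, hx, y, hy, rfl, rfl, k, rfl⟩ := k
  obtain ⟨x', hx', rfl, k'⟩ := q.h.br s y hy n
  obtain ⟨v, m, w, M⟩ := H3.mm q.h hx hx' hy k k' ((H3.rc q.h hx hx').1 (q.H.ra ab l.1))
  have T := H3.tv q.h M hx l.2.symm
  rw [← q.h.eqv _ _ hx', M.cz' k.1, q.h.eqv _ _ hx, ← T.ab, eq_inv_smul_iff, smul_smul, ← zpow_two] at f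
  exact l.2 (by rw [← T.ab, inv_smul_eq_iff, H3.fpw q.h T.vp (H3.nd q.h (by decide) (by decide)) f])

theorem t2 (C : Cf D pt r a b y) (k : Zz D pt a c z) (yc : r (pt y) c) (l : Om r a b t) (tc : r t c)
    (he : e ∈ Eg D pt r a b y) : z • e • t = e⁻¹ • t := by
  have zt := q.zf k (q.H.symm (q.H.ra C.ab l.1)) tc
  have m := q.ecj C (fun s => q.zom k C.ab) he
  rw [(q.zc k C.hy C.ya yc).eq, mul_inv_cancel_right] at m
  have o := q.eom C (mul_mem he m) l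
  have f : z • (e * (z * e * z⁻¹)) • t = (e * (z * e * z⁻¹)) • t := by
    rw [(q.eab C he m).eq]; nth_rw 1 [← (q.eab C he m).eq, ← zt]
    rw [smul_smul, smul_smul]; congr 1
    calc _ = z * e * (z * e) * (z⁻¹ * z) := by group
      _ = _ := by rw [inv_mul_cancel, k.inv]; group
  have := q.H.uniq C.ab o.1 l.1 .left (mt q.H.symm (q.znr k)) (q.H.symm (by_contra fun n => q.nf k C.ab o n f)) (q.H.symm tc)
  rw [eq_inv_smul_iff, ← this]; simp only [mul_smul, inv_smul_eq_iff.2 zt.symm] at this ⊢; rw [this]; exact this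

theorem qcj (g : G) (hx : x ∈ Qa D pt r a) : g * x * g⁻¹ ∈ Qa D pt r (g • a) := by
  have : Qa D pt r a ≤ comap (MulAut.conj g).toMonoidHom (Qa D pt r (g • a)) := sup_le ((closure_le _).2 (by
    rintro _ ⟨c, c', z, z', k, k', rfl⟩
    exact mem_sup_left (subset_closure ⟨_, _, _, _, q.zcj k g, q.zcj k' g, by simp [mul_assoc]⟩))) fun x hx =>
      mem_sup_right fun b k => by
        have := hx (g⁻¹ • b) (by simpa using H3.iv q.h g⁻¹ k)
        simp [mul_smul, this]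
  exact this hx

theorem qom (hx : x ∈ Qa D pt r a) : x • a = a ∧ ∀ b, r a b → ∀ s, Om r a b s → Om r a b (x • s) := by
  let M : Subgroup G :=
    { carrier := {x | x • a = a ∧ ∀ b, r a b → ∀ s, Om r a b s ↔ Om r a b (x • s)}
      one_mem' := by simp
      mul_mem' := fun {x y} h1 h2 => ⟨by rw [mul_smul, h2.1, h1.1], fun b k s => by
        rw [mul_smul]; exact (h2.2 b k s).trans (h1.2 b k _)⟩
      inv_mem' := fun {x} h1 => ⟨inv_smul_eq_iff.2 h1.1.symm, fun b k s => by simpa using (h1.2 b k (x⁻¹ • s)).symm⟩ }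
  have zM : ∀ {c z}, Zz D pt a c z → z ∈ M := fun k => ⟨q.za k, fun b ab s => ⟨q.zom k ab, fun l => by
    simpa [smul_smul, k.sq] using q.zom k ab l⟩⟩
  have : Qa D pt r a ≤ M := sup_le ((closure_le _).2 (by
    rintro _ ⟨c, c', z, z', k, k', rfl⟩; exact mul_mem (zM k) (zM k'))) fun x hx => ⟨hx a (q.H.refl a), fun b ab s =>
      ⟨fun l => by rwa [hx s (q.H.ra ab l.1)], fun l => by
        have := hx _ (q.H.ra ab l.1); rwa [MulAction.injective x this] at l⟩⟩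
  exact ⟨(this hx).1, fun b k s => ((this hx).2 b k s).1⟩
theorem qln (hx : x ∈ Qa D pt r a) (k : r a b) : Ln r a b (x • b) := by
  by_cases e : b = a
  · rw [e, (q.qom hx).1]; exact .left
  · exact ((q.qom hx).2 b k b ⟨.right, e⟩).1

theorem wl (C : Cf D pt r a d x) (hy : y ∈ D) (hy' : y' ∈ D) (l : Om r a d (pt y)) (l' : Om r a d (pt y')) (k : Bp y x)
    (k' : Bp y' x) : ∃ W ∈ Qa D pt r a, Commute W x ∧ W⁻¹ * y * W = y' ∧ ∀ s, Ln r a (pt x) s → W • s = s := by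
  obtain ⟨f, hf, e⟩ := q.half C l l'
  have o := q.eom C hf l
  have ax : a ≠ pt x := fun e => C.yb (e ▸ C.ab)
  obtain ⟨c, c1, c2, c3⟩ := q.H.exr (q.H.symm C.ya) (mt q.H.symm (q.nr C o)) ax
  obtain ⟨z, Z⟩ := q.zex (mt q.H.symm c3)
  have := q.t2 C Z (q.H.symm c1) o (q.H.symm c2) (inv_mem hf)
  rw [inv_smul_smul, inv_inv, e] at this
  have zx := q.zc Z C.hy C.ya (q.H.symm c1)
  have ey : z * y * z⁻¹ = y' := q.u _ (q.h.cj z y hy) _ hy' x C.hy (by rw [q.h.eqv z y hy, this])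
    (by simpa [zx.eq] using bp_cj k z) k'
  have ya := H3.fx q.h hy (q.H.symm (q.H.ra C.ab l.1))
  have u : y * y'⁻¹ ∈ Qa D pt r a := mem_sup_left (subset_closure ⟨_, _, _, _, ya ▸ q.zcj Z y, Z, by
    rw [← ey, mul_inv_rev, mul_inv_rev, Z.inv, Z.inv]; grp⟩)
  obtain ⟨v, m, w, M⟩ := q.exm C hy hy' l l' k k'
  have e : y * y'⁻¹ = (m * w)⁻¹ := by rw [M.ec, mul_assoc y, ← (M.ma.mul_left M.da).eq]; group
  have e1 : x * (y * y'⁻¹) * x⁻¹ * (y * y'⁻¹)⁻¹ = w⁻¹ * v := by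
    calc _ = (x * w * x⁻¹)⁻¹ * (x * m * x⁻¹)⁻¹ * (m * w) := by rw [e]; group
      _ = w⁻¹ * w⁻¹ * (v * w) := by rw [M.mb, ← M.db.eq]; group
      _ = _ := by rw [← M.dx.eq]; group
  have xa := H3.fx q.h C.hy C.ya
  refine ⟨_, mul_mem (xa ▸ q.qcj x u) (inv_mem u), e1 ▸ M.db.inv_left.mul_left M.xb, ?_, fun s ls => ?_⟩
  · rw [e1, ← M.ax]
    calc _ = v⁻¹ * (w * y) * w⁻¹ * v := by group
      _ = _ := by rw [M.da.eq]; group
  · have i := q.qln u (q.H.symm C.ya)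
    have := H3.fx q.h (q.h.cj (y * y'⁻¹) x C.hy) (b := s) (by
      rw [q.h.eqv _ _ C.hy]; exact q.H.rr (q.H.symm C.ya) i ls)
    calc _ = x • ((y * y'⁻¹) * x * (y * y'⁻¹)⁻¹)⁻¹ • s := by rw [smul_smul]; congr 1; group
      _ = s := by rw [inv_smul_eq_iff.2 this.symm, H3.fx q.h C.hy (q.H.rb (q.H.symm C.ya) ls)]

theorem t3 (C : Cf D pt r a b y) (k : Zz D pt a c z) (l : Om r a b t) (tc : r t c) (he : e ∈ Eg D pt r a b y) :
    z • e • t = e⁻¹ • t := by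
  have ay : a ≠ pt y := fun e => C.yb (e ▸ C.ab)
  obtain ⟨d', o, dc⟩ := q.prj (q.H.symm C.ya) ay (q.znr k)
  obtain ⟨x, hx, rfl, kx⟩ := q.par C l
  have C' : Cf D pt r a (pt y) x := ⟨q.H.symm C.ya, hx, q.H.symm (q.H.ra C.ab l.1), q.nr C l⟩
  obtain ⟨y', hy', rfl, k'⟩ := q.par C' o
  obtain ⟨W, -, -, e1, f⟩ := q.wl C' hy' C.hy o (q.ob C') k' (bp_symm kx)
  have f' : ∀ s, Om r a b s → W • s = s := fun s l' => f s (Ln.left.trans (q.H.ex C.ab l.1 l.2) l'.1)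
  have m := q.ecj C (fun s l => (f' s l).symm ▸ l) he
  rw [← e1, show W * (W⁻¹ * y' * W) * W⁻¹ = y' by group] at m
  have := q.t2 ⟨C.ab, hy', q.H.symm (q.H.ra C'.ab o.1), fun n => q.nr C' o
    (q.H.symm (l.1 _ (q.H.symm (q.H.ra C'.ab o.1)) n |> q.H.symm) |> q.H.symm |> q.H.symm)⟩ k dc l tc m
  simp only [mul_inv_rev, inv_inv, mul_smul, inv_smul_eq_iff.2 (f' _ l).symm] at this
  rwa [f' _ (q.eom C he l), f' _ (q.eom C (inv_mem he) l)] at this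

theorem qe (C : Cf D pt r a b y) (hx : x ∈ Qa D pt r a) : ∃ e ∈ Eg D pt r a b y, ∀ s, Om r a b s → x • s = e • s := by
  let M : Subgroup G :=
    { carrier := {x | ∃ e ∈ Eg D pt r a b y, ∀ s, Om r a b s → x • s = e • s}
      one_mem' := ⟨1, one_mem _, fun _ _ => rfl⟩
      mul_mem' := fun ⟨e, he, h1⟩ ⟨f, hf, h2⟩ => ⟨e * f, mul_mem he hf, fun s l => by
        rw [mul_smul, h2 s l, h1 _ (q.eom C hf l), mul_smul]⟩
      inv_mem' := fun ⟨e, he, h1⟩ => ⟨e⁻¹, inv_mem he, fun s l => by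
        rw [inv_smul_eq_iff, h1 _ (q.eom C (inv_mem he) l), smul_inv_smul]⟩ }
  refine (sup_le ((closure_le _).2 ?_) fun x hx => ⟨1, one_mem _, fun s l => ?_⟩ : Qa D pt r a ≤ M) hx
  · rintro _ ⟨c, c', z, z', k, k', rfl⟩
    obtain ⟨t, l, tc⟩ := q.prj C.ab (q.ne C) (q.znr k); obtain ⟨t', l', tc'⟩ := q.prj C.ab (q.ne C) (q.znr k')
    obtain ⟨f, hf, rfl⟩ := q.etr C l' l
    refine ⟨f * f, mul_mem hf hf, fun s ls => ?_⟩
    obtain ⟨e, he, rfl⟩ := q.etr C l' ls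
    have := q.t3 C k l tc (inv_mem (mul_mem hf he))
    rw [mul_inv_rev, mul_smul, inv_smul_smul] at this
    rw [mul_smul, q.t3 C k' l' tc' he, this]
    simp only [mul_inv_rev, inv_inv, smul_smul]
    rw [mul_assoc, (q.eab C he hf).eq, mul_assoc]
  · rw [one_smul, hx s (q.H.ra C.ab l.1)]

theorem excf (k : r a b) (n : a ≠ b) : ∃ y, Cf D pt r a b y := by
  obtain ⟨d, d1, d2⟩ := q.H.exn n
  obtain ⟨y, hy, rfl⟩ := q.h.sur d
  exact ⟨y, k, hy, d1, d2⟩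

theorem pe : PE r (Qa D pt r) := by
  refine ⟨q.H, H3.iv q.h, q.f, fun g _ _ => q.qcj g, q.qln, fun {a b s x} hx k n e l => ?_,
    fun {a b d d'} k k' n l n' => ?_, fun {a b x y} hx hy k => ?_, fun h => mem_sup_right h⟩
  · by_cases e' : s = a
    · rw [e', (q.qom hx).1]
    obtain ⟨y, C⟩ := q.excf k n
    obtain ⟨f, hf, h⟩ := q.qe C hx
    rw [h s ⟨l, e'⟩, q.eag C hf (one_mem _) (q.ob C) (by rw [← h b (q.ob C), e, one_smul]) ⟨l, e'⟩, one_smul]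
  · obtain ⟨x, hx, rfl⟩ := q.h.sur b
    have C : Cf D pt r a d x := ⟨k', hx, q.H.symm k, n⟩
    obtain ⟨f, hf, rfl⟩ := q.half C (q.ob C) ⟨l, n'⟩
    have o := q.eom C hf (q.ob C)
    obtain ⟨y, hy, rfl, k1⟩ := q.par C (q.ob C); obtain ⟨y', hy', e, k2⟩ := q.par C o
    obtain ⟨W, hW, c, e1, -⟩ := q.wl C hy hy' (q.ob C) (e ▸ o) k1 k2
    have Z : Zz D pt (pt y) (pt x) (zz y x) := ⟨y, hy, x, hx, rfl, rfl, k1, rfl⟩
    have Z' : Zz D pt (pt y') (pt x) (zz y' x) := ⟨y', hy', x, hx, rfl, rfl, k2, rfl⟩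
    refine ⟨zz y' x * zz y x, ?_, mem_sup_left (subset_closure ⟨_, _, _, _, Z'.symm, Z.symm, rfl⟩), ?_⟩
    · have := zz_cj y x W⁻¹
      rw [inv_inv, e1, c.inv_left.eq, inv_mul_cancel_right] at this
      have i := mul_mem (inv_mem hW) (q.zf Z k' k ▸ q.qcj (zz y x) hW)
      rw [Z.inv] at i; rw [← this]; simpa [mul_assoc] using i
    · have := q.t1 C hy' (e ▸ o) k2 (inv_mem hf)
      rw [e, inv_smul_smul, inv_inv] at this
      rw [mul_smul, q.za Z, this]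
  · by_cases n : a = b
    · rw [← n, (q.qom (mul_mem hx hy)).1, (q.qom (mul_mem hy hx)).1]
    obtain ⟨w, C⟩ := q.excf k n
    obtain ⟨e, he, h1⟩ := q.qe C hx; obtain ⟨f, hf, h2⟩ := q.qe C hy
    have o := q.ob C
    rw [mul_smul, mul_smul, h2 _ o, h1 _ o, h1 _ (q.eom C hf o), h2 _ (q.eom C he o), smul_smul, smul_smul, (q.eab C he hf).eq]

theorem pf : PF p r (Qa D pt r) := by
  have E := q.pe
  refine ⟨E, fun {g e f} ge gf ef => ?_, fun a => ?_, eq_top_iff.2 (q.h.gen ▸ (closure_le _).2 fun x hx =>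
    mem_iSup_of_mem (pt x) (E.z fun b k => H3.fx q.h hx k))⟩
  · by_contra! cm
    have n1 : g ≠ e := fun k => ef (k ▸ gf)
    have n2 : g ≠ f := fun k => ef (q.H.symm (k ▸ ge))
    obtain ⟨x, hx, rfl⟩ := q.h.sur e
    obtain ⟨t, t1, t2, t3⟩ := q.H.thick ge n1
    obtain ⟨ρ, r1, r2, rfl⟩ := E.q3 gf ge (mt q.H.symm ef) t1 t2
    have xg := H3.fx q.h hx (q.H.symm ge)
    have hc : x * ρ * x⁻¹ * ρ⁻¹ ∈ Qa D pt r g := mul_mem (E.nrm xg r1) (inv_mem r1)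
    obtain ⟨σ, s1, s2, s3⟩ := E.q3 ge gf ef (E.ln hc gf) fun k => n2 (MulAction.injective _ ((E.fa hc).trans k.symm))
    have c3 := mul_mem (inv_mem s1) hc
    set c := σ⁻¹ * (x * ρ * x⁻¹ * ρ⁻¹) with ec
    have cf : c • f = f := by rw [ec, mul_smul, ← s3, inv_smul_smul]
    have : c * ρ * c⁻¹ * ρ⁻¹ = 1 := E.zq (mul_mem (E.nrm cf r2) (inv_mem r2)) (fun s k => by
      have k' : r g ((c⁻¹ * ρ⁻¹) • s) := by
        simpa [E.fa (mul_mem (inv_mem c3) (inv_mem r1))] using E.inv (c⁻¹ * ρ⁻¹) k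
      rw [mul_assoc, mul_smul, E.ab c3 r1 k', smul_smul]; simp) n2
    have cc : Commute ρ (σ * c) := Commute.mul_right (cm _ _ s1 s2 r1 r2).symm (by
      rw [mul_inv_eq_one, mul_inv_eq_iff_eq_mul] at this; exact this.symm)
    rw [ec, mul_inv_cancel_left] at cc
    have h1 := q.h.cj ρ x hx; have h2 := q.h.cj ρ _ h1
    have x1 : Commute x (ρ * x * ρ⁻¹) := (H3.rc q.h hx h1).1 (q.h.eqv ρ x hx ▸ q.H.rb ge t1)
    have e2 : ρ * (ρ * x * ρ⁻¹) * ρ⁻¹ = (ρ * x * ρ⁻¹) ^ 2 * x⁻¹ := by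
      calc _ = (ρ * (x * ρ * x⁻¹ * ρ⁻¹) * ρ⁻¹)⁻¹ * (ρ * x * ρ⁻¹) := by grp
        _ = (ρ * x * ρ⁻¹) * (x⁻¹ * (ρ * x * ρ⁻¹)) := by rw [cc.eq]; group
        _ = _ := by rw [x1.inv_left.eq]; grp
    obtain ⟨k, k1, k2⟩ := q.H.exn n1.symm
    obtain ⟨s, hs, rfl⟩ := q.h.sur k
    have sx := (H3.rc q.h hs hx).1 k1
    have m1 : ¬ Commute s (ρ * x * ρ⁻¹) := fun c => k2 (q.H.span ge .right t1 t3.symm .left _ k1
      (q.h.eqv ρ x hx ▸ (H3.rc q.h hs h1).2 c))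
    refine (q.h.ord x hx).2 (inv_eq_one.1 (q.h.tk s hs _ h1 _ h2 2 x⁻¹ m1 (fun c => m1 ?_) e2 sx.symm.inv_left
      x1.inv_left (by simp [(q.h.ord x hx).1])))
    rw [e2] at c
    exact H3.cpw q.h (q.h.ord _ h1).1 (n := 2) (H3.nd q.h (by decide) (by decide)) (by
      simpa [zpow_ofNat] using (Commute.mul_right c sx))
  · obtain ⟨x, hx, rfl⟩ := q.h.sur a
    exact ⟨x, (q.h.ord x hx).2, (q.h.ord x hx).1, fun b k => H3.fx q.h hx k⟩
end HQ

theorem qq : H3.AS.QQ.{u} := fun _ _ _ _ _ _ _ _ _ _ h H f u => ⟨_, HQ.pf ⟨h, H, f, u⟩⟩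

end H29.AS
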