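import Cfsg.Agent.H3.AS0

/-! S3235, rank at least two: root groups attached to a frame of the polar space. -/

set_option autoImplicit false
set_option linter.unusedSectionVars false

namespace H29.AS

open Subgroup H19 H3.TB
open H3.AS (Ln Pol PE PF)

variable {G P : Type*} [Group G] [MulAction G P] {p : ℕ} {r : P → P → Prop} {Q : P → Subgroup G} {S : Set P}
  {a b c d a' b' j t : P} {x y m : G}

/-- a maximal frame -/
structure Fm (p : ℕ) (r : P → P → Prop) (Q : P → Subgroup G) (S : Set P) : Prop extends PF p r Q where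
  un : ∀ {a b c}, a ∈ S → b ∈ S → c ∈ S → ¬ r a b → ¬ r a c → b = c
  op : ∀ a ∈ S, ∃ b ∈ S, ¬ r a b
  mx : ∀ w, ∃ j ∈ S, ¬ r j w

def XX (r : P → P → Prop) (Q : P → Subgroup G) (S : Set P) (a : P) : Subgroup G where
  carrier := {x | x ∈ Q a ∧ ∀ j ∈ S, r a j → x • j = j}
  one_mem' := ⟨one_mem _, fun _ _ _ => one_smul _ _⟩
  mul_mem' := fun h k => ⟨mul_mem h.1 k.1, fun j hj l => by rw [mul_smul, k.2 j hj l, h.2 j hj l]⟩
  inv_mem' := fun h => ⟨inv_mem h.1, fun j hj l => inv_smul_eq_iff.2 (h.2 j hj l).symm⟩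
def RR (Q : P → Subgroup G) (a b : P) : Subgroup G := Q a ⊓ Q b
def Pm (S : Set P) (m : G) : Prop := ∀ j ∈ S, m • j ∈ S ∧ m⁻¹ • j ∈ S
omit [MulAction G P] in
theorem RR_comm : RR Q a b = RR Q b a := inf_comm _ _
theorem fix_inv (h : x • a = a) : x⁻¹ • a = a := inv_smul_eq_iff.2 h.symm
theorem fix_mul (h : x • a = a) (k : y • a = a) : (x * y) • a = a := by rw [mul_smul, k, h]
theorem fix_cm (h : x • a = a) (k : y • a = a) : (x⁻¹ * y⁻¹ * x * y) • a = a :=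
  fix_mul (fix_mul (fix_mul (fix_inv h) (fix_inv k)) h) k
theorem cm_one (h : x⁻¹ * y⁻¹ * x * y = 1) : x * y = y * x := by
  calc _ = y * x * (x⁻¹ * y⁻¹ * x * y) := by group
    _ = _ := by rw [h, mul_one]
theorem cm_inv (x y : G) : x⁻¹ * y⁻¹ * x * y = (y⁻¹ * x⁻¹ * y * x)⁻¹ := by group

def U4 (r : P → P → Prop) (Q : P → Subgroup G) (S : Set P) (s : ℤ → P) (i : ℤ) : Subgroup G :=
  if i % 2 = 1 then XX r Q S (s (i / 2)) else RR Q (s (i / 2 - 1)) (s (i / 2))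
def U3 (Q : P → Subgroup G) (s : ℤ → P) (i : ℤ) : Subgroup G := RR Q (s (i - 1)) (s i)
theorem U4o {s : ℤ → P} {i k : ℤ} (e : i = 2 * k + 1) : U4 r Q S s i = XX r Q S (s k) := by
  rw [U4, if_pos (by omega)]; congr 2; omega
theorem U4e {s : ℤ → P} {i k l : ℤ} (e : i = 2 * k + 2) (e' : l = k + 1) : U4 r Q S s i = RR Q (s k) (s l) := by
  rw [U4, if_neg (by omega)]; congr 2 <;> omega
theorem U3e {s : ℤ → P} {i k l : ℤ} (e : k = i - 1) (e' : l = i) : U3 Q s i = RR Q (s k) (s l) := by rw [e, e', U3]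

theorem pg_of {n : ℕ} {U : ℤ → Subgroup G} (three : 3 ≤ n) (per : ∀ i, U (i + 2 * n) = U i) (ne : ∀ i, U i ≠ ⊥)
    (comm : ∀ i j : ℤ, i < j → j < i + n → ∀ a ∈ U i, ∀ b ∈ U j, a⁻¹ * b⁻¹ * a * b ∈ seg U (i + 1) (j - 1))
    (mu : ∀ i, ∀ a ∈ U i, a ≠ 1 → ∃ k ∈ U (i + n), ∃ l ∈ U (i + n), Mu n U i (k * a * l))
    (free : ∀ i, U i ⊓ seg U (i + 1) (i + n - 1) = ⊥) : Pg n U :=
  ⟨three, per, ne, fun i j h1 h2 => comm i j (by omega) (by omega), mu, free⟩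

namespace Fm
variable (F : Fm p r Q S)
include F

theorem cl (hx : x ∈ Q a) (hy : y • a = a) : x⁻¹ * y⁻¹ * x * y ∈ Q a := by
  simpa [mul_assoc] using mul_mem (inv_mem hx) (F.nrm (fix_inv hy) hx)
theorem cr (hx : x • a = a) (hy : y ∈ Q a) : x⁻¹ * y⁻¹ * x * y ∈ Q a := cm_inv x y ▸ inv_mem (F.cl hy hx)
theorem cz (hx : x ∈ Q a) (hy : y ∈ Q a) (b : P) (k : r a b) : (x⁻¹ * y⁻¹ * x * y) • b = b := by
  rw [mul_assoc, mul_smul, F.ab hx hy k, smul_smul]; simp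
theorem rel (ha : a ∈ S) (ha' : a' ∈ S) (n : ¬ r a a') (hj : j ∈ S) (e : j ≠ a') : r a j :=
  by_contra fun k => e (F.un ha hj ha' k n)
theorem rel' (ha : a ∈ S) (ha' : a' ∈ S) (n : ¬ r a a') (hj : j ∈ S) (e : j ≠ a) : r a' j :=
  F.rel ha' ha (mt F.symm n) hj e
theorem rfx (ha : a ∈ S) (hb : b ∈ S) (ab : a ≠ b) (hx : x ∈ RR Q a b) (hj : j ∈ S) (k : r a j) (l : r b j) : x • j = j := by
  by_contra n
  have ja : j ≠ a := by rintro rfl; exact n (F.fa hx.1)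
  have jb : j ≠ b := by rintro rfl; exact n (F.fa hx.2)
  obtain ⟨b', hb', o⟩ := F.op b hb
  have l1 := F.ex (F.symm l) (F.ln hx.2 l).swap n
  exact o (F.symm (l1 b' (F.rel' hb hb' o hj jb) (F.ln hx.1 k b' (F.rel' hb hb' o ha ab) (F.rel' hb hb' o hj jb))))
theorem qcj (m : G) (a : P) : Cj (Q a) (Q (m⁻¹ • a)) m := fun x =>
  ⟨fun h => by simpa using F.eqv m⁻¹ h, fun h => by simpa [mul_assoc] using F.eqv m h⟩
theorem rcj (m : G) (e : m⁻¹ • a = c) (e' : m⁻¹ • b = d) : Cj (RR Q a b) (RR Q c d) m := e ▸ e' ▸ (F.qcj m a).inf (F.qcj m b)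
theorem xcj (hm : Pm S m) (e : m⁻¹ • a = c) : Cj (XX r Q S a) (XX r Q S c) m := e ▸ fun x => and_congr (F.qcj m a x)
  ⟨fun h j hj k => by
    rw [mul_smul, mul_smul, h _ (hm j hj).1 (by simpa using F.inv m k), inv_smul_smul],
  fun h j hj k => by
    have := h _ (hm j hj).2 (F.inv m⁻¹ k)
    rwa [mul_smul, mul_smul, smul_inv_smul, smul_left_cancel_iff] at this⟩
theorem xex (a : P) : ∃ x ∈ XX r Q S a, x ≠ 1 ∧ x ^ p = 1 :=
  let ⟨x, h1, h2, h⟩ := F.pz a; ⟨x, ⟨F.z h, fun j _ k => h j k⟩, h1, h2⟩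
theorem xne (a : P) : XX r Q S a ≠ ⊥ := fun e => let ⟨_, h, n, _⟩ := F.xex a; n (mem_bot.1 (e ▸ h))
theorem rne (ha : a ∈ S) (hb : b ∈ S) (ab : a ≠ b) (k : r a b) : RR Q a b ≠ ⊥ := fun e => by
  obtain ⟨b', hb', o⟩ := F.op b hb
  have k' := F.symm (F.rel' hb hb' o ha ab)
  obtain ⟨t, t1, t2, t3⟩ := F.thick k' fun e => o (e ▸ F.symm k)
  obtain ⟨x, x1, x2, x3⟩ := F.q3 k k' o t1 t2
  have : x ∈ RR Q a b := ⟨x1, x2⟩
  rw [e, mem_bot] at this
  exact t3 (by rw [← x3, this, one_smul])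
theorem mx' (ha : a ∈ S) (ha' : a' ∈ S) (n : ¬ r a a') (h : ∀ j ∈ S, r a j → r a' j → r j t) (l : r a' t) :
    t = a' := by
  by_contra e
  obtain ⟨w, w1, w2⟩ := F.one l (Ne.symm e) a
  obtain ⟨j, hj, o⟩ := F.mx w
  by_cases e1 : j = a
  · exact o (e1 ▸ F.symm w2)
  by_cases e2 : j = a'
  · exact o (e2 ▸ F.ra l w1)
  exact o (w1 j (F.symm (F.rel' ha ha' n hj e1)) (h j hj (F.rel ha ha' n hj e2) (F.rel' ha ha' n hj e1)))

theorem mul (ha : a ∈ S) (ha' : a' ∈ S) (n : ¬ r a a') (hx : x ∈ XX r Q S a) (x1 : x ≠ 1) : ∃ k ∈ XX r Q S a', ∃ l ∈ XX r Q S a',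
    Pm S (k * x * l) ∧ (k * x * l)⁻¹ • a = a' ∧ (k * x * l)⁻¹ • a' = a ∧ ∀ j ∈ S, r a j → r a' j → (k * x * l)⁻¹ • j = j := by
  have key : ∀ x ∈ XX r Q S a, x ≠ 1 → ∃ k ∈ XX r Q S a', k • a = x • a' := fun x hx x1 => by
    have h : ∀ j ∈ S, r a j → r a' j → r j (x • a') := fun j hj k l => by
      simpa [hx.2 j hj k] using F.inv x (F.symm l)
    obtain ⟨k, hk, e⟩ := F.tr (mt F.symm n) fun l => x1 (F.sr hx.1 n (F.mx' ha ha' n h l))
    refine ⟨k, ⟨hk, fun j hj l => ?_⟩, e⟩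
    by_cases e1 : j = a'
    · rw [e1, F.fa hk]
    · exact F.fj hk (mt F.symm n) l (F.rel ha ha' n hj e1) (e ▸ F.symm (h j hj (F.rel ha ha' n hj e1) l))
  obtain ⟨k, hk, e⟩ := key x hx x1
  obtain ⟨l, hl, e'⟩ := key x⁻¹ (inv_mem hx) (inv_ne_one.2 x1)
  have e1 : (k⁻¹ * x * l) • a = a' := by rw [mul_smul, mul_smul, e', smul_inv_smul, fix_inv (F.fa hk.1)]
  have e2 : (k⁻¹ * x * l) • a' = a := by rw [mul_smul, mul_smul, F.fa hl.1, ← e, inv_smul_smul]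
  have e3 : ∀ j ∈ S, r a j → r a' j → (k⁻¹ * x * l) • j = j := fun j hj h h' =>
    fix_mul (fix_mul (fix_inv (hk.2 j hj h')) (hx.2 j hj h)) (hl.2 j hj h')
  refine ⟨_, inv_mem hk, l, hl, fun j hj => ?_, inv_smul_eq_iff.2 e2.symm, inv_smul_eq_iff.2 e1.symm,
    fun j hj h h' => fix_inv (e3 j hj h h')⟩
  by_cases q1 : j = a
  · rw [q1, e1, inv_smul_eq_iff.2 e2.symm]; exact ⟨ha', ha'⟩
  by_cases q2 : j = a'
  · rw [q2, e2, inv_smul_eq_iff.2 e1.symm]; exact ⟨ha, ha⟩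
  have := e3 j hj (F.rel ha ha' n hj q2) (F.rel' ha ha' n hj q1)
  rw [this, fix_inv this]; exact ⟨hj, hj⟩

theorem mus (ha : a ∈ S) (hb : b ∈ S) (ha' : a' ∈ S) (hb' : b' ∈ S) (na : ¬ r a a') (nb : ¬ r b b') (ab : a ≠ b) (k : r a b)
    (hx : x ∈ RR Q a b) (x1 : x ≠ 1) : ∃ k ∈ RR Q a' b', ∃ l ∈ RR Q a' b', Pm S (k * x * l) ∧ (k * x * l)⁻¹ • a = b' ∧
      (k * x * l)⁻¹ • b' = a ∧ (k * x * l)⁻¹ • b = a' ∧ (k * x * l)⁻¹ • a' = b ∧
      ∀ j ∈ S, r a j → r a' j → r b j → r b' j → (k * x * l)⁻¹ • j = j := by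
  have k1 : r b' a := F.rel' hb hb' nb ha ab
  have k2 : r a' b := F.rel' ha ha' na hb ab.symm
  have ab' : a' ≠ b' := fun e => ab (F.un ha' ha hb (mt F.symm na) (e ▸ mt F.symm nb))
  have k3 : r b' a' := F.rel' hb hb' nb ha' fun e => na (e ▸ k)
  have key : ∀ x ∈ RR Q a b, x ≠ 1 → ∃ k ∈ RR Q a' b', k • a = x • b' := fun x hx x1 => by
    obtain ⟨y, y1, y2, e⟩ := F.q3 k3 k1 (mt F.symm na) (F.ln hx.1 (F.symm k1)).swap fun e => x1 (F.sr hx.2 nb e)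
    exact ⟨y, ⟨y2, y1⟩, e⟩
  obtain ⟨u, hu, e⟩ := key x hx x1
  obtain ⟨l, hl, e'⟩ := key x⁻¹ (inv_mem hx) (inv_ne_one.2 x1)
  have e1 : (u⁻¹ * x * l) • a = b' := by rw [mul_smul, mul_smul, e', smul_inv_smul, fix_inv (F.fa hu.2)]
  have e2 : (u⁻¹ * x * l) • b' = a := by rw [mul_smul, mul_smul, F.fa hl.2, ← e, inv_smul_smul]
  have st : ∀ t, Ln r a' b t → Ln r a' b ((u⁻¹ * x * l) • t) := fun t h => by
    have h1 := Ln.left.trans h (F.ln hl.1 (F.ra k2 h))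
    have h2 := Ln.right.trans h1 (F.ln hx.2 (F.rb k2 h1))
    rw [mul_smul, mul_smul]; exact Ln.left.trans h2 (F.ln (inv_mem hu.1) (F.ra k2 h2))
  have e3 : (u⁻¹ * x * l) • b = a' := F.uniq k2 (st b .right) .left .right (mt F.symm nb) (e1 ▸ F.inv _ k) k3
  have e4 : (u⁻¹ * x * l) • a' = b := F.uniq k2 (st a' .left) .right .left na (e2 ▸ F.inv _ k3) k
  have e5 : ∀ j ∈ S, r a j → r a' j → r b j → r b' j → (u⁻¹ * x * l) • j = j := fun j hj h1 h2 h3 h4 =>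
    fix_mul (fix_mul (fix_inv (F.rfx ha' hb' ab' hu hj h2 h4)) (F.rfx ha hb ab hx hj h1 h3)) (F.rfx ha' hb' ab' hl hj h2 h4)
  refine ⟨_, inv_mem hu, l, hl, fun j hj => ?_, inv_smul_eq_iff.2 e2.symm, inv_smul_eq_iff.2 e1.symm,
    inv_smul_eq_iff.2 e4.symm, inv_smul_eq_iff.2 e3.symm, fun j hj h1 h2 h3 h4 => fix_inv (e5 j hj h1 h2 h3 h4)⟩
  by_cases q1 : j = a
  · rw [q1, e1, inv_smul_eq_iff.2 e2.symm]; exact ⟨hb', hb'⟩
  by_cases q2 : j = a'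
  · rw [q2, e4, inv_smul_eq_iff.2 e3.symm]; exact ⟨hb, hb⟩
  by_cases q3 : j = b
  · rw [q3, e3, inv_smul_eq_iff.2 e4.symm]; exact ⟨ha', ha'⟩
  by_cases q4 : j = b'
  · rw [q4, e2, inv_smul_eq_iff.2 e1.symm]; exact ⟨ha, ha⟩
  have := e5 j hj (F.rel ha ha' na hj q2) (F.rel' ha ha' na hj q1) (F.rel hb hb' nb hj q4) (F.rel' hb hb' nb hj q3)
  rw [this, fix_inv this]; exact ⟨hj, hj⟩

theorem c0 (ab : a ≠ b) (hx : x ∈ Q a) (xb : x • b = b) (hy : y ∈ RR Q a b) : x⁻¹ * y⁻¹ * x * y = 1 :=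
  F.zq (F.cr xb hy.2) (F.cz hx hy.1) ab
theorem c2 (hx : x ∈ XX r Q S a) (hy : y ∈ XX r Q S b) (ha : a ∈ S) (hb : b ∈ S) (k : r a b) :
    x⁻¹ * y⁻¹ * x * y ∈ RR Q a b := ⟨F.cl hx.1 (hy.2 a ha (F.symm k)), F.cr (hx.2 b hb k) hy.1⟩
theorem c3 (hx : x ∈ Q a) (hy : y ∈ Q a) : x⁻¹ * y⁻¹ * x * y ∈ XX r Q S a :=
  ⟨F.z (F.cz hx hy), fun j _ => F.cz hx hy j⟩
theorem c4 (ha : a ∈ S) (ha' : a' ∈ S) (hb : b ∈ S) (n : ¬ r a a') (k : r a b) (k' : r a' b) (hx : x ∈ XX r Q S a)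
    (hy : y ∈ RR Q b a') : x⁻¹ * y⁻¹ * x * y ∈ RR Q a b ⊔ XX r Q S b := by
  have ab : a ≠ b := fun e => n (F.symm (e ▸ k'))
  have ab' : b ≠ a' := fun e => n (e ▸ k)
  have hc := F.cr (hx.2 b hb k) hy.1
  obtain ⟨b', hb', o⟩ := F.op b hb
  have ca : (x⁻¹ * y⁻¹ * x * y) • a = a := by
    have h1 : x • b = b := hx.2 b hb k
    have h2 := F.q2 hx.1 k ab h1 (F.ln hy.1 (F.symm k)).swap
    rw [mul_smul, mul_smul, h2, mul_smul, inv_smul_smul, fix_inv (F.fa hx.1)]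
  obtain ⟨ρ, r1, r2, e⟩ := F.q3 (F.symm k) (F.symm k') n (F.ln hc (F.symm k')) fun e =>
    ab' (MulAction.injective _ ((F.fa hc).trans e.symm))
  rw [← mul_inv_cancel_left ρ (_ * y)]
  refine mul_mem_sup ⟨r2, r1⟩ ⟨mul_mem (inv_mem r1) hc, fun j hj l => ?_⟩
  by_cases q1 : j = a
  · exact q1 ▸ fix_mul (fix_inv (F.fa r2)) ca
  by_cases q2 : j = a'
  · rw [q2, mul_smul, ← e, inv_smul_smul]
  exact fix_mul (fix_inv (F.rfx ha hb ab ⟨r2, r1⟩ hj (F.rel ha ha' n hj q2) l))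
    (fix_cm (hx.2 j hj (F.rel ha ha' n hj q2)) (F.rfx hb ha' ab' hy hj l (F.rel' ha ha' n hj q1)))
theorem dis (ha : a ∈ S) (ha' : a' ∈ S) (hb : b ∈ S) (hc : c ∈ S) (n : ¬ r a a') (bc : b ≠ c) (k1 : r b a) (k2 : r c a)
    (k3 : r b a') (k4 : r c a') (hx : x ∈ Q a) (xb : x • b = b) (xc : x • c = c) (hy : y ∈ RR Q b c) : x * y = y * x :=
  cm_one (F.sr (F.cl hx (F.rfx hb hc bc hy ha k1 k2)) n (F.rfx hb hc bc ⟨F.cr xb hy.1, F.cr xc hy.2⟩ ha' k3 k4))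

theorem refl_of {s : ℤ → P} (d : ℕ) (d0 : 0 < d) (hs : ∀ i, s i ∈ S) (ho : ∀ i, ¬ r (s i) (s (i + d))) (hm : Pm S m) (c k : ℤ)
    (h : ∀ i, k ≤ i → i < k + d → m⁻¹ • s i = s (c - i)) (i : ℤ) : m⁻¹ • s i = s (c - i) := by
  have up : ∀ i, m⁻¹ • s i = s (c - i) → m⁻¹ • s (i + d) = s (c - (i + d)) := fun i e =>
    F.un (hs (c - i)) (hm _ (hs _)).2 (hs _) (e ▸ mt (F.iff _).1 (ho i)) (by
      have := ho (c - (i + d)); rw [show c - (i + d) + d = c - i by ring] at this; exact mt F.symm this)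
  have dn : ∀ i, m⁻¹ • s (i + d) = s (c - (i + d)) → m⁻¹ • s i = s (c - i) := fun i e =>
    F.un (hs (c - (i + d))) (hm _ (hs _)).2 (hs _) (e ▸ mt (F.iff _).1 (mt F.symm (ho i))) (by
      have := ho (c - (i + d)); rwa [show c - (i + d) + d = c - i by ring] at this)
  have : ∀ q : ℤ, ∀ i, k ≤ i → i < k + d → m⁻¹ • s (i + d * q) = s (c - (i + d * q)) := fun q => by
    induction q using Int.induction_on with
    | zero => simpa using h
    | succ q ih => exact fun i h1 h2 => by simpa [mul_add, add_assoc] using up _ (ih i h1 h2)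
    | pred q ih => exact fun i h1 h2 => dn _ (by convert ih i h1 h2 using 3 <;> ring)
  have e := Int.emod_add_mul_ediv (i - k) d
  have h1 := Int.emod_nonneg (i - k) (b := d) (by omega)
  have h2 := Int.emod_lt_of_pos (i - k) (b := d) (by omega)
  have := this ((i - k) / d) (k + (i - k) % d) (by omega) (by omega)
  rwa [show k + (i - k) % d + d * ((i - k) / d) = i by omega] at this

theorem pg4 {s : ℤ → P} (hs : ∀ i, s i ∈ S) (ho : ∀ i, ¬ r (s i) (s (i + 2))) (hr : ∀ i, r (s i) (s (i + 1))) :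
    Pg 4 (U4 r Q S s) := by
  have o : ∀ {i j}, j = i + 2 → ¬ r (s i) (s j) := fun e => e ▸ ho _
  have a : ∀ {i j}, j = i + 1 → r (s i) (s j) := fun e => e ▸ hr _
  have pe : ∀ {i j}, j = i + 4 → s j = s i := fun {i j} e => F.un (hs (i + 2)) (hs _) (hs _) (o (by omega)) (mt F.symm (o rfl))
  have ne : ∀ {i j}, j = i + 1 → s i ≠ s j := fun {i j} e e' => o (i := i) rfl (e' ▸ a (by omega))
  have mu : ∀ c m, Pm S m → (∀ i, m⁻¹ • s i = s (c - i)) → ∀ i j, j = 2 * c + 2 - i → Cj (U4 r Q S s i) (U4 r Q S s j) m :=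
    fun c m hm h i j e => by
      obtain ⟨k, rfl | rfl⟩ : ∃ k, i = 2 * k + 1 ∨ i = 2 * k + 2 := ⟨(i - 1) / 2, by omega⟩
      · rw [U4o rfl, U4o (k := c - k) (by omega)]; exact F.xcj hm (h k)
      · rw [U4e rfl rfl, U4e (k := c - (k + 1)) (l := c - k) (by omega) (by omega), RR_comm]; exact F.rcj m (h _) (h _)
  have lx : ∀ k i j, i ≤ 2 * k + 1 → 2 * k + 1 ≤ j → XX r Q S (s k) ≤ seg (U4 r Q S s) i j := fun k i j h1 h2 =>
    (U4o rfl).ge.trans (le_seg h1 h2)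
  have lr : ∀ k l i j, l = k + 1 → i ≤ 2 * k + 2 → 2 * k + 2 ≤ j → RR Q (s k) (s l) ≤ seg (U4 r Q S s) i j :=
    fun k l i j e h1 h2 => (U4e rfl e).ge.trans (le_seg h1 h2)
  refine pg_of (by norm_num) (fun i => ?_) (fun i => ?_) (fun i j h1 h2 x hx y hy => ?_) (fun i x hx x1 => ?_) (fun i => ?_) <;>
    obtain ⟨k, rfl | rfl⟩ : ∃ k, i = 2 * k + 1 ∨ i = 2 * k + 2 := ⟨(i - 1) / 2, by omega⟩
  · rw [U4o rfl, U4o (k := k + 4) (by push_cast; omega), pe rfl]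
  · rw [U4e rfl rfl, U4e (k := k + 4) (l := k + 1 + 4) (by push_cast; omega) (by omega), pe rfl, pe rfl]
  · rw [U4o rfl]; exact F.xne _
  · rw [U4e rfl rfl]; exact F.rne (hs _) (hs _) (ne rfl) (a rfl)
  · rw [U4o rfl] at hx
    obtain rfl | rfl | rfl : j = 2 * k + 2 ∨ j = 2 * (k + 1) + 1 ∨ j = 2 * (k + 1) + 2 := by push_cast at h2; omega
    · rw [U4e rfl rfl] at hy; rw [F.c0 (ne rfl) hx.1 (hx.2 _ (hs _) (a rfl)) hy]; exact one_mem _
    · rw [U4o rfl] at hy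
      exact lr _ _ _ _ rfl (by omega) (by omega) (F.c2 hx hy (hs _) (hs _) (a rfl))
    · rw [U4e rfl rfl] at hy
      exact SetLike.le_def.1 (sup_le (lr k _ _ _ rfl (by omega) (by omega)) (lx (k + 1) _ _ (by omega) (by omega)))
        (F.c4 (hs _) (hs _) (hs _) (o (by omega)) (a rfl) (F.symm (a rfl)) hx hy)
  · rw [U4e rfl rfl] at hx
    obtain rfl | rfl | rfl : j = 2 * (k + 1) + 1 ∨ j = 2 * (k + 1) + 2 ∨ j = 2 * (k + 2) + 1 := by push_cast at h2; omega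
    · rw [U4o rfl] at hy
      rw [cm_inv, F.c0 (ne rfl).symm hy.1 (hy.2 _ (hs _) (F.symm (a rfl))) ⟨hx.2, hx.1⟩, inv_one]; exact one_mem _
    · rw [U4e rfl rfl] at hy
      exact lx _ _ _ (by omega) (by omega) (F.c3 hx.2 hy.1)
    · rw [U4o rfl] at hy
      rw [cm_inv]
      exact inv_mem (SetLike.le_def.1 (sup_le (RR_comm.le.trans (lr (k + 1) (k + 2) _ _ (by omega) (by omega) (by omega)))
        (lx (k + 1) _ _ (by omega) (by omega)))
        (F.c4 (hs _) (hs k) (hs (k + 1)) (mt F.symm (o rfl)) (F.symm (a (by omega))) (a rfl) hy ⟨hx.2, hx.1⟩))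
  · rw [U4o rfl] at hx; rw [U4o (k := k + 2) (by push_cast; omega)]
    obtain ⟨u, hu, l, hl, hm, e1, -, e3⟩ := F.mul (hs _) (hs (k + 2)) (o rfl) hx x1
    refine ⟨u, hu, l, hl, fun j => mu (2 * k + 2) _ hm (F.refl_of 2 two_pos hs ho hm _ k fun i h1 h2 => ?_) _ _ (by push_cast; omega)⟩
    obtain rfl | rfl : i = k ∨ i = k + 1 := by push_cast at h2; omega
    · rw [e1]; congr 1; omega
    · rw [e3 _ (hs _) (a rfl) (F.symm (a (by omega)))]; congr 1; omega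
  · rw [U4e rfl rfl] at hx; rw [U4e (k := k + 2) (l := k + 3) (by push_cast; omega) (by omega)]
    obtain ⟨u, hu, l, hl, hm, e1, -, e3, -⟩ := F.mus (hs _) (hs _) (hs (k + 2)) (hs (k + 3)) (o rfl) (o (by omega)) (ne rfl)
      (a rfl) hx x1
    refine ⟨u, hu, l, hl, fun j => mu (2 * k + 3) _ hm (F.refl_of 2 two_pos hs ho hm _ k fun i h1 h2 => ?_) _ _ (by push_cast; omega)⟩
    obtain rfl | rfl : i = k ∨ i = k + 1 := by push_cast at h2; omega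
    · rw [e1]; congr 1; omega
    · rw [e3]; congr 1; omega
  · rw [U4o rfl]
    refine eq_bot_iff.2 fun x hx => F.sr (a := s (k + 1)) (SetLike.le_def.1 (seg_le fun t h1 h2 => ?_) hx.2) (o rfl)
      (hx.1.2 _ (hs _) (F.symm (pe (i := k) rfl ▸ a (by omega))))
    obtain rfl | rfl | rfl : t = 2 * k + 2 ∨ t = 2 * (k + 1) + 1 ∨ t = 2 * (k + 1) + 2 := by push_cast at h2; omega
    · rw [U4e rfl rfl]; exact inf_le_right
    · rw [U4o rfl]; exact fun _ h => h.1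
    · rw [U4e rfl rfl]; exact inf_le_left
  · rw [U4e rfl rfl]
    refine eq_bot_iff.2 fun x hx => F.sr hx.1.1 (o rfl)
      (SetLike.le_def.1 (seg_le (A := MulAction.stabilizer G (s (k + 2))) fun t h1 h2 => ?_) hx.2)
    obtain rfl | rfl | rfl : t = 2 * (k + 1) + 1 ∨ t = 2 * (k + 1) + 2 ∨ t = 2 * (k + 2) + 1 := by push_cast at h2; omega
    · rw [U4o rfl]; exact fun _ h => h.2 _ (hs _) (a (by omega))
    · rw [U4e (l := k + 2) rfl (by omega)]; exact fun _ h => F.fa h.2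
    · rw [U4o rfl]; exact fun _ h => F.fa h.1

theorem pg3 {s : ℤ → P} (hs : ∀ i, s i ∈ S) (ho : ∀ i, ¬ r (s i) (s (i + 3))) (h1 : ∀ i, r (s i) (s (i + 1)))
    (h2 : ∀ i, r (s i) (s (i + 2))) : Pg 3 (U3 Q s) := by
  have o : ∀ {i j}, j = i + 3 → ¬ r (s i) (s j) := fun e => e ▸ ho _
  have a : ∀ {i j}, j = i + 1 ∨ j = i + 2 → r (s i) (s j) := fun e => e.elim (· ▸ h1 _) (· ▸ h2 _)
  have pe : ∀ {i j}, j = i + 6 → s j = s i := fun {i j} e => F.un (hs (i + 3)) (hs _) (hs _) (o (by omega)) (mt F.symm (o rfl))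
  have ne : ∀ {i j}, j = i + 1 ∨ j = i + 2 → s i ≠ s j := fun {i j} e e' => o (i := i) rfl (e' ▸ a (by omega))
  refine pg_of le_rfl (fun i => ?_) (fun i => F.rne (hs _) (hs _) (ne (by omega)) (a (by omega)))
    (fun i j k1 k2 x hx y hy => ?_) (fun i x hx x1 => ?_) fun i => ?_
  · rw [U3, U3, pe (i := i - 1) (j := _ + _ - 1) (by push_cast; omega), pe (i := i) (j := _ + _) (by push_cast; omega)]
  · obtain rfl | rfl : j = i + 1 ∨ j = i + 2 := by push_cast at k2; omega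
    · rw [U3e (k := i) (by omega) rfl] at hy
      rw [F.c0 (ne (.inl rfl)) hx.2 (F.rfx (hs _) (hs _) (ne (by omega)) hx (hs _) (a (by omega)) (a (by omega))) hy]
      exact one_mem _
    · rw [U3e (k := i + 1) (by omega) rfl] at hy
      refine mem_seg (t := i + 1) ?_ le_rfl (by omega)
      rw [U3e (k := i) (by omega) rfl]
      exact ⟨F.cl hx.2 (F.rfx (hs _) (hs _) (ne (by omega)) hy (hs _) (F.symm (a (by omega))) (F.symm (a (by omega)))),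
        F.cr (F.rfx (hs _) (hs _) (ne (by omega)) hx (hs _) (a (by omega)) (a (by omega))) hy.1⟩
  · rw [U3e (i := _ + _) (k := i + 2) (l := i + 3) (by push_cast; omega) (by push_cast; omega)]
    obtain ⟨u, hu, l, hl, hm, e1, -, e3, -, e5⟩ := F.mus (hs _) (hs _) (hs (i + 2)) (hs (i + 3)) (o (by omega)) (o rfl)
      (ne (by omega)) (a (by omega)) hx x1
    have := F.refl_of 3 three_pos hs ho hm (2 * i + 2) (i - 1) fun j k1 k2 => by
      obtain rfl | rfl | rfl : j = i - 1 ∨ j = i ∨ j = i + 1 := by push_cast at k2; omega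
      · rw [e1]; congr 1; omega
      · rw [e3]; congr 1; omega
      · rw [e5 _ (hs _) (a (by omega)) (F.symm (a (by omega))) (a (by omega)) (F.symm (a (by omega)))]; congr 1; omega
    refine ⟨u, hu, l, hl, fun j => ?_⟩
    rw [U3e (i := _ - j) (k := 2 * i + 2 - j) (l := 2 * i + 2 - (j - 1)) (by push_cast; omega) (by push_cast; omega), RR_comm]
    exact F.rcj _ (this _) (this _)
  · refine eq_bot_iff.2 fun x hx => F.sr (a := s (i + 1)) (SetLike.le_def.1 (seg_le fun t h1 h2 => ?_) hx.2) (o rfl)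
      (F.rfx (hs _) (hs _) (ne (by omega)) hx.1 (hs _) (F.symm (pe (i := i - 1) rfl ▸ a (by omega)))
        (F.symm (pe (i := i) rfl ▸ a (by omega))))
    obtain rfl | rfl : t = i + 1 ∨ t = i + 2 := by push_cast at h2; omega
    · exact inf_le_right
    · rw [U3e (k := i + 1) (by omega) rfl]; exact inf_le_left

/-- generation of `Q a` by root groups -/
theorem qle (fin : S.Finite) {H : Subgroup G} (ha : a ∈ S) (hX : XX r Q S a ≤ H)
    (hR : ∀ b ∈ S, a ≠ b → r a b → RR Q a b ≤ H) : Q a ≤ H := fun x hx => by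
  have : ∀ T : Set P, T.Finite → T ⊆ S → ∃ ρ ∈ H, ρ ∈ Q a ∧ ∀ j ∈ T, r a j → (ρ * x) • j = j := fun T hT => by
    induction T, hT using Set.Finite.induction_on with
    | empty => exact fun _ => ⟨1, one_mem _, one_mem _, by simp⟩
    | @insert b T _ _ ih =>
      intro le
      obtain ⟨ρ, r1, r2, h⟩ := ih fun _ k => le (.inr k)
      have hb := le (.inl rfl)
      by_cases k : r a b ∧ b ≠ a; swap
      · refine ⟨ρ, r1, r2, fun j hj l => hj.elim (fun e => ?_) fun hj => h j hj l⟩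
        obtain rfl : j = a := by_contra fun n => k (e ▸ ⟨l, n⟩)
        exact F.fa (mul_mem r2 hx)
      obtain ⟨b', hb', o⟩ := F.op b hb
      have k' := F.symm (F.rel' hb hb' o ha k.2.symm)
      have n : a ≠ b' := fun e => o (e ▸ F.symm k.1)
      have hy := mul_mem r2 hx
      obtain ⟨σ, s1, s2, e⟩ := F.q3 k' k.1 (mt F.symm o) (F.ln hy k.1) fun e =>
        k.2 (MulAction.injective _ (e.trans (F.fa hy).symm))
      refine ⟨σ⁻¹ * ρ, mul_mem (inv_mem (hR b' hb' n k' ⟨s1, s2⟩)) r1, mul_mem (inv_mem s1) r2, fun j hj l => ?_⟩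
      rw [mul_assoc, mul_smul]
      by_cases q : j = b
      · rw [q, ← e, inv_smul_smul]
      · rw [h j (hj.resolve_left q) l]
        exact fix_inv (F.rfx ha hb' n ⟨s1, s2⟩ (le hj) l (F.rel' hb hb' o (le hj) q))
  obtain ⟨ρ, r1, r2, h⟩ := this S fin le_rfl
  simpa using mul_mem (inv_mem r1) (hX ⟨mul_mem r2 hx, h⟩)

theorem top {H : Subgroup G} (n : ¬ r a a') (h : Q a ≤ H) (h' : Q a' ≤ H) : H = ⊤ := by
  have k : ∀ {a a' c}, ¬ r a a' → ¬ r a c → Q a ≤ H → Q a' ≤ H → Q c ≤ H := fun n n' h h' y hy => by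
    obtain ⟨x, hx, rfl⟩ := F.tr n n'
    have := h' (by simpa using F.eqv x⁻¹ hy)
    simpa [mul_assoc] using mul_mem (mul_mem (h hx) this) (inv_mem (h hx))
  refine eq_top_iff.2 (F.gen ▸ iSup_le fun c => ?_)
  obtain ⟨e, e1, e2⟩ := F.cn a c
  exact k e1 e2 (k n (mt F.symm e1) h h') h
end Fm

end H29.AS
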