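import Cfsg.Agent.H29.AS8

/-! S3235, rank at least two: maximal frames and the root datum (`RR`). -/

set_option autoImplicit false
set_option linter.unusedSectionVars false

namespace H29.AS

open Subgroup H19 H3.TB
open H3.AS (Ln Pol PE PF RT)
universe u

variable {G P : Type*} [Group G] [MulAction G P] {p : ℕ} {r : P → P → Prop} {Q : P → Subgroup G} {N : ℕ} {e f : ℕ → P}

structure Fr (r : P → P → Prop) (N : ℕ) (e f : ℕ → P) : Prop where
  ee : ∀ {i j}, i < N → j < N → r (e i) (e j)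
  ff : ∀ {i j}, i < N → j < N → r (f i) (f j)
  ef : ∀ {i j}, i < N → j < N → (r (e i) (f j) ↔ i ≠ j)
def Pe (r : P → P → Prop) (N : ℕ) (e f : ℕ → P) (w : P) : Prop := ∀ i < N, r (e i) w ∧ r (f i) w
def Sg (N : ℕ) (e f : ℕ → P) : Set P := {a | ∃ i < N, a = e i ∨ a = f i}

theorem nd_of (H : Pol r) {S : P → Prop} (cl : ∀ {a b s}, S a → S b → Ln r a b s → S s) (rad : ∀ w, S w → ∃ w', S w' ∧ ¬ r w w')
    {x y : P} (hx : S x) (hy : S y) (h : ∀ s, S s → r x s → r y s) : x = y := by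
  by_contra n
  have xy := H.symm (h x hx (H.refl x))
  obtain ⟨z, hz, yz⟩ := rad y hy
  have xz : ¬ r x z := fun k => yz (h z hz k)
  obtain ⟨w, w1, wz⟩ := H.one xy n z
  have hw := cl hx hy w1
  have a : ∀ s, S s → r x s → r w s := fun s hs k => H.symm (w1 s (H.symm k) (H.symm (h s hs k)))
  have b : ∀ s t, S s → S t → r s t → ¬ r x t → r w t → r w s := fun s t hs ht st xt wt => by
    by_cases e : t = s
    · exact e ▸ wt
    obtain ⟨u, u1, u2⟩ := H.one (H.symm st) e x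
    exact H.ex (H.symm st) u1 (fun e => xt (H.symm (e ▸ u2))) w wt (a u (cl ht hs u1) (H.symm u2))
  obtain ⟨s, hs, ws⟩ := rad w hw
  have wx : w ≠ x := fun e => xz (e ▸ wz)
  obtain ⟨t, t1, t2⟩ := H.one wz (fun e => xz (e ▸ H.ra xy w1)) s
  have tw : t ≠ w := fun e => ws (e ▸ t2)
  exact ws (b s t hs (cl hw hz t1) (H.symm t2) (fun k => xz (H.ex wz t1 tw x (H.ra xy w1) k)) (H.ra wz t1))

theorem Fr.rad (H : Pol r) (F : Fr r N e f) : ∀ w, Pe r N e f w → ∃ w', Pe r N e f w' ∧ ¬ r w w' := by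
  induction N with
  | zero => exact fun w _ => let ⟨_, _, n⟩ := H.nb w; let ⟨s, _, k⟩ := H.exn n.symm; ⟨s, fun _ h => by omega, mt H.symm k⟩
  | succ N ih =>
    intro w hw
    by_contra! k
    have l : N < N + 1 := by omega
    have cl : ∀ {a b s}, Pe r N e f a → Pe r N e f b → Ln r a b s → Pe r N e f s := fun ha hb l i hi =>
      ⟨l _ (ha i hi).1 (hb i hi).1, l _ (ha i hi).2 (hb i hi).2⟩
    have he : Pe r N e f (e N) := fun i hi => ⟨F.ee (by omega) l, H.symm ((F.ef l (by omega)).2 (by omega))⟩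
    have := nd_of H cl (ih ⟨fun _ _ => F.ee (by omega) (by omega), fun _ _ => F.ff (by omega) (by omega),
      fun _ _ => F.ef (by omega) (by omega)⟩) he (fun i hi => hw i (by omega)) fun s hs es => by
        by_cases q : e N = s
        · exact q ▸ H.symm (hw N l).1
        obtain ⟨t, t1, t2⟩ := H.one es q (f N)
        refine H.ex es t1 (fun q => (F.ef l l).1 (q ▸ t2) rfl) w (H.symm (hw N l).1) (k t fun i hi => ?_)
        rcases Nat.lt_succ_iff_lt_or_eq.1 hi with hi | rfl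
        exacts [cl he hs t1 i hi, ⟨H.ra es t1, H.symm t2⟩]
    exact (F.ef l l).1 (this ▸ H.symm (hw N l).2) rfl

theorem ex_fr [Finite P] [Nonempty P] (H : Pol r) : ∃ n e f, Fr r (n + 2) e f ∧ ∀ w, ¬ Pe r (n + 2) e f w := by
  obtain ⟨N, ⟨e, f, F⟩, mx⟩ : ∃ N, (∃ e f, Fr r N e f) ∧ ¬ ∃ e f, Fr r (N + 1) e f := by
    by_contra! k
    have : ∀ N, ∃ e f, Fr r N e f := fun N => by
      induction N with
      | zero => exact ⟨fun _ => Classical.arbitrary P, fun _ => Classical.arbitrary P, by omega, by omega, by omega⟩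
      | succ N ih => exact k N ih
    obtain ⟨e, f, F⟩ := this (Nat.card P + 1)
    have := Nat.card_le_card_of_injective (fun i : Fin (Nat.card P + 1) => e i) fun i j h => Fin.ext (by_contra fun n =>
      (F.ef i.2 i.2).1 ((show e i = e j from h) ▸ (F.ef j.2 i.2).2 (Ne.symm n)) rfl)
    simp at this
  have no : ∀ w, ¬ Pe r N e f w := fun w hw => mx (by
    obtain ⟨w', hw', n⟩ := F.rad H w hw
    refine ⟨Function.update e N w, Function.update f N w', fun {i j} hi hj => ?_, fun {i j} hi hj => ?_, fun {i j} hi hj => ?_⟩ <;>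
      rcases Nat.lt_succ_iff_lt_or_eq.1 hi with hi | rfl <;> rcases Nat.lt_succ_iff_lt_or_eq.1 hj with hj | rfl <;>
      simp only [Function.update_self, Function.update_of_ne hi.ne, Function.update_of_ne hj.ne]
    exacts [F.ee hi hj, (hw i hi).1, H.symm (hw j hj).1, H.refl _, F.ff hi hj, (hw' i hi).2, H.symm (hw' j hj).2, H.refl _,
      F.ef hi hj, iff_of_true (hw' i hi).1 hi.ne, iff_of_true (H.symm (hw j hj).2) hj.ne', iff_of_false n (· rfl)])
  obtain _ | _ | n := N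
  · exact (no (Classical.arbitrary P) fun _ h => by omega).elim
  · obtain ⟨b, k, n⟩ := H.nb (e 0)
    obtain ⟨t, t1, t2⟩ := H.one k n (f 0)
    exact (no t fun i hi => by obtain rfl : i = 0 := by omega
                               exact ⟨H.ra k t1, H.symm t2⟩).elim
  · exact ⟨n, e, f, F, no⟩

theorem me {i : ℕ} (h : i < N) : e i ∈ Sg N e f := ⟨i, h, .inl rfl⟩
theorem mf {i : ℕ} (h : i < N) : f i ∈ Sg N e f := ⟨i, h, .inr rfl⟩

theorem Fr.fm (H : PF p r Q) (F : Fr r N e f) (no : ∀ w, ¬ Pe r N e f w) : Fm p r Q (Sg N e f) := by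
  refine ⟨H, ?_, ?_, fun w => by_contra fun k => no w fun i hi => ?_⟩
  · rintro _ _ _ ⟨i, hi, rfl | rfl⟩ ⟨j, hj, rfl | rfl⟩ ⟨k, hk, rfl | rfl⟩ n n'
    any_goals first | exact absurd (F.ee hi hj) n | exact absurd (F.ff hi hj) n | exact absurd (F.ee hi hk) n' | exact absurd (F.ff hi hk) n' | skip
    · rw [F.ef hi hj, not_not] at n; rw [F.ef hi hk, not_not] at n'; rw [← n, n']
    · have n := mt H.symm n; have n' := mt H.symm n'
      rw [F.ef hj hi, not_not] at n; rw [F.ef hk hi, not_not] at n'; rw [n, n']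
  · rintro _ ⟨i, hi, rfl | rfl⟩
    exacts [⟨_, mf hi, fun k => (F.ef hi hi).1 k rfl⟩, ⟨_, me hi, fun k => (F.ef hi hi).1 (H.symm k) rfl⟩]
  · push Not at k; exact ⟨k _ (me hi), k _ (mf hi)⟩

def s4 (e f : ℕ → P) (i : ℤ) : P := if i % 4 = 0 then e 0 else if i % 4 = 1 then e 1 else if i % 4 = 2 then f 0 else f 1
def s3 (e f : ℕ → P) (k : ℕ) (i : ℤ) : P := if i % 6 = 0 then e (k + 1) else if i % 6 = 1 then f k else
  if i % 6 = 2 then e (k + 2) else if i % 6 = 3 then f (k + 1) else if i % 6 = 4 then e k else f (k + 2)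
section
variable (r Q N e f)
def XN : ℕ → Subgroup G
  | 0 => XX r Q (Sg N e f) (e 0)
  | k + 1 => RR Q (f k) (e (k + 1))
def WN : ℕ → ℤ → Subgroup G
  | 0 => U4 r Q (Sg N e f) (s4 e f)
  | k + 1 => U3 Q (s3 e f k)
end
def mN : ℕ → ℕ
  | 0 => 4
  | _ + 1 => 3
theorem Sg_comm : Sg N f e = Sg N e f := Set.ext fun _ => exists_congr fun _ => and_congr_right fun _ => or_comm

structure FF (p : ℕ) (r : P → P → Prop) (Q : P → Subgroup G) (N : ℕ) (e f : ℕ → P) : Prop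
    extends Fm p r Q (Sg N e f), Fr r N e f

namespace FF
variable (F : FF p r Q N e f) {i j : ℕ} {x y : G}
include F
theorem ef1 (hi : i < N) (hj : j < N) (n : i ≠ j) : r (e i) (f j) := (F.ef hi hj).2 n
theorem fe1 (hi : i < N) (hj : j < N) (n : i ≠ j) : r (f i) (e j) := F.symm (F.ef1 hj hi n.symm)
theorem o1 (hi : i < N) : ¬ r (e i) (f i) := fun k => (F.ef hi hi).1 k rfl
theorem o2 (hi : i < N) : ¬ r (f i) (e i) := mt F.symm (F.o1 hi)
theorem sw : FF p r Q N f e := ⟨Sg_comm ▸ F.toFm, F.ff, F.ee, fun hi hj =>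
  ⟨fun k => ((F.ef hj hi).1 (F.symm k)).symm, F.fe1 hi hj⟩⟩
theorem nfe (hi : i < N) (hj : j < N) : f i ≠ e j := fun k => F.o1 hi (k ▸ F.ee hi hj)
theorem nee (hi : i < N) (hj : j < N) (n : i ≠ j) : e i ≠ e j := fun k => F.o1 hi (k ▸ F.ef1 hj hi n.symm)

theorem pg (h : i + 1 < N) : Pg (mN i) (WN r Q N e f i) := by
  obtain _ | k := i
  · refine F.pg4 (fun i => ?_) (fun i => ?_) fun i => ?_ <;> unfold s4 <;> split_ifs <;>
      first | omega | exact me (by omega) | exact mf (by omega) | exact F.o1 (by omega) | exact F.o2 (by omega) |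
        exact F.ee (by omega) (by omega) | exact F.ff (by omega) (by omega) | exact F.ef1 (by omega) (by omega) (by omega) |
        exact F.fe1 (by omega) (by omega) (by omega)
  · refine F.pg3 (fun i => ?_) (fun i => ?_) (fun i => ?_) fun i => ?_ <;> unfold s3 <;> split_ifs <;>
      first | omega | exact me (by omega) | exact mf (by omega) | exact F.o1 (by omega) | exact F.o2 (by omega) |
        exact F.ee (by omega) (by omega) | exact F.ff (by omega) (by omega) | exact F.ef1 (by omega) (by omega) (by omega) |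
        exact F.fe1 (by omega) (by omega) (by omega)

omit F in
theorem wv (i : ℕ) : WN r Q N e f i 1 = XN r Q N e f i ∧ WN r Q N e f i (mN i + 1) = XN r Q N f e i ∧
    WN r Q N e f i (mN i) = XN r Q N e f (i + 1) ∧ WN r Q N e f i 0 = XN r Q N f e (i + 1) := by
  obtain _ | k := i
  · exact ⟨rfl, by rw [XN, Sg_comm (f := f)]; rfl, RR_comm, RR_comm⟩
  · exact ⟨RR_comm, RR_comm, RR_comm, RR_comm⟩

theorem xf (hi : i < N) (hj : j < N) (n : j + 1 ≠ i) (hx : x ∈ XN r Q N e f i) : x • e j = e j := by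
  obtain _ | k := i
  · exact hx.2 _ (me hj) (F.ee hi hj)
  · exact F.rfx (mf (by omega)) (me hi) (F.nfe (by omega) hi) hx (me hj) (F.fe1 (by omega) hj (by omega)) (F.ee hi hj)
theorem xf' (hi : i < N) (hj : j < N) (n : j ≠ i) (hx : x ∈ XN r Q N e f i) : x • f j = f j := by
  obtain _ | k := i
  · exact hx.2 _ (mf hj) (F.ef1 hi hj n.symm)
  · exact F.rfx (mf (by omega)) (me hi) (F.nfe (by omega) hi) hx (mf hj) (F.ff (by omega) hj) (F.ef1 hi hj n.symm)
omit F in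
theorem xq (hx : x ∈ XN r Q N e f i) : x ∈ Q (e i) := by
  obtain _ | k := i
  exacts [hx.1, hx.2]
theorem xn (hi : i < N) : XN r Q N e f i ≠ ⊥ := by
  obtain _ | k := i
  exacts [F.xne _, F.rne (mf (by omega)) (me hi) (F.nfe (by omega) hi) (F.fe1 (by omega) hi (by omega))]
theorem mux (hi : i < N) (hx : x ∈ XN r Q N e f i) (x1 : x ≠ 1) : ∃ k ∈ XN r Q N f e i, ∃ l ∈ XN r Q N f e i,
    Swap (XN r Q N e f i) (XN r Q N f e i) (k * x * l) := by
  obtain _ | k := i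
  · simp only [XN, Sg_comm (f := f)]
    obtain ⟨u, hu, l, hl, hm, e1, e2, -⟩ := F.mul (me hi) (mf hi) (F.o1 hi) hx x1
    exact ⟨u, hu, l, hl, F.xcj hm e1, F.xcj hm e2⟩
  · have hk : k < N := by omega
    obtain ⟨u, hu, l, hl, -, e1, e2, e3, e4, -⟩ := F.mus (mf hk) (me hi) (me hk) (mf hi) (F.o2 hk) (F.o1 hi) (F.nfe hk hi)
      (F.fe1 hk hi (by omega)) hx x1
    exact ⟨u, hu, l, hl, by rw [XN, RR_comm]; exact F.rcj _ e3 e1, by rw [XN, RR_comm]; exact F.rcj _ e2 e4⟩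
theorem r1 (hi : i < N) : R1 (XN r Q N e f i) (XN r Q N f e i) := ⟨fun k => F.xn hi (eq_bot_iff.2 fun _ hx =>
  F.sr (xq hx) (F.o1 hi) (F.fa (xq (k ▸ hx)))), fun _ => F.mux hi, fun _ hx x1 =>
    let ⟨k, hk, l, hl, h⟩ := F.sw.mux hi hx x1; ⟨k, hk, l, hl, h.symm⟩⟩
theorem two (hj : j < N) (h : i + 1 < j) (hx : x ∈ XN r Q N e f i ⊔ XN r Q N f e i) (hy : y ∈ XN r Q N e f j ⊔ XN r Q N f e j) :
    x * y = y * x := by
  have hi : i < N := by omega
  obtain _ | k := j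
  · omega
  have hk : k < N := by omega
  have k1 : ∀ {e f}, FF p r Q N e f → ∀ x ∈ XN r Q N e f i, ∀ y ∈ XN r Q N e f (k + 1) ⊔ XN r Q N f e (k + 1), x * y = y * x :=
    fun {e f} F x hx y hy => (sup_le (fun y hy => mem_centralizer_singleton_iff.2 (F.dis (me hi) (mf hi) (mf hk) (me hj) (F.o1 hi)
      (F.nfe hk hj) (F.fe1 hk hi (by omega)) (F.ee hj hi) (F.ff hk hi) (F.ef1 hj hi (by omega)) (xq hx) (F.xf' hi hk (by omega) hx)
      (F.xf hi hj (by omega) hx) hy).symm) (fun y hy => mem_centralizer_singleton_iff.2 (F.dis (me hi) (mf hi) (me hk) (mf hj)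
      (F.o1 hi) (F.nfe hj hk).symm (F.ee hk hi) (F.fe1 hj hi (by omega)) (F.ef1 hk hi (by omega)) (F.ff hj hi) (xq hx)
      (F.xf hi hk (by omega) hx) (F.xf' hi hj (by omega) hx) hy).symm) : _ ≤ C[x]) hy x rfl
  exact mem_centralizer_singleton_iff.1 ((sup_le (fun x hx => mem_centralizer_singleton_iff.2 (k1 F x hx y hy))
    (fun x hx => mem_centralizer_singleton_iff.2 (k1 F.sw x hx y (by rwa [sup_comm]))) : _ ≤ C[y]) hx)
theorem ub (h : i + 1 ≤ j) (hj : j + 1 = N) : seg (WN r Q N e f i) 1 (mN i) ≤ MulAction.stabilizer G (e j) := by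
  have hj' : j < N := by omega
  refine seg_le fun t h1 h2 x hx => ?_
  obtain _ | k := i
  · obtain rfl | rfl | rfl | rfl : t = 1 ∨ t = 2 ∨ t = 3 ∨ t = 4 := by change t ≤ 4 at h2; omega
    · exact hx.2 _ (me hj') (F.ee (by omega) hj')
    · exact F.rfx (me (by omega)) (me (by omega)) (F.nee (by omega) (by omega) zero_ne_one) hx (me hj') (F.ee (by omega) hj')
        (F.ee (by omega) hj')
    · exact hx.2 _ (me hj') (F.ee (by omega) hj')
    · exact F.xf (i := 1) (by omega) hj' (by omega) ⟨hx.2, hx.1⟩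
  · obtain rfl | rfl | rfl : t = 1 ∨ t = 2 ∨ t = 3 := by change t ≤ 3 at h2; omega
    · exact F.xf (i := k + 1) (by omega) hj' (by omega) ⟨hx.2, hx.1⟩
    · exact F.rfx (mf (by omega)) (me (i := k + 2) (by omega)) (F.nfe (by omega) (by omega)) hx (me hj')
        (F.fe1 (by omega) hj' (by omega)) (F.ee (by omega) hj')
    · exact F.xf (i := k + 2) (by omega) hj' (by omega) ⟨hx.2, hx.1⟩
theorem nb' (hi : i < N) (hj : j + 2 = N) :
    (XN r Q N e f i ⊔ XN r Q N f e i) ⊓ N(XN r Q N e f i) ≤ MulAction.stabilizer G (e (j + 1)) := fun g hg => by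
  have h1 : j + 1 < N := by omega
  have h0 : j < N := by omega
  by_cases q : i = j + 1; swap
  · exact (sup_le (fun _ => F.xf hi h1 (by omega)) fun _ => F.sw.xf' hi h1 (by omega) : _ ≤ MulAction.stabilizer G _) hg.1
  subst q
  have k := F.ee h1 h0
  let M : Subgroup G :=
    { carrier := {g | ∀ t, Ln r (e (j + 1)) (e j) t ↔ Ln r (e (j + 1)) (e j) (g • t)}
      one_mem' := by simp
      mul_mem' := fun {x y} hx hy t => by rw [mul_smul]; exact (hy t).trans (hx _)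
      inv_mem' := fun {x} hx t => by simpa using (hx (x⁻¹ • t)).symm }
  have : ∀ {a b}, r a b → ∀ x ∈ Q a, ∀ t, Ln r a b t → Ln r a b (x • t) := fun k x hx t l =>
    Ln.left.trans l (F.ln hx (F.ra k l))
  have le : _ ≤ M := sup_le (fun x (hx : x ∈ XN r Q N e f (j + 1)) t => ⟨this k x hx.2 t, fun l => by
    simpa using this k _ (inv_mem hx.2) _ l⟩) fun x (hx : x ∈ XN r Q N f e (j + 1)) t =>
    ⟨fun l => (this (F.symm k) x hx.1 t l.swap).swap, fun l => by simpa using (this (F.symm k) _ (inv_mem hx.1) _ l.swap).swap⟩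
  have l := (le hg.1 _).1 .left
  by_contra n
  obtain ⟨x, hx, x1⟩ := ex_ne (F.xn h1)
  refine x1 (F.sr hx.1 (fun c => F.o2 h0 (F.ex k l n _ (F.fe1 h0 h1 (by omega)) c)) ?_)
  have := F.fa (xq (N_conj hg.2 hx))
  rwa [mul_smul, mul_smul, inv_smul_eq_iff] at this

theorem all {H : Subgroup G} (h : ∀ i < N, XN r Q N e f i ≤ H ∧ XN r Q N f e i ≤ H) (k : ℕ) (hk : k < N) :
    ∀ a ∈ Sg (k + 1) e f, XX r Q (Sg N e f) a ≤ H ∧ ∀ b ∈ Sg (k + 1) e f, a ≠ b → r a b → RR Q a b ≤ H := by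
  have tr : ∀ {A B : Subgroup G} {m}, m ∈ H → Cj A B m → B ≤ H → A ≤ H := fun hm c le x hx => by
    simpa [mul_assoc] using mul_mem (mul_mem hm (le (c.to hx))) (inv_mem hm)
  induction k with
  | zero =>
    rintro _ ⟨i, hi, rfl | rfl⟩ <;> obtain rfl : i = 0 := by omega
    · refine ⟨(h 0 hk).1, ?_⟩
      rintro _ ⟨i, hi, rfl | rfl⟩ n k <;> obtain rfl : i = 0 := by omega
      exacts [(n rfl).elim, (F.o1 hk k).elim]
    · refine ⟨Sg_comm ▸ (h 0 hk).2, ?_⟩
      rintro _ ⟨i, hi, rfl | rfl⟩ n k <;> obtain rfl : i = 0 := by omega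
      exacts [(F.o2 hk k).elim, (n rfl).elim]
  | succ k ih =>
    have hk' : k < N := by omega
    replace ih := ih hk'
    obtain ⟨x, hx, x1⟩ := ex_ne (F.xn hk)
    obtain ⟨u, hu, l, hl, hm, -, e2, e3, -, e5⟩ := F.mus (mf hk') (me hk) (me hk') (mf hk) (F.o2 hk') (F.o1 hk) (F.nfe hk' hk)
      (F.fe1 hk' hk (by omega)) hx x1
    have mH := mul_mem (mul_mem ((h _ hk).2 hu) ((h _ hk).1 hx)) ((h _ hk).2 hl)
    obtain ⟨y, hy, y1, -⟩ := F.xex (e k)
    obtain ⟨u', hu', l', hl', -, d1, d2, d3⟩ := F.mul (me hk') (mf hk') (F.o1 hk') hy y1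
    have ek : e k ∈ Sg (k + 1) e f := me (by omega)
    have fk : f k ∈ Sg (k + 1) e f := mf (by omega)
    have mH' := mul_mem (mul_mem ((ih _ fk).1 hu') ((ih _ ek).1 hy)) ((ih _ fk).1 hl')
    have new : ∀ a, a = e (k + 1) ∨ a = f (k + 1) → ∀ b ∈ Sg (k + 1) e f, RR Q a b ≤ H := by
      rintro a ha b ⟨i, hi, hb⟩
      by_cases q : i = k
      · subst q
        rcases ha with rfl | rfl <;> rcases hb with rfl | rfl
        · exact tr mH' (F.rcj _ (d3 _ (me hk) (F.ee hk' hk) (F.fe1 hk' hk (by omega))) d1) (RR_comm.le.trans (h _ hk).1)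
        · exact RR_comm.le.trans (h _ hk).1
        · exact RR_comm.le.trans (h _ hk).2
        · exact tr mH' (F.rcj _ (d3 _ (mf hk) (F.ef1 hk' hk (by omega)) (F.ff hk' hk)) d2) (RR_comm.le.trans (h _ hk).2)
      have hi' : i < N := by omega
      have fb : (u * x * l)⁻¹ • b = b ∧ r (e k) b ∧ r (f k) b ∧ e k ≠ b ∧ f k ≠ b := by
        rcases hb with rfl | rfl
        · exact ⟨e5 _ (me hi') (F.fe1 hk' hi' (by omega)) (F.ee hk' hi') (F.ee hk hi') (F.fe1 hk hi' (by omega)), F.ee hk' hi',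
            F.fe1 hk' hi' (by omega), F.nee hk' hi' (by omega), F.nfe hk' hi'⟩
        · exact ⟨e5 _ (mf hi') (F.ff hk' hi') (F.ef1 hk' hi' (by omega)) (F.ef1 hk hi' (by omega)) (F.ff hk hi'),
            F.ef1 hk' hi' (by omega), F.ff hk' hi', (F.nfe hi' hk').symm, F.sw.nee hk' hi' (by omega)⟩
      rcases ha with rfl | rfl
      · exact tr mH (F.rcj _ e3 fb.1) ((ih _ ek).2 b ⟨i, hi, hb⟩ fb.2.2.2.1 fb.2.1)
      · exact tr mH (F.rcj _ e2 fb.1) ((ih _ fk).2 b ⟨i, hi, hb⟩ fb.2.2.2.2 fb.2.2.1)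
    have cs : ∀ a ∈ Sg (k + 1 + 1) e f, a ∈ Sg (k + 1) e f ∨ a = e (k + 1) ∨ a = f (k + 1) := fun a ⟨i, hi, ha⟩ =>
      (Nat.lt_succ_iff_lt_or_eq.1 hi).imp (⟨i, ·, ha⟩) fun q => by rwa [q] at ha
    intro a ha
    rcases cs a ha with ha | ha
    · exact ⟨(ih a ha).1, fun b hb n c => (cs b hb).elim (fun hb => (ih a ha).2 b hb n c) fun hb => RR_comm.le.trans (new b hb a ha)⟩
    refine ⟨?_, fun b hb n c => (cs b hb).elim (new a ha b) fun hb => ?_⟩
    · rcases ha with rfl | rfl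
      exacts [tr mH (F.xcj hm e3) (ih _ ek).1, tr mH (F.xcj hm e2) (ih _ fk).1]
    · rcases ha with rfl | rfl <;> rcases hb with rfl | rfl
      exacts [(n rfl).elim, (F.o1 hk c).elim, (F.o2 hk c).elim, (n rfl).elim]
end FF

theorem tm_ed {n : ℕ} {i j : Fin (n + 2)} (h : 3 ≤ tm n 4 pA i j) :
    (j.1 = i + 1 ∧ i < j ∧ tm n 4 pA i j = mN i) ∨ (i.1 = j + 1 ∧ ¬ i < j ∧ tm n 4 pA i j = mN j) := by
  have k : ∀ {i j : Fin (n + 2)}, 2 ≤ j.1 → pA j = i → j.1 = i + 1 ∧ i < j ∧ tm n 4 pA i j = mN i := fun {i j} h1 h2 => by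
    have : i < j := by rw [Fin.lt_def, ← h2, pA]; omega
    refine ⟨by rw [← h2, pA]; omega, this, (tm_edge h1 h2 this).trans ?_⟩
    rw [← h2, pA, show j.1 - 1 = j.1 - 2 + 1 by omega]; rfl
  rcases tm_cases h with ⟨rfl, rfl⟩ | ⟨rfl, rfl⟩ | ⟨h1, h2⟩ | ⟨h1, h2⟩
  · exact .inl ⟨rfl, by simp, tm_01 _ _ _⟩
  · exact .inr ⟨rfl, by simp, by rw [tm_symm, tm_01]; rfl⟩
  · exact .inl (k h1 h2)
  · exact .inr ⟨(k h1 h2).1, (k h1 h2).2.1.asymm, by rw [tm_symm]; exact (k h1 h2).2.2⟩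

theorem rr : H3.AS.RR.{u} := fun G P _ _ _ _ _ p r Q pp H => by
  obtain ⟨n, e, f, F, no⟩ := ex_fr H.toPol
  have F : FF p r Q (n + 2) e f := ⟨F.fm H no, F⟩
  have l0 : 0 < n + 2 := by omega
  have l1 : 1 < n + 2 := by omega
  have u01 : (0 : Fin (n + 2)) < 1 := by simp
  refine ⟨n, fun i => XN r Q (n + 2) e f i, fun i => XN r Q (n + 2) f e i,
    fun i j => if i < j then WN r Q (n + 2) e f i else rf (tm n 4 pA i j) (WN r Q (n + 2) e f j),
    MulAction.stabilizer G (e (n + 1)), ⟨fun i => F.r1 i.2, fun i j h x hx y hy => ?_, fun i j h => ?_, fun i j h => ?_,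
      fun i j h => ?_, fun i j h => ?_⟩, ?_, ?_, fun i => F.nb' i.2 rfl, fun i j h => ?_, ?_, ?_, ?_⟩
  · have : i.1 + 1 < j ∨ j.1 + 1 < i := by
      unfold tm pA at h; split_ifs at h with h1 h2 h3 <;> simp only [Fin.ext_iff] at * <;> omega
    exact this.elim (fun k => F.two j.2 k hx hy) fun k => (F.two i.2 k hy hx).symm
  · rcases tm_ed h with ⟨h1, h2, h3⟩ | ⟨h1, h2, h3⟩
    · rw [if_pos h2, h3]; exact F.pg (by omega)
    · rw [if_neg h2, h3]; exact (F.pg (by omega)).rf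
  · rcases tm_ed h with ⟨h1, h2, h3⟩ | ⟨h1, h2, h3⟩
    · rw [if_pos h2]; exact (FF.wv _).1
    · rw [if_neg h2, h3, rf_one, h1]; exact (FF.wv _).2.2.1
  · rcases tm_ed h with ⟨h1, h2, h3⟩ | ⟨h1, h2, h3⟩
    · rw [if_pos h2, h3]; exact (FF.wv _).2.1
    · rw [if_neg h2, h3, rf, sub_self, h1]; exact (FF.wv _).2.2.2
  · rcases tm_ed h with ⟨h1, h2, h3⟩ | ⟨h1, h2, h3⟩
    · rw [if_pos h2, if_neg h2.asymm, tm_symm]
    · rw [if_neg h2, if_pos (show j < i by rw [Fin.lt_def]; omega), rf_rf]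
  · have := F.all (H := Gd (fun i : Fin (n + 2) => XN r Q (n + 2) e f i) fun i => XN r Q (n + 2) f e i)
      (fun i hi => ⟨le_iSup_of_le ⟨i, hi⟩ le_sup_left, le_iSup_of_le ⟨i, hi⟩ le_sup_right⟩) (n + 1) (by omega)
    exact F.top (F.o1 l0) (F.qle (Set.toFinite _) (me l0) (this _ (me l0)).1 (this _ (me l0)).2)
      (F.qle (Set.toFinite _) (mf l0) (this _ (mf l0)).1 (this _ (mf l0)).2)
  · refine eq_bot_iff.2 fun g hg => F.fth g fun a => ?_
    obtain ⟨c, c1, c2⟩ := F.cn (e (n + 1)) a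
    obtain ⟨x, -, rfl⟩ := F.tr c1 c2
    have : (x⁻¹ * g * x⁻¹⁻¹) • e (n + 1) = e (n + 1) := hg x⁻¹
    rwa [mul_smul, mul_smul, inv_inv, inv_smul_eq_iff] at this
  · rcases tm_ed h with ⟨h1, h2, h3⟩ | ⟨h1, h2, h3⟩
    · rw [if_pos h2, h3]; exact F.ub (by omega) rfl
    · rw [if_neg h2, h3]; unfold rf; rw [seg_rev, add_sub_cancel_left, add_sub_cancel_right]; exact F.ub (by omega) rfl
  · rw [if_pos u01]
    obtain ⟨x, y, x1, x2, y1, y2, n⟩ := H.q4 (F.ef1 l1 l0 one_ne_zero) (F.ee l1 l0) (F.o2 l0)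
    exact fun c => n (c x ⟨x1, x2⟩ y ⟨y2, y1⟩)
  · rw [if_pos u01]
    exact ⟨⟨fun x y => Subtype.ext (cm_one (F.c0 (F.nfe l0 l1).symm x.2.1 (F.fa x.2.2) y.2))⟩⟩
  · rw [if_pos u01]
    obtain ⟨x, hx, x1, xp⟩ := F.xex (e 0)
    have := Fact.mk pp
    exact orderOf_eq_prime xp x1 ▸ orderOf_dvd_natCard (WN r Q (n + 2) e f 0 1) hx

end H29.AS
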