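import Cfsg.Agent.H29.AS1
import Cfsg.Prelude.Def_Classical

/-! `PSL₂(K) ≅ PSp₂(K)`. -/

set_option autoImplicit false

namespace H29.AS
open Matrix MatrixGroups Subgroup

variable {K : Type*} [Field K]

def e11 : Fin 1 ⊕ Fin 1 ≃ Fin 2 := finSumFinEquiv

theorem sp_iff (A : Matrix (Fin 2) (Fin 2) K) : A.submatrix e11 e11 ∈ symplecticGroup (Fin 1) K ↔ A.det = 1 := by
  have a : e11 (.inl 0) = 0 := rfl
  have b : e11 (.inr 0) = 1 := rfl
  rw [SymplecticGroup.mem_iff, det_fin_two]
  constructor
  · intro h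
    have := congrFun (congrFun h (.inr 0)) (.inl 0)
    simp [mul_apply, J, a, b] at this
    linear_combination this
  · intro h
    ext i j
    rcases i with i | i <;> rcases j with j | j <;> obtain rfl := Subsingleton.elim i 0 <;> obtain rfl := Subsingleton.elim j 0 <;>
      simp [mul_apply, J, a, b] <;> first | ring1 | linear_combination h | linear_combination (-1 : K) * h

noncomputable def spE : SL(2, K) ≃* symplecticGroup (Fin 1) K where
  toFun g := ⟨g.1.submatrix e11 e11, (sp_iff _).2 g.2⟩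
  invFun g := ⟨g.1.submatrix e11.symm e11.symm, (sp_iff _).1 (by simp)⟩
  left_inv g := Subtype.ext (by simp)
  right_inv g := Subtype.ext (by simp)
  map_mul' g h := Subtype.ext (by simp [submatrix_mul_equiv])

theorem psl_psp : Nonempty (PSL(2, K) ≃* Cfsg.PSp 1 K) := ⟨QuotientGroup.congr _ _ spE (by
  ext x
  obtain ⟨x, rfl⟩ := spE.surjective x
  refine ⟨?_, fun h => ⟨x, mem_center_iff.2 fun g => spE.injective (by simpa using mem_center_iff.1 h (spE g)), rfl⟩⟩
  rintro ⟨y, hy, e⟩
  refine e ▸ mem_center_iff.2 fun g => ?_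
  obtain ⟨g, rfl⟩ := spE.surjective g
  simpa using congrArg spE (mem_center_iff.1 hy g))⟩

end H29.AS
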