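import Cfsg.Agent.H5.AS2
import Cfsg.Agent.H7.ZStar
import Cfsg.Agent.H20.FT

/-! S3235, rank one: the case of a central involution (`C2`). -/

set_option autoImplicit false
set_option linter.unusedSectionVars false
set_option linter.style.haveILetI false

namespace H29.AT

open Cfsg Subgroup MulAction H19 H5.AS
open scoped commutatorElement
universe u

variable {G Ω : Type u} [Group G] [Finite G] [Finite Ω] [MulAction G Ω] {α β γ δ : Ω} {T Y : Subgroup G} {z : Ω → G}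
  {g t v w y : G}

structure Ax (α : Ω) (T : Subgroup G) (z : Ω → G) : Prop where
  fa : Fa G Ω
  nT : T ⊴ stabilizer G α
  ab : T ≤ C(T)
  od : Odd #T
  nC : C(T) ⊴ stabilizer G α
  sr : ∀ γ, γ ≠ α → ∀ t ∈ T, t • γ = γ → t = 1
  tr : ∀ β γ, β ≠ α → γ ≠ α → ∃ c ∈ C(T), c • β = γ
  zc : ∀ γ, γ ≠ α → z γ ∈ C(T)
  zf : ∀ γ, γ ≠ α → z γ • γ = γ
  z2 : ∀ γ, γ ≠ α → z γ * z γ = 1
  z1 : ∀ γ, γ ≠ α → z γ ≠ 1
  eq : ∀ γ, γ ≠ α → ∀ g : G, g • α = α → g * z γ * g⁻¹ = z (g • γ)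
  o1 : ∀ γ δ, γ ≠ α → δ ≠ α → z γ • δ = δ → ∃ t ∈ T, t • γ = δ
  o2 : ∀ γ, γ ≠ α → ∀ w ∈ C(T), w ≠ 1 → w • γ = γ → ∀ A : Subgroup G, Ab A → T ≤ A → A ⊴ stabilizer G α → w ∈ C(A) →
    ∀ y ∈ A, ∃ t ∈ T, t • γ = y • γ

theorem sne (e : g • α = α) (n : γ ≠ α) : g • γ ≠ α := fun q => n (smul_left_cancel g (q.trans e.symm))
theorem csm (c : g * v = v * g) (e : v • γ = γ) : v • g • γ = g • γ := by rw [← mul_smul, ← c, mul_smul, e]

theorem ex_last {A : Subgroup G} (s : Sol A) (n : ¬ A ≤ T) : ∃ B : Subgroup G, B ≤ A ∧ N(A) ≤ N(B) ∧ ¬ B ≤ T ∧ ⁅B, B⁆ ≤ T := by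
  obtain ⟨B, h1, ⟨h2, h3⟩, h4⟩ := H1.exists_minimal_le (P := fun B => N(A) ≤ N(B) ∧ ¬ B ≤ T) (H := A) ⟨le_rfl, n⟩
  exact ⟨B, h1, h2, h3, by_contra fun k => (sol_der_lt (sol_mono s h1) fun e => h3 (e ▸ bot_le)).ne
    (h4 _ ⟨norms_der h2, k⟩ (der_le B))⟩

namespace Ax
variable (h : Ax α T z)
include h

theorem zi (n : γ ≠ α) : (z γ)⁻¹ = z γ := inv_eq_of_mul_eq_one_right (h.z2 γ n)

theorem md (n : γ ≠ α) (c : z γ * v = v * z γ) : ({α}ᶜ ∩ fixedBy Ω v).ncard ≡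
    ({α}ᶜ ∩ fixedBy Ω v ∩ fixedBy Ω (z γ)).ncard [MOD 2] :=
  H17.ncard_modEq_fixedBy (k := 1) Nat.prime_two (by rw [pow_one, sq, h.z2 γ n]) _ (Set.toFinite _)
    fun _ hx => ⟨sne (h.nC.le (h.zc γ n)) hx.1, csm c hx.2⟩

theorem cz (hv : v • α = α) (n : γ ≠ α) (e : v • γ = γ) : z γ * v = v * z γ :=
  (mul_inv_eq_iff_eq_mul.1 (by rw [h.eq γ n v hv, e])).symm

theorem par (hv : v ∈ C(T)) (n : γ ≠ α) (e : v • γ = γ) (m : δ ≠ α) (c : z δ * v = v * z δ) : v • δ = δ := by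
  have k := h.md n (h.cz (h.nC.le hv) n e)
  rw [show {α}ᶜ ∩ fixedBy Ω v ∩ fixedBy Ω (z γ) = (· • γ) '' (T : Set G) from Set.ext fun x =>
    ⟨fun hx => h.o1 γ x n hx.1.1 hx.2, by
      rintro ⟨t, ht, rfl⟩; exact ⟨⟨sne (h.nT.le ht) n, csm (hv t ht) e⟩, csm (h.zc γ n t ht) (h.zf γ n)⟩⟩,
    Set.InjOn.ncard_image fun s hs t ht q => (inv_mul_eq_one.1 (h.sr γ n _ (T.mul_mem (T.inv_mem ht) hs) (by
      rw [mul_smul, inv_smul_eq_iff]; exact q))).symm] at k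
  obtain ⟨x, hx⟩ : ({α}ᶜ ∩ fixedBy Ω v ∩ fixedBy Ω (z δ)).Nonempty := Set.nonempty_iff_ne_empty.2 fun q => by
    have := k.symm.trans (h.md m c)
    rw [q, Set.ncard_empty, ← Nat.card_coe_set_eq] at this
    exact Nat.not_even_iff_odd.2 h.od (even_iff_two_dvd.2 (Nat.modEq_zero_iff_dvd.1 this))
  obtain ⟨t, ht, rfl⟩ := h.o1 δ x m hx.1.1 hx.2
  exact smul_left_cancel t (by rw [← mul_smul, hv t ht, mul_smul]; exact hx.1.2)

theorem zt (n : γ ≠ α) (ht : t ∈ T) : z (t • γ) = z γ := by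
  rw [← h.eq γ n t (h.nT.le ht), h.zc γ n t ht, mul_inv_cancel_right]

theorem par' (hw : w ∈ C(T)) (m : δ ≠ α) (e : w • δ = δ) (ht : t ∈ T) (n : γ ≠ α) (e' : (w * t) • γ = γ) : t = 1 :=
  h.sr δ m t ht (smul_left_cancel w (by
    rw [e, ← mul_smul]
    exact h.par (mul_mem hw (h.ab ht)) n e' m (by
      rw [← mul_assoc, h.cz (h.nC.le hw) m e, mul_assoc, ← h.zc δ m t ht, mul_assoc])))

variable (α T z) in
def MM : Subgroup G := closure {x | x ∈ T ∨ ∃ γ δ, γ ≠ α ∧ δ ≠ α ∧ x = z γ * z δ}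

omit h in
theorem TM : T ≤ MM α T z := fun _ ht => subset_closure (.inl ht)
omit h in
theorem zM (n : γ ≠ α) (m : δ ≠ α) : z γ * z δ ∈ MM α T z := subset_closure (.inr ⟨γ, δ, n, m, rfl⟩)

theorem MC : MM α T z ≤ C(T) := (closure_le _).2 (by
  rintro _ (ht | ⟨γ, δ, n, m, rfl⟩); exacts [h.ab ht, mul_mem (h.zc γ n) (h.zc δ m)])

theorem nM : MM α T z ⊴ stabilizer G α := ⟨h.MC.trans h.nC.le, fun g hg => mem_norm_of_cj_le (cj_le_iff.2 ((closure_le _).2 (by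
  rintro _ (ht | ⟨γ, δ, n, m, rfl⟩) <;> refine mem_cj_inv.2 ?_
  · exact TM (h.nT.conj_mem hg ht)
  · rw [← conj_mul, h.eq γ n g hg, h.eq δ m g hg]; exact zM (sne hg n) (sne hg m))))⟩

theorem oM : Odd #(MM α T z) := by
  refine (H1.coprime_two_iff_odd.1 (H1.pPrimeCoreOf_coprime C(T))).of_dvd_nat (card_dvd ((closure_le _).2 ?_))
  rintro _ (ht | ⟨γ, δ, n, m, rfl⟩)
  · exact H1.le_pPrimeCoreOf h.ab (h.nC.le.trans h.nT.norm) (H1.coprime_two_iff_odd.2 h.od) ht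
  obtain ⟨c, hc, rfl⟩ := h.tr γ δ n m
  have e := fun g (hg : g ∈ C(T)) => h.eq γ n g (h.nC.le hg)
  refine ⟨_, H7.zstar (t := (⟨z γ, h.zc γ n⟩ : C(T))) ⟨?_, fun g k => Subtype.ext ?_⟩ ⟨c, hc⟩, ?_⟩
  · exact orderOf_eq_prime (Subtype.ext (by rw [sq]; exact h.z2 γ n)) fun q => h.z1 γ n (congrArg Subtype.val q)
  · have k' : z γ * (g * z γ * g.1⁻¹) = g * z γ * g.1⁻¹ * z γ := congrArg Subtype.val k
    change g * z γ * g.1⁻¹ = z γ
    rw [e g g.2] at k' ⊢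
    have m := sne (h.nC.le g.2) n
    obtain ⟨t, ht, q⟩ := h.o1 _ _ m n (h.par (h.zc _ m) m (h.zf _ m) n k')
    rw [← h.zt m ht, q]
  · change z γ * c * (z γ)⁻¹ * c⁻¹ = _
    rw [← e c hc, h.zi n]; group

theorem dih (n : γ ≠ α) (m : δ ≠ α) : ∃ s ∈ zpowers (z δ * z γ), z γ * s * (z γ)⁻¹ = s⁻¹ ∧ ∃ t ∈ T, (t * s) • γ = δ := by
  obtain ⟨k, hk⟩ := h.oM.of_dvd_nat (orderOf_dvd_card' (zM m n))
  have e1 : z γ * (z δ * z γ) ^ (k + 1) * (z γ)⁻¹ = ((z δ * z γ) ^ (k + 1))⁻¹ := by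
    rw [← conj_pow, ← inv_pow, mul_inv_rev, h.zi m]; congr 1; group; rw [zpow_neg_one, h.zi n]
  have e2 : (z δ * z γ) ^ (k + 1) * (z δ * z γ) ^ (k + 1) = z δ * z γ := by
    rw [← pow_add, show k + 1 + (k + 1) = 2 * k + 1 + 1 by ring, pow_succ, ← hk, pow_orderOf_eq_one, one_mul]
  have mem := pow_mem (mem_zpowers (z δ * z γ)) (k + 1)
  generalize (z δ * z γ) ^ (k + 1) = s at *
  have sa : s • α = α := h.nM.le (zpowers_le.2 (zM m n) mem)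
  have e3 : z (s • γ) = z δ := by
    rw [← h.eq γ n s sa, ← e1, ← mul_assoc, ← mul_assoc, mul_assoc s, h.z2 γ n, mul_one, e2, mul_inv_cancel_right]
  obtain ⟨t, ht, e⟩ := h.o1 δ (s • γ) m (sne sa n) (e3 ▸ h.zf _ (sne sa n))
  exact ⟨s, mem, e1, t⁻¹, inv_mem ht, by rw [mul_smul, ← e, inv_smul_smul]⟩

section
variable (nY : Y ⊴ stabilizer G α) (TY : T ≤ Y) (sr : ∀ γ, γ ≠ α → ∀ y ∈ Y, y • γ = γ → y = 1)
include nY TY sr

theorem dec (n : γ ≠ α) (hy : y ∈ Y) : ∃ t ∈ T, ∃ s ∈ Y, y = t * s ∧ z γ * s * (z γ)⁻¹ = s⁻¹ := by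
  obtain ⟨s, hs, e, t, ht, q⟩ := h.dih n (sne (nY.le hy) n)
  have sY : s ∈ Y := zpowers_le.2 (by
    rw [← h.eq γ n y (nY.le hy)]
    simpa [mul_assoc, h.zi n] using mul_mem hy (nY.conj_mem (h.nC.le (h.zc γ n)) (inv_mem hy))) hs
  exact ⟨t, ht, s, sY, inv_mul_eq_one.1 (sr γ n _ (mul_mem (inv_mem hy) (mul_mem (TY ht) sY)) (by
    rw [mul_smul, q, inv_smul_smul])), e⟩

theorem inv (YC : Y ≤ C(T)) : ⁅MM α T z, Y⁆ ≤ T := commutator_le.2 fun m hm y hy => by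
  have i : ∀ γ, γ ≠ α → ∀ y ∈ Y, ∃ t ∈ T, z γ * y * (z γ)⁻¹ = t * y⁻¹ := fun γ n y hy => by
    obtain ⟨t, ht, s, hs, rfl, e⟩ := h.dec nY TY sr n hy
    refine ⟨t * t, mul_mem ht ht, ?_⟩
    rw [← conj_mul, e, ← h.zc γ n t ht, YC hs t ht]; group
  induction hm using closure_induction with
  | mem x hx =>
    rcases hx with ht | ⟨γ, δ, n, m, rfl⟩
    · rw [commutatorElement_eq_one_iff_mul_comm.2 (YC hy x ht)]; exact one_mem _
    obtain ⟨t, ht, e⟩ := i δ m y hy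
    obtain ⟨s, hs, e'⟩ := i γ n _ (inv_mem hy)
    have : ⁅z γ * z δ, y⁆ = z γ * (z δ * y * (z δ)⁻¹) * (z γ)⁻¹ * y⁻¹ := by rw [commutatorElement_def]; group
    rw [this, e, ← conj_mul, e', ← h.zc γ n t ht]
    simpa [mul_assoc] using mul_mem ht hs
  | one => simp
  | mul x x' hx _ i1 i2 =>
    rw [commutatorElement_mul_left_eq_conj_mul]
    exact mul_mem (h.nT.conj_mem (h.nM.le hx) i2) i1
  | inv x hx i1 =>
    rw [commutatorElement_inv_left]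
    exact conj_mem_of_norm' (h.nT.norm (h.nM.le hx)) (by rw [← commutatorElement_inv]; exact inv_mem i1)
end

theorem p2 (ab : Ab Y) (TY : T ≤ Y) (nY : Y ⊴ stabilizer G α) (n : ¬ Y ≤ T) (hw : w ∈ C(Y)) (m : γ ≠ α) (e : w • γ = γ) :
    w = 1 := by_contra fun w1 => n fun y hy => by
  have YC : Y ≤ C(T) := cents_of_comm ab le_rfl TY
  have k := h.o2 γ m w (cent_mono TY hw) w1 e Y ab TY nY hw
  obtain ⟨t, ht, q⟩ := k y hy
  suffices t⁻¹ * y = 1 from inv_mul_eq_one.1 this ▸ ht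
  have yc := mul_mem (h.ab (inv_mem ht)) (YC hy)
  refine h.fa _ fun δ => by_contra fun d => ?_
  have dn : δ ≠ α := fun q => d (q ▸ h.nC.le yc)
  obtain ⟨c, hc, rfl⟩ := h.tr γ δ m dn
  obtain ⟨s, hs, q'⟩ := k _ (conj_mem_of_norm' (nY.norm (h.nC.le hc)) hy)
  have f : (t⁻¹ * y * (t * s⁻¹)) • c • γ = c • γ := by
    rw [← mul_assoc, mul_assoc t⁻¹, ← YC hy t ht, inv_mul_cancel_left, ← YC hy _ (inv_mem hs), ← mul_smul, mul_smul, mul_smul,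
      inv_smul_eq_iff, ← mul_smul s, hc s hs, mul_smul, q']
    simp [mul_smul]
  have := h.par' yc m (by rw [mul_smul, ← q, inv_smul_smul]) (mul_mem ht (inv_mem hs)) dn f
  rw [this, mul_one] at f
  exact d f

theorem der : ⁅MM α T z, MM α T z⁆ ≤ T := by_contra fun n => by
  obtain ⟨B, h1, h2, h3, h4⟩ := ex_last (sol_mono (H20.sol_of_odd h.oM) (der_le _)) n
  have BM := h1.trans (der_le _)
  have nY : T ⊔ B ⊴ stabilizer G α := h.nT.sup ⟨BM.trans h.nM.le, h.nM.der.norm.trans h2⟩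
  have YM : T ⊔ B ≤ MM α T z := sup_le TM BM
  have YY : ⁅T ⊔ B, T ⊔ B⁆ ≤ T := (der_sup_le (BM.trans (h.nM.le.trans h.nT.norm))).trans (sup_le le_rfl h4)
  have BY : B ≤ T ⊔ B := le_sup_right
  have TY : T ≤ T ⊔ B := le_sup_left
  generalize T ⊔ B = Y at *
  have YC := YM.trans h.MC
  by_cases k : Z(Y) ≤ T
  · have := (h.inv nY TY (fun γ m w hw e => h.sr γ m w (k ⟨hw, fun y hy => ?_⟩) e) YC).trans (cents_symm h.MC)
    · exact h3 ((le_inf BY (h1.trans (commg_eq_bot.1 (three_subgroup (commg_eq_bot.2 this)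
        (commg_eq_bot.2 (by rwa [commutator_comm])))))).trans k)
    have := h.par' (YC hw) m e (YY (commutator_mem_commutator (inv_mem hw) hy)) (sne (nY.le hy) m) (by
      simp [commutatorElement_def, mul_smul, e])
    exact (Commute.inv_left_iff.1 (commutatorElement_eq_one_iff_commute.1 this)).symm
  have nZ : Z(Y) ⊴ stabilizer G α := ⟨inf_le_left.trans nY.le, norms_inf nY.norm (norms_cent nY.norm)⟩
  have TZ : T ≤ Z(Y) := le_inf TY (cents_symm YC)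
  have ab := comm_center Y
  have sr : ∀ γ, γ ≠ α → ∀ y ∈ Z(Y), y • γ = γ → y = 1 := fun γ m y hy => h.p2 ab TZ nZ k (comm_iff_le_cent.1 ab hy) m
  have i := h.inv nZ TZ sr (inf_le_left.trans YC)
  refine n (h.inv h.nM TM (fun γ m w hw e => h.p2 ab TZ nZ k (fun y hy => ?_) m e) h.MC)
  obtain ⟨t, ht, s, hs, rfl, q⟩ := h.dec nZ TZ sr m hy
  have c := h.cz (h.nM.le hw) m e
  have r := i (commutator_mem_commutator hw hs)
  suffices ⁅w, s⁆ = 1 by rw [mul_assoc, ← commutatorElement_eq_one_iff_mul_comm.1 this, ← mul_assoc, h.MC hw t ht, mul_assoc]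
  have e2 : ⁅w, s⁆ * ⁅w, s⁆ = 1 := by
    calc _ = z γ * ⁅w, s⁆ * (z γ)⁻¹ * s⁻¹ * (s * ⁅w, s⁆) := by rw [← h.zc γ m _ r]; group
      _ = z γ * w * s * (z γ * w)⁻¹ * (⁅w, s⁆ * s) := by rw [← YC hs.1 _ r, ← q, commutatorElement_def]; group
      _ = w * (z γ * s * (z γ)⁻¹) * s * w⁻¹ := by rw [c, commutatorElement_def]; group
      _ = 1 := by rw [q]; group
  exact orderOf_eq_one_iff.1 (Nat.Coprime.eq_one_of_dvd ((H1.coprime_two_iff_odd.2 h.od).coprime_dvd_left (orderOf_dvd_card' r))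
    (orderOf_dvd_of_pow_eq_one (by rw [sq, e2])))

theorem nt : NT G α := ⟨_, h.nM, nil_of_quo_cent (h.nM.le.trans h.nT.norm) (inf_le_left.trans (cents_symm h.MC))
  (nil_of_ab ((ab_quo_iff (h.nM.le.trans h.nT.norm)).2 h.der)), fun _ _ n m =>
    let ⟨_, hs, _, _, ht, e⟩ := h.dih n m; ⟨_, mul_mem (TM ht) (zpowers_le.2 (zM m n) hs), e⟩⟩
end Ax

theorem c2 (fx : FIX.{u}) : C2.{u} := fun G Ω _ _ _ _ p E D f S ih α β n a ha b hb h z1 => by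
  choose! c hc pc using fun γ (m : γ ≠ α) => D.ex_pr m.symm ha
  have zc := fun γ (m : γ ≠ α) => D.z_cent m.symm (D.sr_uq S m) (D.sr_uq S m.symm) ha (hc γ m) (pc γ m)
  have eq : ∀ γ, γ ≠ α → ∀ g : G, g • α = α → g * (a * c γ * a) ^ 2 * g⁻¹ = (a * c (g • γ) * a) ^ 2 := fun γ m g e => by
    have m' := sne e m
    rw [← conj_pow, ← conj_mul, ← conj_mul]
    exact D.z_eq m'.symm (D.sr_uq S m') (D.sr_uq S m'.symm) ha (hc _ m') (pc _ m') (D.eqv1 ha e) (D.eqv _ _ (hc γ m) g)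
      ((pc γ m).cj g)
  have tr := fun β γ n m => (tr fx G Ω p E D S α β γ n m).imp fun g k => And.intro k.1.1 k.2.2
  have Z1 : ∀ γ, γ ≠ α → (a * c γ * a) ^ 2 ≠ 1 := fun γ m => by
    obtain ⟨g, hg, rfl⟩ := tr β γ n.symm m
    rw [← eq β n.symm g (D.fix_of_cent hg), D.z_eq n (D.sr_uq S n.symm) (D.sr_uq S n) ha hb h ha (hc β n.symm) (pc β n.symm)]
    simpa using z1
  have ih := fun w (hw : w ∈ C(T E α)) (w1 : w ≠ 1) => ih (fixedBy Ω w) (fun δ hδ x hx ε hε => csm (mem_cent.1 (by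
    by_cases q : δ = α
    · exact q ▸ hw
    · exact D.wx (Ne.symm q) (D.sr_uq S (Ne.symm q)) hw hδ) x (mem_T hx)) hε) fun q => w1 (f w fun x => q.ge trivial)
  refine Ax.nt (T := T E α) (z := fun γ => (a * c γ * a) ^ 2) ⟨f, ⟨fun _ => D.fixT', fun _ => D.norm_T⟩, D.TT rfl, ?_,
    D.cent_normal α, S α, tr, fun γ m => (zc γ m).1, fun γ m => D.fix_of_cent (zc γ m).2,
    fun γ m => D.z2 m.symm ha (hc γ m) (pc γ m), Z1, eq, fun γ δ m m' e => ?_, fun γ m w hw w1 e A ab le nA wA => ?_⟩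
  · obtain ⟨k, e⟩ := (D.pgT α).exists_card
    exact e ▸ D.odd.pow
  · exact (ih _ (zc γ m).1 (Z1 γ m)).1 α (D.fix_of_cent (zc γ m).1) γ (D.fix_of_cent (zc γ m).2) m.symm a ha _ (hc γ m) (pc γ m)
      (fun _ k => k) δ e m'
  · exact (ih w hw w1).2 α (D.fix_of_cent hw) γ e m.symm A ab le (fun y hy => ⟨nA.le hy, fun x =>
      ⟨fun k => by simpa using csm (wA _ (inv_mem hy)) k, csm (wA y hy)⟩⟩) fun g k _ => nA.norm k

end H29.AT
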