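import Cfsg.Agent.H9.StrCtl
import Cfsg.Agent.H9.ZJCor
import Cfsg.Agent.H29.Bridge
import Cfsg.Agent.H29.CMod

/-! The least centric radical subgroup in a `Qd(p)`-free group. -/

set_option autoImplicit false

namespace H29.CR

open Cfsg Subgroup H28 H9
open scoped commutatorElement MatrixGroups

universe u

section gen

variable {G : Type*} [Group G] {p : ℕ}

theorem exists_ext_hom {X : Type*} [Group X] {A C : Subgroup G} (hn : A ≤ 𝐍 C) (f : A →* X)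
    (hf : Function.Surjective f) (hk : C.subgroupOf A ≤ f.ker) :
    ∃ φ : ↥(A ⊔ C) →* X, Function.Surjective φ ∧ C.subgroupOf (A ⊔ C) ≤ φ.ker := by
  haveI : (C.subgroupOf A).Normal := (normal_subgroupOf_iff_le_normalizer_inf.2
    (le_normalizer_inf hn le_normalizer))
  haveI : (C.subgroupOf (A ⊔ C)).Normal := normal_subgroupOf_of_le_normalizer (sup_le hn le_normalizer)
  let e := QuotientGroup.quotientInfEquivProdNormalizerQuotient A C hn
  refine ⟨((QuotientGroup.lift _ f hk).comp e.symm.toMonoidHom).comp (QuotientGroup.mk' _), ?_, ?_⟩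
  · exact ((QuotientGroup.lift_surjective_of_surjective _ f hf hk).comp e.symm.surjective).comp
      (QuotientGroup.mk'_surjective _)
  · intro x hx
    have : (QuotientGroup.mk' (C.subgroupOf (A ⊔ C))) x = 1 := (QuotientGroup.eq_one_iff x).2 hx
    rw [MonoidHom.mem_ker, MonoidHom.comp_apply, this, map_one]

theorem coprime_cmod {g : G} {P Y W : Subgroup G} (hP : IsPGroup p P) (hg : (orderOf g).Coprime p)
    (h0 : g ∈ 𝐍 P) (h1 : g ∈ cmod P Y) (h2 : g ∈ cmod Y W) : g ∈ cmod P W := by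
  have := commutator_pResidualOf_le' (p := p) (P := P) (H := zpowers g) (N := W)
  rw [pResidualOf_zpowers hg] at this
  exact mem_cmod_iff_zpowers.2 ⟨h2.1, this (zpowers_le.2 h2.1) (isPGroup_commutator_of_le_normalizer hP
    (zpowers_le.2 h0)) ((commutator_mono (mem_cmod_iff_zpowers.1 h1).2 le_rfl).trans
    (mem_cmod_iff_zpowers.1 h2).2)⟩

/-- `g` acts on `A` as an element of `X` -/
def Gd (X A : Subgroup G) (g : G) : Prop := ∃ n ∈ X, ∃ c ∈ 𝐂 A, g = n * c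

theorem cj_mul_cen {A : Subgroup G} {n c : G} (hc : c ∈ 𝐂 A) : cj (n * c) A = cj n A := by
  rw [← cj_cj, cj_eq_self (centralizer_le_normalizer _ hc)]

theorem fusPred_gd (X : Subgroup G) : FusPred (Gd X) where
  restrict h := fun ⟨n, hn, c, hc, e⟩ => ⟨n, hn, c, centralizer_anti h hc, e⟩
  comp := by
    rintro A _ _ ⟨n, hn, c, hc, rfl⟩ ⟨m, hm, d, hd, rfl⟩
    rw [cj_mul_cen hc, ← cj_centralizer] at hd
    exact ⟨m * n, mul_mem hm hn, n⁻¹ * d * n * c, mul_mem (mem_cj.1 hd) hc, by group⟩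

/-- radical and centric, in one -/
def RC (p : ℕ) (S H U : Subgroup G) : Prop :=
  ∀ Y ≤ H ⊓ 𝐍 U, H ⊓ 𝐍 U ≤ 𝐍 Y → PMod p Y (𝐂 U) → S ⊓ Y ≤ U

variable [hp : Fact p.Prime] [Finite G] {S H : Subgroup G}

theorem alperin_rc (hS : IsSylowIn p S H) {X : Subgroup G}
    (base : ∀ U, Ext p S H U → RC p S H U → H ⊓ 𝐍 U ≤ X) :
    ∀ A ≤ S, ∀ g ∈ H, cj g A ≤ S → Gd X A g := by
  intro A hA
  refine alperin_ext hS (fusPred_gd X) 0 (fun U hU _ ih g hg => ?_) A hA (Nat.zero_le _)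
  by_cases hrc : RC p S H U
  · exact ⟨g, base U hU hrc hg, 1, one_mem _, (mul_one g).symm⟩
  simp only [RC, not_forall] at hrc
  obtain ⟨Y, hY, hn, hm, hle⟩ := hrc
  have hT : IsSylowIn p (S ⊓ Y) Y := by
    have := hU.syl.inf_normal' hY hn
    rwa [inf_assoc, inf_eq_right.2 (hY.trans inf_le_right)] at this
  have hTU : S ⊓ Y ≤ 𝐍 U := inf_le_right.trans (hY.trans inf_le_right)
  obtain ⟨n, hn', y, hy, rfl⟩ := hT.frattini' (hn hg)
  have hy' := hy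
  rw [← hm.le_sup_sylow (le_normalizer_centralizer (hY.trans inf_le_right)) hT, sup_comm,
    mem_sup_of_le_normalizer (le_normalizer_inf (le_normalizer_of_le inf_le_right)
      (le_normalizer_centralizer hTU))] at hy'
  obtain ⟨t, ht, c, hc, rfl⟩ := hy'
  have h1 : n * t ∈ H ⊓ 𝐍 U := by
    have := mul_mem hg (inv_mem (hY hc.1))
    rwa [← mul_assoc, mul_inv_cancel_right] at this
  have h2 : n * t ∈ 𝐍 (U ⊔ S ⊓ Y) := le_normalizer_sup (A := zpowers (n * t)) (zpowers_le.2 h1.2)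
    (zpowers_le.2 (mul_mem hn' (le_normalizer ht))) (mem_zpowers _)
  have h3 : U ⊔ S ⊓ Y ≤ S := sup_le hU.le inf_le_left
  obtain ⟨m, hm', d, hd, e⟩ := (fusPred_gd X).restrict le_sup_left (ih _ h3
    (card_lt_of_lt (left_lt_sup.2 hle)) _ h1.1 ((cj_eq_self h2).le.trans h3))
  exact ⟨m, hm', d * c, mul_mem hd hc.2, by rw [← mul_assoc, e, mul_assoc]⟩

theorem le_of_inf_normalizer_le {W U : Subgroup G} (hW : IsPGroup p W) (hU : IsPGroup p U)
    (hn : U ≤ 𝐍 W) (h : W ⊓ 𝐍 U ≤ U) : W ≤ U := by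
  have := eq_of_inf_normalizer_le (isPGroup_sup_of_le_normalizer hU hW hn) le_sup_left (by
    rw [sup_inf_of_le_normalizer (Or.inl hn) le_normalizer]; exact sup_le le_rfl h)
  exact le_sup_right.trans this.ge

omit hp in
theorem StrCl.nrm {W U : Subgroup G} (h : StrCl W S H) (hU : U ≤ S) : H ⊓ 𝐍 U ≤ 𝐍 (W ⊓ U) :=
  fun g hg => mem_normalizer_of_cj_le (by
    rw [cj_inf, cj_eq_self hg.2]
    refine le_inf ?_ inf_le_right
    rw [← cj_eq_self hg.2, ← cj_inf]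
    exact h.cj_le inf_le_left hg.1 ((cj_mono _ inf_le_right).trans ((cj_eq_self hg.2).le.trans hU)))

omit hp in
theorem StrCl.le_nrm {W : Subgroup G} (h : StrCl W S H) (hS : S ≤ H) : S ≤ 𝐍 W := by
  have := StrCl.nrm h le_rfl
  rw [inf_eq_left.2 h.1] at this
  exact (le_inf hS le_normalizer).trans this

/-- a strongly closed subgroup lying in all centric radical subgroups -/
theorem ctl_of_le (hS : IsSylowIn p S H) {W : Subgroup G} (hW : StrCl W S H)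
    (h : ∀ U, Ext p S H U → RC p S H U → W ⊓ 𝐍 U ≤ U) :
    ∀ A ≤ S, ∀ g ∈ H, cj g A ≤ S → Gd (𝐍 W) A g :=
  alperin_rc hS fun U hU hrc => by
    have h1 := StrCl.nrm hW hU.le
    rwa [inf_eq_left.2 (le_of_inf_normalizer_le (hS.isPGroup.to_le hW.1) (hS.isPGroup.to_le hU.le)
      (hU.le.trans (StrCl.le_nrm hW hS.le)) (h U hU hrc))] at h1

theorem RC.le {Q U : Subgroup G} (hS : IsSylowIn p S H) (hU : U ≤ S) (h : RC p S H U) (hQ : Q ≤ S)
    (hn : H ≤ 𝐍 Q) : Q ≤ U :=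
  le_of_inf_normalizer_le (hS.isPGroup.to_le hQ) (hS.isPGroup.to_le hU) (hU.trans (hS.le.trans hn))
    ((le_inf (inf_le_left.trans hQ) le_rfl).trans (h _ (inf_le_inf_right _ (hQ.trans hS.le))
      (le_normalizer_inf (inf_le_left.trans hn) (le_normalizer_of_le inf_le_right))
      (pMod_of_isPGroup ((hS.isPGroup.to_le hQ).to_le inf_le_left) _)))

theorem pMod_of_coprime {D C : Subgroup G} (h : ∀ x ∈ D, (orderOf x).Coprime p → x ∈ C) : PMod p D C :=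
  pMod_of_pResidualOf_le (pResidualOf_le_iff.2 h)

omit hp [Finite G] in
theorem mem_of_pMod {D C : Subgroup G} (h : PMod p D C) {x : G} (hx : x ∈ D)
    (hc : (orderOf x).Coprime p) : x ∈ C := pResidualOf_le_iff.1 h.pResidualOf_le x hx hc

omit hp [Finite G] in
theorem strCl_inf {X : Subgroup G} (hn : H ≤ 𝐍 X) : StrCl (S ⊓ X) S H :=
  ⟨inf_le_left, fun _ hx _ hg h => ⟨h, conj_mem_of_mem_normalizer (hn hg) hx.2⟩⟩

omit hp [Finite G] in
theorem pMod_QC {Q : Subgroup G} (hQ : IsPGroup p Q) : PMod p (Q ⊔ 𝐂 Q) (𝐂 Q) :=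
  (pMod_of_isPGroup hQ _).sup (le_normalizer_centralizer le_normalizer)

omit hp [Finite G] in
theorem pMod_of_relIndex {X C : Subgroup G} (hn : X ≤ 𝐍 C) {k : ℕ} (h : C.relIndex X = p ^ k) :
    PMod p X C := fun x hx => by
  haveI : (C.subgroupOf X).Normal := normal_subgroupOf_iff_le_normalizer_inf.2
    (le_normalizer_inf hn le_normalizer)
  exact ⟨k, h ▸ (pow_index_mem (C.subgroupOf X) ⟨x, hx⟩)⟩

theorem relIndex_of_pMod {X C : Subgroup G} (hn : X ≤ 𝐍 C) (h : PMod p X C) :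
    ∃ k, C.relIndex X = p ^ k := by
  haveI : (C.subgroupOf X).Normal := normal_subgroupOf_iff_le_normalizer_inf.2
    (le_normalizer_inf hn le_normalizer)
  refine IsPGroup.iff_card.1 (fun q => ?_ : IsPGroup p (X ⧸ C.subgroupOf X))
  obtain ⟨x, rfl⟩ := QuotientGroup.mk_surjective q
  obtain ⟨k, hk⟩ := h x x.2
  exact ⟨k, (QuotientGroup.eq_one_iff (x ^ p ^ k)).2 hk⟩

theorem not_involves
    (hfree : ∀ Q : Subgroup G, IsPGroup p Q → ¬ ∃ (H K : Subgroup G) (_ : (K.subgroupOf H).Normal),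
      𝐂 Q ≤ K ∧ K ≤ H ∧ H ≤ 𝐍 Q ∧ Nonempty ((H ⧸ K.subgroupOf H) ≃* SL(2, ZMod p))) :
    ¬ H9.Involves (⊤ : Subgroup G) (qd p) := by
  rw [qd_eq]
  rintro ⟨L, -, π, hπ⟩
  let ψ : L →* SL(2, ZMod p) := (Qd.lin (F := ZMod p)).comp π
  have hψ : Function.Surjective ψ := Qd.lin_surjective.comp hπ
  obtain ⟨Q, hQ⟩ := exists_isSylowIn p ψ.ker
  have hQm : Q.map π = (Qd.lin (F := ZMod p)).ker := by
    have h1 := hQ.map π
    have h2 : ψ.ker.map π = (Qd.lin (F := ZMod p)).ker := by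
      rw [← MonoidHom.comap_ker]; exact map_comap_eq_self_of_surjective hπ _
    rw [h2] at h1
    exact (h1.max _ (Qd.isPGroup_ker p) h1.le le_rfl).symm
  let Q' := Q.map L.subtype
  have hA : (L ⊓ 𝐍 Q') ≤ 𝐍 (𝐂 Q') := le_normalizer_centralizer inf_le_right
  obtain ⟨φ, h1, h2⟩ := exists_ext_hom hA (ψ.comp (inclusion inf_le_left)) (fun s => by
    obtain ⟨x, rfl⟩ := hψ s
    obtain ⟨n, hn, k, hk, rfl⟩ := hQ.frattini' (mem_normalizer_of_normal _ x)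
    refine ⟨⟨n, n.2, le_normalizer_map _ ⟨n, hn, rfl⟩⟩, ?_⟩
    rw [map_mul, (MonoidHom.mem_ker.1 hk : ψ k = 1), mul_one]; rfl) (fun x hx => by
    have : π (inclusion inf_le_left x) ∈ 𝐂 (Qd.lin (F := ZMod p)).ker := by
      rw [← hQm]
      refine mem_centralizer'.2 ?_
      rintro _ ⟨y, hy, rfl⟩
      rw [← map_mul, ← map_mul]
      exact congrArg π (Subtype.ext (mem_centralizer'.1 hx y ⟨y, hy, rfl⟩))
    rwa [Qd.centralizer_ker] at this)
  have e : (φ.ker.map (Subgroup.subtype _)).subgroupOf (L ⊓ 𝐍 Q' ⊔ 𝐂 Q') = φ.ker :=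
    comap_map_eq_self_of_injective (subtype_injective _) _
  have hN : ((φ.ker.map (Subgroup.subtype _)).subgroupOf (L ⊓ 𝐍 Q' ⊔ 𝐂 Q')).Normal := by
    rw [e]; infer_instance
  refine hfree Q' (hQ.isPGroup.map _) ⟨_, φ.ker.map (Subgroup.subtype _), hN,
    fun c hc => ⟨⟨c, mem_sup_right hc⟩, h2 hc, rfl⟩, map_subtype_le _,
    sup_le inf_le_right (centralizer_le_normalizer _), ?_⟩
  exact ⟨(QuotientGroup.quotientMulEquivOfEq e).trans (QuotientGroup.quotientKerEquivOfSurjective φ h1)⟩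

end gen

variable {G : Type u} [Group G] {p : ℕ} [hp : Fact p.Prime] [Finite G] {S H Q D : Subgroup G}

theorem zj_step (hp2 : p ≠ 2) (hG : ¬ H9.Involves (⊤ : Subgroup G) (qd p)) (hS : IsSylowIn p S H)
    (hn : H ≤ 𝐍 Q) (hD : StrCl D S H) (hQ : Q < D) :
    ∃ W, Q < W ∧ W ≤ D ∧ ⁅W, W⁆ ≤ Q ∧ StrCl W S H := by
  have hDH : D ≤ H := hD.1.trans hS.le
  haveI : (Q.subgroupOf H).Normal := normal_subgroupOf_of_le_normalizer hn
  let f := QuotientGroup.mk' (Q.subgroupOf H)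
  have hf : Function.Surjective f := QuotientGroup.mk'_surjective _
  have hk : f.ker = Q.subgroupOf H := QuotientGroup.ker_mk' _
  have h1 : ¬ Cfsg.Involves (qd p) (H ⧸ Q.subgroupOf H) := fun h =>
    hG ((involves_top_iff.2 h).of_surjective hf).top_of_subgroup
  have hS' : IsSylowIn p ((S.subgroupOf H).map f) ⊤ := by
    have := hS.subgroupOf_top.map f
    rwa [map_top_of_surjective f hf] at this
  have hD' := hD.subgroupOf.map hS.subgroupOf_top hf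
  have h2 := aCtl_top_iff.1 ((zjType_ZJ hp2 (Or.inr rfl)).dCtl_of_not_involves hp2 h1 _ _ hS' hD')
  rw [induced_ZJ] at h2
  set D' := (D.subgroupOf H).map f
  have hle : (ZJ 0 D').comap f ≤ D.subgroupOf H := by
    refine (comap_mono (ZJ_le 0 D')).trans ?_
    rw [comap_map_eq, hk]; exact sup_le le_rfl (comap_mono hQ.le)
  have h0 : D' ≠ ⊥ := fun h => hQ.not_ge fun x hx => by
    have := (Subgroup.map_eq_bot_iff _).1 h (show (⟨x, hDH hx⟩ : H) ∈ D.subgroupOf H from hx)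
    rwa [hk] at this
  have hWD : ((ZJ 0 D').comap f).map H.subtype ≤ D := map_le_iff_le_comap.2 hle
  refine ⟨((ZJ 0 D').comap f).map H.subtype, lt_of_le_not_ge (fun x hx => ⟨⟨x, hDH (hQ.le hx)⟩, ?_, rfl⟩)
    (fun h => ZJ_ne_bot (Or.inr rfl) (hS'.isPGroup.to_le hD'.1) h0 (eq_bot_iff.2 fun y hy => ?_)),
    hWD, ?_, hWD.trans hD.1, ?_⟩
  · have : f ⟨x, hDH (hQ.le hx)⟩ = 1 := (QuotientGroup.eq_one_iff _).2 hx
    rw [SetLike.mem_coe, mem_comap, this]; exact one_mem _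
  · obtain ⟨x, rfl⟩ := hf y
    exact (QuotientGroup.eq_one_iff _).2 (h ⟨x, hy, rfl⟩)
  · refine commutator_le.2 ?_
    rintro _ ⟨x, hx, rfl⟩ _ ⟨y, hy, rfl⟩
    have : f ⁅x, y⁆ = 1 := by
      rw [map_commutatorElement, commutatorElement_eq_one_iff_mul_comm]
      exact mem_centralizer'.1 hy.2 _ hx.1
    exact (QuotientGroup.eq_one_iff (N := Q.subgroupOf H) ⁅x, y⁆).1 this
  · rintro _ ⟨x, hx, rfl⟩ g hg h
    obtain ⟨n, hn, c, hc, e⟩ := h2 (zpowers (f x)) (zpowers_le.2 (hD'.1 (ZJ_le 0 D' hx))) (f ⟨g, hg⟩) (by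
      rw [cj_zpowers, zpowers_le, ← map_inv, ← map_mul, ← map_mul]; exact ⟨_, h, rfl⟩)
    refine ⟨⟨g, hg⟩ * x * ⟨g, hg⟩⁻¹, ?_, rfl⟩
    rw [SetLike.mem_coe, mem_comap, map_mul, map_mul, map_inv, e, mul_assoc n,
      ← mem_centralizer'.1 hc _ (mem_zpowers _), mul_inv_rev, mul_assoc n, mul_assoc (f x),
      mul_inv_cancel_left, ← mul_assoc]
    exact conj_mem_of_mem_normalizer hn hx

/-- `Q ≤ S` is maximal with `N(Q)` controlling strong fusion -/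
structure MaxCtl (Q S : Subgroup G) : Prop where
  le : Q ≤ S
  ctl : SCtl (𝐍 Q) S
  max : ∀ W, Q ≤ W → W ≤ S → SCtl (𝐍 W) S → W = Q

omit hp in
theorem exists_maxCtl (S : Subgroup G) : ∃ Q, MaxCtl Q S := by
  obtain ⟨Q, hQ⟩ := (Set.toFinite {Q : Subgroup G | Q ≤ S ∧ SCtl (𝐍 Q) S}).exists_maximal
    ⟨⊥, bot_le, by rw [normalizer_bot]; exact sctl_top S⟩
  exact ⟨Q, hQ.1.1, hQ.1.2, fun W h1 h2 h3 => le_antisymm (hQ.2 ⟨h2, h3⟩ h1) h1⟩

namespace MaxCtl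

omit hp [Finite G] in
theorem nrm (h : MaxCtl Q S) : S ≤ 𝐍 Q := fun _ hg => h.ctl.mem_normalizer h.le (cj_le_of_mem h.le hg)

omit hp [Finite G] in
theorem syl (h : MaxCtl Q S) (hS : IsSylowIn p S ⊤) : IsSylowIn p S (𝐍 Q) := hS.mono h.nrm le_top

theorem eq (h : MaxCtl Q S) (hS : IsSylowIn p S ⊤) {W : Subgroup G} (hQ : Q ≤ W)
    (hW : StrCl W S (𝐍 Q)) (h1 : ∀ U, Ext p S (𝐍 Q) U → RC p S (𝐍 Q) U → W ⊓ 𝐍 U ≤ U) : W = Q :=
  h.max W hQ hW.1 fun A hA g hg => by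
    obtain ⟨n, hn, c, hc, rfl⟩ := h.ctl A hA g hg
    rw [cj_mul_cen hc] at hg
    obtain ⟨m, hm, d, hd, rfl⟩ := ctl_of_le (h.syl hS) hW h1 A hA n hn hg
    exact ⟨m, hm, d * c, mul_mem hd hc, mul_assoc _ _ _⟩

theorem centric (h : MaxCtl Q S) (hS : IsSylowIn p S ⊤) (hp2 : p ≠ 2)
    (hG : ¬ H9.Involves (⊤ : Subgroup G) (qd p)) : S ⊓ 𝐂 Q ≤ Q := by
  by_contra hne
  have hC : 𝐍 Q ≤ 𝐍 (Q ⊔ 𝐂 Q) := le_normalizer_sup le_rfl (le_normalizer_centralizer le_rfl)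
  have hC' : Q ⊔ 𝐂 Q ≤ 𝐍 Q := sup_le le_normalizer (centralizer_le_normalizer _)
  obtain ⟨W, h1, h2, h3, h4⟩ := zj_step hp2 hG (h.syl hS) le_rfl (strCl_inf hC)
    (lt_of_le_not_ge (le_inf h.le le_sup_left) fun e => hne ((inf_le_inf_left _ le_sup_right).trans e))
  refine h1.ne' (h.eq hS h1.le h4 fun U hU hrc => ?_)
  have hn := StrCl.nrm h4 hU.le
  have hWS : W ≤ 𝐍 Q := h4.1.trans h.nrm
  refine (le_inf (inf_le_left.trans h4.1) ?_).trans
    (hrc ((Q ⊔ 𝐂 Q) ⊓ 𝐍 U ⊓ (cmod U (W ⊓ U) ⊓ cmod (W ⊓ U) Q))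
      (inf_le_left.trans (inf_le_inf_right _ hC'))
      (le_normalizer_inf (le_normalizer_inf (inf_le_left.trans hC) (le_normalizer_of_le inf_le_right))
        (le_normalizer_inf (le_normalizer_cmod inf_le_right hn) (le_normalizer_cmod hn inf_le_left)))
      (pMod_of_coprime fun x hx hc => ?_))
  · refine le_inf (inf_le_inf_right _ (h2.trans inf_le_right)) (le_inf
      (le_cmod ((inf_le_inf_right _ hWS).trans hn) (le_inf ?_ (commutator_le_of_le_normalizer inf_le_right)))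
      (le_cmod (inf_le_left.trans hWS) ((commutator_mono inf_le_left inf_le_left).trans h3)))
    exact (commutator_mono le_rfl inf_le_left).trans
      (commutator_le_of_le_normalizer' (hU.le.trans (StrCl.le_nrm h4 h.nrm)))
  · have h5 : x ∈ cmod Q ⊥ := cmod_bot (U := Q) ▸ mem_of_pMod (pMod_QC (hS.isPGroup.to_le h.le)) hx.1.1 hc
    have hU' := hS.isPGroup.to_le hU.le
    exact cmod_bot (U := U) ▸ coprime_cmod hU' hc hx.1.2 (coprime_cmod hU' hc hx.1.2 hx.2.1 hx.2.2) h5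

theorem radical (h : MaxCtl Q S) (hS : IsSylowIn p S ⊤) (hc : S ⊓ 𝐂 Q ≤ Q) {X : Subgroup G}
    (h1 : X ≤ 𝐍 Q) (h2 : 𝐍 Q ≤ 𝐍 X) (h3 : Q ⊔ 𝐂 Q ≤ X) (h4 : PMod p X (Q ⊔ 𝐂 Q)) : X = Q ⊔ 𝐂 Q := by
  have hC : 𝐍 Q ≤ 𝐍 (Q ⊔ 𝐂 Q) := le_normalizer_sup le_rfl (le_normalizer_centralizer le_rfl)
  have e : S ⊓ X = Q := h.eq hS (le_inf h.le (le_sup_left.trans h3)) (strCl_inf h2) fun U hU hrc => by
    refine (le_inf (inf_le_left.trans inf_le_left) (inf_le_inf_right _ inf_le_right)).trans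
      (hrc (X ⊓ 𝐍 U) (inf_le_inf_right _ h1) (le_normalizer_inf (inf_le_left.trans h2)
        (le_normalizer_of_le inf_le_right)) (pMod_of_coprime fun x hx hx' => ?_))
    have h5 : x ∈ 𝐂 Q := mem_of_pMod (h4.trans (pMod_QC (hS.isPGroup.to_le h.le))) hx.1 hx'
    refine cmod_bot (U := U) ▸ coprime_cmod (hS.isPGroup.to_le hU.le) hx' hx.2
      (mem_cmod_iff_zpowers.2 ⟨h1 hx.1, le_trans (le_inf ?_ ?_) hc⟩) (cmod_bot (U := Q) ▸ h5)
    · exact (commutator_le_of_le_normalizer (zpowers_le.2 hx.2)).trans hU.le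
    · exact (commutator_mono le_rfl (zpowers_le.2 h5)).trans
        (commutator_le_of_le_normalizer' (le_normalizer_centralizer (hU.le.trans h.nrm)))
  refine le_antisymm ?_ h3
  rw [← h4.le_sup_sylow (h1.trans hC) ((h.syl hS).inf_normal' h1 h2), e]
  exact sup_le inf_le_right le_sup_left

theorem least (h : MaxCtl Q S) (hS : IsSylowIn p S ⊤) {R : Subgroup G} (hR : R ≤ S)
    (hc : IsSylowIn p (R ⊓ 𝐂 R) (𝐂 R))
    (hr : ∀ X ≤ 𝐍 R, 𝐍 R ≤ 𝐍 X → R ⊔ 𝐂 R ≤ X → PMod p X (R ⊔ 𝐂 R) → X = R ⊔ 𝐂 R) : Q ≤ R := by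
  have hC : 𝐍 R ≤ 𝐍 (R ⊔ 𝐂 R) := le_normalizer_sup le_rfl (le_normalizer_centralizer le_rfl)
  have hQ := hS.isPGroup.to_le h.le
  have hR' := hS.isPGroup.to_le hR
  have e := hr (Q ⊓ 𝐍 R ⊔ (R ⊔ 𝐂 R))
    (sup_le inf_le_right (sup_le le_normalizer (centralizer_le_normalizer _))) (fun g hg => by
      obtain ⟨n, hn, c, hc, rfl⟩ := h.ctl R hR g ((cj_eq_self hg).le.trans hR)
      have hn' : n ∈ 𝐍 R := (mul_mem_cancel_right (centralizer_le_normalizer _ hc)).1 hg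
      exact mul_mem (le_normalizer_sup (A := 𝐍 Q ⊓ 𝐍 R) (le_normalizer_inf inf_le_left
        (le_normalizer_of_le inf_le_right)) (inf_le_right.trans hC) ⟨hn, hn'⟩)
        (le_normalizer (mem_sup_right (mem_sup_right hc)))) le_sup_right
    ((pMod_of_isPGroup (hQ.to_le inf_le_left) _).sup (inf_le_right.trans hC))
  refine le_of_inf_normalizer_le hQ hR' (hR.trans h.nrm) ?_
  have h1 : IsPGroup p ↥(R ⊔ Q ⊓ 𝐍 R) :=
    isPGroup_sup_of_le_normalizer' hR' (hQ.to_le inf_le_left) inf_le_right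
  have h2 := hc.max (𝐂 R ⊓ (R ⊔ Q ⊓ 𝐍 R)) (h1.to_le inf_le_right)
    (le_inf inf_le_right (inf_le_left.trans le_sup_left)) inf_le_left
  have h3 := sup_inf_of_le_normalizer (A := R) (B := 𝐂 R) (C := R ⊔ Q ⊓ 𝐍 R)
    (Or.inr (centralizer_le_normalizer _)) le_sup_left
  rw [h2, sup_inf_self] at h3
  exact (le_inf (le_sup_left.trans e.le) le_sup_right).trans h3.le

end MaxCtl

end H29.CR
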