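import Cfsg.Agent.H12.GT1
import Cfsg.Agent.H19.Amb5
import Cfsg.Agent.H3.Transfer

/-! A subgroup containing the centralisers of its elements of order three and of an outer involution. -/

set_option autoImplicit false
set_option linter.unusedSectionVars false

namespace H29.K3
open Subgroup H19

universe u
variable {L : Type*} [Group L] [Finite L] {H : Subgroup L} {d e : L}

theorem pg_zp {p : ℕ} (hp : p.Prime) (h : d ^ p = 1) : PG p (zpowers d) :=
  piG_zpowers.2 ((PiN.prime_pow hp 1).dvd (by simpa using orderOf_dvd_of_pow_eq_one h))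

theorem pg_le {p : ℕ} (hU : ∀ g, g * d * g⁻¹ ∈ H → g ∈ H) (aM : d ∈ H) {P : Subgroup L} (hP : PG p P)
    (ha : d ∈ P) : P ≤ H := by
  by_contra h
  obtain ⟨g, hg, k⟩ := SetLike.exists_of_lt (hP.lt_norm (inf_lt_left.2 h))
  exact k ⟨hg.1, hU g (conj_mem_of_norm hg.2 (⟨ha, aM⟩ : d ∈ P ⊓ H)).2⟩

/-- two elements generating an elementary abelian group of order nine -/
structure Tw (d e : L) : Prop where
  d3 : d ^ 3 = 1
  e3 : e ^ 3 = 1
  cm : d * e = e * d
  d1 : d ≠ 1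
  e1 : e ≠ 1
  ne : e ≠ d
  ne' : e ≠ d ^ 2

theorem mem3 (h : d ^ 3 = 1) {x : L} (hx : x ∈ zpowers d) : ∃ i < 3, x = d ^ i := by
  obtain ⟨n, rfl⟩ := hx
  refine ⟨(n % 3).toNat, by omega, ?_⟩
  rw [← zpow_natCast, Int.toNat_of_nonneg (by omega)]
  exact zpow_eq_zpow_emod' n h

namespace Tw
variable (h : Tw d e)
include h

theorem nm : zpowers e ≤ N(zpowers d) :=
  norms_of_cents (zpowers_le.2 (mem_centralizer_iff.2 (by
    rintro _ ⟨n, rfl⟩; exact (Commute.zpow_left h.cm n).eq)))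

theorem mem {x : L} (hx : x ∈ zpowers d ⊔ zpowers e) : ∃ i < 3, ∃ j < 3, x = d ^ i * e ^ j := by
  obtain ⟨a, ha, b, hb, rfl⟩ := (mem_sup_of_norm h.nm).1 hx
  obtain ⟨i, hi, rfl⟩ := mem3 h.d3 ha
  obtain ⟨j, hj, rfl⟩ := mem3 h.e3 hb
  exact ⟨i, hi, j, hj, rfl⟩

theorem cube {x : L} (hx : x ∈ zpowers d ⊔ zpowers e) : x ^ 3 = 1 := by
  obtain ⟨i, -, j, -, rfl⟩ := h.mem hx
  rw [(Commute.pow_pow h.cm i j).mul_pow, pow_right_comm, h.d3, pow_right_comm, h.e3]; simp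

theorem card : #(zpowers d ⊔ zpowers e) = 9 := by
  have : Fact (Nat.Prime 3) := ⟨Nat.prime_three⟩
  rw [card_sup_of_disjoint h.nm, Nat.card_zpowers, Nat.card_zpowers, orderOf_eq_prime h.d3 h.d1,
    orderOf_eq_prime h.e3 h.e1]
  refine bot_unique fun x hx => ?_
  have ne : e ∉ zpowers d := fun k => by
    obtain ⟨i, hi, k⟩ := mem3 h.d3 k
    interval_cases i
    exacts [h.e1 (by simpa using k), h.ne (by simpa using k), h.ne' k]
  obtain ⟨j, hj, rfl⟩ := mem3 h.e3 hx.2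
  interval_cases j
  · simp
  · exact absurd (by simpa using hx.1) ne
  · refine absurd ?_ ne
    have := pow_mem hx.1 2
    rwa [← pow_mul, show 2 * 2 = 3 + 1 from rfl, pow_succ, h.e3, one_mul] at this

theorem pg : PG 3 (zpowers d ⊔ zpowers e) := pg_of_pow Nat.prime_three fun _ => h.cube

theorem ab : Ab (zpowers d ⊔ zpowers e) := ab_of_card_sq Nat.prime_three (by rw [h.card]; norm_num)

theorem nc : ¬ Cyc (zpowers d ⊔ zpowers e) := fun k => by
  obtain ⟨g, hg⟩ := IsCyclic.exists_ofOrder_eq_natCard (α := (zpowers d ⊔ zpowers e : Subgroup L))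
  have := orderOf_dvd_of_pow_eq_one (Subtype.ext (h.cube g.2) : g ^ 3 = 1)
  rw [hg, h.card] at this
  norm_num at this

theorem one {n : ℕ} (hL : Nat.card L = 9 * n) (hn : ¬ 3 ∣ n)
    (c : ∀ i < 3, ∀ j < 3, i = 0 ∧ j = 0 ∨ IsConj (d ^ i * e ^ j) d) {y : L} (hy : y ^ 3 = 1) :
    y = 1 ∨ IsConj y d := by
  have s : Syl 3 (zpowers d ⊔ zpowers e) ⊤ := ⟨le_top, h.pg, PiN.of_not_dvd (by
    have := (zpowers d ⊔ zpowers e).card_mul_index
    rw [h.card, hL] at this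
    rwa [relIndex_top_right, Nat.eq_of_mul_eq_mul_left (by norm_num) this])⟩
  obtain ⟨g, -, k⟩ := s.scj_le le_top (pg_zp Nat.prime_three hy)
  obtain ⟨i, hi, j, hj, k⟩ := h.mem (k (conj_mem_cj.2 (mem_zpowers y)))
  refine (c i hi j hj).imp ?_ fun c => (isConj_iff.2 ⟨g, k⟩).trans c
  rintro ⟨rfl, rfl⟩
  simpa using k

theorem map {L' : Type*} [Group L'] {f : L →* L'} (hf : Function.Injective f) : Tw (f d) (f e) :=
  ⟨by rw [← map_pow, h.d3, map_one], by rw [← map_pow, h.e3, map_one], by rw [← map_mul, h.cm, map_mul],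
    (map_ne_one_iff f hf).2 h.d1, (map_ne_one_iff f hf).2 h.e1, hf.ne h.ne, map_pow f d 2 ▸ hf.ne h.ne'⟩

end Tw

/-- `H` controls the fusion of its elements of order three and contains their centralisers -/
def SE (H : Subgroup L) : Prop := ∀ k y, y ^ 3 = 1 → y ≠ 1 → y ∈ H → k * y * k⁻¹ ∈ H → k ∈ H

theorem simple {X S Q : Type*} [Group X] [Group S] [Group Q] [IsSimpleGroup S] {ν : X →* L} {σ : X →* S}
    {π : L →* Q} {ψ : S →* Q} (hπ : Function.Surjective π)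
    (hψ : Function.Injective ψ) (c : ∀ x, ψ (σ x) = π (ν x)) (k : ∀ x, σ x = 1 → x * x = 1)
    (se : SE ν.range) (h : Tw d e) (hd : d ∈ ν.range) (he : e ∈ ν.range) : IsSimpleGroup Q := by
  have := hψ.nontrivial
  refine ⟨fun N hN => ?_⟩
  have hn : (N.comap π).Normal := inferInstance
  refine (IsSimpleGroup.eq_bot_or_eq_top_of_normal (N.comap ψ) inferInstance).imp (fun b => ?_) fun b => ?_
  · have b' : ∀ x, ν x ∈ N.comap π → σ x = 1 := fun x hx => b.le (by rwa [mem_comap, c])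
    have le : N.comap π ≤ ν.range := H12.le_of_noncyc Nat.prime_three h.pg h.ab h.nc
      (le_normalizer_of_normal) (fun x hx x1 y hy => by
        have m := sup_le (zpowers_le.2 hd) (zpowers_le.2 he) hx
        exact se y x (h.cube hx) x1 m (by rwa [mem_cent1.1 hy.2, mul_inv_cancel_right])) (by
        rintro _ hx ⟨x, rfl⟩ h3
        rwa [pow_succ, pow_two, ← map_mul, k x (b' x hx), map_one, one_mul] at h3)
    refine bot_unique fun y hy => ?_
    obtain ⟨y, rfl⟩ := hπ y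
    obtain ⟨x, rfl⟩ := le hy
    rw [← c, b' x hy, map_one]; rfl
  · have le : ν.range ≤ N.comap π := by
      rintro _ ⟨x, rfl⟩
      rw [mem_comap, ← c]; exact b.ge (mem_top _)
    obtain ⟨P, hP, h1⟩ := (pg_zp Nat.prime_three h.d3).exists_syl (zpowers_le.2 (le hd))
    have h2 := pg_le (fun g => se g d h.d3 h.d1 hd) hd hP.pi (h1 (mem_zpowers d))
    refine top_unique fun y _ => ?_
    obtain ⟨y, rfl⟩ := hπ y
    obtain ⟨g, hg, h3⟩ := hP.scj_le (zpowers_le.2 (hn.conj_mem _ (le hd) y))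
      (pg_zp Nat.prime_three (by rw [conj_pow, h.d3]; simp))
    have := se (g * y) d h.d3 h.d1 hd (by
      simpa [mul_assoc] using h2 (h3 (conj_mem_cj.2 (mem_zpowers _))))
    exact (mul_mem_cancel_left hg).1 (le this)

structure Mo {Y S : Type*} [Group Y] [Group S] (X0 : Subgroup Y) (σ : X0 →* S) (τ z d e : Y) : Prop where
  idx : X0.index = 2
  pf : commutator X0 = ⊤
  sj : Function.Surjective σ
  ker : ∀ x : X0, σ x = 1 ↔ x.1 = 1 ∨ x.1 = τ
  ττ : τ * τ = 1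
  τ0 : τ ∈ X0
  zz : z * z = 1
  z0 : z ∉ X0
  tw : Tw d e
  c3 : ∀ y, y ^ 3 = 1 → y = 1 ∨ IsConj y d
  iv : ∀ y : Y, y * y = 1 → ∃ u, u ^ 3 = 1 ∧ u ≠ 1 ∧ u * y = y * u

theorem cube_mem {M : Subgroup L} (h : M.index = 2) (h3 : d ^ 3 = 1) : d ∈ M := by
  have := mul_self_mem_of_index_two h (d * d)
  rwa [show d * d * (d * d) = d ^ 3 * d by simp [pow_succ, mul_assoc], h3, one_mul] at this

theorem Mo.top {K : Type u} {Y S : Type*} [Group K] [Finite K] [Group Y] [Finite Y] [Group S] [IsSimpleGroup S]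
    {X0 : Subgroup Y} {σ : X0 →* S} {τ z d e : Y} (m : Mo X0 σ τ z d e) {μ : Y →* K}
    (inj : Function.Injective μ) (hc : ∀ k, k * μ τ = μ τ * k)
    (h3 : ∀ k, k * μ d = μ d * k → k ∈ μ.range) (hz : ∀ k, k * μ z = μ z * k → k ∈ μ.range)
    (hS : ∀ (Q : Type u) [Group Q] [Finite Q] [IsSimpleGroup Q] (ψ : S →* Q), Function.Injective ψ →
      ¬ 2 ∣ ψ.range.index → Nat.card Q = Nat.card S) : μ.range = ⊤ := by
  have se : SE μ.range := by
    rintro k _ y3 y1 ⟨y, rfl⟩ ⟨w, hw⟩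
    have c : ∀ {y}, μ y ^ 3 = 1 → μ y ≠ 1 → ∃ c, c * d * c⁻¹ = y := fun {y} a b =>
      isConj_iff.1 ((m.c3 y (inj (by simpa using a))).resolve_left fun e => b (by simp [e])).symm
    obtain ⟨a, rfl⟩ := c y3 y1
    obtain ⟨b, rfl⟩ := c (y := w) (by rw [hw, conj_pow, y3]; simp) (by rw [hw]; simpa using y1)
    have := h3 ((μ b)⁻¹ * k * μ a) (by
      simp only [map_mul, map_inv] at hw
      calc _ = (μ b)⁻¹ * (k * (μ a * μ d * (μ a)⁻¹) * k⁻¹) * k * μ a := by group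
        _ = _ := by rw [← hw]; group)
    rwa [mul_mem_cancel_right (μ.mem_range.2 ⟨a, rfl⟩), mul_mem_cancel_left (inv_mem (μ.mem_range.2 ⟨b, rfl⟩))] at this
  have zz : μ z * μ z = 1 := by rw [← map_mul, m.zz, map_one]
  have hU : ∀ k, k * μ z * k⁻¹ ∈ μ.range → k ∈ μ.range := by
    rintro k ⟨w, hw⟩
    obtain ⟨u, u3, u1, c⟩ := m.iv w (inj (by rw [map_mul, hw, conj_mul, zz]; simp))
    refine (inv_mem_iff (x := k)).1 (se k⁻¹ (μ u) (by rw [← map_pow, u3, map_one])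
      ((map_ne_one_iff μ inj).2 u1) ⟨u, rfl⟩ (hz _ ?_))
    have := congrArg μ c
    rw [map_mul, map_mul, hw] at this
    calc _ = k⁻¹ * (μ u * (k * μ z * k⁻¹)) * k := by group
      _ = _ := by rw [this]; group
  obtain ⟨P, hP, h1⟩ := (pg_zp Nat.prime_two ((sq _).trans zz)).exists_syl (le_top (a := zpowers (μ z)))
  have h2 := pg_le hU ⟨z, rfl⟩ hP.pi (h1 (mem_zpowers _))
  have n0 := normal_of_index_eq_two m.idx
  obtain ⟨K0, nK, iK, zK⟩ := H3.thompson_transfer (H := μ.range) (Q := X0.map μ) (u := μ z)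
    (Nat.odd_iff.2 (Nat.two_dvd_ne_zero.1 (relIndex_top_right μ.range ▸ hP.not_dvd_relIndex Nat.prime_two h2)))
    (by rw [MonoidHom.range_eq_map, relIndex_map_map_of_injective _ _ inj, relIndex_top_right, m.idx])
    (by
      rintro t ⟨w, hw, e⟩
      obtain ⟨c, hc⟩ := hU t⁻¹ ⟨w, by simpa using e⟩
      refine m.z0 ((n0.mem_comm_iff (a := c) (b := z * c⁻¹)).1 ?_ |> fun h => by simpa using h)
      rwa [show c * (z * c⁻¹) = w from inj (by simp [e, hc, mul_assoc])])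
    (fun k t _ => by rw [pow_mul, sq, zz]; simp) ⟨1, (sq _).trans zz⟩
  have l0 : ∀ x : X0, μ x ∈ K0 := fun x =>
    (commutator_le.2 fun a _ b _ => by
      simp only [mem_comap, commutatorElement_def, map_mul, map_inv, mul_mem_iff_of_index_two iK, inv_mem_iff]
      tauto : commutator X0 ≤ K0.comap (μ.comp X0.subtype)) (m.pf.ge (mem_top x))
  have e0 : ∀ y, μ y ∈ K0 → y ∈ X0 := fun y hy => by
    by_contra h
    have := l0 ⟨z * y, (mul_mem_iff_of_index_two m.idx).2 (iff_of_false m.z0 h)⟩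
    exact zK ((mul_mem_cancel_right hy).1 (by simpa using this))
  let ν : X0 →* K0 := (μ.comp X0.subtype).codRestrict K0 l0
  have rν : ν.range = μ.range.subgroupOf K0 := le_antisymm (by rintro _ ⟨x, rfl⟩; exact ⟨x, rfl⟩)
    fun k ⟨y, hy⟩ => ⟨⟨y, e0 y (hy ▸ k.2)⟩, Subtype.ext hy⟩
  let t : X0 := ⟨τ, m.τ0⟩
  have tt : ν t * ν t = 1 := by rw [← map_mul, show t * t = 1 from Subtype.ext m.ττ, map_one]
  have zp : ∀ {y}, y ∈ zpowers (ν t) ↔ y = 1 ∨ y = ν t := fun {y} =>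
    ⟨fun ⟨n, hn⟩ => by
      have := zpow_eq_zpow_emod' n ((sq _).trans tt)
      rcases Int.emod_two_eq_zero_or_one n with k | k <;> simp_all,
      by rintro (rfl | rfl); exacts [one_mem _, mem_zpowers _]⟩
  have : (zpowers (ν t)).Normal := ⟨fun y hy g => by
    rcases zp.1 hy with rfl | rfl
    · simp
    · exact zp.2 (.inr (mul_inv_eq_iff_eq_mul.2 (Subtype.ext (hc g))))⟩
  let π := QuotientGroup.mk' (zpowers (ν t))
  have hπ : Function.Surjective π := QuotientGroup.mk'_surjective _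
  have kπ : ∀ x, π (ν x) = 1 ↔ σ x = 1 := fun x => by
    rw [m.ker, QuotientGroup.mk'_apply, QuotientGroup.eq_one_iff, zp, Subtype.ext_iff, Subtype.ext_iff]
    exact or_congr (map_eq_one_iff μ inj) inj.eq_iff
  let ψ := σ.liftOfSurjective m.sj ⟨π.comp ν, fun x hx => (kπ x).2 hx⟩
  have c : ∀ x, ψ (σ x) = π (ν x) := fun x => σ.liftOfRightInverse_comp_apply _ _ _ x
  have hψ : Function.Injective ψ := (injective_iff_map_eq_one ψ).2 fun s hs => by
    obtain ⟨x, rfl⟩ := m.sj s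
    exact (kπ x).1 (c x ▸ hs)
  have iν : Function.Injective ν := fun a b h => Subtype.ext (inj (congrArg Subtype.val h))
  let d0 : X0 := ⟨d, cube_mem m.idx m.tw.d3⟩
  let e0' : X0 := ⟨e, cube_mem m.idx m.tw.e3⟩
  have tw : Tw d0 e0' := ⟨Subtype.ext m.tw.d3, Subtype.ext m.tw.e3, Subtype.ext m.tw.cm,
    mt Subtype.ext_iff.1 m.tw.d1, mt Subtype.ext_iff.1 m.tw.e1, mt Subtype.ext_iff.1 m.tw.ne,
    mt Subtype.ext_iff.1 m.tw.ne'⟩
  have := simple hπ hψ c (fun x hx => by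
      rcases (m.ker x).1 hx with k | k <;> exact Subtype.ext (by simp [k, m.ττ]))
    (fun k y a b => by
      rw [rν]; exact se k y (congrArg Subtype.val a) fun e => b (Subtype.ext e))
    (tw.map iν) ⟨_, rfl⟩ ⟨_, rfl⟩
  have rψ : ψ.range = ν.range.map π := by
    rw [← MonoidHom.range_comp, MonoidHom.range_eq_map, ← σ.range_eq_top.2 m.sj, ← MonoidHom.range_comp]
    exact congrArg _ (MonoidHom.ext c)
  have hq := hS _ ψ hψ fun k => (hP.inf_normal normalIn_top).not_dvd_relIndex Nat.prime_two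
    (inf_le_left.trans h2) (k.trans (by rw [rψ, rν]; exact index_map_dvd _ hπ))
  have : Finite S := .of_surjective σ m.sj
  have sψ := ((Nat.bijective_iff_injective_and_card ψ).2 ⟨hψ, hq.symm⟩).2
  have le : K0 ≤ μ.range := fun k hk => by
    obtain ⟨s, hs⟩ := sψ (π ⟨k, hk⟩)
    obtain ⟨x, rfl⟩ := m.sj s
    rw [c, QuotientGroup.mk'_apply, QuotientGroup.mk'_apply, QuotientGroup.eq] at hs
    have : (⟨k, hk⟩ : K0) ∈ ν.range :=
      (mul_mem_cancel_left (inv_mem (ν.mem_range.2 ⟨x, rfl⟩))).1 (zpowers_le.2 (⟨t, rfl⟩ : ν t ∈ ν.range) hs)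
    rwa [rν] at this
  refine top_unique fun k _ => ?_
  by_cases h : k ∈ K0
  · exact le h
  · exact (mul_mem_cancel_left (μ.mem_range.2 ⟨z, rfl⟩)).1 (le ((mul_mem_iff_of_index_two iK).2 (iff_of_false zK h)))

end H29.K3
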