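import Mathlib

/-! Graph-of-groups model inside a semidirect product of a free group. -/

set_option autoImplicit false

namespace H29.LS
open FreeGroup

universe u

section
variable {Γ E V : Type u} [Group Γ] [MulAction Γ E] [MulAction Γ V]

/-- action on the free group -/
def act (Γ E : Type u) [Group Γ] [MulAction Γ E] : Γ →* MulAut (FreeGroup E) where
  toFun g := freeGroupCongr (MulAction.toPerm g)
  map_one' := by
    ext x
    have : (MulAction.toPerm (1 : Γ) : E ≃ E) = Equiv.refl E := by ext; simp
    simp [this]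
  map_mul' g h := by
    ext x
    have : (MulAction.toPerm (g * h) : E ≃ E) = (MulAction.toPerm h).trans (MulAction.toPerm g) := by
      ext; simp [mul_smul]
    rw [this, ← freeGroupCongr_trans]; rfl

def lt (g : Γ) (l : E × Bool) : E × Bool := (g • l.1, l.2)

theorem act_mk (g : Γ) (L : List (E × Bool)) : act Γ E g (mk L) = mk (L.map (lt g)) := by
  show FreeGroup.map (MulAction.toPerm g) (mk L) = _
  rw [map.mk]; rfl

theorem red_map (g : Γ) {L : List (E × Bool)} (h : IsReduced L) : IsReduced (L.map (lt g)) := by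
  unfold FreeGroup.IsReduced at *
  rw [List.isChain_map]
  refine h.imp ?_
  intro a b hab h1
  exact hab (smul_left_cancel g h1)

open Classical in
theorem toWord_act (g : Γ) (w : FreeGroup E) : (act Γ E g w).toWord = w.toWord.map (lt g) := by
  conv_lhs => rw [← mk_toWord (x := w), act_mk, toWord_mk]
  exact (red_map g isReduced_toWord).reduce_eq

open Classical in
theorem norm_act (g : Γ) (w : FreeGroup E) : (act Γ E g w).norm = w.norm := by
  unfold FreeGroup.norm; rw [toWord_act, List.length_map]

variable (s t : E → V)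

def src (l : E × Bool) : V := if l.2 then s l.1 else t l.1
def tgt (l : E × Bool) : V := if l.2 then t l.1 else s l.1

inductive Walk : V → List (E × Bool) → V → Prop
  | nil (v : V) : Walk v [] v
  | cons (l : E × Bool) (L : List (E × Bool)) (v : V) : Walk (tgt s t l) L v → Walk (src s t l) (l :: L) v

variable {s t}

theorem Walk.nil_iff {v v' : V} : Walk s t v [] v' ↔ v = v' := by
  constructor
  · intro h; cases h; rfl
  · rintro rfl; exact Walk.nil _

theorem Walk.cons_iff {v v' : V} {l : E × Bool} {L : List (E × Bool)} :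
    Walk s t v (l :: L) v' ↔ v = src s t l ∧ Walk s t (tgt s t l) L v' := by
  constructor
  · intro h; cases h with | cons _ _ _ h => exact ⟨rfl, h⟩
  · rintro ⟨rfl, h⟩; exact Walk.cons _ _ _ h

theorem Walk.append_iff {L L' : List (E × Bool)} : ∀ {v v' : V},
    Walk s t v (L ++ L') v' ↔ ∃ m, Walk s t v L m ∧ Walk s t m L' v' := by
  induction L with
  | nil => intro v v'; simp [Walk.nil_iff]
  | cons l L ih => intro v v'; simp [Walk.cons_iff, ih, and_assoc]

theorem Walk.step {L L' : List (E × Bool)} {v v' : V} (h : Red.Step L L') (w : Walk s t v L v') :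
    Walk s t v L' v' := by
  cases h with
  | @not L1 L2 x b =>
    rw [Walk.append_iff] at w ⊢
    obtain ⟨m, h1, h2⟩ := w
    rw [Walk.cons_iff, Walk.cons_iff] at h2
    refine ⟨m, h1, ?_⟩
    obtain ⟨rfl, -, h3⟩ := h2
    cases b <;> simpa [src, tgt] using h3

theorem Walk.red {L L' : List (E × Bool)} {v v' : V} (h : Red L L') (w : Walk s t v L v') :
    Walk s t v L' v' := by
  induction h with
  | refl => exact w
  | tail _ h ih => exact ih.step h

theorem Walk.inv {L : List (E × Bool)} {v v' : V} (w : Walk s t v L v') : Walk s t v' (invRev L) v := by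
  induction w with
  | nil v => exact Walk.nil v
  | cons l L v _ ih =>
    rw [invRev_cons, Walk.append_iff]
    refine ⟨_, ih, ?_⟩
    show Walk s t _ [(l.1, !l.2)] _
    rw [Walk.cons_iff, Walk.nil_iff]
    obtain ⟨x, b⟩ := l
    cases b <;> simp [src, tgt]

theorem Walk.smul (hs : ∀ (g : Γ) e, s (g • e) = g • s e) (ht : ∀ (g : Γ) e, t (g • e) = g • t e) (g : Γ)
    {L : List (E × Bool)} {v v' : V} (w : Walk s t v L v') : Walk s t (g • v) (L.map (lt g)) (g • v') := by
  induction w with
  | nil v => exact Walk.nil _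
  | cons l L v _ ih =>
    rw [List.map_cons, Walk.cons_iff]
    obtain ⟨x, b⟩ := l
    cases b <;> simpa [src, tgt, lt, hs, ht] using ih

/-- the group -/
def grp (hs : ∀ (g : Γ) e, s (g • e) = g • s e) (ht : ∀ (g : Γ) e, t (g • e) = g • t e) (v0 : V) :
    Subgroup (FreeGroup E ⋊[act Γ E] Γ) where
  carrier := {g | ∃ L, mk L = g.left ∧ Walk s t v0 L (g.right • v0)}
  one_mem' := ⟨[], rfl, by simpa using Walk.nil v0⟩
  mul_mem' := by
    rintro a b ⟨L, h1, h2⟩ ⟨L', h3, h4⟩
    refine ⟨L ++ L'.map (lt a.right), ?_, ?_⟩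
    · rw [← mul_mk, ← act_mk, h1, h3]; rfl
    · rw [Walk.append_iff]
      refine ⟨_, h2, ?_⟩
      have := h4.smul hs ht a.right
      simpa [mul_smul] using this
  inv_mem' := by
    rintro a ⟨L, h1, h2⟩
    refine ⟨(invRev L).map (lt a.right⁻¹), ?_, ?_⟩
    · rw [← act_mk, ← inv_mk, h1]; rfl
    · have := h2.inv.smul hs ht a.right⁻¹
      simpa using this

open Classical in
theorem walk_toWord {hs : ∀ (g : Γ) e, s (g • e) = g • s e} {ht : ∀ (g : Γ) e, t (g • e) = g • t e} {v0 : V}
    {g : FreeGroup E ⋊[act Γ E] Γ} (hg : g ∈ grp hs ht v0) : Walk s t v0 g.left.toWord (g.right • v0) := by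
  obtain ⟨L, h1, h2⟩ := hg
  rw [← h1, toWord_mk]
  exact h2.red reduce.red

open Classical in
theorem norm_diff {a b : FreeGroup E} {l m : E × Bool} {L M : List (E × Bool)} (ha : a.toWord = l :: L)
    (hb : b.toWord = m :: M) (hne : l ≠ m) : (a⁻¹ * b).norm = a.norm + b.norm := by
  have hr : IsReduced (invRev a.toWord ++ b.toWord) := by
    have h1 : IsReduced (invRev a.toWord) := by rw [← toWord_inv]; exact isReduced_toWord
    have h2 : IsReduced b.toWord := isReduced_toWord
    unfold FreeGroup.IsReduced at *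
    rw [List.isChain_append]
    refine ⟨h1, h2, ?_⟩
    intro x hx y hy h
    rw [ha, invRev_cons] at hx
    rw [hb] at hy
    simp [invRev] at hx hy
    subst hx hy
    obtain ⟨l1, l2⟩ := l
    obtain ⟨m1, m2⟩ := m
    simp at h hne ⊢
    subst h
    cases l2 <;> cases m2 <;> simp_all
  unfold FreeGroup.norm
  rw [toWord_mul, toWord_inv, hr.reduce_eq, List.length_append, invRev_length]

open Classical in
theorem fin_aux (hs : ∀ (g : Γ) e, s (g • e) = g • s e) (ht : ∀ (g : Γ) e, t (g • e) = g • t e) (v0 : V)
    (htr : ∀ v : V, ∃ τ : Γ, τ • v0 = v) (d : ℕ) : ∀ H : Subgroup (FreeGroup E ⋊[act Γ E] Γ), H ≤ grp hs ht v0 →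
      (∀ h ∈ H, h.left.norm ≤ d) → ∃ g ∈ grp hs ht v0, ∀ h ∈ H, (g * h * g⁻¹).left = 1 := by
  induction d with
  | zero =>
    intro H _ hd
    refine ⟨1, one_mem _, fun h hh => ?_⟩
    simpa using hd h hh
  | succ d ih =>
    intro H hH hd
    by_cases hall : ∀ h ∈ H, h.left.norm ≤ d
    · exact ih H hH hall
    push Not at hall
    obtain ⟨h0, hh0, hn0⟩ := hall
    have hn0' : h0.left.norm = d + 1 := le_antisymm (hd h0 hh0) hn0
    obtain ⟨l, L0, hl⟩ : ∃ l L0, h0.left.toWord = l :: L0 := by
      rcases e : h0.left.toWord with _ | ⟨l, L0⟩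
      · unfold FreeGroup.norm at hn0'; rw [e] at hn0'; simp at hn0'
      · exact ⟨l, L0, rfl⟩
    -- first letters
    have first : ∀ h ∈ H, ∀ m M, h.left.toWord = m :: M → m = l := by
      intro h hh m M hm
      by_contra hne
      have e1 := norm_diff hm hl hne
      have e2 := hd _ (H.mul_mem (H.inv_mem hh) hh0)
      have e3 : (h⁻¹ * h0).left = act Γ E h.right⁻¹ (h.left⁻¹ * h0.left) := by
        simp
      rw [e3, norm_act, e1] at e2
      have : h.left.norm ≠ 0 := by unfold FreeGroup.norm; rw [hm]; simp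
      omega
    obtain ⟨τ, hτ⟩ := htr (tgt s t l)
    have hw := walk_toWord (hH hh0)
    rw [hl, Walk.cons_iff] at hw
    let g : FreeGroup E ⋊[act Γ E] Γ := ⟨mk [l], τ⟩
    have hg : g ∈ grp hs ht v0 := ⟨[l], rfl, by
      rw [Walk.cons_iff, Walk.nil_iff]; exact ⟨hw.1, hτ.symm⟩⟩
    have key : ∀ h ∈ H, (g⁻¹ * h * g).left.norm ≤ d := by
      intro h hh
      have e : (g⁻¹ * h * g).left = act Γ E τ⁻¹ ((mk [l])⁻¹ * h.left * act Γ E h.right (mk [l])) := by
        simp [g, mul_assoc]
      rw [e, norm_act, act_mk]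
      rcases e1 : h.left.toWord with _ | ⟨m, M⟩
      · have h1 : h.left = 1 := toWord_eq_nil_iff.1 e1
        have h2 : (h * h0).left.toWord = lt h.right l :: L0.map (lt h.right) := by
          have : (h * h0).left = act Γ E h.right h0.left := by simp [h1]
          rw [this, toWord_act, hl]; rfl
        have h3 := first _ (H.mul_mem hh hh0) _ _ h2
        rw [h1, List.map_cons, List.map_nil, h3, mul_one, inv_mul_cancel, FreeGroup.norm_one]
        exact Nat.zero_le _
      · have hm := first h hh m M e1
        subst hm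
        have hinv : (h⁻¹).left.toWord = (invRev (m :: M)).map (lt h.right⁻¹) := by
          have : (h⁻¹).left = act Γ E h.right⁻¹ h.left⁻¹ := by simp
          rw [this, toWord_act, toWord_inv, e1]
        rcases M.eq_nil_or_concat with rfl | ⟨M', k, rfl⟩
        · have h3 := first _ (H.inv_mem hh) _ [] hinv
          have := congrArg Prod.snd h3
          simp [lt] at this
        · have hinv' : (h⁻¹).left.toWord = lt h.right⁻¹ (k.1, !k.2) ::
              (invRev (m :: M')).map (lt h.right⁻¹) := by
            rw [hinv]; simp [invRev]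
          have h3 := first _ (H.inv_mem hh) _ _ hinv'
          have h4 : lt h.right m = (k.1, !k.2) := by rw [← h3]; simp [lt]
          have h5 : h.left = mk [m] * mk M' * mk [k] := by
            rw [← mk_toWord (x := h.left), e1, mul_mk, mul_mk]; simp
          have h6 : (mk [(k.1, !k.2)] : FreeGroup E) = (mk [k])⁻¹ := by rw [inv_mk]; rfl
          have h7 : (mk [m])⁻¹ * h.left * mk ([m].map (lt h.right)) = mk M' := by
            rw [List.map_cons, List.map_nil, h4, h6, h5]; group
          rw [h7]
          have h8 := hd h hh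
          unfold FreeGroup.norm at h8
          rw [e1] at h8
          have := norm_mk_le (L₁ := M')
          simp at h8
          omega
    obtain ⟨g', hg', hc⟩ := ih (H.map (MulAut.conj g⁻¹).toMonoidHom) (by
      rintro _ ⟨h, hh, rfl⟩
      simpa using mul_mem (mul_mem (inv_mem hg) (hH hh)) hg) (by
      rintro _ ⟨h, hh, rfl⟩
      simpa using key h hh)
    refine ⟨g' * g⁻¹, mul_mem hg' (inv_mem hg), fun h hh => ?_⟩
    have := hc _ ⟨h, hh, rfl⟩
    simp only [MulEquiv.coe_toMonoidHom, MulAut.conj_apply, inv_inv] at this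
    rw [← this]; congr 1; group

open Classical in
theorem fixed_letters {q : Γ} {w : FreeGroup E} (h : act Γ E q w = w) : ∀ l ∈ w.toWord, q • l.1 = l.1 := by
  have h1 := toWord_act q w
  rw [h] at h1
  intro l hl
  obtain ⟨i, hi, rfl⟩ := List.getElem_of_mem hl
  have h2 := List.getElem_of_eq h1 hi
  rw [List.getElem_map] at h2
  exact (congrArg Prod.fst h2).symm

theorem free_ker (K : Subgroup (FreeGroup E ⋊[act Γ E] Γ)) :
    IsFreeGroup ↥((SemidirectProduct.rightHom.comp K.subtype : K →* Γ).ker) := by
  let f : ↥((SemidirectProduct.rightHom.comp K.subtype : K →* Γ).ker) →* FreeGroup E :=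
    { toFun := fun x => x.1.1.left
      map_one' := rfl
      map_mul' := fun x y => by
        have hx : x.1.1.right = 1 := x.2
        simp [hx] }
  have hf : Function.Injective f := by
    intro x y hxy
    apply Subtype.ext; apply Subtype.ext
    have hx : x.1.1.right = 1 := x.2
    have hy : y.1.1.right = 1 := y.2
    exact SemidirectProduct.ext hxy (hx.trans hy.symm)
  exact IsFreeGroup.ofMulEquiv (MonoidHom.ofInjective hf).symm

end

/-- two free actions on a finite group are conjugate -/
theorem exists_perm {S : Type u} [Group S] [Finite S] {P : Type u} [Group P] (a b : P →* S)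
    (ha : Function.Injective a) (hb : Function.Injective b) :
    ∃ σ : Equiv.Perm S, ∀ (x : P) (y : S), σ (a x * y) = b x * σ y := by
  obtain ⟨T1, h1, -⟩ := a.range.exists_isComplement_right 1
  obtain ⟨T2, h2, -⟩ := b.range.exists_isComplement_right 1
  let e : a.range ≃* b.range := (MonoidHom.ofInjective ha).symm.trans (MonoidHom.ofInjective hb)
  have he : ∀ x : P, e ⟨a x, x, rfl⟩ = ⟨b x, x, rfl⟩ := by
    intro x
    have : (MonoidHom.ofInjective ha).symm ⟨a x, x, rfl⟩ = x := by
      rw [MulEquiv.symm_apply_eq]; rfl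
    show MonoidHom.ofInjective hb ((MonoidHom.ofInjective ha).symm _) = _
    rw [this]; rfl
  have hc : Nat.card T1 = Nat.card T2 := by
    have c1 := h1.card_mul_card
    have c2 := h2.card_mul_card
    have c3 : Nat.card (a.range : Set S) = Nat.card (b.range : Set S) := Nat.card_congr e.toEquiv
    rw [c3, ← c2] at c1
    exact Nat.eq_of_mul_eq_mul_left Nat.card_pos c1
  obtain ⟨β⟩ := Finite.card_eq.1 hc
  refine ⟨h1.equiv.trans ((Equiv.prodCongr e.toEquiv β).trans h2.equiv.symm), fun x y => ?_⟩
  obtain ⟨⟨p, r⟩, rfl⟩ := h1.equiv.symm.surjective y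
  have : a x * h1.equiv.symm (p, r) = h1.equiv.symm ((⟨a x, x, rfl⟩ : a.range) * (p : a.range), r) := by
    rw [Subgroup.IsComplement.equiv_symm_apply, Subgroup.IsComplement.equiv_symm_apply]
    exact (mul_assoc _ _ _).symm
  rw [this, Equiv.trans_apply, Equiv.apply_symm_apply, Equiv.trans_apply h1.equiv, Equiv.apply_symm_apply]
  show ((e ((⟨a x, x, rfl⟩ : a.range) * (p : a.range)) : b.range) : S) * (β r : S) = b x * (((e p : b.range) : S) * (β r : S))
  rw [_root_.map_mul, he]
  exact mul_assoc _ _ _

end H29.LS
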