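import Cfsg.Agent.H29.LS1
import Cfsg.Prelude.Def_FusionSystem

set_option autoImplicit false

namespace H29.LS
open FreeGroup Cfsg

universe u
variable {Ω : Type u} [Group Ω] {S : Subgroup Ω} (F : FusionSystem S)

abbrev Gam (S : Subgroup Ω) := Equiv.Perm ↥S
abbrev lam (S : Subgroup Ω) : S →* Gam S := MulAction.toPermHom S S

theorem lam_inj : Function.Injective (lam S) := by
  intro x y h
  have := congrArg (fun σ : Gam S => σ 1) h
  simpa using this

abbrev Ix := Σ P : Subgroup Ω, {φ : P →* Ω // φ ∈ F.Hom P}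

def ia (i : Ix F) : i.1 →* S := Subgroup.inclusion (F.le_of_mem i.2.2).1
def ib (i : Ix F) : i.1 →* S := i.2.1.codRestrict S (F.le_of_mem i.2.2).2

theorem ex_sg [Finite S] (i : Ix F) : ∃ σ : Gam S, ∀ x : i.1, σ * lam S (ia F i x) = lam S (ib F i x) * σ := by
  obtain ⟨σ, h⟩ := exists_perm (ia F i) (ib F i) (Subgroup.inclusion_injective _) (by
    intro x y hxy
    exact F.injective_of_mem i.2.2 (congrArg Subtype.val hxy))
  exact ⟨σ, fun x => Equiv.ext fun y => h x y⟩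

noncomputable def sg [Finite S] (i : Ix F) : Gam S := (ex_sg F i).choose
theorem sg_spec [Finite S] (i : Ix F) (x : i.1) : sg F i * lam S (ia F i x) = lam S (ib F i x) * sg F i :=
  (ex_sg F i).choose_spec x

abbrev Ed := Σ i : Ix F, Gam S ⧸ ((lam S).comp (ib F i)).range
abbrev Vt (S : Subgroup Ω) := Gam S ⧸ (lam S).range

def es (e : Ed F) : Vt S := Quotient.liftOn' e.2 (fun κ => (κ : Vt S)) (by
  intro a b h
  rw [QuotientGroup.leftRel_apply] at h
  obtain ⟨x, hx⟩ := h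
  exact QuotientGroup.eq.2 ⟨_, hx⟩)

noncomputable def et [Finite S] (e : Ed F) : Vt S := Quotient.liftOn' e.2 (fun κ => ((κ * sg F e.1 : Gam S) : Vt S)) (by
  intro a b h
  rw [QuotientGroup.leftRel_apply] at h
  obtain ⟨x, hx⟩ := h
  refine QuotientGroup.eq.2 ⟨ia F e.1 x, ?_⟩
  have := sg_spec F e.1 x
  have h2 : lam S (ib F e.1 x) = a⁻¹ * b := hx
  rw [h2] at this
  rw [mul_inv_rev, mul_assoc, ← mul_assoc a⁻¹, ← this]; group)

theorem hes (g : Gam S) (e : Ed F) : es F (g • e) = g • es F e := by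
  obtain ⟨i, q⟩ := e
  induction q using Quotient.inductionOn' with | h κ => rfl

theorem het [Finite S] (g : Gam S) (e : Ed F) : et F (g • e) = g • et F e := by
  obtain ⟨i, q⟩ := e
  induction q using Quotient.inductionOn' with
  | h κ =>
    show (((g * κ) * sg F i : Gam S) : Vt S) = ((g * (κ * sg F i) : Gam S) : Vt S)
    rw [mul_assoc]

/-- a function that is a map of the system -/
def Fm (P : Subgroup Ω) (f : P → S) : Prop := ∃ φ ∈ F.Hom P, ∀ x, φ x = f x

theorem Fm.conj {F : FusionSystem S} {P : Subgroup Ω} {f f' : P → S} (h : Fm F P f) (s : S)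
    (e : ∀ x, f' x = s * f x * s⁻¹) : Fm F P f' := by
  obtain ⟨φ, h1, h2⟩ := h
  refine ⟨_, F.comp_mem h1 (F.conj_mem le_rfl s.2) (F.le_of_mem h1).2, fun x => ?_⟩
  rw [e]
  show (s : Ω) * φ x * (s : Ω)⁻¹ = _
  rw [h2]; rfl

theorem Fm.fwd {F : FusionSystem S} {P : Subgroup Ω} (i : Ix F) (y : P → i.1) (h : Fm F P fun x => ia F i (y x)) :
    Fm F P fun x => ib F i (y x) := by
  obtain ⟨φ, h1, h2⟩ := h
  have hm : ∀ x, φ x ∈ i.1 := fun x => by rw [h2]; exact (y x).2
  refine ⟨_, F.comp_mem h1 i.2.2 hm, fun x => ?_⟩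
  show i.2.1 ⟨φ x, hm x⟩ = i.2.1 (y x)
  congr 1
  exact Subtype.ext (h2 x)

theorem Fm.bwd {F : FusionSystem S} {P : Subgroup Ω} (i : Ix F) (y : P → i.1) (h : Fm F P fun x => ib F i (y x)) :
    Fm F P fun x => ia F i (y x) := by
  obtain ⟨φ, h1, h2⟩ := h
  obtain ⟨ψ, k1, k2⟩ := F.inv_mem i.2.2
  have hm : ∀ x, φ x ∈ i.2.1.range := fun x => by rw [h2]; exact ⟨y x, rfl⟩
  refine ⟨_, F.comp_mem h1 k1 hm, fun x => ?_⟩
  show ψ ⟨φ x, hm x⟩ = (y x : Ω)
  rw [← k2 (y x)]
  congr 1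
  exact Subtype.ext (h2 x)

theorem fm_walk [Finite S] {P : Subgroup Ω} (hP : P ≤ S) (σ : Gam S) (L : List (Ed F × Bool)) :
    ∀ (τ : Gam S) (f : P → S), (∀ x : P, σ * lam S ⟨x, hP x.2⟩ * σ⁻¹ = τ * lam S (f x) * τ⁻¹) →
      (∀ l ∈ L, ∀ x : P, (σ * lam S ⟨x, hP x.2⟩ * σ⁻¹) • l.1 = l.1) →
      Walk (es F) (et F) (τ : Vt S) L (σ : Vt S) → Fm F P f := by
  induction L with
  | nil =>
    intro τ f h1 _ h3
    obtain ⟨s, hs⟩ := QuotientGroup.eq.1 (Walk.nil_iff.1 h3)
    refine Fm.conj (f := fun x => ⟨x, hP x.2⟩) ⟨_, F.conj_mem hP S.one_mem, fun x => by simp [conjHom]⟩ s fun x => ?_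
    apply lam_inj
    rw [_root_.map_mul, _root_.map_mul, _root_.map_inv, hs]
    have := h1 x
    calc lam S (f x) = τ⁻¹ * (τ * lam S (f x) * τ⁻¹) * τ := by group
      _ = _ := by rw [← this]; group
  | cons l L ih =>
    intro τ f h1 h2 h3
    rw [Walk.cons_iff] at h3
    obtain ⟨⟨i, q⟩, b⟩ := l
    induction q using Quotient.inductionOn' with
    | h κ =>
      have hy : ∀ x : P, ∃ y : i.1, lam S (ib F i y) = κ⁻¹ * (σ * lam S ⟨x, hP x.2⟩ * σ⁻¹) * κ := by
        intro x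
        have e := h2 _ List.mem_cons_self x
        have e2 : (((σ * lam S ⟨x, hP x.2⟩ * σ⁻¹) * κ : Gam S) : Gam S ⧸ ((lam S).comp (ib F i)).range) = (κ : Gam S) :=
          eq_of_heq (Sigma.mk.inj e).2
        obtain ⟨y, hy⟩ := QuotientGroup.eq.1 e2.symm
        exact ⟨y, by rw [mul_assoc]; exact hy⟩
      choose y hy using hy
      have hL : ∀ l ∈ L, ∀ x : P, (σ * lam S ⟨x, hP x.2⟩ * σ⁻¹) • l.1 = l.1 :=
        fun l hl => h2 l (List.mem_cons_of_mem _ hl)
      cases b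
      · obtain ⟨k1, k2⟩ := h3
        have k1' : (τ : Vt S) = ((κ * sg F i : Gam S) : Vt S) := k1
        obtain ⟨s, hs⟩ := QuotientGroup.eq.1 k1'
        have := ih κ (fun x => ib F i (y x)) (fun x => by rw [hy]; group) hL k2
        refine (this.bwd i y).conj s fun x => ?_
        apply lam_inj
        rw [_root_.map_mul, _root_.map_mul, _root_.map_inv, hs]
        have e1 := sg_spec F i (y x)
        calc lam S (f x) = τ⁻¹ * (τ * lam S (f x) * τ⁻¹) * τ := by group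
          _ = τ⁻¹ * κ * (lam S (ib F i (y x)) * sg F i) * (sg F i)⁻¹ * κ⁻¹ * τ := by rw [← h1, hy]; group
          _ = _ := by rw [← e1]; group
      · obtain ⟨k1, k2⟩ := h3
        have k1' : (τ : Vt S) = ((κ : Gam S) : Vt S) := k1
        obtain ⟨s, hs⟩ := QuotientGroup.eq.1 k1'
        have := ih (κ * sg F i) (fun x => ia F i (y x)) (fun x => by
          rw [mul_assoc κ, sg_spec, hy]; group) hL k2
        refine (this.fwd i y).conj s fun x => ?_
        apply lam_inj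
        rw [_root_.map_mul, _root_.map_mul, _root_.map_inv, hs, hy, h1]; group

theorem main [Finite S] : ∃ (G : Type u) (_ : Group G) (ι : ↥S →* G), F.IsRealizedBy ι ∧
    (∀ H : Subgroup G, Finite ↥H → ∃ g : G, ∀ h ∈ H, g * h * g⁻¹ ∈ ι.range) ∧
    ∃ N : Subgroup G, N.Normal ∧ IsFreeGroup ↥N ∧ N.index ∣ (Nat.card ↥S).factorial := by
  letI dE : DecidableEq (Ed F) := fun a b => Classical.propDecidable (a = b)
  let v0 : Vt S := ((1 : Gam S) : Vt S)
  let K := grp (hes F) (het F) v0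
  have sm : ∀ τ : Gam S, τ • v0 = (τ : Vt S) := fun τ => by
    show ((τ * 1 : Gam S) : Vt S) = _
    rw [mul_one]
  have hι : ∀ s : S, (SemidirectProduct.inr.comp (lam S)) s ∈ K := fun s =>
    ⟨[], rfl, Walk.nil_iff.2 (by rw [sm]; exact QuotientGroup.eq.2 ⟨s, by simp⟩)⟩
  let ι : S →* K := (SemidirectProduct.inr.comp (lam S)).codRestrict K hι
  refine ⟨K, inferInstance, ι, ⟨?_, fun P hP φ hφ => ⟨fun h => ?_, ?_⟩⟩, ?_, ?_⟩
  · intro x y h
    exact lam_inj (SemidirectProduct.inr_injective (congrArg Subtype.val h))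
  · let i : Ix F := ⟨P, φ, h⟩
    let e : Ed F := ⟨i, ((1 : Gam S) : Gam S ⧸ _)⟩
    refine ⟨⟨⟨mk [(e, true)], sg F i⟩, [(e, true)], rfl, ?_⟩, fun x => ?_⟩
    · rw [Walk.cons_iff, Walk.nil_iff, sm]
      exact ⟨rfl, by show (((1 * sg F i : Gam S)) : Vt S) = _; rw [one_mul]⟩
    · rw [eq_mul_inv_iff_mul_eq]
      apply Subtype.ext
      have e1 : lam S (ib F i x) • e = e := by
        show (⟨i, ((lam S (ib F i x) * 1 : Gam S) : Gam S ⧸ _)⟩ : Ed F) = ⟨i, ((1 : Gam S) : Gam S ⧸ _)⟩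
        congr 1
        refine (QuotientGroup.eq.2 ?_).symm
        exact ⟨x, by simp⟩
      refine SemidirectProduct.ext ?_ (sg_spec F i x).symm
      show 1 * act _ _ (lam S (ib F i x)) (mk [(e, true)]) = mk [(e, true)] * act _ _ (sg F i) 1
      rw [act_mk, _root_.map_one, one_mul, mul_one]
      show mk [(lam S (ib F i x) • e, true)] = _
      rw [e1]
  · rintro ⟨⟨g, hg⟩, h⟩
    have h' : ∀ x : P, SemidirectProduct.inr (lam S ⟨φ x, hφ x⟩) * g = g * SemidirectProduct.inr (lam S ⟨x, hP x.2⟩) :=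
      fun x => congrArg Subtype.val (eq_mul_inv_iff_mul_eq.1 (h x))
    have r : ∀ x : P, g.right * lam S ⟨x, hP x.2⟩ * g.right⁻¹ = lam S ⟨φ x, hφ x⟩ := fun x => by
      have := congrArg SemidirectProduct.right (h' x)
      simp only [SemidirectProduct.mul_right, SemidirectProduct.right_inr] at this
      rw [← this]; group
    have w := walk_toWord hg
    rw [sm] at w
    obtain ⟨ψ, k1, k2⟩ := fm_walk F hP g.right _ 1 (fun x => ⟨φ x, hφ x⟩) (fun x => by rw [r]; group)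
      (fun l hl x => by
        rw [r]
        refine fixed_letters ?_ l hl
        have := congrArg SemidirectProduct.left (h' x)
        simpa using this) w
    have : φ = ψ := MonoidHom.ext fun x => (k2 x).symm
    rw [this]; exact k1
  · intro H hH
    have : Finite (H.map K.subtype) := Finite.of_surjective _ (K.subtype.subgroupMap_surjective H)
    obtain ⟨d, hd⟩ := (Set.finite_range fun h : H.map K.subtype => @FreeGroup.norm _ dE h.1.left).bddAbove
    obtain ⟨g, hg, hc⟩ := fin_aux (hes F) (het F) v0 (fun v => by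
      induction v using Quotient.inductionOn' with | h τ => exact ⟨τ, sm τ⟩) d (H.map K.subtype)
      (by rintro _ ⟨h, -, rfl⟩; exact h.2) (fun h hh => hd ⟨⟨h, hh⟩, rfl⟩)
    refine ⟨⟨g, hg⟩, fun h hh => ?_⟩
    have e1 := hc _ ⟨h, hh, rfl⟩
    have w := walk_toWord (⟨g, hg⟩ * h * ⟨g, hg⟩⁻¹ : K).2
    have e2 : ((⟨g, hg⟩ * h * ⟨g, hg⟩⁻¹ : K) : FreeGroup (Ed F) ⋊[act _ _] Gam S).left = 1 := e1
    rw [e2, toWord_one, Walk.nil_iff, sm] at w
    obtain ⟨s, hs⟩ := QuotientGroup.eq.1 w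
    refine ⟨s, Subtype.ext (SemidirectProduct.ext e2.symm ?_)⟩
    rw [inv_one, one_mul] at hs
    exact hs
  · refine ⟨_, inferInstance, free_ker K, ?_⟩
    rw [Subgroup.index_ker, ← Nat.card_perm]
    exact Subgroup.card_subgroup_dvd_card _

end H29.LS
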