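import Cfsg.Agent.H16.M7I

/-! The Monster from two 7-local subgroups: simplicity. -/

set_option autoImplicit false
set_option linter.unusedSectionVars false

open Cfsg Subgroup
namespace H29.M7
open H19 H16.M7
open scoped commutatorElement

universe u
variable {G : Type u} [Group G] [Finite G] {S Q Y A R L : Subgroup G} {z t a x g : G} {ψ : G → A7}

theorem T7_le : T7 Y a ≤ N(Y) ⊓ C[a] := (closure_le _).2 fun _ h => ⟨h.1, h.2.1⟩

section
variable (h : Hz S Q Y A R z t a x ψ)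
include h

theorem cZ : #(zpowers z) = 7 := card7 h.z7 h.z1
theorem Sz : S ≤ C[z] := le_cent1_iff.2 (h.zS.le (mem_zpowers z)).2
theorem Qz : Q ≤ C[z] := h.QS.trans (Sz h)
theorem zN : C[z] ≤ N(Q) := (cent1_le_norm_zpowers z).trans h.NQ
theorem YQ : Y ≤ Q := h.YA.trans h.AQ
theorem pQ : PG 7 Q := PiN.of_card_pow p7 h.cQ
theorem elY : El 7 2 Y ⊤ := ⟨p7, le_top, ⟨ab_of_card_sq p7 (by rw [h.cY]; rfl), fun y hy => h.Q7 y (YQ h hy)⟩, h.cY⟩

theorem sig {O : Subgroup G} (l : T7 Y a ≤ N(O)) (hY : Y ≤ N(O)) (p : PiG {7}ᶜ O) (e : O ⊓ C[z] = ⊥) : O = ⊥ :=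
  le_bot_iff.1 <| (elY h).le_of_cent_le hY p fun X hX => by
    obtain ⟨y, y1, -, rfl⟩ := hX.exists_gen
    obtain ⟨g, hg, rfl⟩ := h.tr y (hX.le (mem_zpowers y)) y1
    rw [cent_zpowers, ← cj_cent1, ← cj_of_mem_norm (l hg), ← cj_inf, e, cj_bot]

theorem sqQ (hg : g ∈ Q ⊔ zpowers t) : g ∈ Q ∨ g * t ∈ Q := by
  obtain ⟨q, hq, _, ⟨n, rfl⟩, rfl⟩ := (mem_sup_of_norm (zpowers_le.2 (zN h h.tz))).1 hg
  have k2 : t ^ (2 : ℤ) = 1 := (zpow_two t).trans h.tt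
  beta_reduce
  rw [zpow_eq_zpow_emod n k2]
  rcases Int.emod_two_eq_zero_or_one n with c | c <;> rw [c]
  · exact .inl (by simpa using hq)
  · exact .inr (by simpa [mul_assoc, h.tt] using hq)

theorem top_of (N : Subgroup G) [hN : N.Normal] (n : N ≠ ⊥) : N = ⊤ := by
  have nN : ∀ X : Subgroup G, X ≤ N(N) := fun X => le_normalizer_of_normal
  by_cases d : 7 ∣ #N
  swap
  · refine (n (sig h (nN _) (nN _) (PiN.of_not_dvd d) ?_)).elim
    have c : N ⊓ C[z] ≤ C(Q) := cents_symm ((pQ h).cents_of_norms ((PiN.of_not_dvd d : PiG {7}ᶜ N).infl _)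
      (inf_le_right.trans (zN h)) (norms_inf (nN _) (norms_of_le (Qz h))))
    exact PiN.eq_bot ((PiN.of_card p7 (cZ h)).of_le (c.trans h.CQ)) ((PiN.of_not_dvd d : PiG {7}ᶜ N).infl _)
  have s1 : Syl 7 (S ⊓ N) N := h.syl.inf_normal normalIn_top
  have zN' : z ∈ N := by
    have := s1.pi.meet_cent h.syl.pi (norms_inf le_normalizer (nN _)) (s1.sne_bot p7 d)
    refine le_of_prime_of_inf_ne_bot (X := zpowers z) (by rw [cZ h]; exact p7) (ne_bot_mono ?_ this) (mem_zpowers z)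
    exact fun y hy => ⟨h.zS.ge ⟨hy.1.1, hy.2⟩, hy.1.2⟩
  have cn : ∀ {y w}, y ∈ N → IsConj y w → w ∈ N := fun hy c => by
    obtain ⟨g, rfl⟩ := isConj_iff.1 c; exact hN.conj_mem _ hy g
  have YN : Y ≤ N := fun y hy => by
    by_cases y1 : y = 1
    · exact y1 ▸ one_mem _
    obtain ⟨g, -, rfl⟩ := h.tr y hy y1
    exact hN.conj_mem _ zN' g
  have QN : Q ≤ N := by
    refine inf_eq_left.1 ((h.irr (Q ⊓ N) (zpowers_le.2 ⟨YQ h h.zY, zN'⟩) inf_le_left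
      (norms_inf (zN h) (nN _))).resolve_left fun e => ?_)
    have := card_le (e ▸ le_inf (YQ h) YN : Y ≤ zpowers z)
    rw [h.cY, cZ h] at this; omega
  obtain ⟨w, hw, wQ⟩ := SetLike.not_le_iff_exists.1 h.WQ
  have wN : w ∈ N := (h.dich w hw fun e => wQ (e ▸ one_mem _)).elim (cn zN') (cn (QN (h.AQ h.aA)))
  have SN : S ≤ N := by
    have i : Q.relIndex S = 7 := by
      have := card_mul_relIndex h.QS
      rw [h.cQ, h.cS] at this; omega
    refine inf_eq_left.1 ((eq_of_prime_index (le_inf h.QS QN) inf_le_left (by rw [i]; exact p7)).resolve_left fun e => ?_)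
    exact wQ (e.le ⟨hw.1, wN⟩)
  have TN : T7 Y a ≤ N := (closure_le _).2 fun c hc => by
    obtain ⟨g, -, e⟩ := h.syl.sle_cj (K := zpowers c) le_top (piG_zpowers.2 hc.2.2)
    exact cj_le_of_mem_norm (nN ⊤ trivial) SN (e (mem_zpowers c))
  have su : ∀ σ, ∃ n ∈ N ⊓ C[z], ψ n = σ := by
    have : IsSimpleGroup A7 := alternatingGroup.isSimpleGroup (by simp)
    have nm : (im h.ph.hom N).Normal := ⟨fun σ hσ τ => by
      obtain ⟨n, h1, h2, rfl⟩ := h.ph.mem_im.1 hσ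
      obtain ⟨g, hg, rfl⟩ := h.ψs τ
      exact h.ph.mem_im.2 ⟨_, hN.conj_mem _ h1 g, mul_mem (mul_mem hg h2) (inv_mem hg), h.ph.conj hg h2⟩⟩
    rcases nm.eq_bot_or_eq_top with e | e
    · have w1 := (h.ψk w (Sz h hw.1)).1 (mem_bot.1 (e.le (h.ph.mem_im.2 ⟨w, wN, Sz h hw.1, rfl⟩)))
      refine (wQ ((sqQ h w1).elim id fun q => ?_)).elim
      have tS : t ∈ S := (S.mul_mem_cancel_left hw.1).1 (h.QS q)
      exact (h.t1 (eq_one_cop (m := 2) (l := 7 ^ 6) (by norm_num) ((sq t).trans h.tt)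
        (orderOf_dvd_iff_pow_eq_one.1 (h.cS ▸ orderOf_dvd_card' tS)))).elim
    · exact fun σ => have ⟨n, h1, h2, h3⟩ := h.ph.mem_im.1 (e.ge (mem_top σ)); ⟨n, ⟨h1, h2⟩, h3⟩
  have tN : t ∈ N := by
    obtain ⟨σ, s1, s2⟩ : ∃ σ : A7, σ ≠ 1 ∧ σ * σ = 1 :=
      ⟨⟨Equiv.swap 0 1 * Equiv.swap 2 3, Equiv.Perm.mem_alternatingGroup.2 (by decide)⟩, by decide, by decide⟩
    obtain ⟨n, hn, rfl⟩ := su σ
    rcases sqQ h ((h.ψk _ (mul_mem hn.2 hn.2)).1 ((h.ph.mul hn.2 hn.2).trans s2)) with q | q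
    · exact (s1 (h.ns n hn.2 q)).elim
    · exact (N.mul_mem_cancel_left (N.mul_mem hn.1 hn.1)).1 (QN q)
  have KN : C[z] ≤ N := fun k hk => by
    obtain ⟨n, hn, e⟩ := su (ψ k)
    have := (h.ψk _ ((C[z]).mul_mem hk ((C[z]).inv_mem hn.2))).1 (h.ph.div hk hn.2 e.symm)
    exact (N.mul_mem_cancel_right (N.inv_mem hn.1)).1 (sup_le QN (zpowers_le.2 tN) this)
  have ZN : N(zpowers z) ≤ N := fun g hg => by
    obtain ⟨u, hu, e⟩ := h.tr (g * z * g⁻¹) (zpowers_le.2 h.zY (conj_mem_of_norm hg (mem_zpowers z))) (by simpa using h.z1)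
    refine (mul_mem_cancel_left (inv_mem (TN hu))).1 (KN (mem_cent1.2 (comm_of_conj ?_)))
    rw [cjm, ← e]; group
  have := (h.syl.of_le SN le_top).frattini normalIn_top
  rwa [sup_eq_left.2 (inf_le_right.trans (((norm_le_norm_center S).trans_eq (by rw [h.zS])).trans ZN))] at this

end

theorem cd : CD.{u} := fun h =>
  { exists_pair_ne := ⟨_, _, h.z1⟩
    eq_bot_or_eq_top_of_normal := fun N _ => or_iff_not_imp_left.2 (top_of h N) }

end H29.M7
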