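import Cfsg.Agent.H29.M7a
import Cfsg.Agent.H9.Qd2

/-! The Monster from two 7-local subgroups: the centralizer of the other element of order seven. -/

set_option autoImplicit false
set_option linter.unusedSectionVars false

open Cfsg Subgroup
namespace H29.M7
open H19 H16.M7
open scoped commutatorElement

universe u
variable {G : Type u} [Group G] [Finite G] {S Q Y A R L B B' : Subgroup G} {z t a x g p q c v : G} {ψ : G → A7}

theorem syl_mod {P M : Subgroup G} (h : Syl 7 P M) : (N(P)).relIndex M % 7 = 1 := by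
  have : Fact (Nat.Prime 7) := ⟨p7⟩
  obtain ⟨S, rfl⟩ := h.exists_sylow
  have := card_sylow_modEq_one 7 M
  rw [S.card_eq_index_normalizer] at this
  have e : normalizer (S : Set M) = (N((S : Subgroup M).map M.subtype)).subgroupOf M := by
    rw [subgroupOf_normalizer_eq (map_subtype_le _), subgroupOf, comap_map_eq_self_of_injective M.subtype_injective]; rfl
  rwa [e] at this

theorem zp7 (h7 : p ^ 7 = 1) (hg : g ∈ zpowers p) : ∃ n : ℕ, p ^ n = g :=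
  (Submonoid.mem_powers_iff _ _).1 ((isOfFinOrder_iff_pow_eq_one.2 ⟨7, by decide, h7⟩).mem_powers_iff_mem_zpowers.2 hg)

section
variable (h : Hz S Q Y A R z t a x ψ)
include h

theorem aQ : a ∈ Q := h.AQ h.aA
theorem a7 : a ^ 7 = 1 := h.Q7 a (aQ h)
theorem a1 : a ≠ 1 := fun e => h.aY (e ▸ one_mem _)
theorem ca : #(zpowers a) = 7 := card7 (a7 h) (a1 h)
theorem AY : A ≤ C(Y) := h.AR.trans (h.RY ▸ inf_le_right)
theorem ZY : zpowers z ≤ Y := zpowers_le.2 h.zY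
theorem aZ : zpowers a ⊓ Y = ⊥ := inf_eq_bot_of_prime (by rw [ca h]; exact p7) fun e => h.aY (e (mem_zpowers a))

theorem eA : Y ⊔ zpowers a = A := by
  refine eq_of_le_of_card_eq (sup_le h.YA (zpowers_le.2 h.aA)) ?_
  rw [card_sup_of_disjoint (norms_of_cents (zpowers_le.2 (AY h h.aA))) (inf_comm Y _ ▸ aZ h), h.cY, ca h, h.cA]

theorem abA : Ab A := eA h ▸ comm_sup (elY h).comm (comm_zpowers a) (cents_symm (zpowers_le.2 (AY h h.aA)))
theorem AP : A ≤ Q ⊓ C[a] := le_inf h.AQ (le_cent1_iff.2 (comm_iff_le_cent.1 (abA h) h.aA))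
theorem PD : Q ⊓ C[a] ≤ C[z] ⊓ C[a] := inf_le_inf_right _ (Qz h)
theorem PA : Q ⊓ C[a] ≤ N(A) := inf_le_left.trans (h.QS.trans (h.SY.trans h.nA))
theorem DP : C[z] ⊓ C[a] ≤ N(Q ⊓ C[a]) := norms_inf (inf_le_left.trans (zN h)) (norms_of_le inf_le_right)

theorem cP : #(Q ⊓ C[a]) = 7 ^ 4 ∧ (Q ⊓ C[a]).relIndex (C[z] ⊓ C[a]) = 3 := by
  have s := h.sylP.of_le (PD h) inf_le_right
  have e := s.card_mul
  have n := s.not_dvd p7
  obtain ⟨k, hk⟩ := s.pi.exists_card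
  rw [h.cD, hk] at e
  have k4 : k ≤ 4 := (Nat.pow_dvd_pow_iff_le_right (by decide)).1
    ((Nat.Coprime.pow_left k (by decide : Nat.Coprime 7 3)).dvd_of_dvd_mul_right ⟨_, e.symm⟩)
  rw [hk]
  interval_cases k <;> omega

theorem xP : x ∉ Q ⊓ C[a] := fun e => h.xA (PA h e)
theorem eD : Q ⊓ C[a] ⊔ zpowers x = C[z] ⊓ C[a] :=
  (eq_of_prime_index le_sup_left (sup_le (PD h) (zpowers_le.2 ⟨h.xz, h.xa⟩)) (by rw [(cP h).2]; exact Nat.prime_three)).resolve_left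
    fun e => xP h (e.le (mem_sup_right (mem_zpowers x)))

theorem core : Oc {7}ᶜ C[a] = ⊥ := by
  have n := Oc_norm {7}ᶜ C[a]
  refine sig h ((T7_le.trans inf_le_right).trans n) ((h.YA.trans (AP h)).trans (inf_le_right.trans n)) (Oc_pi _ _) ?_
  by_contra ne
  have UD : Oc {7}ᶜ C[a] ⊓ C[z] ≤ C[z] ⊓ C[a] := le_inf inf_le_right (inf_le_left.trans (Oc_le _ _))
  have pU : PiG {7}ᶜ (Oc {7}ᶜ C[a] ⊓ C[z]) := (Oc_pi _ _).infl _
  have c : Q ⊓ C[a] ≤ C(Oc {7}ᶜ C[a] ⊓ C[z]) := h.sylP.pi.cents_of_norms pU (UD.trans (DP h))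
    (norms_inf (inf_le_right.trans n) (norms_of_le ((PD h).trans inf_le_left)))
  rcases eq_of_prime_index le_sup_left (sup_le (PD h) UD) (by rw [(cP h).2]; exact Nat.prime_three) with e | e
  · exact ne (PiN.eq_bot (h.sylP.pi.of_le (le_sup_right.trans e.le)) pU)
  · exact h.xA (sup_le (PA h) (norms_of_cents ((cents_symm c).trans (cent_mono (AP h)))) (e.ge ⟨h.xz, h.xa⟩))

theorem cW : #(zpowers a ⊔ zpowers z) = 49 := by
  rw [card_sup_of_disjoint (norms_of_cents (cent_zpowers a ▸ zpowers_le.2 (AP h (h.YA h.zY)).2))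
    (H19.eq_bot_mono (inf_le_inf_left _ (ZY h)) (aZ h)), ca h, cZ h]

theorem WA : zpowers a ⊔ zpowers z ≤ A := sup_le (zpowers_le.2 h.aA) ((ZY h).trans h.YA)

theorem eW : Z(Q ⊓ C[a]) = zpowers a ⊔ zpowers z := by
  have l : zpowers a ⊔ zpowers z ≤ Z(Q ⊓ C[a]) := le_inf ((WA h).trans (AP h)) (sup_le
    (zpowers_le.2 (le_cent1_iff.1 inf_le_right)) (zpowers_le.2 (le_cent1_iff.1 ((PD h).trans inf_le_left))))
  obtain ⟨q, hq, n⟩ : ∃ q ∈ Q, q ∉ Q ⊓ C[a] := SetLike.not_le_iff_exists.1 fun e => by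
    have := card_le e
    rw [h.cQ, (cP h).1] at this; omega
  have e : Q ⊓ C[a] ⊔ zpowers q = Q := by
    have i : (Q ⊓ C[a]).relIndex Q = 7 := by
      have := card_mul_relIndex (inf_le_left : Q ⊓ C[a] ≤ Q)
      rw [h.cQ, (cP h).1] at this; omega
    exact (eq_of_prime_index le_sup_left (sup_le inf_le_left (zpowers_le.2 hq)) (by rw [i]; exact p7)).resolve_left
      fun e => n (e.le (mem_sup_right (mem_zpowers q)))
  have := FX_idx (X := Z(Q ⊓ C[a])) (Z := zpowers z) (g := q) fun y hy =>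
    ⟨cent1_le_norm_zpowers z (Qz h hy.1.1), h.Qc q hq y hy.1.1⟩
  have c : C[q] ⊓ Z(Q ⊓ C[a]) ≤ zpowers z := le_trans (fun y hy => by
    rw [← e, cent_sup, cent_zpowers]; exact ⟨hy.2.2, hy.1⟩) h.CQ
  have := card_le c
  refine (eq_of_le_of_card_ge l ?_).symm
  rw [cZ h] at *
  rw [cW h]; omega

theorem cmz (hp : p ∈ Q ⊓ C[a]) (n : p ∉ zpowers a ⊔ zpowers z) : ∃ q ∈ Q ⊓ C[a], ⁅p, q⁆ ≠ 1 := by
  by_contra! e
  exact n (eW h ▸ ⟨hp, mem_cent.2 fun q hq => (commutatorElement_eq_one_iff_mul_comm.1 (e q hq)).symm⟩)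

theorem zp_z (hc : c ∈ zpowers z) (c1 : c ≠ 1) : zpowers c = zpowers z :=
  eq_zpowers_of_prime (by rw [cZ h]; exact p7) hc c1

theorem idxP (hB : B ≤ Q ⊓ C[a]) (c : #B = 343) : B.relIndex (Q ⊓ C[a]) = 7 := by
  have := card_mul_relIndex hB
  rw [c, (cP h).1] at this; omega

theorem supP (hB : B ≤ Q ⊓ C[a]) (c : #B = 343) (hB' : B' ≤ Q ⊓ C[a]) (c' : #B' = 343) (n : B ≠ B') :
    B ⊔ B' = Q ⊓ C[a] :=
  (eq_of_prime_index le_sup_left (sup_le hB hB') (by rw [idxP h hB c]; exact p7)).resolve_left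
    fun e => n (eq_of_le_of_card_eq (le_sup_right.trans e.le) (c'.trans c.symm)).symm

theorem cjA (hg : g ∈ C[z] ⊓ C[a]) : cj g A ≤ Q ⊓ C[a] ∧ #(cj g A) = 343 ∧ Ab (cj g A) ∧ zpowers a ⊔ zpowers z ≤ cj g A ∧
    Q ⊓ C[a] ≤ N(cj g A) :=
  ⟨cj_le_of_mem_norm (DP h hg) (AP h), (card_cj _ _).trans h.cA, comm_cj.2 (abA h), by
    have := cj_mono g (WA h)
    rwa [← eW h, cj_of_mem_norm (norm_le_norm_center _ (DP h hg)), eW h] at this, by
    rw [← cj_norm, ← cj_of_mem_norm (DP h hg)]; exact cj_mono g (PA h)⟩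

theorem PL (hL : L ⊴ C[a]) (aL : zpowers a < L) : Q ⊓ C[a] ≤ L := by
  have s : Syl 7 (Q ⊓ C[a] ⊓ L) L := h.sylP.inf_normal hL
  obtain ⟨p, hp, n⟩ : ∃ p ∈ Q ⊓ C[a] ⊓ L, p ∉ zpowers a := SetLike.not_le_iff_exists.1 fun e => by
    have e : Q ⊓ C[a] ⊓ L = zpowers a := le_antisymm e (le_inf (zpowers_le.2 (AP h h.aA)) aL.le)
    rw [e] at s
    obtain ⟨K, k1, k2, k3⟩ := s.exists_compl (hL.le.trans (cent1_le_norm_zpowers a))
    have KL : K ≤ L := k2 ▸ le_sup_right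
    have nK : K ⊴ L := k2 ▸ right_normal_sup (norms_of_cents (cents_symm (cent_zpowers a ▸ KL.trans hL.le)))
    have pK : PiG {7}ᶜ K := by
      have e1 := s.card_mul
      rw [← k2, card_sup_of_disjoint k1 k3, k2] at e1
      show PiN _ #K
      rw [← Nat.eq_of_mul_eq_mul_left (card_pos _) e1]; exact s.idx
    have : K = ⊥ := H19.eq_bot_mono ((le_Oc nK pK).trans (Oc_le_Oc hL)) (core h)
    rw [this, sup_bot_eq] at k2
    exact aL.ne k2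
  have zL : z ∈ L := by
    by_cases m : p ∈ zpowers a ⊔ zpowers z
    · obtain ⟨b, hb, c, hc, rfl⟩ := (mem_sup_of_norm (norms_of_cents (cent_zpowers a ▸ zpowers_le.2 (AP h (h.YA h.zY)).2))).1 m
      have : c ∈ L := (L.mul_mem_cancel_left (aL.le hb)).1 hp.2
      exact zpowers_le.2 this (zp_z h hc (fun e => n (by simpa [e] using hb)) ▸ mem_zpowers z)
    obtain ⟨q, hq, e⟩ := cmz h hp.1 m
    have : ⁅p, q⁆ ∈ L := by
      rw [commutatorElement_def, mul_assoc, mul_assoc, ← mul_assoc q]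
      exact L.mul_mem hp.2 (hL.conj_mem hq.2 (L.inv_mem hp.2))
    exact zpowers_le.2 this (zp_z h (h.Qc _ hp.1.1 _ hq.1) e ▸ mem_zpowers z)
  have AL : A ≤ L := eA h ▸ sup_le (fun y hy => by
    by_cases y1 : y = 1
    · exact y1 ▸ one_mem _
    obtain ⟨g, hg, rfl⟩ := h.tr y hy y1
    exact hL.conj_mem (T7_le hg).2 zL) aL.le
  obtain ⟨c1, c2, -⟩ := cjA h (g := x) ⟨h.xz, h.xa⟩
  rw [← supP h (AP h) h.cA c1 c2 fun e => h.xA (mem_norm_iff_cj.2 e.symm)]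
  exact sup_le AL (cj_le_of_mem_norm (hL.norm h.xa) AL)

/-- an element inverting `z` on a maximal abelian subgroup of `P` -/
theorem eig (c : #B = 343) (hB : B ≤ Q ⊓ C[a]) (ab : Ab B) (W : zpowers a ⊔ zpowers z ≤ B)
    (n : v ∈ N(B)) : ∃ p ∈ B, zpowers a ⊔ zpowers z ⊔ zpowers p = B ∧ p ∉ zpowers a ⊔ zpowers z ∧
      ∃ l : ℕ, ∃ w ∈ Z(Q ⊓ C[a]), v * p * v⁻¹ = w * p ^ l := by
  obtain ⟨p, hp, m⟩ : ∃ p ∈ B, p ∉ zpowers a ⊔ zpowers z := SetLike.not_le_iff_exists.1 fun e => by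
    have := card_le e
    rw [c, cW h] at this; omega
  have i : (zpowers a ⊔ zpowers z).relIndex B = 7 := by
    have := card_mul_relIndex W
    rw [c, cW h] at this; omega
  have e := (eq_of_prime_index le_sup_left (sup_le W (zpowers_le.2 hp)) (by rw [i]; exact p7)).resolve_left
    fun e => m (e.le (mem_sup_right (mem_zpowers p)))
  obtain ⟨w, hw, y, hy, q⟩ := (mem_sup_of_norm (norms_of_comm ab (zpowers_le.2 hp) W)).1 (e.ge (conj_mem_of_norm n hp))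
  obtain ⟨l, rfl⟩ := zp7 (h.Q7 p (hB hp).1) hy
  exact ⟨p, hp, e, m, l, w, eW h ▸ hw, q⟩

theorem pair (hv : v * z * v⁻¹ = z⁻¹) (hp : p ∈ Q ⊓ C[a]) (hq : q ∈ Q ⊓ C[a]) (n : ⁅p, q⁆ ≠ 1) {l m : ℕ} {w w' : G}
    (hw : w ∈ Z(Q ⊓ C[a])) (hw' : w' ∈ Z(Q ⊓ C[a])) (e : v * p * v⁻¹ = w * p ^ l) (e' : v * q * v⁻¹ = w' * q ^ m) :
    (l * m + 1) % 7 = 0 := by
  have hc := h.Qc _ hp.1 _ hq.1
  have cm {y} (hy : y ∈ Q) : Commute y ⁅p, q⁆ := mem_cent1.1 (cent1_le_cent1_of_mem_zpowers hc (Qz h hy))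
  have e1 : v * ⁅p, q⁆ * v⁻¹ = ⁅p, q⁆⁻¹ := by
    obtain ⟨k, e⟩ := zp7 h.z7 hc
    rw [← e, ← conj_pow, hv, inv_pow]
  have e2 : v * ⁅p, q⁆ * v⁻¹ = ⁅p, q⁆ ^ (l * m) := by
    rw [← H4.commutator_pow_pow (cm hp.1) (cm hq.1), show v * ⁅p, q⁆ * v⁻¹ = ⁅v * p * v⁻¹, v * q * v⁻¹⁆ by
      simp only [commutatorElement_def]; group, e, e']
    have c1 {y} (hy : y ∈ Q ⊓ C[a]) : Commute y w := mem_cent.1 hw.2 y hy
    have c2 {y} (hy : y ∈ Q ⊓ C[a]) : Commute y w' := mem_cent.1 hw'.2 y hy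
    have p' := pow_mem hp l
    have q' := pow_mem hq m
    generalize p ^ l = p₁ at p'
    generalize q ^ m = q₁ at q'
    simp only [commutatorElement_def]
    calc _ = w * (p₁ * w') * q₁ * p₁⁻¹ * (w⁻¹ * q₁⁻¹) * w'⁻¹ := by group
      _ = w * (w' * (p₁ * q₁ * p₁⁻¹ * q₁⁻¹)) * w⁻¹ * w'⁻¹ := by rw [(c2 p').eq, ← (c1 q').inv_inv.eq]; group
      _ = _ := by
        have m := mul_mem (mul_mem (mul_mem p' q') (inv_mem p')) (inv_mem q')
        generalize p₁ * q₁ * p₁⁻¹ * q₁⁻¹ = c at m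
        rw [← (c2 m).eq, ← mul_assoc, ← (c1 m).eq, mul_assoc c, ← (c1 hw'.1).eq]; group
  have e3 : ⁅p, q⁆ ^ (l * m + 1) = 1 := by rw [pow_succ, ← e2, e1, inv_mul_cancel]
  rw [← orderOf_dvd_iff_pow_eq_one, orderOf_of_pow p7 (h.Q7 _ (YQ h (ZY h hc))) n] at e3
  omega

theorem trz (hy : g ∈ zpowers z) (g1 : g ≠ 1) : ∃ u ∈ T7 Y a, u ∈ N(zpowers z) ⊓ C[a] ∧ u * z * u⁻¹ = g := by
  obtain ⟨u, hu, e⟩ := h.tr g (ZY h hy) g1
  exact ⟨u, hu, ⟨mem_norm_iff_cj.2 (by rw [cj_zpowers, e, zp_z h hy g1]), (T7_le hu).2⟩, e⟩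

theorem cPP : ⁅Q ⊓ C[a], Q ⊓ C[a]⁆ = zpowers z := by
  have l : ⁅Q ⊓ C[a], Q ⊓ C[a]⁆ ≤ zpowers z := commutator_le.2 fun p hp q hq => h.Qc p hp.1 q hq.1
  obtain ⟨p, hp, m⟩ : ∃ p ∈ Q ⊓ C[a], p ∉ zpowers a ⊔ zpowers z := SetLike.not_le_iff_exists.1 fun e => by
    have := card_le e
    rw [(cP h).1, cW h] at this; omega
  obtain ⟨q, hq, n⟩ := cmz h hp m
  exact le_antisymm l (zp_z h (h.Qc p hp.1 q hq.1) n ▸ zpowers_le.2 (commutator_mem_commutator hp hq))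

theorem NP : N(Q ⊓ C[a]) ⊓ C[a] = N(zpowers z) ⊓ C[a] := le_antisymm
  (inf_le_inf_right _ (cPP h ▸ norms_comm le_rfl le_rfl))
  (le_inf (norms_inf (inf_le_left.trans h.NQ) (norms_of_le inf_le_right)) inf_le_right)

theorem top_of' (hL : L ⊴ C[a]) (aL : zpowers a < L) : L = C[a] := by
  have l := PL h hL aL
  have TL : T7 Y a ≤ L := (closure_le _).2 fun c hc => by
    obtain ⟨g, hg, e⟩ := h.sylP.sle_cj (K := zpowers c) (zpowers_le.2 hc.2.1) (piG_zpowers.2 hc.2.2)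
    exact cj_le_of_mem_norm (hL.norm hg) l (e (mem_zpowers c))
  have xD : x ∈ C[z] ⊓ C[a] := ⟨h.xz, h.xa⟩
  have xL : x ∈ L := by
    by_contra n
    have e : L ⊓ (C[z] ⊓ C[a]) = Q ⊓ C[a] := (eq_of_prime_index (le_inf l (PD h)) inf_le_right
      (by rw [(cP h).2]; exact Nat.prime_three)).resolve_right fun e => n (e.ge xD).1
    obtain ⟨v, hv, vn, vz⟩ := trz h (inv_mem (mem_zpowers z)) (inv_ne_one.2 h.z1)
    have vD : v ∈ N(C[z] ⊓ C[a]) := norms_inf (A := N(zpowers z) ⊓ C[a])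
      (inf_le_left.trans (cent_zpowers z ▸ norm_le_norm_cent _)) (norms_of_le inf_le_right) vn
    have k (g) (hg : g ∈ C[z] ⊓ C[a]) := by
      obtain ⟨c1, c2, c3, c4, c5⟩ := cjA h hg
      refine eig (v := v) h c2 c1 c3 c4 (mem_norm_iff_cj.2 ?_)
      have m : v * g * v⁻¹ * g⁻¹ ∈ Q ⊓ C[a] := e ▸ ⟨by
        rw [mul_assoc, mul_assoc, ← mul_assoc g]
        exact L.mul_mem (TL hv) (hL.conj_mem hg.2 (L.inv_mem (TL hv))), (C[z] ⊓ C[a]).mul_mem (conj_mem_of_norm vD hg) ((C[z] ⊓ C[a]).inv_mem hg)⟩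
      rw [cj_cj, show v * g = v * g * v⁻¹ * g⁻¹ * g * v by group, cj_mul, cj_of_mem_norm (h.nA (T7_le hv).1), cj_mul,
        cj_of_mem_norm (c5 m)]
    have k2 {g g'} (hg : g ∈ C[z] ⊓ C[a]) (hg' : g' ∈ C[z] ⊓ C[a]) (ne : g⁻¹ * g' ∉ N(A)) {p q : G} (hp : p ∈ cj g A)
        (hq : q ∈ cj g' A) (eq : zpowers a ⊔ zpowers z ⊔ zpowers q = cj g' A) (np : p ∉ zpowers a ⊔ zpowers z) :
        ⁅p, q⁆ ≠ 1 := fun e => by
      obtain ⟨c1, c2, c3, c4, -⟩ := cjA h hg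
      obtain ⟨d1, d2, -⟩ := cjA h hg'
      refine np (eW h ▸ ⟨c1 hp, ?_⟩)
      rw [← supP h c1 c2 d1 d2 fun e => ne (mem_norm_iff_cj.2 (by rw [cj_mul, ← e, cj_inv_cj])), cent_sup, ← eq, cent_sup,
        cent_zpowers]
      exact ⟨comm_iff_le_cent.1 c3 hp, cent_mono c4 (comm_iff_le_cent.1 c3 hp),
        mem_cent1.2 (commutatorElement_eq_one_iff_mul_comm.1 e)⟩
    have x2 : x * x ∉ N(A) := fun q => by
      have x3 : x ^ 3 ∈ Q ⊓ C[a] := by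
        have := (NormalIn.mk (PD h) (DP h)).subgroupOf
        exact (cP h).2 ▸ ((Q ⊓ C[a]).subgroupOf (C[z] ⊓ C[a])).pow_index_mem ⟨x, xD⟩
      exact h.xA (mem_cop (m := 2) (l := 3) (by decide) ((sq x).symm ▸ q) (PA h x3))
    have D1 := one_mem (C[z] ⊓ C[a])
    have D2 := mul_mem xD xD
    obtain ⟨p0, m0, e0, n0, l0, w0, z0, q0⟩ := k _ D1
    obtain ⟨p1, m1, e1, n1, l1, w1, z1, q1⟩ := k _ xD
    obtain ⟨p2, m2, e2, n2, l2, w2, z2, q2⟩ := k _ D2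
    have r1 := pair h vz ((cjA h D1).1 m0) ((cjA h xD).1 m1) (k2 D1 xD (by simpa using h.xA) m0 m1 e1 n0) z0 z1 q0 q1
    have r2 := pair h vz ((cjA h D1).1 m0) ((cjA h D2).1 m2) (k2 D1 D2 (by simpa using x2) m0 m2 e2 n0) z0 z2 q0 q2
    have r3 := pair h vz ((cjA h xD).1 m1) ((cjA h D2).1 m2) (k2 xD D2 (by simpa using h.xA) m1 m2 e2 n1) z1 z2 q1 q2
    rw [Nat.add_mod, Nat.mul_mod] at r1 r2 r3
    exact (by decide : ∀ i < 7, ∀ j < 7, ∀ k < 7, (i * j % 7 + 1 % 7) % 7 = 0 → (i * k % 7 + 1 % 7) % 7 = 0 →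
      (j * k % 7 + 1 % 7) % 7 ≠ 0) _ (Nat.mod_lt _ (by decide)) _ (Nat.mod_lt _ (by decide)) _ (Nat.mod_lt _ (by decide)) r1 r2 r3
  have DL : C[z] ⊓ C[a] ≤ L := eD h ▸ sup_le l (zpowers_le.2 xL)
  have := (h.sylP.of_le l hL.le).frattini hL
  refine (sup_eq_left.2 fun g hg => ?_).symm.trans this
  have gN := (NP h).le ⟨hg.2, hg.1⟩
  obtain ⟨u, hu, un, e⟩ := trz h (conj_mem_of_norm gN.1 (mem_zpowers z)) (by simpa using h.z1)
  refine (L.mul_mem_cancel_left (L.inv_mem (TL hu))).1 (DL ⟨mem_cent1.2 ?_, C[a].mul_mem (C[a].inv_mem un.2) hg.1⟩)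
  calc _ = u⁻¹ * (g * z * g⁻¹) * g := by group
    _ = _ := by rw [← e]; group

theorem cDN : #(N(zpowers z) ⊓ C[a]) = 7 ^ 4 * 18 := by
  have e : {y | ∃ k ∈ N(zpowers z) ⊓ C[a], k * z * k⁻¹ = y} = (zpowers z : Set G) \ {1} := Set.ext fun y =>
    ⟨fun ⟨k, hk, e⟩ => e ▸ ⟨conj_mem_of_norm hk.1 (mem_zpowers z), by simpa using h.z1⟩,
      fun hy => have ⟨u, _, un, e⟩ := trz h hy.1 hy.2; ⟨u, un, e⟩⟩
  have o := orb_card (N(zpowers z) ⊓ C[a]) z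
  rw [e, Set.ncard_sdiff_singleton_of_mem (one_mem _), ← Nat.card_coe_set_eq] at o
  have c : Nat.card (zpowers z : Set G) = 7 := cZ h
  rw [← card_inf_mul_relIndex C[z], ← o, c, ← inf_assoc, inf_eq_left.2 (cent1_le_norm_zpowers z), h.cD]; rfl

theorem cCa : ∃ n, n % 7 = 1 ∧ #C[a] = 7 ^ 4 * 18 * n :=
  ⟨_, syl_mod h.sylP, by rw [← card_inf_mul_relIndex N(Q ⊓ C[a]), NP h, cDN h]⟩

end

/-- the known simple groups with an extraspecial Sylow subgroup of order `7 ^ 3` -/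
def KS : Prop := ∀ (B : Type u) [Group B] [Finite B] [IsSimpleGroup B], ¬ IsMulCommutative B → IsCompositionKGroup B →
  ∀ S : Sylow 7 B, IsExtraspecial 7 (S : Subgroup B) → Nat.card (S : Subgroup B) = 7 ^ 3 → Spor.IsoHe B ∨
    Nat.card B = 1876896 ∨ Nat.card B = 5663616 ∨ Nat.card B = 460815505920 ∨ Nat.card B = 1255205709190661721292800

theorem cb' (hS : KS.{u}) : CB.{u} := fun {G} _ _ {S Q Y A R z t a x ψ} hK h => by
  have : Fact (Nat.Prime 7) := ⟨p7⟩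
  have na : zpowers a ⊴ C[a] := ⟨zpowers_le.2 (mem_cent1.2 rfl), cent1_le_norm_zpowers a⟩
  have := na.subgroupOf
  obtain ⟨f, hf, e⟩ := exists_PH (QuotientGroup.mk' ((zpowers a).subgroupOf C[a]))
  have fs : ∀ σ, ∃ g ∈ C[a], f g = σ := fun σ =>
    have ⟨g, hg⟩ := QuotientGroup.mk'_surjective _ σ; ⟨g, g.2, (e g).trans hg⟩
  have fk : ∀ g ∈ C[a], f g = 1 ↔ g ∈ zpowers a := fun g hg => by
    rw [e ⟨g, hg⟩, QuotientGroup.mk'_apply, QuotientGroup.eq_one_iff, mem_subgroupOf]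
  have sj : Function.Surjective hf.hom := fun σ => have ⟨g, hg, e⟩ := fs σ; ⟨⟨g, hg⟩, e⟩
  have l : Q ⊓ C[a] ≤ C[a] := inf_le_right
  have nab : ¬ Ab (im hf.hom (Q ⊓ C[a])) := fun c => by
    have : ⁅Q ⊓ C[a], Q ⊓ C[a]⁆ ≤ zpowers a := commutator_le.2 fun p hp q hq => by
      rw [← fk _ (l (AP h (h.YA (ZY h (h.Qc p hp.1 q hq.1))))), hf.cmt hp.2 hq.2,
        commutatorElement_eq_one_iff_mul_comm]
      exact mul_comm_of_comm c (hf.mem_im.2 ⟨p, hp, hp.2, rfl⟩) (hf.mem_im.2 ⟨q, hq, hq.2, rfl⟩)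
    exact h.z1 (mem_bot.1 (aZ h ▸ ⟨this (cPP h ▸ mem_zpowers z), h.zY⟩))
  have nc : ¬ IsMulCommutative (C[a] ⧸ (zpowers a).subgroupOf C[a]) := fun c => nab ⟨⟨fun a b => Subtype.ext (c.1.1 _ _)⟩⟩
  have : Nontrivial (C[a] ⧸ (zpowers a).subgroupOf C[a]) := by
    by_contra! c
    exact nc ⟨⟨fun _ _ => Subsingleton.elim _ _⟩⟩
  have : IsSimpleGroup (C[a] ⧸ (zpowers a).subgroupOf C[a]) := ⟨fun N hN => by
    have n : pre hf.hom N ⊴ C[a] := ⟨pre_le _ _, norms_pre le_rfl le_normalizer_of_normal⟩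
    have m : zpowers a ≤ pre hf.hom N := fun g hg => hf.mem_pre.2 ⟨na.le hg, by rw [(fk g (na.le hg)).2 hg]; exact one_mem _⟩
    rw [← im_pre sj N]
    rcases m.eq_or_lt with q | q
    · refine .inl (eq_bot_iff.2 fun σ hσ => ?_)
      obtain ⟨g, h1, h2, rfl⟩ := hf.mem_im.1 hσ
      exact (fk g h2).2 (q ▸ h1)
    · exact .inr (by rw [top_of' h n q, hf.im_top fs])⟩
  have kn := hf.known hK (fun c => h.aY (ZY h (h.CQ (le_cent1_iff.1 (c ▸ le_top))))) fs nc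
  have s := h.sylP.im le_rfl hf.hom
  rw [hf.im_top fs] at s
  have c3 : #(im hf.hom (Q ⊓ C[a])) = 7 ^ 3 := by
    have := hf.card l fun g hg => fk g hg.2
    rw [inf_eq_left.2 (zpowers_le.2 (AP h h.aA)), ca h, (cP h).1] at this
    omega
  obtain ⟨n, n1, cn⟩ := cCa h
  have cB := hf.card le_rfl fk
  rw [inf_eq_left.2 na.le, ca h, cn, hf.im_top fs, card_top] at cB
  obtain ⟨T, hT⟩ := s.exists_sylow_top
  rcases hS _ nc (compK kn) T (hT ▸ H9.isExtraspecial_of_card_cube c3 nab) (hT ▸ c3) with ⟨⟨ε⟩⟩ | q | q | q | q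
  · refine ⟨fun g => ε (f g), ⟨fun ha hb => by rw [hf.mul ha hb, map_mul]⟩, fun σ => ?_, fun g hg => ?_⟩
    · obtain ⟨g, hg, e⟩ := fs (ε.symm σ)
      exact ⟨g, hg, by simp [e]⟩
    · rw [← fk g hg, MulEquiv.map_eq_one_iff]
  all_goals omega

end H29.M7
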