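import Cfsg.Agent.H29.M7c
import Cfsg.Agent.H16.M7S1
import Cfsg.Agent.H1.SF0

/-! The Monster from two 7-local subgroups: the 7-local structure of the involution centralizer. -/

set_option autoImplicit false
set_option linter.unusedSectionVars false

open Cfsg Subgroup
namespace H29.M7
open H19 H16.M7
open scoped commutatorElement

universe u
variable {G : Type u} [Group G] [Finite G] {W X K L A : Subgroup G} {z t a g k n u v w : G} {ψ : G → A7} {φ : G → Spor.He} {p : ℕ}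

theorem aut_idx (hp : p.Prime) (c : #X = p) (n : K ≤ N(X)) : C(X).relIndex K ∣ p - 1 := by
  have := cyclic_of_prime (c ▸ hp)
  have k : (X.normalizerMonoidHom.comp (inclusion n)).ker = C(X).subgroupOf K := by
    rw [← MonoidHom.comap_ker, normalizerMonoidHom_ker]; rfl
  rw [relIndex, ← k, index_ker, ← Nat.totient_prime hp, ← c, ← IsCyclic.card_mulAut]
  exact card_subgroup_dvd_card _

theorem card_mod (hp : p.Prime) (hA : PG p A) (hn : A ≤ N(X)) : #X % p = #(X ⊓ C(A)) % p := by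
  have := Fact.mk hp
  let _ : MulAction A X := .compHom X (X.normalizerMonoidHom.comp (inclusion hn))
  refine (hA.isPGroup.card_modEq_card_fixedPoints X).trans (congrArg (· % p) (Nat.card_congr ⟨fun x => ⟨x.1, x.1.2, mem_cent.2 fun a ha =>
    comm_of_conj (congrArg Subtype.val (x.2 ⟨a, ha⟩))⟩, fun x => ⟨⟨x, x.2.1⟩, fun a => Subtype.ext
      (conj_of_comm (mem_cent.1 x.2.2 a a.2))⟩, fun _ => rfl, fun _ => rfl⟩))

theorem a7s : IsSimpleGroup A7 := alternatingGroup.isSimpleGroup (by simp)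

/-- data at a vector of the second kind -/
structure AV (t w : G) (f : G → Spor.He) (E : Subgroup Spor.He) : Prop where
  ph : PH C[w] f
  ker : ∀ g ∈ C[w], f g = 1 ↔ g ∈ zpowers w
  im : im ph.hom (C[w] ⊓ C[t]) = C[f t]
  c : #(C[w] ⊓ C[t]) = 150528
  cE : #E = 128
  nab : ¬ Ab E
  rad : ∀ N, N ⊴ C[f t] → Sol N → N ≤ E

section
variable (h : HC W z t a ψ φ)
include h

theorem w7 (hw : w ∈ W) : w ^ 7 = 1 := h.el.ab.2 w hw
theorem cw (hw : w ∈ W) (w1 : w ≠ 1) : #(zpowers w) = 7 := card7 (w7 h hw) w1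
theorem cW2 : #W = 49 := h.el.card
theorem WC (hw : w ∈ W) : W ≤ C[w] := le_cent1_iff.2 (h.el.le_cent hw)
theorem WT : W ≤ N(W) ⊓ C[t] := le_inf le_normalizer h.Wt
theorem ct : #(zpowers t) = 2 := card2 h.tt h.t1
theorem tH : t ∈ C[t] := mem_cent1.2 rfl
theorem pt : PiG {7}ᶜ (zpowers t) := (PiN.of_card Nat.prime_two (ct h)).sing_ne (by decide)
theorem dis (l : X ≤ W) (p : PiG {7}ᶜ K) : X ⊓ K = ⊥ := PiN.eq_bot ((h.el.pg.of_le l).infl _) (p.infr _)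
theorem csup (l : X ≤ W) : #(X ⊔ zpowers t) = #X * 2 := by
  rw [card_sup_of_disjoint (norms_of_cents (cents_symm (cent_zpowers t ▸ l.trans h.Wt))) (dis h l (pt h)), ct h]
theorem ZD : zpowers z ⊔ zpowers t ≤ C[z] ⊓ C[t] :=
  sup_le (zpowers_le.2 ⟨mem_cent1.2 rfl, h.Wt h.zW⟩) (zpowers_le.2 ⟨h.tz, tH h⟩)
theorem WD : W ≤ C[z] ⊓ C[t] := le_inf (WC h h.zW) h.Wt
theorem cK (l : zpowers z ⊔ zpowers t ≤ X) (l' : X ≤ C[z] ⊓ C[t]) : #X = 14 * #(im h.ph.hom X) := by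
  rw [h.ph.card l' fun g hg => h.ψk g (l' hg), inf_eq_left.2 l, csup h (zpowers_le.2 h.zW), cw h h.zW h.z1]
theorem cD : #(C[z] ⊓ C[t]) = 35280 := by rw [cK h (ZD h) le_rfl, h.ph.im_top h.ψs, card_top, card_a7]

theorem span (hw : w ∈ W) (w1 : w ≠ 1) (hv : v ∈ W) (vw : v ∉ zpowers w) : zpowers w ⊔ zpowers v = W := by
  have := card_mul_relIndex (zpowers_le.2 hw)
  rw [cw h hw w1, cW2 h] at this
  exact (eq_of_prime_index le_sup_left (sup_le (zpowers_le.2 hw) (zpowers_le.2 hv)) (by rw [show (zpowers w).relIndex W = 7 by omega]; exact p7)).resolve_left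
    fun e => vw (e.le (mem_sup_right (mem_zpowers v)))
theorem cen2 (hw : w ∈ W) (w1 : w ≠ 1) (hv : v ∈ W) (vw : v ∉ zpowers w) : C[w] ⊓ C[v] = C(W) := by
  rw [← span h hw w1 hv vw, cent_sup, cent_zpowers, cent_zpowers]
theorem exv (c : #X < 49) : ∃ v ∈ W, v ∉ X := SetLike.not_le_iff_exists.1 fun e => by
  have := card_le e
  rw [cW2 h] at this; omega

theorem cjB (hw : w ∈ W) (c : IsConj z w) : ∃ g ∈ C[t], g * z * g⁻¹ = w := by
  obtain ⟨g, rfl⟩ := isConj_iff.1 c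
  have : g⁻¹ * t * g ∈ C[z] := by rw [← mem_cj, cj_cent1]; exact mem_cent1_symm.1 (h.Wt hw)
  obtain ⟨k, hk, e⟩ := h.inv _ this (by simp [mul_assoc, ← mul_assoc t, h.tt])
    fun e => h.t1 (by simpa [mul_assoc, inv_mul_eq_one] using e)
  refine ⟨g * k⁻¹, mem_cent1.2 (comm_of_conj ?_), by rw [cjm, conj_of_comm (mem_cent1.1 (inv_mem hk))]⟩
  nth_rw 1 [← e]; group

theorem cjD (hg : g ∈ C[t]) (w : G) : cj g (C[w] ⊓ C[t]) = C[g * w * g⁻¹] ⊓ C[t] := by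
  rw [cj_inf, cj_cent1, cj_of_mem_norm (le_normalizer hg)]
theorem cDB (hw : w ∈ W) (c : IsConj z w) : #(C[w] ⊓ C[t]) = 35280 := by
  obtain ⟨g, hg, rfl⟩ := cjB h hw c
  rw [← cjD h hg, card_cj, cD h]
theorem sylB (hw : w ∈ W) (c : IsConj z w) : Syl 7 W (C[w] ⊓ C[t]) := by
  have l := le_inf (WC h hw) h.Wt
  have := card_mul_relIndex l
  rw [cW2 h, cDB h hw c] at this
  exact syl_mk l h.el.pg (by omega)
theorem trB (hw : w ∈ W) (c : IsConj z w) : ∃ g ∈ N(W) ⊓ C[t], g * z * g⁻¹ = w := by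
  obtain ⟨g, hg, e⟩ := cjB h hw c
  have := (sylB h h.zW (.refl z)).J g
  rw [cjD h hg, e] at this
  obtain ⟨k, hk, q⟩ := this.sconj (sylB h hw c)
  exact ⟨k * g, ⟨mem_norm_iff_cj.2 (by rw [cj_mul, q]), mul_mem hk.2 hg⟩, by rw [cjm, e, conj_of_comm (mem_cent1.1 hk.1)]⟩
theorem idxT : C[z].relIndex (N(W) ⊓ C[t]) = 24 := by
  rw [← orb_card, ← h.cB]
  exact congrArg _ (Set.ext fun y => ⟨fun ⟨k, hk, e⟩ => ⟨e ▸ conj_mem_of_norm hk.1 h.zW, isConj_of e⟩, fun e => trB h e.1 e.2⟩)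
theorem sylH : Syl 7 W C[t] := by
  refine syl_of_subnorm (inf_comm C[t] _ ▸ Hall.of_idx ((sylB h h.zW (.refl z)).of_le (le_inf (WC h h.zW) (WT h))
    (inf_le_inf_left _ inf_le_right)) inf_le_right ?_)
  rw [inf_relIndex_right, idxT h]
  exact PiN.of_not_dvd (by decide)

theorem exσ : ∃ σ ∈ W, ψ σ ≠ 1 ∧ ψ σ ^ 7 = 1 := by
  obtain ⟨σ, h1, h2⟩ := exv h (X := zpowers z ⊔ zpowers t) (by rw [csup h (zpowers_le.2 h.zW), cw h h.zW h.z1]; decide)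
  exact ⟨σ, h1, fun e => h2 ((h.ψk σ (WD h h1)).1 e), by rw [← h.ph.pow (WD h h1), w7 h h1, h.ph.one]⟩
theorem WX : W ⊔ zpowers t ≤ C(W) ⊓ C[t] :=
  sup_le (le_inf h.el.le_cent h.Wt) (zpowers_le.2 ⟨le_cent1_iff.1 h.Wt, tH h⟩)
theorem XD (hw : w ∈ W) : C(W) ⊓ C[t] ≤ C[w] ⊓ C[t] := inf_le_inf_right _ (cent_zpowers w ▸ cent_mono (zpowers_le.2 hw))
theorem eX : W ⊔ zpowers t = C(W) ⊓ C[t] := by
  obtain ⟨σ, h1, h2, h3⟩ := exσ h
  have : im h.ph.hom (C(W) ⊓ C[t]) ≤ zpowers (ψ σ) := fun y hy => by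
    obtain ⟨g, hg, g', rfl⟩ := h.ph.mem_im.1 hy
    rw [← cent7 h3 h2, mem_cent1, ← h.ph.mul g' (WD h h1), ← h.ph.mul (WD h h1) g', mem_cent.1 hg.1 σ h1]
  have := card_le this
  refine eq_of_le_of_card_ge (WX h) ?_
  rw [cK h ((sup_le_sup_right (zpowers_le.2 h.zW) _).trans (WX h)) (XD h h.zW), csup h le_rfl, cW2 h]
  rw [card7 h3 h2] at this; omega
theorem cX : #(C(W) ⊓ C[t]) = 98 := by rw [← eX h, csup h le_rfl, cW2 h]

theorem L3 (hw : w ∈ W) (w1 : w ≠ 1) (hv : v ∈ W) (vw : v ∉ zpowers w) (hn : n ∈ C[w] ⊓ (N(W) ⊓ C[t]))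
    (e : n * v * n⁻¹ * v⁻¹ ∈ zpowers w) : n ∈ C(W) := by
  have nn : C(W) ⊓ C[t] ⊴ N(W) ⊓ C[t] := ⟨inf_le_inf_right _ (cent_le_norm _),
    norms_inf (inf_le_left.trans (norm_le_norm_cent _)) (norms_of_le inf_le_right)⟩
  have := nn.subgroupOf
  have i := ((sylH h).of_le (WT h) inf_le_right).not_dvd_relIndex p7 (le_sup_left.trans (WX h))
  refine mem_cop ((p7.coprime_iff_not_dvd).2 i) ?_ (((C(W) ⊓ C[t]).subgroupOf _).pow_index_mem ⟨n, hn.2⟩).1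
  rw [← cen2 h hw w1 hv vw]
  refine ⟨pow_mem hn.1 7, mem_cent1.2 (comm_of_conj ?_)⟩
  have c := mem_cent1.1 (cent1_le_cent1_of_mem_zpowers e hn.1)
  have e7 := w7 h (zpowers_le.2 hw e)
  obtain ⟨y, q⟩ : ∃ y, n * v * n⁻¹ * v⁻¹ = y := ⟨_, rfl⟩
  rw [q] at c e7
  have : ∀ i : ℕ, n ^ i * v * (n ^ i)⁻¹ = y ^ i * v := fun i => by
    induction i with
    | zero => simp
    | succ i ih => rw [pow_succ', cjm, ih, ← conj_mul, ← conj_pow, conj_of_comm c, pow_succ, mul_assoc (y ^ i), ← q]; group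
  rw [this, e7, one_mul]

theorem cTw (hw : w ∈ W) (w1 : w ≠ 1) : ∃ s n, s ∣ 6 ∧ n % 7 = 1 ∧ #(C[w] ⊓ (N(W) ⊓ C[t])) = 98 * s ∧
    #(C[w] ⊓ C[t]) = 98 * s * n := by
  have l := zpowers_le.2 hw
  have nZ : C[w] ⊓ (N(W) ⊓ C[t]) ≤ N(zpowers w) := inf_le_left.trans (cent1_le_norm_zpowers w)
  have nW : W ≤ N(zpowers w) := (WC h hw).trans (cent1_le_norm_zpowers w)
  have c : #(quo (zpowers w) W) = 7 := by
    have := card_mul_relIndex l
    rw [cw h hw w1, cW2 h, ← card_quo nW] at this; omega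
  have d := aut_idx p7 c (quo_norms (inf_le_right.trans inf_le_left : C[w] ⊓ (N(W) ⊓ C[t]) ≤ N(W)))
  have e : qpre (zpowers w) C(quo (zpowers w) W) ⊓ (C[w] ⊓ (N(W) ⊓ C[t])) = C(W) ⊓ C[t] := by
    obtain ⟨v, hv, vw⟩ := exv h (X := zpowers w) (by rw [cw h hw w1]; decide)
    refine le_antisymm (fun n hn => ⟨L3 h hw w1 hv vw hn.2 ?_, hn.2.2.2⟩) (le_inf ((quo_le_iff (inf_le_left.trans (cent_le_norm _ |>.trans'
      (cent_mono l)))).1 (quo_cents inf_le_left)) (le_inf ((XD h hw).trans inf_le_left) (inf_le_inf_right _ (cent_le_norm _))))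
    exact (quo_cents_iff (zpowers_le.2 (nZ hn.2)) nW).1 ((quo_le_iff (zpowers_le.2 (nZ hn.2))).2 (zpowers_le.2 hn.1))
      (commutator_mem_commutator (mem_zpowers n) hv)
  rw [← relIndex_qpre' ⟨l.trans (le_inf (WC h hw) (WT h)), nZ⟩] at d
  have c1 := card_inf_mul_relIndex (qpre (zpowers w) C(quo (zpowers w) W)) (C[w] ⊓ (N(W) ⊓ C[t]))
  rw [e, cX h] at c1
  refine ⟨_, _, d, syl_mod ((sylH h).of_le (le_inf (WC h hw) h.Wt) inf_le_right), c1.symm, ?_⟩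
  rw [c1, inf_left_comm, card_inf_mul_relIndex]

theorem exA (he : HE) (hw : w ∈ W) (w1 : w ≠ 1) (c : ¬ IsConj z w) : ∃ f E, AV t w f E := by
  obtain ⟨g, rfl⟩ := isConj_iff.1 ((h.dich w hw w1).resolve_left c)
  have := he.1
  obtain ⟨f, ph, fs, fk⟩ : ∃ f : G → Spor.He, PH C[g * a * g⁻¹] f ∧ (∀ σ, ∃ x ∈ C[g * a * g⁻¹], f x = σ) ∧
      ∀ x ∈ C[g * a * g⁻¹], f x = 1 ↔ x ∈ zpowers (g * a * g⁻¹) := by
    rw [← cj_cent1, ← cj_zpowers]
    exact ⟨_, h.φh.J g, fun σ => have ⟨x, h1, h2⟩ := h.φs σ; ⟨_, conj_mem_cj.2 h1, by simpa [mul_assoc] using h2⟩,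
      fun x hx => (h.φk _ (mem_cj.1 hx)).trans mem_cj.symm⟩
  generalize g * a * g⁻¹ = w at *
  have tw : t ∈ C[w] := mem_cent1_symm.1 (h.Wt hw)
  have e : im ph.hom (C[w] ⊓ C[t]) = C[f t] := Subgroup.ext fun σ => ph.mem_im.trans ⟨fun ⟨x, h1, h2, e⟩ => by
    rw [← e, mem_cent1, ← ph.mul h2 tw, ← ph.mul tw h2, mem_cent1.1 h1.2], fun e => by
      obtain ⟨x, hx, rfl⟩ := fs σ
      have m := (fk _ (mul_mem (mul_mem (mul_mem hx tw) (inv_mem hx)) (inv_mem tw))).1 (by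
        rw [ph.mul (mul_mem (mul_mem hx tw) (inv_mem hx)) (inv_mem tw), ph.conj hx tw, ph.inv tw, conj_of_comm (mem_cent1.1 e),
          mul_inv_cancel])
      have : x * t * x⁻¹ * t⁻¹ = 1 := eq_one_cop (m := 2) (l := 7) (by decide) (by
        have c := mem_cent1.1 (h.Wt (zpowers_le.2 hw m))
        have : x * t * x⁻¹ * t⁻¹ * t * (x * t * x⁻¹ * t⁻¹ * t) = 1 := by rw [inv_mul_cancel_right, conj_mul, h.tt]; group
        generalize x * t * x⁻¹ * t⁻¹ = y at c this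
        rwa [mul_assoc, ← mul_assoc t, ← c, mul_assoc, h.tt, mul_one, ← sq] at this) (w7 h (zpowers_le.2 hw m))
      exact ⟨x, ⟨hx, mem_cent1.2 (comm_of_conj (mul_inv_eq_one.1 this))⟩, hx, rfl⟩⟩
  have c7 := ph.card inf_le_left (X := C[w] ⊓ C[t]) fun g hg => fk g hg.1
  rw [inf_eq_left.2 (zpowers_le.2 (mem_inf.2 ⟨mem_cent1.2 rfl, h.Wt hw⟩)), cw h hw w1, e] at c7
  obtain ⟨s, n, s6, n1, -, q⟩ := cTw h hw w1
  rcases he.2 (f t) (by rw [← ph.mul tw tw, h.tt, ph.one]) (fun e => h.t1 (mem_bot.1 (dis h (zpowers_le.2 hw) (pt h) ▸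
    ⟨(fk t tw).1 e, mem_zpowers t⟩))) with r | ⟨r, E, e1, e2, e3⟩
  · rw [c7, r] at q
    have := Nat.le_of_dvd (by decide) s6
    interval_cases s <;> omega
  · exact ⟨f, E, ph, fk, e, by rw [c7, r], e1, e2, e3⟩

variable (he : HE)
include he

theorem cD2 (hw : w ∈ W) (w1 : w ≠ 1) (c : ¬ IsConj z w) : #(C[w] ⊓ C[t]) = 150528 :=
  have ⟨_, _, v⟩ := exA h he hw w1 c; v.c

theorem cTw' (hw : w ∈ W) (w1 : w ≠ 1) : #(C[w] ⊓ (N(W) ⊓ C[t])) = 294 := by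
  obtain ⟨s, n, s6, n1, e, q⟩ := cTw h hw w1
  have := Nat.le_of_dvd (by decide) s6
  by_cases c : IsConj z w
  · rw [cDB h hw c] at q
    interval_cases s <;> omega
  · rw [cD2 h he hw w1 c] at q
    interval_cases s <;> omega

theorem cT : #(N(W) ⊓ C[t]) = 7056 := by rw [← card_inf_mul_relIndex C[z], cTw' h he h.zW h.z1, idxT h]

omit he in
theorem cA : {w | w ∈ W ∧ w ≠ 1 ∧ ¬ IsConj z w}.ncard = 24 := by
  have e : {w | w ∈ W ∧ w ≠ 1 ∧ ¬ IsConj z w} = ((W : Set G) \ {1}) \ {w | w ∈ W ∧ IsConj z w} := by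
    ext w; simp only [Set.mem_ofPred_eq, Set.mem_sdiff, SetLike.mem_coe, Set.mem_singleton_iff]; tauto
  rw [e, Set.ncard_sdiff (t := (W : Set G) \ {1}) fun w hw => ⟨hw.1, fun e => h.z1 (isConj_one_left.1 (e ▸ hw.2))⟩, h.cB,
    Set.ncard_sdiff_singleton_of_mem (one_mem _), ← Nat.card_coe_set_eq]
  exact congrArg (· - 1 - 24) (cW2 h)

theorem trA (hw : w ∈ W) (w1 : w ≠ 1) (c : ¬ IsConj z w) (hv : v ∈ W) (v1 : v ≠ 1) (c' : ¬ IsConj z v) :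
    ∃ g ∈ N(W) ⊓ C[t], g * w * g⁻¹ = v := by
  have := card_inf_mul_relIndex C[w] (N(W) ⊓ C[t])
  rw [cTw' h he hw w1, cT h he, ← orb_card] at this
  refine (Set.eq_of_subset_of_ncard_le (s := {y | ∃ k ∈ N(W) ⊓ C[t], k * w * k⁻¹ = y}) (t := {w | w ∈ W ∧ w ≠ 1 ∧ ¬ IsConj z w}) ?_
    (by rw [cA h]; omega)).ge ⟨hv, v1, c'⟩
  rintro _ ⟨k, hk, rfl⟩
  exact ⟨conj_mem_of_norm hk.1 hw, by simpa using w1, fun e => c (e.trans (isConj_of rfl).symm)⟩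

end

end H29.M7
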