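import Cfsg.Agent.H29.M7e

/-! The Monster from two 7-local subgroups: the core and the simple section of the involution centralizer. -/

set_option autoImplicit false
set_option linter.unusedSectionVars false

open Cfsg Subgroup
namespace H29.M7
open H19 H16.M7
open scoped commutatorElement

universe u
variable {G : Type u} [Group G] [Finite G] {W X K L : Subgroup G} {z t a g k l n u v w : G} {ψ : G → A7} {φ f : G → Spor.He}
  {E : Subgroup Spor.He}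

/-- the core together with the 7-elements of `C[t]` -/
def Mh (t : G) : Subgroup G := Oc {7}ᶜ C[t] ⊔ closure {x | x ∈ C[t] ∧ PiE {7} x}

local notation "𝐎" => Oc {7}ᶜ C[t]
local notation "𝐓" => N(W) ⊓ C[t]

theorem Mh_normal : Mh t ⊴ C[t] := (Oc_normal _ _).sup ⟨(closure_le _).2 fun _ h => h.1, fun g hg => mem_norm_of_cj_le (by
  rw [cj_closure]
  exact closure_mono (by rintro _ ⟨x, hx, rfl⟩; exact ⟨mul_mem (mul_mem hg hx.1) (inv_mem hg), PiN.dvd hx.2 (orderOf_conj' g x).dvd⟩))⟩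
theorem OM : 𝐎 ≤ Mh t := le_sup_left
theorem mem_Mh (h1 : g ∈ C[t]) (h2 : PiE {7} g) : g ∈ Mh t := mem_sup_right (subset_closure ⟨h1, h2⟩)

theorem a7_normal {N : Subgroup A7} (n : N ⊴ ⊤) : N = ⊥ ∨ N = ⊤ := have := a7s; n.normal.eq_bot_or_eq_top

section
variable (h : HC W z t a ψ φ)
include h

theorem tO : zpowers t ≤ 𝐎 := le_Oc ⟨zpowers_le.2 (tH h), cent1_le_norm_zpowers t⟩ (pt h)
theorem WM : W ≤ Mh t := fun _ hw => mem_Mh (h.Wt hw) (h.el.pg.elt hw)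

theorem Oz : 𝐎 ⊓ C[z] = zpowers t := by
  have n := ((Oc_normal {7}ᶜ C[t]).inf_le (inf_le_right : C[z] ⊓ C[t] ≤ _)).im h.ph.hom
  rw [h.ph.im_top h.ψs] at n
  have e := (a7_normal n).resolve_right fun e => by
    have := ((Oc_pi {7}ᶜ C[t]).infl (C[z] ⊓ C[t])).im h.ph.hom
    rw [e, PiG, card_top, card_a7] at this
    exact this 7 p7 (by decide) rfl
  refine le_antisymm (fun g hg => ?_) (le_inf (tO h) (zpowers_le.2 h.tz))
  have m : g ∈ C[z] ⊓ C[t] := ⟨hg.2, Oc_le _ _ hg.1⟩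
  have := sup_inf_modr (A := zpowers z) (norms_of_cents (cent_zpowers z ▸ zpowers_le.2 h.tz)) (tO h)
  rw [dis h (zpowers_le.2 h.zW) (Oc_pi _ _), bot_sup_eq] at this
  exact this.le ⟨(h.ψk g m).1 (e.le (h.ph.mem_im.2 ⟨g, ⟨hg.1, m⟩, m, rfl⟩)), hg.1⟩

theorem cjO (hg : g ∈ C[t]) (w : G) : #(𝐎 ⊓ C[g * w * g⁻¹]) = #(𝐎 ⊓ C[w]) := by
  rw [← cj_cent1, ← cj_of_mem_norm (Oc_norm _ _ hg), ← cj_inf, card_cj, cj_of_mem_norm (Oc_norm _ _ hg)]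
theorem OW : 𝐎 ⊓ C(W) = zpowers t := le_antisymm (Oz h ▸ inf_le_inf_left _ (cent_zpowers z ▸ cent_mono (zpowers_le.2 h.zW)))
  (le_inf (tO h) (zpowers_le.2 (le_cent1_iff.1 h.Wt)))

theorem OA (he : HE) (hw : w ∈ W) (w1 : w ≠ 1) (c : ¬ IsConj z w) :
    #(𝐎 ⊓ C[w]) = 2 ∨ #(𝐎 ⊓ C[w]) = 16 ∨ (#(𝐎 ⊓ C[w]) = 128 ∧ ¬ Ab 𝐎) := by
  obtain ⟨f, E, v⟩ := exA h he hw w1 c
  have := he.1
  have n : 𝐎 ⊓ C[w] ⊴ C[w] ⊓ C[t] := ⟨le_inf inf_le_right (inf_le_left.trans (Oc_le _ _)),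
    norms_inf (inf_le_right.trans (Oc_norm _ _)) (norms_of_le inf_le_left)⟩
  have p : PiG {7}ᶜ (𝐎 ⊓ C[w]) := (Oc_pi _ _).infl _
  have c1 := v.ph.card (X := 𝐎 ⊓ C[w]) inf_le_right fun g hg => v.ker g hg.2
  rw [dis h (zpowers_le.2 hw) p, card_bot, one_mul] at c1
  have m := card_mod p7 (h.el.pg.of_le (zpowers_le.2 h.zW)) (n.norms ((zpowers_le.2 h.zW).trans (le_inf (WC h hw) h.Wt)))
  rw [cent_zpowers, inf_right_comm, Oz h, inf_eq_left.2 (zpowers_le.2 (mem_cent1_symm.1 (h.Wt hw))), ct h] at m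
  have d : #(𝐎 ⊓ C[w]) ∣ 2 ^ 10 * 3 := (Nat.Coprime.pow_right 2 (p7.coprime_iff_not_dvd.2 (p.not_dvd p7 (by simp))).symm).dvd_of_dvd_mul_right
    (by have := card_dvd n.le; rwa [v.c] at this)
  have d2 : #(𝐎 ⊓ C[w]) ∣ 2 ^ 10 := by
    obtain ⟨x, y, h1, h2, e⟩ := (Nat.dvd_mul).1 d
    obtain ⟨i, hi, rfl⟩ := (Nat.dvd_prime_pow Nat.prime_two).1 h1
    rcases (Nat.dvd_prime Nat.prime_three).1 h2 with rfl | rfl
    · rwa [← e, mul_one]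
    · rw [← e] at m; interval_cases i <;> omega
  have l := v.rad _ (v.im ▸ n.im v.ph.hom) (sol_im (PiN.sol ((PiN.prime_pow Nat.prime_two 10).dvd d2)) _)
  have d3 := card_dvd l
  rw [← c1, v.cE] at d3
  obtain ⟨i, hi, e⟩ := (Nat.dvd_prime_pow Nat.prime_two (m := 7)).1 d3
  have na : #(𝐎 ⊓ C[w]) = 128 → ¬ Ab 𝐎 := fun q a =>
    v.nab (eq_of_le_of_card_eq l (by rw [← c1, q, v.cE]) ▸ ab_im (comm_mono a inf_le_left) _)
  rw [e] at m na ⊢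
  interval_cases i <;> first | omega | exact .inr (.inr ⟨rfl, na rfl⟩)

theorem exAv : ∃ w ∈ W, w ≠ 1 ∧ ¬ IsConj z w := Set.nonempty_of_ncard_ne_zero ((cA h).trans_ne (by decide))

open Classical in
theorem sumW {M : Type*} [CommMonoid M] [Fintype W] (F : G → M) {x y : M} (h1 : ∀ w ∈ W, IsConj z w → F w = x)
    (h2 : ∀ w ∈ W, w ≠ 1 → ¬ IsConj z w → F w = y) : ∏ b : W with b ≠ 1, F b = x ^ 24 * y ^ 24 := by
  have k (S : Set G) (P : W → Prop) [DecidablePred P] (e : ∀ w, w ∈ S ↔ ∃ hw : w ∈ W, P ⟨w, hw⟩) : (Finset.univ.filter P).card = S.ncard := by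
    rw [← Set.ncard_coe_finset, ← Set.ncard_image_of_injective _ Subtype.val_injective]
    exact congrArg _ (Set.ext fun w => by simp [e])
  rw [← Finset.prod_filter_mul_prod_filter_not _ fun b : W => IsConj z b, Finset.filter_filter, Finset.filter_filter,
    Finset.prod_congr rfl fun (b : W) hb => h1 b b.2 (Finset.mem_filter.1 hb).2.2,
    Finset.prod_congr rfl fun (b : W) hb => h2 b b.2 (fun e => (Finset.mem_filter.1 hb).2.1 (Subtype.ext e)) (Finset.mem_filter.1 hb).2.2,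
    Finset.prod_const, Finset.prod_const, k {w | w ∈ W ∧ IsConj z w} _ fun w => ?_,
    k {w | w ∈ W ∧ w ≠ 1 ∧ ¬ IsConj z w} _ fun w => ?_, h.cB, cA h]
  · exact ⟨fun e => ⟨e.1, fun q => e.2.1 (congrArg Subtype.val q), e.2.2⟩, fun ⟨e, q⟩ => ⟨e, fun r => q.1 (Subtype.ext r), q.2⟩⟩
  · exact ⟨fun e => ⟨e.1, fun q => h.z1 (isConj_one_left.1 ((show w = 1 from congrArg Subtype.val q) ▸ e.2)), e.2⟩, fun ⟨e, q⟩ => ⟨e, q.2⟩⟩

theorem cO (he : HE) : #𝐎 = 2 ∨ #𝐎 = 2 ^ 13 ∨ (#𝐎 = 2 ^ 25 ∧ ¬ Ab 𝐎) := by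
  have := Fintype.ofFinite W
  obtain ⟨w, hw, w1, c⟩ := exAv h
  have e := H1.fix_formula p7 h.el.ab (h.Wt.trans (Oc_norm {7}ᶜ C[t])) (Oc_pi _ _)
  rw [sumW h (fun w => #(𝐎 ⊓ C[w])) (x := 2) (y := #(𝐎 ⊓ C[w])) (fun v hv c => by
      obtain ⟨g, hg, rfl⟩ := cjB h hv c
      rw [cjO h hg, Oz h, ct h]) (fun v hv v1 c' => by
      obtain ⟨g, hg, rfl⟩ := trA h he hw w1 c hv v1 c'
      exact cjO h hg.2 w), cW2 h, OW h, ct h] at e
  have k (i j : ℕ) (q : #(𝐎 ⊓ C[w]) = 2 ^ i) (r : (24 + i * 24) * 7 = j * 42 + 294) : #𝐎 = 2 ^ j := by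
    rw [q, ← pow_mul, ← pow_add, ← pow_mul, r, show 49 = 42 + 7 from rfl, pow_add, pow_add, mul_right_comm, mul_assoc,
      mul_assoc, mul_left_inj' (by have := card_pos 𝐎; positivity), pow_mul] at e
    exact (Nat.pow_left_injective (by decide) e).symm
  rcases OA h he hw w1 c with q | q | ⟨q, n⟩
  exacts [.inl (k 1 1 q rfl), .inr (.inl (k 4 13 q rfl)), .inr (.inr ⟨k 7 25 q rfl, n⟩)]

theorem pO (he : HE) : PG 2 𝐎 := by
  rcases cO h he with q | q | ⟨q, -⟩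
  exacts [PiN.of_card Nat.prime_two q, PiN.of_card_pow Nat.prime_two q, PiN.of_card_pow Nat.prime_two q]

theorem DM : C[z] ⊓ C[t] ≤ Mh t := by
  have n := (Mh_normal.inf_le (inf_le_right : C[z] ⊓ C[t] ≤ _)).im h.ph.hom
  rw [h.ph.im_top h.ψs] at n
  obtain ⟨σ, h1, h2, -⟩ := exσ h
  have e := (a7_normal n).resolve_left fun e => h2 (e.le (h.ph.mem_im.2 ⟨σ, ⟨WM h h1, WD h h1⟩, WD h h1, rfl⟩))
  refine inf_eq_right.1 (eq_of_le_of_card_eq inf_le_right ?_)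
  rw [cK h (le_inf (sup_le (zpowers_le.2 (WM h h.zW)) ((tO h).trans OM)) (ZD h)) inf_le_right, e, cD h, card_top, card_a7]

theorem nsol (he : HE) (hw : w ∈ W) (w1 : w ≠ 1) (c : ¬ IsConj z w) : ¬ Sol (Mh t ⊓ (C[w] ⊓ C[t])) := fun s => by
  obtain ⟨f, E, v⟩ := exA h he hw w1 c
  have := he.1
  have l := v.rad _ (v.im ▸ (Mh_normal.inf_le inf_le_right).im v.ph.hom) (sol_im s _)
  have l' : im v.ph.hom W ≤ E := (im_mono (le_inf (WM h) (le_inf (WC h hw) h.Wt))).trans l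
  have c1 := v.ph.card (WC h hw) fun g hg => v.ker g (WC h hw hg)
  have := card_dvd l'
  rw [inf_eq_left.2 (zpowers_le.2 hw), cw h hw w1, cW2 h] at c1
  rw [v.cE, show #(im v.ph.hom W) = 7 by omega] at this
  exact absurd this (by decide)

theorem rho (he : HE) (hw : w ∈ W) (w1 : w ≠ 1) : ∃ ρ ∈ C[w] ⊓ 𝐓, ρ ∈ Mh t ∧ ρ ^ 3 = 1 ∧ ρ ∉ C(W) := by
  obtain ⟨ρ, h1, h2⟩ := exists_orderOf_eq_prime Nat.prime_three (H := C[w] ⊓ 𝐓) (by rw [cTw' h he hw w1]; decide)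
  have m : ρ ∈ C[w] ⊓ C[t] := ⟨h1.1, h1.2.2⟩
  refine ⟨ρ, h1, ?_, h2 ▸ pow_orderOf_eq_one ρ, fun e => ?_⟩
  · by_cases c : IsConj z w
    · obtain ⟨g, hg, rfl⟩ := cjB h hw c
      exact cj_le_of_mem_norm (Mh_normal.norm hg) (DM h) ((cjD h hg z).ge m)
    have n := Mh_normal.inf_le (inf_le_right : C[w] ⊓ C[t] ≤ _)
    have e := card_mul_relIndex n.le
    rw [cD2 h he hw w1 c] at e
    refine (le_of_pi_of_relIndex (π := {3}) (n.norms (zpowers_le.2 m)) n.le (zpowers_le.2 m)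
      (PiN.of_card Nat.prime_three ((Nat.card_zpowers ρ).trans h2)) (PiN.of_not_dvd fun ⟨i, d⟩ => nsol h he hw w1 c
        (H5.isSolvable_of_card_dvd_prime_pow_mul (a := 10) (b := 2) Nat.prime_two p7 ⟨i, ?_⟩)) (mem_zpowers ρ)).1
    rw [d, mul_left_comm] at e; omega
  · have := orderOf_dvd_card' (H := C(W) ⊓ C[t]) ⟨e, m.2⟩
    rw [h2, cX h] at this
    exact absurd this (by decide)

theorem NL (he : HE) (hl : l ∈ W) (l1 : l ≠ 1) (n : ∀ ρ ∈ Mh t ⊓ 𝐓, ρ ^ 3 = 1 → ρ ∈ N(zpowers l)) : False := by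
  have l7 := w7 h hl
  have k (w) (hw : w ∈ W) (wl : w ∉ zpowers l) : ∃ ρ ∈ C[w] ⊓ 𝐓, ρ * l * ρ⁻¹ = l ^ 2 := by
    obtain ⟨ρ, h1, h2, h3, h4⟩ := rho h he hw fun e => wl (e ▸ one_mem _)
    obtain ⟨i, e⟩ := zp7 l7 (conj_mem_of_norm (n ρ ⟨h2, h1.2⟩ h3) (mem_zpowers l))
    have p (j : ℕ) : ρ ^ j * l * (ρ ^ j)⁻¹ = l ^ i ^ j := by
      induction j with
      | zero => simp
      | succ j ih => rw [pow_succ', cjm, ih, ← conj_pow, ← e, ← pow_mul, pow_succ']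
    have e3 := p 3
    rw [h3, one_mul, inv_one, mul_one] at e3
    have o := orderOf_of_pow p7 l7 l1
    have m : i ^ 3 % 7 = 1 % 7 := o ▸ (pow_inj_mod.1 (e3.symm.trans (pow_one l).symm))
    rw [Nat.pow_mod] at m
    have := Nat.mod_lt i (by decide : 0 < 7)
    rw [← pow_mod_orderOf, o] at e
    have e2 := p 2
    rw [← pow_mod_orderOf l, o, Nat.pow_mod] at e2
    generalize i % 7 = j at *
    interval_cases j <;> try omega
    · exact (h4 (cen2 h hl l1 hw wl ▸ ⟨mem_cent1.2 (comm_of_conj (e.symm.trans (pow_one l))), h1.1⟩)).elim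
    · exact ⟨ρ, h1, e.symm⟩
    · exact ⟨ρ ^ 2, pow_mem h1 2, e2⟩
  obtain ⟨w, hw, wl⟩ := exv h (X := zpowers l) (by rw [cw h hl l1]; decide)
  obtain ⟨ρ, h1, e1⟩ := k w hw wl
  obtain ⟨σ, h2, e2⟩ := k (l * w) (mul_mem hl hw) fun e => wl ((mul_mem_cancel_left (mem_zpowers l)).1 e)
  have c : ρ⁻¹ * σ ∈ C[l] := mem_cent1.2 (comm_of_conj (by rw [cjm, e2, ← e1]; group))
  have q : ρ⁻¹ * σ * w * (ρ⁻¹ * σ)⁻¹ * w⁻¹ = ρ⁻¹ * l⁻¹ * ρ := by
    have a1 := conj_of_comm (mem_cent1.1 h2.1)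
    have a2 := conj_of_comm (mem_cent1.1 (inv_mem h1.1))
    calc _ = ρ⁻¹ * ((σ * l * σ⁻¹)⁻¹ * (σ * (l * w) * σ⁻¹)) * ρ * w⁻¹ := by group
      _ = ρ⁻¹ * l⁻¹ * ρ * (ρ⁻¹ * w * ρ⁻¹⁻¹) * w⁻¹ := by rw [a1, e2]; group
      _ = _ := by rw [a2]; group
  have := L3 h hl l1 hw wl ⟨c, (𝐓).mul_mem ((𝐓).inv_mem h1.2) h2.2⟩ (q ▸ conj_mem_of_norm' (mem_norm_iff_cj.2 (by
    rw [cj_zpowers, e1]; exact eq_zpowers_of_prime (by rw [cw h hl l1]; exact p7) (pow_mem (mem_zpowers l) 2)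
      fun e => l1 (eq_one_cop (by decide) e l7))) (inv_mem (mem_zpowers l)))
  rw [conj_of_comm (mem_cent.1 this w hw).symm, mul_inv_cancel] at q
  exact l1 (by simpa [mul_assoc, inv_mul_eq_one] using q.symm)

theorem sylM : Syl 7 W (Mh t) := (sylH h).of_le (WM h) Mh_normal.le

theorem topM (he : HE) (n : L ⊴ Mh t) (lt : 𝐎 < L) : L = Mh t := by
  have s := (sylM h).inf_normal n
  have n1 := s.sne_bot p7 (by_contra fun d => lt.not_ge ((le_Oc n (PiN.of_not_dvd d)).trans (Oc_le_Oc Mh_normal)))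
  rcases (inf_le_left : W ⊓ L ≤ W).eq_or_lt with e | e
  · refine le_antisymm n.le (sup_le lt.le ((closure_le _).2 fun x hx => ?_))
    obtain ⟨g, hg, q⟩ := (sylM h).sle_cj (K := zpowers x) (zpowers_le.2 (mem_Mh hx.1 hx.2)) (piG_zpowers.2 hx.2)
    exact cj_le_of_mem_norm (n.norm hg) (inf_eq_left.1 e) (q (mem_zpowers x))
  obtain ⟨l, l1, -, q⟩ := (h.el.self.el1_of_lt e n1).exists_gen
  exact (NL h he (q.le (mem_zpowers l)).1 l1 fun ρ hρ _ => q ▸ norms_inf (A := Mh t ⊓ 𝐓) (inf_le_right.trans inf_le_left)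
    (inf_le_left.trans n.norm) hρ).elim

theorem idxM (he : HE) : (Mh t).relIndex C[t] = 1 ∨ (Mh t).relIndex C[t] = 2 := by
  have fr := (sylM h).frattini Mh_normal
  rw [← fr, relIndex_sup_of_norm (Mh_normal.norms inf_le_left), inf_comm]
  obtain ⟨ρ, h1, h2, h3, h4⟩ := rho h he h.zW h.z1
  have nW : zpowers ρ ≤ N(W) := zpowers_le.2 h1.2.1
  have c3 : #(zpowers ρ) = 3 := (Nat.card_zpowers ρ).trans (orderOf_of_pow Nat.prime_three h3 fun e => h4 (e ▸ one_mem _))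
  have d := ab_commg_inf_cent h.el.comm nW (by rw [cW2 h, c3]; decide)
  rw [cent_zpowers] at d
  obtain ⟨v, v1, -, q⟩ := (h.el.self.el1_of_lt (lt_of_le_of_ne (commg_le_left nW) fun e =>
    h.z1 (d.le ⟨e.ge h.zW, mem_cent1_symm.1 h1.1⟩)) fun e => h4 (cents_symm (commg_eq_bot.1 e) (mem_zpowers ρ))).exists_gen
  have hv : v ∈ W := commg_le_left nW (q.le (mem_zpowers v))
  have nv : zpowers ρ ≤ N(zpowers v) := q ▸ norms_comm nW le_normalizer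
  have nT : zpowers ρ ≤ N(C[v] ⊓ 𝐓) := norms_inf (cent_zpowers v ▸ norms_cent nv) (norms_of_le (zpowers_le.2 h1.2))
  have cP : #(C[v] ⊓ 𝐓 ⊔ zpowers ρ) = 882 := by
    rw [card_sup_of_disjoint nT (inf_comm _ (zpowers ρ) ▸ inf_eq_bot_of_prime (by rw [c3]; exact Nat.prime_three) fun e =>
      v1 (d.le ⟨q.le (mem_zpowers v), mem_cent1_symm.1 (e (mem_zpowers ρ)).1⟩)), cTw' h he hv v1, c3]
  have TM : C[v] ⊓ 𝐓 ≤ Mh t := by
    obtain ⟨σ, k1, k2, -, k4⟩ := rho h he hv v1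
    have l : C(W) ⊓ C[t] ≤ C[v] ⊓ 𝐓 := le_inf ((XD h hv).trans inf_le_left) (inf_le_inf_right _ (cent_le_norm _))
    have := card_mul_relIndex l
    rw [cX h, cTw' h he hv v1] at this
    rw [← (eq_of_prime_index le_sup_left (sup_le l (zpowers_le.2 k1)) (by
      rw [show (C(W) ⊓ C[t]).relIndex (C[v] ⊓ 𝐓) = 3 by omega]; exact Nat.prime_three)).resolve_left
      fun e => k4 (e.le (mem_sup_right (mem_zpowers σ))).1]
    exact sup_le ((XD h h.zW).trans (DM h)) (zpowers_le.2 k2)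
  have l : C[v] ⊓ 𝐓 ⊔ zpowers ρ ≤ Mh t ⊓ 𝐓 := sup_le (le_inf TM inf_le_right) (zpowers_le.2 ⟨h2, h1.2⟩)
  have e1 := card_mul_relIndex l
  have e2 := card_inf_mul_relIndex (Mh t) 𝐓
  rw [← e1, cP, cT h he, mul_assoc] at e2
  have j : 2 < (C[v] ⊓ 𝐓 ⊔ zpowers ρ).relIndex (Mh t ⊓ 𝐓) := not_le.1 fun j => NL h he hv v1 fun σ hσ s3 => by
    refine sup_le (inf_le_left.trans (cent1_le_norm_zpowers v)) nv (?_ : σ ∈ C[v] ⊓ 𝐓 ⊔ zpowers ρ)
    rcases (Nat.lt_or_eq_of_le j) with j | j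
    · exact relIndex_eq_one.1 (by have := relIndex_pos (C[v] ⊓ 𝐓 ⊔ zpowers ρ) (Mh t ⊓ 𝐓); omega) hσ
    · exact mem_cop (m := 2) (l := 3) (by decide) ((sq σ).symm ▸ mul_self_mem_of_index_two j ⟨σ, hσ⟩) (s3 ▸ one_mem _)
  generalize (C[v] ⊓ 𝐓 ⊔ zpowers ρ).relIndex (Mh t ⊓ 𝐓) = x at e2 j
  generalize (Mh t).relIndex 𝐓 = y at e2 ⊢
  have : y * 3 ≤ 8 := by nlinarith
  have : y ≠ 0 := by rintro rfl; omega
  omega

end

end H29.M7
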