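import Cfsg.Agent.H29.M7f
import Cfsg.Agent.H0.ES1
import Cfsg.Agent.S4208

/-! The Monster from two 7-local subgroups: the centralizer of the involution. -/

set_option autoImplicit false
set_option linter.unusedSectionVars false

open Cfsg Subgroup
namespace H29.M7
open H19 H16.M7
open scoped commutatorElement

universe u
variable {G : Type u} [Group G] [Finite G] {W X K L U V : Subgroup G} {z t a g k v w : G} {ψ : G → A7} {φ : G → Spor.He}

local notation "𝐎" => Oc {7}ᶜ C[t]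

theorem burn [Fintype W] (l : W ≤ K) : #W * #W ∣ ∑ y : W, ∑ x : W, {k | k ∈ K ∧ k * y * k⁻¹ = x}.ncard := by
  classical
  let _ : MulAction (W × W) K := {
    smul := fun p k => ⟨p.2 * k * p.1⁻¹, mul_mem (mul_mem (l p.2.2) k.2) (inv_mem (l p.1.2))⟩
    one_smul := fun k => Subtype.ext (show ((1 : W) : G) * k * ((1 : W) : G)⁻¹ = k by simp)
    mul_smul := fun p q k => Subtype.ext (show ((p.2 * q.2 : W) : G) * k * ((p.1 * q.1 : W) : G)⁻¹ =
      p.2 * (q.2 * k * (q.1 : G)⁻¹) * (p.1 : G)⁻¹ by simp [mul_assoc]) }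
  have := Fintype.ofFinite K
  have := Fintype.ofFinite (MulAction.orbitRel.Quotient (W × W) K)
  have e := MulAction.sum_card_fixedBy_eq_card_orbits_mul_card_group (W × W) K
  rw [Fintype.card_prod, ← Nat.card_eq_fintype_card (α := W), Fintype.sum_prod_type] at e
  refine ⟨_, Eq.trans (Finset.sum_congr rfl fun y _ => Finset.sum_congr rfl fun x _ => ?_) (e.trans (mul_comm _ _))⟩
  rw [← Nat.card_eq_fintype_card, Nat.card_coe_set_eq, ← Set.ncard_image_of_injective _ Subtype.val_injective]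
  refine congrArg _ (Set.ext fun k => ⟨fun ⟨h1, h2⟩ => ⟨⟨k, h1⟩, Subtype.ext ?_, rfl⟩, ?_⟩)
  · show (x : G) * k * (y : G)⁻¹ = k
    rw [← h2]; group
  · rintro ⟨k, h, rfl⟩
    have : (x : G) * k * (y : G)⁻¹ = k := congrArg Subtype.val h
    exact ⟨k.2, by nth_rw 1 [← this]; group⟩

theorem cntc (hg : g ∈ K) (y : G) : {k | k ∈ K ∧ k * y * k⁻¹ = g * y * g⁻¹}.ncard = #(C[y] ⊓ K) := by
  refine Eq.trans ?_ (Nat.card_coe_set_eq ((C[y] ⊓ K : Subgroup G) : Set G)).symm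
  rw [← Set.ncard_image_of_injective ((C[y] ⊓ K : Subgroup G) : Set G) (mul_right_injective g)]
  refine congrArg _ (Set.ext fun k => ⟨fun ⟨h1, h2⟩ => ⟨g⁻¹ * k, ⟨mem_cent1.2 (comm_of_conj ?_), K.mul_mem (K.inv_mem hg) h1⟩,
    mul_inv_cancel_left g k⟩, ?_⟩)
  · rw [cjm, h2]; group
  · rintro ⟨k, h, rfl⟩
    exact ⟨mul_mem hg h.2, by rw [cjm, conj_of_comm (mem_cent1.1 h.1)]⟩

theorem aut_dvd (n : K ≤ N(X)) : C(X).relIndex K ∣ Nat.card (MulAut X) := by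
  have k : (X.normalizerMonoidHom.comp (inclusion n)).ker = C(X).subgroupOf K := by
    rw [← MonoidHom.comap_ker, normalizerMonoidHom_ker]; rfl
  rw [relIndex, ← k, index_ker]
  exact card_subgroup_dvd_card _

theorem big16 {P : Type*} [Group P] [Finite P] {n : ℕ} (c : Nat.card P = 2 ^ n) (d : 5 ^ 4 ∣ Nat.card (MulAut P)) : 16 ≤ n := by
  have := Fact.mk Nat.prime_two
  obtain ⟨r, hr, e⟩ := (Nat.dvd_prime_pow Nat.prime_two).1 (c ▸ (frattini P).index_dvd_card)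
  have := (Nat.Coprime.pow _ _ (by decide : Nat.Coprime 5 2)).dvd_of_dvd_mul_left (d.trans (Cfsg.Agent.S4208.result c e))
  by_contra! q
  exact (by decide +kernel : ∀ r < 16, ¬ 5 ^ 4 ∣ ∏ i ∈ Finset.range r, (2 ^ r - 2 ^ i)) r (by omega) this

/-- orders of the three candidates -/
def OU : Prop := ∀ (M : Type u) [Group M] [IsSimpleGroup M], (Spor.IsoCo1 M → Nat.card M = 4157776806543360000) ∧
  (Spor.IsoTh M → Nat.card M = 90745943887872000) ∧ (Spor.IsoB M → Nat.card M = 4154781481226426191177580544000000)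

section
variable (h : HC W z t a ψ φ) (he : HE)
include h

theorem sumW' [Fintype W] (F : G → ℕ) {x y : ℕ} (h1 : ∀ w ∈ W, IsConj z w → F w = x)
    (h2 : ∀ w ∈ W, w ≠ 1 → ¬ IsConj z w → F w = y) : ∑ b : W, F b = F 1 + (24 * x + 24 * y) := by
  classical
  have := congrArg Multiplicative.toAdd (sumW h (fun w => Multiplicative.ofAdd (F w)) (fun w a b => congrArg _ (h1 w a b))
    fun w a b c => congrArg _ (h2 w a b c))
  rw [← Finset.add_sum_erase _ _ (Finset.mem_univ 1), ← Finset.filter_ne']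
  simpa [toAdd_prod] using this

include he

theorem cong : 2401 ∣ #C[t] + (24 * (24 * 35280) + 24 * (24 * 150528)) := by
  have := Fintype.ofFinite W
  have e := burn h.Wt
  have z0 {x y : G} (n : ¬ IsConj y x) : {k | k ∈ C[t] ∧ k * y * k⁻¹ = x}.ncard = 0 := by
    rw [Set.ncard_eq_zero]; exact Set.eq_empty_of_forall_notMem fun k q => n (isConj_of q.2)
  rw [cW2 h, sumW' h (fun y => ∑ x : W, {k | k ∈ C[t] ∧ k * y * k⁻¹ = x}.ncard) (x := 24 * 35280) (y := 24 * 150528)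
    (fun y hy c => ?_) fun y hy y1 c => ?_, sumW' h (fun x => {k | k ∈ C[t] ∧ k * 1 * k⁻¹ = x}.ncard) (x := 0) (y := 0)
    (fun x _ c => z0 fun q => h.z1 (isConj_one_left.1 (c.trans q.symm))) fun x _ x1 _ => z0 fun q => x1 (isConj_one_right.1 q)] at e
  · simp only [mul_one, mul_inv_cancel, and_true, mul_zero, add_zero, SetLike.setOfPred_mem_eq, ← Nat.card_coe_set_eq] at e
    exact e
  · rw [sumW' h (fun x => {k | k ∈ C[t] ∧ k * y * k⁻¹ = x}.ncard) (x := 35280) (y := 0) (fun x hx c' => ?_)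
      (fun x _ _ c' => z0 fun q => c' (c.trans q)), z0 fun q => h.z1 (isConj_one_left.1 (c.trans q))]
    obtain ⟨g, hg, rfl⟩ := cjB h hy c
    obtain ⟨k, hk, rfl⟩ := cjB h hx c'
    rw [← cDB h hy c, ← cntc (mul_mem hk (inv_mem hg)), show k * g⁻¹ * (g * z * g⁻¹) * (k * g⁻¹)⁻¹ = k * z * k⁻¹ by group]
  · rw [sumW' h (fun x => {k | k ∈ C[t] ∧ k * y * k⁻¹ = x}.ncard) (x := 0) (y := 150528)
      (fun x _ c' => z0 fun q => c (c'.trans q.symm)) (fun x hx x1 c' => ?_), z0 fun q => y1 (isConj_one_left.1 q)]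
    obtain ⟨g, hg, rfl⟩ := trA h he hy y1 c hx x1 c'
    rw [cntc hg.2, cD2 h he hy y1 c]

theorem ident (sv : SV.{u}) (hK : IsCompositionKProper G) {M : Subgroup G} (e : Mh t = M) [(𝐎.subgroupOf M).Normal] :
    IsSimpleGroup (M ⧸ 𝐎.subgroupOf M) ∧
      (Spor.IsoCo1 (M ⧸ 𝐎.subgroupOf M) ∨ Spor.IsoTh (M ⧸ 𝐎.subgroupOf M) ∨ Spor.IsoB (M ⧸ 𝐎.subgroupOf M)) := by
  subst e
  obtain ⟨f, hf, e⟩ := exists_PH (QuotientGroup.mk' (𝐎.subgroupOf (Mh t)))
  have fs : ∀ σ, ∃ g ∈ Mh t, f g = σ := fun σ =>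
    have ⟨g, hg⟩ := QuotientGroup.mk'_surjective _ σ; ⟨g, g.2, (e g).trans hg⟩
  have fk : ∀ g ∈ Mh t, f g = 1 ↔ g ∈ 𝐎 := fun g hg => by
    rw [e ⟨g, hg⟩, QuotientGroup.mk'_apply, QuotientGroup.eq_one_iff, mem_subgroupOf]
  have sj : Function.Surjective hf.hom := fun σ => have ⟨g, hg, e⟩ := fs σ; ⟨⟨g, hg⟩, e⟩
  have l := Mh_normal (t := t) |>.le
  have cim {w : G} (hw : w ∈ W) : im hf.hom (Mh t ⊓ (C[w] ⊓ C[t])) = C[f w] := Subgroup.ext fun σ => hf.mem_im.trans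
    ⟨fun ⟨x, h1, h2, e⟩ => by rw [← e, mem_cent1, ← hf.mul h2 (WM h hw), ← hf.mul (WM h hw) h2, mem_cent1.1 h1.2.1], fun q => by
      obtain ⟨x, hx, rfl⟩ := fs σ
      have lw := zpowers_le.2 hw
      obtain ⟨n, hn, c⟩ := exists_mul_mem_cent (A := zpowers w) (H := 𝐎) (k := x) (lw.trans (h.Wt.trans (Oc_norm _ _)))
        ((Oc_pi _ _).coprime' (h.el.pg.of_le lw)) (.inl (h.el.pg.of_le lw).sol) fun y hy => by
          have m := WM h (lw hy)
          obtain ⟨i, rfl⟩ := zp7 (w7 h hw) hy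
          rw [← fk _ (mul_mem (mul_mem (mul_mem m hx) (inv_mem m)) (inv_mem hx)), hf.mul (mul_mem (mul_mem m hx) (inv_mem m))
            (inv_mem hx), hf.conj m hx, hf.inv hx, hf.pow (WM h hw), mul_inv_eq_one]
          exact conj_of_comm ((Commute.pow_right (mem_cent1.1 q) i).eq.symm)
      have m := mul_mem (OM hn) hx
      exact ⟨n * x, ⟨m, cent_zpowers w ▸ c, l m⟩, m, by rw [hf.mul (OM hn) hx, (fk n (OM hn)).2 hn, one_mul]⟩⟩
  have hD := hf.mono (DM h)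
  obtain ⟨π, p1, p2⟩ := hD.desc h.ph fun g hg q => (h.ψk g hg).2 (mem_sup_right (Oz h ▸ ⟨(fk g (DM h hg)).1 q, hg.1⟩))
  have ex {σ} (q : σ ∈ C[f z]) : ∃ g ∈ C[z] ⊓ C[t], f g = σ := have ⟨g, h1, _, h2⟩ := hf.mem_im.1 ((cim h.zW).ge q); ⟨g, h1.2, h2⟩
  have ex' {σ} (q : σ ∈ C[f z]) : σ ∈ im hD.hom (C[z] ⊓ C[t]) := have ⟨g, h1, h2⟩ := ex q; hD.mem_im.2 ⟨g, h1, h1, h2⟩
  have cz {g} (hg : g ∈ C[z] ⊓ C[t]) : f g ∈ C[f z] := (cim h.zW).le (hf.mem_im.2 ⟨g, ⟨DM h hg, hg⟩, DM h hg, rfl⟩)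
  have nc : ¬ IsMulCommutative (Mh t ⧸ 𝐎.subgroupOf (Mh t)) := fun c => by
    have := a7s
    have : ∀ x y : A7, x * y = y * x := fun x y => by
      obtain ⟨x, hx, rfl⟩ := h.ψs x
      obtain ⟨y, hy, rfl⟩ := h.ψs y
      rw [← p1 x hx, ← p1 y hy, ← p2 _ (ex' (cz hx)) _ (ex' (cz hy)), c.1.1, p2 _ (ex' (cz hy)) _ (ex' (cz hx))]
    let _ : CommGroup A7 := { mul_comm := this }
    exact absurd (card_a7 ▸ IsSimpleGroup.prime_card (α := A7)) (by norm_num)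
  have : Nontrivial (Mh t ⧸ 𝐎.subgroupOf (Mh t)) := by
    by_contra! c
    exact nc ⟨⟨fun _ _ => Subsingleton.elim _ _⟩⟩
  have : IsSimpleGroup (Mh t ⧸ 𝐎.subgroupOf (Mh t)) := ⟨fun N hN => by
    have n : pre hf.hom N ⊴ Mh t := ⟨pre_le _ _, norms_pre le_rfl le_normalizer_of_normal⟩
    have m : 𝐎 ≤ pre hf.hom N := fun g hg => hf.mem_pre.2 ⟨OM hg, by rw [(fk g (OM hg)).2 hg]; exact one_mem _⟩
    rw [← im_pre sj N]
    rcases m.eq_or_lt with q | q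
    · refine .inl (eq_bot_iff.2 fun σ hσ => ?_)
      obtain ⟨g, h1, h2, rfl⟩ := hf.mem_im.1 hσ
      exact (fk g h2).2 (q ▸ h1)
    · exact .inr (by rw [topM h he n q, hf.im_top fs])⟩
  obtain ⟨w, hw, w1, c⟩ := exAv h
  have f7 {w} (hw : w ∈ W) : f w ^ 7 = 1 := by rw [← hf.pow (WM h hw), w7 h hw, hf.one]
  refine ⟨this, sv (z := f z) (a := f w) (π := π) (hf.known hK (fun q => h.nt (top_le_iff.1 (q ▸ l))) fs nc) (f7 h.zW)
    (fun q => h.z1 ((dis h le_rfl (Oc_pi {7}ᶜ C[t])).le ⟨h.zW, (fk z (WM h h.zW)).1 q⟩)) ⟨fun q r => p2 _ (ex' q) _ (ex' r)⟩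
    (fun σ => have ⟨g, h1, h2⟩ := h.ψs σ; ⟨f g, cz h1, (p1 g h1).trans h2⟩) (fun σ q => ?_) (f7 hw) ?_ (fun s => ?_) fun d => ?_⟩
  · obtain ⟨g, hg, rfl⟩ := ex q
    rw [p1 g hg, h.ψk g hg]
    have e : im hf.hom (zpowers z ⊔ zpowers t) = zpowers (f z) := by
      rw [im_sup (zpowers_le.2 (WM h h.zW)) ((tO h).trans OM), im_zpowers ⟨z, WM h h.zW⟩, im_zpowers ⟨t, OM (tO h (mem_zpowers t))⟩,
        show hf.hom ⟨t, OM (tO h (mem_zpowers t))⟩ = 1 from (fk t (OM (tO h (mem_zpowers t)))).2 (tO h (mem_zpowers t)),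
        zpowers_one_eq_bot, sup_bot_eq]; rfl
    refine ⟨fun r => e.le (hf.mem_im.2 ⟨g, r, DM h hg, rfl⟩), fun r => ?_⟩
    obtain ⟨y, h1, h2, r⟩ := hf.mem_im.1 (e.ge r)
    have m := (C[z] ⊓ C[t]).mul_mem hg ((C[z] ⊓ C[t]).inv_mem (ZD h h1))
    exact (mul_mem_cancel_right (inv_mem h1)).1 (mem_sup_right (Oz h ▸ ⟨(fk _ (DM h m)).1 (hf.div (DM h hg) h2 r.symm), m.1⟩))
  · rw [← cim hw]
    refine PiN.im (PiN.of_le (K := C[w] ⊓ C[t]) ?_ inf_le_right) _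
    rw [PiG, cD2 h he hw w1 c]
    exact fun p hp d => by
      rcases (Nat.Prime.dvd_mul hp (m := 2 ^ 10 * 3) (n := 7 ^ 2)).1 d with d | d
      · rcases (Nat.Prime.dvd_mul hp).1 d with d | d
        · exact .inl ((Nat.prime_dvd_prime_iff_eq hp Nat.prime_two).1 (hp.dvd_of_dvd_pow d))
        · exact .inr (.inl ((Nat.prime_dvd_prime_iff_eq hp Nat.prime_three).1 d))
      · exact .inr (.inr ((Nat.prime_dvd_prime_iff_eq hp p7).1 (hp.dvd_of_dvd_pow d)))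
  · refine nsol h he hw w1 c ?_
    rw [← cim hw] at s
    have := sol_mono (pO h he).sol (inf_le_left : 𝐎 ⊓ (Mh t ⊓ (C[w] ⊓ C[t])) ≤ _)
    exact Group.isSolvable_of_ker_le_range (inclusion (inf_le_right : 𝐎 ⊓ (Mh t ⊓ (C[w] ⊓ C[t])) ≤ _))
      (imHom hf.hom inf_le_left) fun x hx => ⟨⟨x, (fk x x.2.1).1 (imHom_eq_one.1 hx), x.2⟩, rfl⟩
  · have d' := d.trans ((card_quotient_dvd_card _).trans (sylM h).card_mul.symm.dvd)
    rw [cW2 h] at d'
    exact (sylM h).not_dvd p7 (Nat.dvd_of_mul_dvd_mul_left (by decide : 0 < 49) d')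

theorem WK (e : Mh t = C[t]) (n : K ⊴ C[t]) (k : ¬ K ≤ 𝐎) : W ≤ K := by
  have q := topM h he (L := 𝐎 ⊔ K) (e.symm ▸ (Oc_normal _ _).sup n) (left_lt_sup.2 k)
  refine le_of_pi_of_relIndex (π := {7}) (n.norms h.Wt) n.le h.Wt h.el.pg ?_
  rw [← e, ← q, relIndex_sup_right_of_norm (n.le.trans (Oc_norm _ _))]
  exact (Oc_pi _ _).relIndex K

theorem KL (e : Mh t = C[t]) (d : 5 ^ 4 ∣ #C[t]) (lt : U < V) (l1 : zpowers t ≤ U) (l2 : V ≤ 𝐎) (nU : C[t] ≤ N(U))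
    (nV : C[t] ≤ N(V)) : #U * 2 ^ 16 ≤ #V := by
  have nVU := (l2.trans (Oc_le _ _)).trans nU
  have nu : U ⊴ C[t] := ⟨lt.le.trans (l2.trans (Oc_le _ _)), nU⟩
  have n : qpre U C(quo U V) ⊓ C[t] ⊴ C[t] := inf_normal_of_norm (norms_qpre nU (norms_cent (quo_norms nV)))
  have k : qpre U C(quo U V) ⊓ C[t] ≤ 𝐎 := by_contra fun k => by
    have := (quo_cents_iff (h.Wt.trans nU) nVU).1 ((quo_le_iff (h.Wt.trans nU)).2 ((WK h he e n k).trans inf_le_left))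
    refine lt.not_ge ((le_sup_cent_of_commg_le (h.Wt.trans nU) (((Oc_pi _ _).of_le (lt.le.trans l2)).coprime' h.el.pg)
      (.inl h.el.pg.sol) (commutator_comm V W ▸ this)).trans (sup_le le_rfl ?_))
    exact (inf_le_inf_right _ (sup_le (lt.le.trans l2) l2)).trans ((OW h).le.trans l1)
  obtain ⟨i, c1⟩ := ((pO h he).of_le k).exists_card
  obtain ⟨j, c2⟩ := (((pO h he).of_le l2).quo U).exists_card
  rw [← card_inf_mul_relIndex (qpre U C(quo U V)), c1, relIndex_qpre' nu] at d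
  have := big16 c2 (((Nat.Coprime.pow _ _ (by decide : Nat.Coprime 5 2)).dvd_of_dvd_mul_left d).trans (aut_dvd (quo_norms nV)))
  rw [← card_mul_relIndex lt.le, ← card_quo nVU, c2]
  exact Nat.mul_le_mul_left _ (Nat.pow_le_pow_right (by decide) this)

theorem esO (e : Mh t = C[t]) (d : 5 ^ 4 ∣ #C[t]) (c : #𝐎 = 2 ^ 25) (na : ¬ Ab 𝐎) : H0.ES 𝐎 t := by
  have := Fact.mk Nat.prime_two
  have n := Oc_norm {7}ᶜ C[t]
  have two {V} (nV : C[t] ≤ N(V)) (l1 : zpowers t ≤ V) (l2 : V < 𝐎) : V = zpowers t := by_contra fun q => by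
    have a1 := KL h he e d (lt_of_le_of_ne l1 (Ne.symm q)) le_rfl l2.le (cent1_le_norm_zpowers t) nV
    have a2 := KL h he e d l2 l1 le_rfl nV n
    rw [ct h] at a1
    omega
  have m := @H0.mem_zpowers_inv _ _ t
  have tZ : zpowers t ≤ Z(𝐎) := le_inf (tO h) (zpowers_le.2 (le_cent1_iff.1 (Oc_le _ _)))
  have eZ := two (n.trans (norm_le_norm_center _)) tZ (lt_of_le_of_ne inf_le_left fun q => na (comm_iff_le_cent.2 (inf_eq_left.1 q)))
  have tF : zpowers t ≤ (frattini 𝐎).map 𝐎.subtype := by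
    have n1 : ⁅𝐎, 𝐎⁆ ≠ ⊥ := fun q => na (comm_iff_le_cent.2 (commg_eq_bot.1 q))
    have := ((pO h he).of_le (der_le _)).meet_cent (pO h he) (norms_comm le_normalizer le_normalizer) n1
    refine (le_of_prime_of_inf_ne_bot (by rw [ct h]; exact Nat.prime_two) (ne_bot_mono (le_inf ?_ inf_le_left) this)).trans
      (commutator_le.2 fun _ hx _ hy => H4.commutator_mem_map_frattini (pO h he).isPGroup hx hy)
    exact eZ ▸ inf_le_inf_right _ (der_le _)
  have eF := two (n.trans (H1.normalizer_le_normalizer_map_subtype _)) tF (lt_of_le_of_ne (map_subtype_le _) fun q => by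
    have : frattini 𝐎 = ⊤ := map_injective 𝐎.subtype_injective (by rw [q, ← MonoidHom.range_eq_map, range_subtype])
    have := frattini_nongenerating (K := ⊥) (by rw [this, sup_top_eq])
    have := congrArg (fun X : Subgroup 𝐎 => #X) this
    rw [card_bot, card_top, c] at this
    omega)
  exact ⟨tO h (mem_zpowers t), h.t1, h.tt, fun x hx y hy => (m h.tt).1 (eF ▸ H4.commutator_mem_map_frattini (pO h he).isPGroup hx hy),
    fun x hx => (m h.tt).1 (eF ▸ sq x ▸ H4.pow_mem_map_frattini (pO h he).isPGroup hx), fun x hx => mem_cent1.1 (Oc_le _ _ hx),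
    fun x hx q => (m h.tt).1 (eZ ▸ ⟨hx, mem_cent.2 fun y hy => (q y hy).symm⟩), by
      by_contra! q; exact na ⟨⟨fun x y => Subtype.ext (q x x.2 y y.2)⟩⟩⟩

theorem cc0 (ou : OU.{u}) (sv : SV.{u}) (hK : IsCompositionKProper G) : ∃ (Q : Subgroup C[t]) (_ : Q.Normal), IsExtraspecial 2 Q ∧
    Nat.card Q = 2 ^ 25 ∧ Subgroup.centralizer (Q : Set C[t]) ≤ Q ∧ Spor.IsoCo1 (C[t] ⧸ Q) := by
  have nO := Oc_normal {7}ᶜ C[t]
  have := (nO.of_le OM Mh_normal.le).subgroupOf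
  have e1 := card_mul_relIndex (Mh_normal (t := t)).le
  have e2 := card_mul_relIndex (OM (t := t))
  have e3 := cong h he
  obtain ⟨_, id⟩ := ident h he sv hK rfl
  obtain ⟨o1, o2, o3⟩ := ou (Mh t ⧸ 𝐎.subgroupOf (Mh t))
  have : (Mh t).relIndex C[t] = 1 ∧ #𝐎 = 2 ^ 25 ∧ ¬ Ab 𝐎 ∧ 𝐎.relIndex (Mh t) = 4157776806543360000 := by
    have k : 𝐎.relIndex (Mh t) = 4157776806543360000 ∨ 𝐎.relIndex (Mh t) = 90745943887872000 ∨
      𝐎.relIndex (Mh t) = 4154781481226426191177580544000000 := id.imp o1 (.imp o2 o3)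
    rw [← e1, ← e2] at e3
    rcases idxM h he with i | i <;> rcases cO h he with c | c | ⟨c, n⟩ <;> rcases k with k | k | k <;> rw [i, c, k] at e3 <;>
      first | exact ⟨i, c, n, k⟩ | exact absurd e3 (by decide)
  obtain ⟨i, c, na, k⟩ := this
  have e := le_antisymm Mh_normal.le (relIndex_eq_one.1 i)
  have d : 5 ^ 4 ∣ #C[t] := by rw [← e1, ← e2, k]; exact ((by decide : 5 ^ 4 ∣ 4157776806543360000).mul_left _).mul_right _
  have s := esO h he e d c na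
  have := nO.subgroupOf
  refine ⟨𝐎.subgroupOf C[t], this, H0.ES.extraspecial (z := ⟨t, tH h⟩) ⟨s.zQ, fun q => s.z1 (congrArg Subtype.val q),
    Subtype.ext s.zz, fun x hx y hy => (s.comm x hx y hy).imp Subtype.ext Subtype.ext, fun x hx => (s.sq x hx).imp Subtype.ext Subtype.ext,
    fun x hx => Subtype.ext (s.cent x hx), fun x hx q => (s.ctr x hx fun y hy => congrArg Subtype.val (q ⟨y, nO.le hy⟩ hy)).imp
      Subtype.ext Subtype.ext, have ⟨x, hx, y, hy, q⟩ := s.nonab; ⟨⟨x, nO.le hx⟩, hx, ⟨y, nO.le hy⟩, hy, fun r => q (congrArg Subtype.val r)⟩⟩,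
    (card_subgroupOf' nO.le).trans c, fun g hg => ?_, ?_⟩
  · have : C[t] ⊓ C(𝐎) ≤ 𝐎 := by_contra fun q => by
      have := card_le ((le_inf le_rfl (cents_symm ((WK h he e nO.inf_cent q).trans inf_le_right))).trans (OW h).le)
      rw [c, ct h] at this; omega
    exact this ⟨g.2, mem_cent.2 fun y hy => congrArg Subtype.val (hg ⟨y, nO.le hy⟩ hy)⟩
  obtain ⟨_, id⟩ := ident h he sv hK e
  obtain ⟨-, o2, o3⟩ := ou (C[t] ⧸ 𝐎.subgroupOf C[t])
  rw [e] at k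
  exact (id.resolve_right fun q => q.elim (fun q => absurd ((o2 q).symm.trans k) (by decide))
    fun q => absurd ((o3 q).symm.trans k) (by decide))

end

theorem cc' (ou : OU.{u}) (sv : SV.{u}) (he : HE) : CC.{u} := fun hK h => cc0 h he ou sv hK

end H29.M7
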