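/-
Maximal subgroups of `E₇(2)`: soundness of some certificates.
-/
import Cfsg.Agent.H7.ME2

set_option autoImplicit false
set_option maxRecDepth 100000

namespace H29.ME
open H7.ME Matrix Subgroup Module
open H18.E7 (G M)

attribute [local irreducible] H18.E7.M toM H7.ME.mul H7.ME.Id wm eqm

theorem tm (k X Y : ℕ) : toM 56 56 (mul k X Y) = toM 56 k X * toM k 56 Y := toM_mul k X Y
theorem cardS (S : Submodule F V) : Nat.card S = 2 ^ finrank F S := by rw [natCard_eq_pow_finrank (K := F), Nat.card_zmod]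

theorem it {y : G} {S : Submodule F V} (h : ∀ v ∈ S, M y *ᵥ v ∈ S) (n : ℕ) (v : S) :
    ((fun v : S => (⟨_, h v v.2⟩ : S))^[n] v).1 = M (y ^ n) *ᵥ v := by
  induction n with
  | zero => simp
  | succ n ih => rw [Function.iterate_succ_apply', pow_succ', map_mul, ← mulVec_mulVec, ← ih]

theorem fxp {d p : ℕ} [Fact p.Prime] (k : ∀ b ≤ d, ∀ a ≤ b, 2 ^ b % p = 2 ^ a % p → a = b) : Fx d 1 p := fun y S hd h hy v hv => by
  classical
  have := Fintype.ofFinite S
  let T := S ⊓ LinearMap.ker (M y - 1).mulVecLin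
  have e := Equiv.Perm.card_fixedPoints_modEq (p := p) (n := 1) (f := fun v : S => (⟨_, h v v.2⟩ : S)) (funext fun v => Subtype.ext (by
    rw [pow_one]; exact (it h p v).trans (by rw [hy]; simp; rfl)))
  rw [← Nat.card_eq_fintype_card, ← Nat.card_eq_fintype_card, cardS, Nat.card_congr (β := T) ⟨fun v => ⟨v.1, v.1.2, by
    simpa [sub_mulVec, sub_eq_zero] using congrArg Subtype.val v.2⟩, fun v => ⟨⟨v, v.2.1⟩, Subtype.ext (by
    simpa [sub_mulVec, sub_eq_zero] using v.2.2)⟩, fun _ => rfl, fun _ => rfl⟩, cardS] at e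
  have := (Submodule.eq_of_le_of_finrank_eq inf_le_left (k _ hd _ (Submodule.finrank_mono (inf_le_left : T ≤ S)) e)).ge hv
  simpa [sub_mulVec, sub_eq_zero] using this.2

theorem M_iv (y : G) (v : V) : M y⁻¹ *ᵥ (M y *ᵥ v) = v := by rw [mulVec_mulVec, ← map_mul]; simp

theorem per {α : Type*} [Finite α] {f : α → α} (fi : Function.Injective f) {o v : α} (h0 : f o = o) (c : Nat.card α ≤ 8) {N : ℕ}
    (hN : ∀ n < 8, 0 < n → n ∣ N) : f^[N] v = v := by
  classical
  by_cases v0 : v = o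
  · rw [v0]; exact Function.iterate_fixed h0 N
  have := Fintype.ofFinite α
  let g : {w // w ≠ o} → {w // w ≠ o} := fun w => ⟨f w, fun e => w.2 (fi (e.trans h0.symm))⟩
  have gi : Function.Injective g := fun a b e => Subtype.ext (fi (Subtype.ext_iff.1 e))
  have a := Function.minimalPeriod_pos_of_mem_periodicPts (gi.mem_periodicPts ⟨v, v0⟩)
  have b : Function.minimalPeriod g ⟨v, v0⟩ ≤ _ := Function.minimalPeriod_le_card
  rw [Fintype.card_subtype_compl, Fintype.card_subtype_eq, ← Nat.card_eq_fintype_card] at b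
  exact (Function.Semiconj.iterate_right (f := Subtype.val) (ga := g) (fun _ => rfl) N ⟨v, v0⟩).symm.trans
    (congrArg Subtype.val (Function.isPeriodicPt_iff_minimalPeriod_dvd.2 (hN _ (by omega) a)))

theorem fx3 {N : ℕ} (hN : ∀ n < 8, 0 < n → n ∣ N) : Fx 3 N 0 := fun y S hd h _ v hv => by
  have c : Nat.card S ≤ 8 := by rw [cardS]; exact Nat.pow_le_pow_right two_pos hd
  have := per (f := fun v : S => (⟨_, h v v.2⟩ : S)) (o := 0) (v := ⟨v, hv⟩) (fun a b e => Subtype.ext (by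
    rw [← M_iv y a, Subtype.mk.inj e, M_iv])) (Subtype.ext (show M y *ᵥ 0 = 0 from mulVec_zero (M y))) c hN
  rw [← it h N ⟨v, hv⟩, this]

theorem fx : FX :=
  have : Fact (Nat.Prime 11) := ⟨by norm_num⟩
  have : Fact (Nat.Prime 13) := ⟨by norm_num⟩
  have : Fact (Nat.Prime 43) := ⟨by norm_num⟩
  ⟨fx3 (by decide), fxp (by decide), fxp (by decide), fxp (by decide)⟩

theorem cm_alg {L : List (List ℕ)} {y : G} (h : ∀ x ∈ cw L, Commute x y) (ws : List (List ℕ)) : Commute (M y) (toM 56 56 (alg wm L ws)) := by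
  induction ws with
  | nil => exact toM_zero 56 56 ▸ .zero_right _
  | cons w ws ih => exact toM_xor 56 56 _ _ ▸ .add_right (M_wd _ ▸ (h _ (iw_mem L w)).symm.map M) ih

theorem cm_hor {E : Matrix (Fin 56) (Fin 56) F} {B : ℕ} (h : Commute E (toM 56 56 B)) (f : List Bool) : Commute E (toM 56 56 (hor 56 B f)) := by
  rw [hor, frc_eq]
  induction f with
  | nil => exact toM_zero 56 56 ▸ .zero_right _
  | cons c f ih =>
    refine toM_xor 56 56 _ _ ▸ .add_right (tm 56 _ _ ▸ h.mul_right ih) ?_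
    cases c
    exacts [toM_zero 56 56 ▸ .zero_right _, toM_Id (n := 56) ▸ .one_right _]

theorem kl_kry {E : Matrix (Fin 56) (Fin 56) F} {A v : ℕ} (h : Commute E (toM 56 56 A)) (hv : E * toM 56 56 v = 0) (n : ℕ) :
    E * toM 56 56 (kry 56 A v n) = 0 := by
  rw [kry, frc_eq, frc_eq]
  induction n with
  | zero => exact (congrArg _ (toM_zero 56 56)).trans (mul_zero _)
  | succ n ih =>
    refine (congrArg _ (toM_xor _ _ _ _)).trans ?_
    rw [tm, tm, mul_add, hv, ← mul_assoc, ← mul_assoc, h.eq, mul_assoc _ E, ih]; simp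

theorem rk_cj (g y : G) : (M y - 1).rank ≤ (M (g * y * g⁻¹) - 1).rank := by
  rw [show M y - 1 = M g⁻¹ * (M (g * y * g⁻¹) - 1) * M g by simp only [mul_sub, sub_mul, mul_one, ← map_mul]; simp [mul_assoc]]
  exact (rank_mul_le_left _ _).trans (rank_mul_le_right _ _)

theorem cw_le {L : List (List ℕ)} {H : Subgroup G} (h : ∀ l ∈ L, wd l ∈ H) : cw L ≤ H :=
  (closure_le _).2 fun _ ⟨l, a, b⟩ => b ▸ h l a

theorem kl_cat {E : Matrix (Fin 56) (Fin 56) F} {A : ℕ} (h : Commute E (toM 56 56 A)) {θs : List ℕ} (k : ∀ θ ∈ θs, E * toM 56 56 θ = 0)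
    (ch : List (ℕ × ℕ × ℕ)) : E * toM 56 56 (cat A θs ch) = 0 := by
  induction ch with
  | nil => exact (congrArg _ (toM_zero 56 56)).trans (mul_zero _)
  | cons c ch ih =>
    refine (congrArg _ (toM_xor _ _ _ _)).trans ?_
    rw [tm, mul_add, ← mul_assoc]
    refine (congrArg₂ _ (kl_kry h ?_ _) (congrArg (· * _) ih)).trans (by simp)
    rw [tm, ← mul_assoc, List.getD_eq_getElem?_getD]
    cases q : θs[c.1]? with
    | none => simp [toM_zero]
    | some θ => rw [Option.getD_some, k θ (List.mem_of_getElem? q), zero_mul]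

theorem kl_fx {d e p : ℕ} (hF : Fx d e p) {y : G} (yp : y ^ p = 1) {T : Matrix (Fin 56) (Fin 56) F} (h : Commute (M y) T) (r : T.rank ≤ d) :
    (M (y ^ e) - 1) * T = 0 := by
  have := hF y (LinearMap.range T.mulVecLin) r (by
    rintro _ ⟨v, rfl⟩; exact ⟨M y *ᵥ v, by simp only [mulVecLin_apply, mulVec_mulVec, h.eq]⟩) yp
  exact mulVec_injective (funext fun v => by rw [← mulVec_mulVec, sub_mulVec, this (T *ᵥ v) ⟨v, rfl⟩]; simp)

theorem cs {n : Type*} [Fintype n] [DecidableEq n] {Y T : Matrix n n F} (h : Commute Y T) (e : ℕ) : Commute (Y ^ e - 1) T :=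
  (h.pow_left e).sub_left (.one_left _)

theorem sd : SD := fun d e p L w2 ts ch r P hF c y hy yp => by
  rw [sad, frc_eq, frcL_eq, ← List.map_prod_right_eq_zip, List.all_map] at c
  simp only [Bool.and_eq_true, Nat.ble_eq, List.all_eq_true] at c
  obtain ⟨⟨⟨-, hr⟩, c1⟩, c2⟩ := c
  have cA : Commute (M (y ^ e) - 1) (toM 56 56 (alg wm L w2)) := by
    rw [map_pow]; exact cs (cm_alg hy w2) e
  have a := rank_add_rank_le_card_of_mul_eq_zero (kl_cat (θs := ts.map fun t => hor 56 (alg wm L t.1) t.2.1) cA (fun θ hθ => by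
      obtain ⟨t, ht, rfl⟩ := List.mem_map.1 hθ
      refine kl_fx hF yp (cm_hor (cm_alg hy t.1) _) ?_
      have := eqm_eq (X := hor 56 (alg wm L t.1) t.2.1) (Y := mul d t.2.2.1 t.2.2.2) (c1 t ht)
      rw [this, tm]; exact (rank_mul_le_left _ _).trans (rank_le_width _)) ch)
  have b := rk_ge c2 (by decide) (hr.trans (by decide))
  rw [Fintype.card_fin] at a
  exact Nat.le_sub_of_add_le ((Nat.add_le_add_left b _).trans a)

theorem cc : CC where
  sa d e p L w1 w2 ts ch r P hF c := sd d e p L w2 (ts.map fun t => (w1, t)) ch r P hF (by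
    simp only [sac, sad, frc_eq, frcL_eq, Bool.and_eq_true, ← List.map_prod_right_eq_zip, List.all_map, List.map_map, List.zip_map',
      Function.comp_def] at c ⊢
    exact ⟨⟨c.1.1.1, c.1.2⟩, c.2⟩)
  sb e p L w r P R ρ c h := by
    simp only [sbc, frc_eq, Bool.and_eq_true, Nat.ble_eq] at c
    obtain ⟨⟨⟨⟨hr, he⟩, hp⟩, c1⟩, c2⟩ := c
    refine ⟨_, iw_mem L w, M_inj (by rw [wd_pow _ (by omega), eqm_eq c1, toM_Id, map_one]), h.trans_le ?_⟩
    have := rk_ge c2 (by decide) (by omega)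
    rwa [toM_xor, toM_Id, ← wd_pow _ (by omega), ← CharTwo.sub_eq_add] at this
  le L W ws := cw_le fun l hl => by
    rcases List.mem_append.1 hl with h | h
    · exact subset_closure (.inl (wd_mem h))
    · obtain ⟨w, -, rfl⟩ := List.mem_map.1 h
      exact subset_closure (.inr ⟨_, iw_mem L w, by rw [wd_conj, wd_one]; rfl⟩)
  ab e p ρ K K' Y Y' h := fun ⟨y, hy, yp, r⟩ l l' g => by
    have k : ∀ g, ¬ ∀ x ∈ K, Commute x (g * y * g⁻¹) := fun g c => by
      have := h _ c (by rw [conj_pow, yp]; simp)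
      rw [conj_pow] at this
      exact r.not_ge ((rk_cj _ _).trans this)
    refine ⟨fun c => k g fun x hx => c x (l hx) y (l' hy), fun c => k g⁻¹ fun x hx => ?_⟩
    simpa [mul_assoc] using ((c y (l' hy) x (l hx)).map (MulAut.conj g⁻¹)).symm

end H29.ME
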