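import Cfsg.Agent.H9.RL0
import Cfsg.Agent.H1.Wielandt

/-! S3860: Baer-Suzuki and `Z*` in a quasisimple group. -/

set_option autoImplicit false
set_option linter.unusedVariables false

namespace H29.RL
open Cfsg Subgroup H19 H17.GS H9.RL

universe u
variable {G : Type u} [Group G] [Finite G] {L : Subgroup G} {u y : G} {n : ℕ}

theorem lift (p : H19.PG 2 Z(L)) (hy : y ∈ L) (o : Odd n) (yn : y ^ n ∈ Z(L)) (y0 : y ∉ Z(L))
    (i : u * y * u⁻¹ * y ∈ Z(L)) : Ox (y ^ #Z(L)) u := by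
  have k : ∀ {z}, z ∈ Z(L) → z ^ #Z(L) = 1 := fun m =>
    orderOf_dvd_iff_pow_eq_one.1 (Subgroup.orderOf_dvd_natCard _ m)
  obtain ⟨j, e⟩ := IsPGroup.iff_card.1 p.isPGroup
  have c : (#Z(L)).Coprime n := e ▸ Nat.Coprime.pow_left j (Nat.coprime_two_left.2 o)
  refine ⟨fun h => y0 ?_, o.of_dvd_nat (orderOf_dvd_of_pow_eq_one (by rw [← pow_mul, mul_comm, pow_mul, k yn])), ?_⟩
  · obtain ⟨m, hm⟩ := exists_pow_eq_self_of_coprime (x := y) (n := n)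
      (Nat.Coprime.coprime_dvd_right (orderOf_dvd_of_pow_eq_one h) c.symm)
    exact hm ▸ pow_mem yn m
  · have cm : Commute (u * y * u⁻¹ * y) y⁻¹ := (mem_centralizer_iff.1 i.2 _ (inv_mem hy)).symm
    rw [← conj_pow, ← mul_inv_cancel_right (u * y * u⁻¹) y, cm.mul_pow, k i, one_mul, inv_pow]

theorem lb : LB.{u} := fun {G} _ _ {L u} q p uL uC uu => by
  have n : L ≤ N(Z(L)) := (center_normal L).norm
  have s := qs_sim q
  have mq : ∀ {x : N(Z(L))}, qmk Z(L) x ∈ quo Z(L) L ↔ x.1 ∈ L := by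
    intro x; rw [qmk_mem_quo n, sup_eq_right.2 inf_le_left]
  have o : Oc {2} (quo Z(L) L) = ⊥ := (s.cases (Oc_le _ _) (Oc_norm _ _)).resolve_right fun e =>
    s.nsol (PiN.sol (e ▸ Oc_pi {2} _))
  obtain ⟨w, h3, h4, h5⟩ := H1.exists_odd_inverted (t := (⟨qmk Z(L) ⟨u, n uL⟩, mq.2 uL⟩ : quo Z(L) L))
    (Subtype.ext (by
      show qmk _ _ * qmk _ _ = 1
      rw [← map_mul, qmk_eq_one]; exact ⟨mul_mem uL uL, uu⟩)) fun e => uC (by
      have := mem_map_of_mem (quo Z(L) L).subtype e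
      rw [pCore_map_eq Nat.prime_two, o, mem_bot] at this
      exact (qmk_eq_one.1 this).2)
  obtain ⟨y, e⟩ := qmk_surj Z(L) w.1
  have yL := mq.1 (e ▸ w.2)
  refine ⟨_, pow_mem yL _, lift p yL h4 (qmk_eq_one (x := y ^ _).1 (by
    rw [map_pow, e, ← orderOf_coe, pow_orderOf_eq_one])) (fun m => h3 (Subtype.ext (e ▸ qmk_eq_one.2 m)))
      (qmk_eq_one (x := ⟨u, n uL⟩ * y * ⟨u, n uL⟩⁻¹ * y).1 ?_)⟩
  rw [map_mul, map_mul, map_mul, map_inv, e]
  exact mul_eq_one_iff_eq_inv.2 (congrArg Subtype.val h5)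

theorem lz : LZ.{u} := fun {G} _ _ {L T d} q p s dT dC => by
  have n : L ≤ N(Z(L)) := (center_normal L).norm
  have t := qs_sim q
  have dL := s.le dT
  have zT : Z(L) ≤ T := (le_Oc (center_normal L) p).trans (Oc_le_hall s)
  have mq : ∀ {H} {x : N(Z(L))}, Z(L) ≤ H → H ≤ L → (qmk Z(L) x ∈ quo Z(L) H ↔ x.1 ∈ H) := by
    intro H x a b; rw [qmk_mem_quo (b.trans n), sup_eq_right.2 a]
  have m := (mq (x := ⟨d, n dL⟩) inf_le_left le_rfl).2 dL
  obtain ⟨g, g1, g2, g3⟩ := t.exists_conj (le_normalizer m) (fun c => dC (qmk_eq_one.1 (mem_bot.1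
    (t.center.le ⟨m, c⟩))).2) (by rw [sup_eq_left.2 (zpowers_le' m)]; exact s.quo n) ((mq zT s.le).2 dT)
  obtain ⟨l, rfl⟩ := qmk_surj _ g
  have lL := (mq inf_le_left le_rfl).1 g1
  rw [← map_inv, ← map_mul, ← map_mul] at g2 g3
  have k := (mq zT s.le).1 g2
  exact ⟨l, lL, k, fun c => g3 (qmk_eq.2 (mem_inf.2 ⟨mul_mem (inv_mem dL) (s.le k), c⟩)).symm⟩

end H29.RL
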