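import Cfsg.Agent.H0.RU1
import Cfsg.Agent.H11.T5d

/-! S2196: closed sets of isotropic points (`UO`) and spanning geometric hyperplanes (`GH`). -/

set_option autoImplicit false
set_option linter.unusedSectionVars false
set_option linter.unusedVariables false

open Module MulAction H13.R3 H12
open H11 (hermT frob)
open H0.RU

attribute [-simp] H11.frob_apply

namespace H29.RU

universe u

variable {F : Type u} [Field F] [Fintype F] {q : ℕ} {hF : Fintype.card F = q ^ 2}
  {V : Type u} [AddCommGroup V] [Module F V] [Fintype V] {C : CForm (hermT hF) V}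

/-- a vector of prescribed norm perpendicular to an isotropic vector -/
theorem ex_np (nd : C.Nondeg) {U : Submodule F V} (hU : C.NondegOn U) (h3 : 3 ≤ finrank F U) {a : V}
    (ha : a ∈ U) (ia : Is C a) {c : F} (hc : frob hF c = c) (c0 : c ≠ 0) :
    ∃ w ∈ U, C.B a w = 0 ∧ C.B w w = c := by
  have hxp : a ∉ C.perp U := fun e => ia.1 (Submodule.disjoint_def.1 (C.nondegOn_iff.1 hU) a ha e)
  obtain ⟨a', h1, h2, h4⟩ := ex_par' nd hxp ia.2 (C.le_perp_perp U ha)
  rw [nd.perp_perp] at h1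
  have n : C.B a a' ≠ 0 := by rw [Bone h4]; exact one_ne_zero
  have hY : C.NondegOn (U ⊓ C.perp (ln F a a')) := fun v hv h0 => hU v hv.1 fun y hy => by
    obtain ⟨d1, d2⟩ := dec ia.2 h2.2 n y
    have := h0 _ ⟨U.sub_mem (U.sub_mem hy (U.smul_mem _ ha)) (U.smul_mem _ h1), mem_pp_ln.2 ⟨d1, d2⟩⟩
    obtain ⟨e1, e2⟩ := mem_pp_ln.1 hv.2
    simpa [Bsw e1, Bsw e2] using this
  have hY0 : U ⊓ C.perp (ln F a a') ≠ ⊥ := fun e => by
    have i1 := fr_pp_ln nd (ind_of_ne ia.2 n)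
    have i2 := Submodule.finrank_sup_add_finrank_inf_eq U (C.perp (ln F a a'))
    have i3 := Submodule.finrank_le (U ⊔ C.perp (ln F a a'))
    rw [e, finrank_bot] at i2; omega
  obtain ⟨w, hw, e⟩ := ex_nrmv hY hY0 hc c0
  exact ⟨w, hw.1, (mem_pp_ln.1 hw.2).1, e⟩

theorem uo_aux (nd : C.Nondeg) {R : Set V} (hR : Cs C R) {U : Submodule F V} (hU : C.NondegOn U)
    (h3 : 3 ≤ finrank F U) (hs : ∀ v ∈ R, v ∈ U ∨ v ∈ C.perp U) {a b : V} (ha : a ∈ R) (haU : a ∈ U)
    (hb : b ∈ R) (hbU : b ∈ C.perp U) :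
    ∃ a ∈ R, ∃ b b', Fl C a b ∧ Fl C a b' ∧ (∀ c : F, b + c • a ∈ R ↔ c = 0) ∧
      ∀ c : F, b' + c • a ∉ R := by
  have dj := Submodule.disjoint_def.1 (C.nondegOn_iff.1 hU)
  have ia := hR.is a ha
  have ib := hR.is b hb
  have hU2 : C.perp U ≠ ⊥ := fun e => ib.1 (by simpa [e] using hbU)
  obtain ⟨w2, hw2, e2⟩ := ex_nrmv (nd.nondegOn_perp hU) hU2 (map_one (frob hF)) one_ne_zero
  obtain ⟨w1, hw1, e0, e1⟩ := ex_np nd hU h3 haU ia (c := -1) (by simp) (by simp)
  have o1 : C.B w1 w2 = 0 := C.mem_perp.1 hw2 w1 hw1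
  have w20 : w2 ≠ 0 := fun e => by simp [e] at e2
  have sp : ∀ v ∈ F ∙ a, v ∈ U := fun v hv => (Submodule.span_singleton_le_iff_mem a U).2 haU hv
  refine ⟨a, ha, b, w1 + w2, ⟨ia, ib.2, C.mem_perp.1 hbU a haU, fun e => ib.1 (dj b (sp b e) hbU)⟩,
    ⟨ia, by simp [e1, e2, o1, Bsw o1], by simp [e0, C.mem_perp.1 hw2 a haU], fun e => w20 (dj w2 ?_ hw2)⟩,
    fun c => ⟨fun h => ?_, fun h => by simpa [h] using hb⟩, fun c h => ?_⟩
  · simpa using U.sub_mem (sp _ e) hw1
  · rcases hs _ h with h | h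
    · exact absurd (dj b (by simpa using U.sub_mem h (U.smul_mem c haU)) hbU) ib.1
    · have := dj (c • a) (U.smul_mem c haU) (by simpa using (C.perp U).sub_mem h hbU)
      exact (smul_eq_zero.1 this).resolve_right ia.1
  · rcases hs _ h with h | h
    · refine w20 (dj w2 ?_ hw2)
      have := U.sub_mem (U.sub_mem h (U.smul_mem c haU)) hw1
      simpa using this
    · have h1 := dj (w1 + c • a) (U.add_mem hw1 (U.smul_mem c haU)) (by
        have := (C.perp U).sub_mem h hw2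
        rwa [show w1 + w2 + c • a - w2 = w1 + c • a by abel] at this)
      have h2 := congrArg (C.B w1) h1
      simp [e1, Bsw e0] at h2

theorem uo1 (g : Ge C) {R : Set V} (hR : Cs C R) (hm : Mv C R) :
    (∀ x z, x ≠ 0 → z ≠ 0 → ∃ y ∈ R, C.B x y ≠ 0 ∧ C.B z y ≠ 0) ∨
    ∃ a ∈ R, ∃ b b', Fl C a b ∧ Fl C a b' ∧ (∀ c : F, b + c • a ∈ R ↔ c = 0) ∧
      ∀ c : F, b' + c • a ∉ R := by
  refine or_iff_not_imp_left.2 fun h => ?_
  push Not at h
  obtain ⟨x, z, x0, z0, h⟩ := h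
  obtain ⟨θ, θ0, hθ⟩ := ex_th (hF := hF)
  have ne : ∀ x : V, x ≠ 0 → ∃ y ∈ R, C.B x y ≠ 0 := fun x x0 => by
    by_contra! e
    refine x0 (g.nd x fun y => ?_)
    have : x ∈ C.perp (Submodule.span F R) := C.mem_perp_span.2 fun y hy => Bsw (e y hy)
    rw [hR.sp] at this
    exact C.mem_perp'.1 this y trivial
  obtain ⟨a, ha, ea⟩ := ne x x0
  obtain ⟨b, hb, eb⟩ := ne z z0
  let U : Submodule F V := Submodule.span F {y | y ∈ R ∧ C.B x y ≠ 0}
  have hs : ∀ v ∈ R, v ∈ U ∨ v ∈ C.perp U := fun v hv => by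
    by_cases e : C.B x v = 0
    · refine or_iff_not_imp_right.2 fun n => ?_
      rw [C.mem_perp_span] at n
      push Not at n
      obtain ⟨w, hw, n⟩ := n
      have h1 : v + (θ * C.B w v) • w ∈ U := Submodule.subset_span ⟨hm w hw.1 v hv θ hθ, by
        simp [e, θ0, n, hw.2]⟩
      simpa using U.sub_mem h1 (U.smul_mem (θ * C.B w v) (Submodule.subset_span hw))
    · exact Or.inl (Submodule.subset_span ⟨hv, e⟩)
  have hbU : b ∈ C.perp U := C.mem_perp_span.2 fun w hw => by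
    by_contra n
    have h1 := h _ (hm w hw.1 b hb θ hθ)
    have h2 : C.B x b = 0 := by by_contra e; exact eb (h b hb e)
    simp [h2, θ0, n, hw.2, h w hw.1 hw.2, eb] at h1
  have htop : U ⊔ C.perp U = ⊤ := eq_top_iff.2 (hR.sp ▸ Submodule.span_le.2 fun v hv =>
    (hs v hv).elim (fun e => Submodule.mem_sup_left e) fun e => Submodule.mem_sup_right e)
  have i1 := fr_pp g.nd U
  have hU : C.NondegOn U := by
    rw [C.nondegOn_iff, disjoint_iff, ← Submodule.finrank_eq_zero]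
    have i2 := Submodule.finrank_sup_add_finrank_inf_eq U (C.perp U)
    rw [htop, finrank_top] at i2; omega
  have := g.n6
  have haU : a ∈ U := Submodule.subset_span ⟨ha, ea⟩
  by_cases h3 : 3 ≤ finrank F U
  · exact uo_aux g.nd hR hU h3 hs ha haU hb hbU
  · refine uo_aux g.nd hR (g.nd.nondegOn_perp hU) (by omega) (fun v hv => ?_) hb hbU ha
      (C.le_perp_perp U haU)
    rw [g.nd.perp_perp]; exact (hs v hv).symm

theorem uo2 (g : Ge C) {R : Set V} (hR : Cs C R) (hm : Mv C R) {u v w : V} (hu : u ∈ R) (hv : v ∈ R)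
    (hw : w ∈ R) (op : ∀ x z, x ≠ 0 → z ≠ 0 → ∃ y ∈ R, C.B x y ≠ 0 ∧ C.B z y ≠ 0)
    (n : C.B u v * C.B v w * C.B w u + C.B u w * C.B w v * C.B v u ≠ 0) {x : V} (hx : Is C x) :
    x ∈ R := by
  obtain ⟨θ, θ0, hθ⟩ := ex_th (hF := hF)
  have hθ' : frob hF θ = -θ := by linear_combination hθ
  have ug : H11.T5.UG (σ := (hermT hF).σ) (θ • C.B) (fun v => v ∈ R ∨ v = 0) :=
    { inv := ff (hF := hF)
      skew := fun x y => by simp [hθ', Bs]
      iso := fun {v} h => by
        rcases h with h | h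
        · simp [(hR.is v h).2]
        · simp [h]
      smul := fun {v} c h => by
        by_cases c0 : c = 0
        · simp [c0]
        · exact h.imp (fun h => hR.sm v h c c0) fun h => by simp [h]
      mv := fun {v w c} h k hc => by
        rcases h with h | h
        · rcases k with k | k
          · have := hm v h w k (c * θ) (by rw [map_mul, show frob hF c = c from hc, hθ']; ring)
            exact Or.inl (by simpa [mul_assoc] using this)
          · simp [k]
        · simpa [h] using k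
      opp := fun {x z} x0 z0 => by
        obtain ⟨y, h1, h2, h3⟩ := op x z x0 z0
        exact ⟨y, Or.inl h1, by simp [θ0, h3], by simp [θ0, h2]⟩
      irr := fun W h => eq_top_iff.2 (hR.sp ▸ Submodule.span_le.2 fun v hv => h v (Or.inl hv))
      nrm := fun a => ex_nrm (hF := hF)
      ne := ex_nf (hF := hF)
      three := ex_three (hF := hF) g.q3
      two := H11.T5.two_of hF g.q3 }
  refine (ug.full (Or.inl hu) (Or.inl hv) (Or.inl hw) (fun e => n ?_) x (by simp [hx.2])).resolve_right hx.1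
  simp only [LinearMap.smul_apply, smul_eq_mul] at e
  exact (mul_eq_zero.1 (show θ ^ 3 * _ = 0 by linear_combination e)).resolve_left (pow_ne_zero _ θ0)

theorem uo3 {R : Set V} (hR : Cs C R) (hm : Mv C R) {z c w : V} (hz : z ∈ R) (hc : c ∈ R) (hw : w ∈ R)
    (e0 : C.B z c = 0) (n : C.B w z ≠ 0) (e : C.B w c = C.B w z) {t : F} (ht : frob hF t = t) :
    z + t • (c - z) ∈ R := by
  obtain ⟨θ, θ0, hθ⟩ := ex_th (hF := hF)
  have hθ' : frob hF θ = -θ := by linear_combination hθ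
  have n' := C.B_swap_ne n
  have e' : C.B c w = C.B z w := by rw [← Bs, e, Bs]
  have iz := (hR.is z hz).2
  have h1 := hm z hz _ (hm c hc w hw (-θ) (by rw [map_neg]; linear_combination -hθ)) θ hθ
  have h2 : w + (-θ * C.B c w) • c + (θ * C.B z (w + (-θ * C.B c w) • c)) • z =
      w - (θ * C.B z w) • (c - z) := by
    simp only [map_add, map_smul, e0, e', smul_eq_mul, mul_zero, add_zero]; module
  rw [h2] at h1
  obtain ⟨b, hb⟩ : ∃ b, b = t / (θ * C.B z w * C.B w z) := ⟨_, rfl⟩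
  have hb' : b + frob hF b = 0 := by
    rw [hb, map_div₀, map_mul, map_mul, ht, hθ', Bs, Bs]; field_simp; ring
  have h3 := hm w hw _ (hm _ h1 z hz (-b) (by rw [map_neg]; linear_combination -hb')) b hb'
  convert h3 using 1
  have hb2 : t = b * (θ * C.B z w * C.B w z) := by rw [hb]; field_simp
  simp only [map_add, map_sub, map_smul, LinearMap.sub_apply, Bl, smul_eq_mul, e, Bsw e0, iz,
    (hR.is w hw).2, sub_self, mul_zero, sub_zero, add_zero]
  rw [hb2]; module

theorem uo : UO C := fun g R hR hm =>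
  ⟨uo1 g hR hm, fun u hu v hv w hw op n x hx => uo2 g hR hm hu hv hw op n hx,
    fun z hz c hc w hw e0 n e t ht => uo3 hR hm hz hc hw e0 n e ht⟩

/-- a set meeting every totally isotropic line contains two opposite points -/
theorem hyp (nd : C.Nondeg) (h4 : 4 ≤ finrank F V) {P : V → Prop}
    (h : ∀ x y, Fl C x y → P x ∨ ∃ c : F, P (y + c • x)) :
    ∃ s s', P s ∧ P s' ∧ C.B s s' ≠ 0 := by
  obtain ⟨s, is, ps⟩ : ∃ s, Is C s ∧ P s := by
    obtain ⟨x, -, ix⟩ := ex_is (C := C) (U := ⊤) (by rw [finrank_top]; omega)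
    obtain ⟨y, hy⟩ := ex_fl nd h4 ix
    rcases h x y hy with k | ⟨c, k⟩
    · exact ⟨x, ix, k⟩
    · exact ⟨_, (hy.add c).isr, k⟩
  obtain ⟨s', is', e⟩ := ex_par nd is
  obtain ⟨y, hy⟩ := ex_fl nd h4 is'
  rcases h s' y hy with k | ⟨c, k⟩
  · exact ⟨s', s, k, ps, by simp [e]⟩
  have ht := hy.add c
  generalize y + c • s' = t at k ht
  by_cases n : C.B s t = 0
  swap
  · exact ⟨s, t, ps, k, n⟩
  have f1 : Fl C s t := ⟨is, ht.2.1, n, fun m => by
    obtain ⟨d, rfl⟩ := Submodule.mem_span_singleton.1 m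
    have := ht.2.2.1
    simp only [map_smul, e, smul_eq_mul, mul_one] at this
    exact ht.isr.1 (by simp [this])⟩
  obtain ⟨t', f2, e2⟩ := f1.ex_opp nd
  obtain ⟨s2, f3, e3⟩ := f2.symm.ex_opp nd
  rcases h t' s2 f3 with m | ⟨d, m⟩
  · exact ⟨t', t, m, k, by simp [e2]⟩
  · exact ⟨_, s, m, ps, by simp [e3, Bsw f2.2.2.1]⟩

theorem fl_res {W : Submodule F V} {x y : W} (h : Fl (C.restrict W) x y) : Fl C (x : V) y :=
  ⟨⟨fun e => h.1.1 (Subtype.ext e), h.1.2⟩, h.2.1, h.2.2.1, fun e => h.2.2.2 (by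
    obtain ⟨c, hc⟩ := Submodule.mem_span_singleton.1 e
    exact Submodule.mem_span_singleton.2 ⟨c, Subtype.ext hc⟩)⟩

theorem gh : GH C := fun g R hR cl hp => by
  have n6 := g.n6
  have key : ∀ x ∈ R, ∀ x' ∈ R, C.B x x' = 1 → ∃ s s', C.B x s = 0 ∧ C.B x' s = 0 ∧ C.B x s' = 0 ∧
      C.B x' s' = 0 ∧ C.B s s' = 1 ∧ C.B s s = 0 ∧ C.B s' s' = 0 ∧
      ∀ a l : F, a ≠ 0 → l ≠ 0 → x + a • x' + l • s - (a / frob hF l) • s' ∈ R := fun x hx x' hx' e => by
    have ix := hR.is x hx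
    have ix' := hR.is x' hx'
    have n : C.B x x' ≠ 0 := by simp [e]
    let : Fintype (C.perp (ln F x x')) := Fintype.ofFinite _
    obtain ⟨s, s0, hs, hs0, n0⟩ := hyp (C := C.restrict (C.perp (ln F x x')))
      (C.restrict_nondeg_iff.2 (nd_pp_ln g.nd ix.2 ix'.2 n))
      (by have := fr_pp_ln g.nd (ind_of_ne ix.2 n); omega) (P := fun w => (w : V) ∈ R)
      fun a b f => hp a b (fl_res f)
    obtain ⟨s, ms⟩ := s
    obtain ⟨s0, ms0⟩ := s0
    change C.B s s0 ≠ 0 at n0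
    obtain ⟨a1, a2⟩ := mem_pp_ln.1 ms
    obtain ⟨b1, b2⟩ := mem_pp_ln.1 ms0
    have hs' := hR.sm _ hs0 _ (inv_ne_zero n0)
    have c1 : C.B x ((C.B s s0)⁻¹ • s0) = 0 := by simp [b1]
    have c2 : C.B x' ((C.B s s0)⁻¹ • s0) = 0 := by simp [b2]
    have c3 : C.B s ((C.B s s0)⁻¹ • s0) = 1 := by simp [n0]
    generalize (C.B s s0)⁻¹ • s0 = s' at hs' c1 c2 c3
    have is := hR.is s hs
    have is' := hR.is s' hs'
    refine ⟨s, s', a1, a2, c1, c2, c3, is.2, is'.2, fun a l a0 l0 => ?_⟩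
    have l1 := fr_ne (hF := hF) l0
    have p1 := cl s hs x hx ⟨is, ix.2, Bsw a1, fun m => by
      obtain ⟨d, hd⟩ := Submodule.mem_span_singleton.1 m
      have := congrArg (C.B x') hd
      simp [a2, Bone e] at this⟩ l
    have p2 := hR.sm _ (cl s' hs' x' hx' ⟨is', ix'.2, Bsw c2, fun m => by
      obtain ⟨d, hd⟩ := Submodule.mem_span_singleton.1 m
      have := congrArg (C.B x) hd
      simp [c1, e] at this⟩ (-(frob hF l)⁻¹)) a a0
    have p3 := cl _ p1 _ p2 ⟨hR.is _ p1, (hR.is _ p2).2, by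
      simp only [map_add, map_smul, LinearMap.add_apply, Bl, smul_eq_mul, e, c1, Bsw a2, c3]
      field_simp; ring, fun m => by
      obtain ⟨d, hd⟩ := Submodule.mem_span_singleton.1 m
      have := congrArg (C.B x') hd
      simp only [map_smul, map_add, Bone e, a2, ix'.2, c2, smul_eq_mul, mul_zero, add_zero, mul_one] at this
      exact (hR.is _ p2).1 (by rw [← hd, this, zero_smul])⟩ 1
    convert p3 using 1
    rw [div_eq_mul_inv]; module
  have tv : ∀ x ∈ R, ∀ x' ∈ R, C.B x x' = 1 → ∀ a : F, a + frob hF a = 0 → x + a • x' ∈ R :=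
    fun x hx x' hx' e a ha => by
    by_cases a0 : a = 0
    · simpa [a0] using hx
    obtain ⟨s, s', a1, a2, c1, c2, c3, c4, c5, k⟩ := key x hx x' hx' e
    obtain ⟨m, hm⟩ := ex_nf (hF := hF)
    have m0 : m ≠ 0 := fun z => hm (by simp [z])
    have m1 := fr_ne (hF := hF) m0
    obtain ⟨l, hl⟩ : ∃ l, l = m / frob hF m := ⟨_, rfl⟩
    have l0 : l ≠ 0 := by rw [hl]; exact div_ne_zero m0 m1
    have l1 : 1 - l ≠ 0 := fun z => hm (by rw [hl] at z; field_simp at z; linear_combination z)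
    have l2 : a / frob hF l = a * l := by rw [hl, map_div₀, ff]; field_simp
    have p1 := k a 1 a0 one_ne_zero
    have p2 := k a l a0 l0
    rw [l2] at p2
    rw [map_one, div_one, one_smul] at p1
    have ha' : frob hF a = -a := by linear_combination ha
    have i1 := hR.is _ p1
    have p3 := cl _ p1 _ p2 ⟨i1, (hR.is _ p2).2, ?_, fun m => ?_⟩ (-l)
    · have := hR.sm _ p3 _ (inv_ne_zero l1)
      convert this using 1
      rw [eq_inv_smul_iff₀ l1]; module
    · simp only [map_add, map_sub, map_smul, LinearMap.add_apply, LinearMap.sub_apply, Bl, smul_eq_mul, e,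
        Bone e, a1, a2, c1, c2, c3, c4, c5, Bsw a1, Bsw a2, Bsw c1, Bsw c2, Bone c3, ha',
        (hR.is x hx).2, (hR.is x' hx').2]
      ring
    · obtain ⟨d, hd⟩ := Submodule.mem_span_singleton.1 m
      have h1 := congrArg (C.B x') hd
      have h2 := congrArg (C.B s') hd
      simp only [map_smul, map_add, map_sub, Bone e, a2, c2, c5, Bone c3, Bsw c1, Bsw c2, (hR.is x' hx').2,
        smul_eq_mul, mul_zero, add_zero, mul_one, sub_zero, zero_add] at h1 h2
      exact l1 (by rw [← h2, h1, sub_self])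
  have hm : Mv C R := fun v hv w hw a ha => by
    by_cases n : C.B v w = 0
    · simpa [n] using hw
    have n' := C.B_swap_ne n
    have := tv w hw _ (hR.sm v hv _ (inv_ne_zero n')) (by simp [n']) (a * C.B v w * C.B w v)
      (by rw [map_mul, map_mul, Bs, Bs]; linear_combination C.B v w * C.B w v * ha)
    rwa [smul_smul, mul_inv_cancel_right₀ n'] at this
  obtain ⟨x, x0, hx, hx0, n⟩ := hyp g.nd (by omega) (P := fun w => w ∈ R) hp
  have hx' := hR.sm _ hx0 _ (inv_ne_zero n)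
  have e : C.B x ((C.B x x0)⁻¹ • x0) = 1 := by simp [n]
  generalize (C.B x x0)⁻¹ • x0 = x' at hx' e
  obtain ⟨s, s', a1, a2, c1, c2, c3, c4, c5, k⟩ := key x hx x' hx' e
  obtain ⟨a, ha⟩ := ex_trc (hF := hF) (map_one _)
  have p := k a 1 (fun z => by simp [z] at ha) one_ne_zero
  rcases uo1 g hR hm with op | ⟨a, ha, b, -, f, -, k, -⟩
  · intro z iz
    refine uo2 g hR hm hx hx' p op ?_ iz
    simp only [map_add, map_sub, map_smul, LinearMap.add_apply, LinearMap.sub_apply, Bl, smul_eq_mul, e,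
      Bone e, a1, a2, c1, c2, Bsw a1, Bsw a2, Bsw c1, Bsw c2, (hR.is x hx).2, (hR.is x' hx').2]
    intro z; apply one_ne_zero (α := F); linear_combination z - ha
  · exact absurd ((k 1).1 (cl a ha b (by simpa using (k 0).2 rfl) f 1)) one_ne_zero

end H29.RU
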