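import Cfsg.Agent.H0.RU2
import Cfsg.Agent.H29.RU1

/-! S2196: two point orbits with `u < q²` exclude transvections (`TV2`). -/

set_option autoImplicit false
set_option linter.unusedSectionVars false
set_option linter.unusedVariables false

open Module MulAction H13.R3 H12
open H11 (hermT frob)
open H11.RS (PO)
open H0.RU

attribute [-simp] H11.frob_apply

namespace H29.RU

universe u

variable {F : Type u} [Field F] [Fintype F] {q : ℕ} {hF : Fintype.card F = q ^ 2}
  {V : Type u} [AddCommGroup V] [Module F V] [Fintype V] {C : CForm (hermT hF) V}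
  {G : Type u} [Group G] [Fintype G] [DistribMulAction G V] [SMulCommClass G F V] {H : Subgroup G}

/-- sets closed under `F_q`-affine lines -/
theorem aff (hq : 3 ≤ q) {S : Set F}
    (h : ∀ a ∈ S, ∀ b ∈ S, ∀ t, frob hF t = t → a + t * (b - a) ∈ S) : S.ncard ≤ 1 ∨ q ∣ S.ncard := by
  refine or_iff_not_imp_left.2 fun n => ?_
  obtain ⟨a, b, ha, hb, ab⟩ := (Set.one_lt_ncard_iff (Set.toFinite S)).1 (not_le.1 n)
  obtain ⟨t, ht, t0, t1⟩ := ex_three (hF := hF) hq
  have sc : ∀ s, a + s ∈ S → ∀ t, frob hF t = t → a + t * s ∈ S := fun s hs t ht => by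
    simpa using h a ha _ hs t ht
  let A : AddSubgroup F :=
    { carrier := {s | a + s ∈ S}
      zero_mem' := by simpa using ha
      neg_mem' := fun {s} hs => by simpa using sc s hs (-1) (by simp)
      add_mem' := fun {s s'} hs hs' => by
        have t2 : 1 - t ≠ 0 := sub_ne_zero.2 t1.symm
        have := h _ (sc s hs (1 - t)⁻¹ (by simp [ht])) _ (sc s' hs' t⁻¹ (by simp [ht])) t ht
        change a + (s + s') ∈ S
        convert this using 1
        field_simp; ring }
  let K : AddSubgroup F :=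
    { carrier := (· * (b - a)) '' {t | frob hF t = t}
      zero_mem' := ⟨0, by simp, by simp⟩
      neg_mem' := by
        rintro _ ⟨s, hs, rfl⟩
        exact ⟨-s, by simpa using hs, by simp⟩
      add_mem' := by
        rintro _ _ ⟨s, hs, rfl⟩ ⟨s', hs', rfl⟩
        exact ⟨s + s', by simp only [Set.mem_ofPred_eq, map_add] at *; rw [hs, hs'], by ring⟩ }
  have hK : Nat.card K = q := by
    change Nat.card ↥((· * (b - a)) '' {t | frob hF t = t}) = q
    rw [Nat.card_coe_set_eq, Set.ncard_image_of_injective _ (mul_left_injective₀ (sub_ne_zero.2 ab.symm)),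
      ncard_fix]
  have hA : Nat.card A = S.ncard := by
    change Nat.card ↥{s | a + s ∈ S} = _
    rw [Nat.card_coe_set_eq]
    exact Set.ncard_congr (fun s _ => a + s) (fun s hs => hs) (fun _ _ _ _ e => add_left_cancel e)
      fun s hs => ⟨s - a, by simpa using hs, by simp⟩
  rw [← hK, ← hA]
  refine AddSubgroup.card_dvd_of_le ?_
  rintro _ ⟨s, hs, rfl⟩
  exact h a ha b hb s hs

theorem aff_line (hq : 3 ≤ q) {R : Set V} (hR : Cs C R) (hm : Mv C R) {ρ y w : V} (f : Fl C ρ y)
    (hw : w ∈ R) (e : C.B w ρ = 0) (n : C.B w y ≠ 0) :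
    {c : F | y + c • ρ ∈ R}.ncard ≤ 1 ∨ q ∣ {c : F | y + c • ρ ∈ R}.ncard := by
  refine aff (hF := hF) hq fun a ha b hb t ht => ?_
  have := uo3 hR hm ha hb hw (by simp [f.1.2, f.2.1, f.2.2.1, Bsw f.2.2.1]) (by simpa [e] using n)
    (by simp [e]) ht
  change y + _ • ρ ∈ R
  convert this using 1; module

theorem tv2 : TV2 C H := fun un hs ir la z u tw uq t0 ht0 ht0H => by
  have g := un.toGe
  have q3 := g.q3
  have n6 := g.n6
  obtain ⟨v0, a0, iv0, a00, tr0⟩ := mem_TS.1 ht0
  let R : Set V := {v | Is C v ∧ ∀ a, a + frob hF a = 0 → a ∈ Av C H v}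
  have v0R : v0 ∈ R := ⟨iv0, fun a ha => by
    by_cases e : a = 0
    · exact ⟨1, H.one_mem, e ▸ un.tr_one v0⟩
    have h0 := un.tr_trc tr0 iv0
    obtain ⟨h, hh, l, e1, e2⟩ := la v0 iv0 (a / a0) (by
      rw [map_div₀, div_eq_div_iff (fr_ne a00) a00]; linear_combination a0 * ha - a * h0)
      (div_ne_zero e a00)
    have := un.av_conj hh (show a0 ∈ Av C H v0 from ⟨t0, ht0H, tr0⟩)
    rwa [e1, av_sml, e2, mul_div_cancel₀ _ a00] at this⟩
  have sm : ∀ v ∈ R, ∀ c : F, c ≠ 0 → c • v ∈ R := fun v hv c hc => ⟨hv.1.sml hc, fun a ha =>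
    av_sml.2 (hv.2 _ (by simp only [map_mul, ff]; linear_combination c * frob hF c * ha))⟩
  have cj : ∀ h ∈ H, ∀ v ∈ R, h • v ∈ R := fun h hh v hv =>
    ⟨un.is_smul.2 hv.1, fun a ha => un.av_conj hh (hv.2 a ha)⟩
  have hR : Cs C R := ⟨fun v hv => hv.1, sm, (ir (Submodule.span F R) fun j hj v hv => by
      induction hv using Submodule.span_induction with
      | mem v hv => exact Submodule.subset_span (cj j hj v hv)
      | zero => simp
      | add a b _ _ ha hb => rw [smul_add]; exact add_mem ha hb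
      | smul c a _ ha => rw [gsc]; exact Submodule.smul_mem _ _ ha).resolve_left fun e =>
    iv0.1 (by simpa [e] using Submodule.subset_span (R := F) v0R)⟩
  have hm : Mv C R := fun v hv w hw a ha => by
    obtain ⟨t, ht, tr⟩ := hv.2 a ha
    rw [← tr]; exact cj t ht w hw
  have na : ¬ ∀ x, Is C x → x ∈ R := fun al => by
    obtain ⟨t, ht, nt⟩ := hs.nt
    obtain ⟨v, a, iv, -, tr⟩ := mem_TS.1 ht
    obtain ⟨t', ht', tr'⟩ := (al v iv).2 a (un.tr_trc tr iv)
    exact nt (un.tr_unique tr tr' ▸ ht')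
  have po : ∀ v ∈ R, ∀ w, w ≠ 0 → PO F H v w → w ∈ R := fun v hv w w0 p => by
    obtain ⟨k, hk, c, hc, e⟩ := p.ex hv.1.1
    have := sm _ (cj k hk v hv) _ (inv_ne_zero hc)
    rwa [e, inv_smul_smul₀ hc] at this
  by_cases zR : z ∈ R
  · have iff : ∀ v, Is C v → (v ∈ R ↔ PO F H z v) := fun v iv => ⟨fun hv => by
      by_contra n
      refine na fun x ix => ?_
      by_cases p : PO F H z x
      · exact po z zR x ix.1 p
      · exact po v hv x ix.1 (tw.two v x iv ix n p), po z zR v iv.1⟩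
    have cnt : ∀ a ∈ R, ∀ b, Fl C a b → {c : F | b + c • a ∈ R}.ncard + 1 = u := fun a ha b f => by
      have p := (iff a ha.1).1 ha
      rw [← (un.tw_po tw p ha.1.1).cnt b f]
      congr 2; ext c
      exact (iff _ (f.add c).isr).trans ⟨(p.symm tw.iz.1).trans, p.trans⟩
    rcases uo1 g hR hm with op | ⟨a, ha, b, b', f, f', k, k'⟩
    swap
    · have e1 := cnt a ha b f
      have e2 := cnt a ha b' f'
      rw [show {c : F | b + c • a ∈ R} = {0} from Set.ext k, Set.ncard_singleton] at e1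
      rw [show {c : F | b' + c • a ∈ R} = ∅ from Set.eq_empty_of_forall_notMem k', Set.ncard_empty] at e2
      omega
    by_cases u1 : u = 1
    · have nc : ∀ a ∈ R, ∀ b ∈ R, b ∉ F ∙ a → C.B a b ≠ 0 := fun a ha b hb n e => by
        have := cnt a ha b ⟨ha.1, hb.1.2, e, n⟩
        have h2 : 0 < {c : F | b + c • a ∈ R}.ncard :=
          (Set.ncard_pos (Set.toFinite _)).2 ⟨0, by simpa using hb⟩
        omega
      obtain ⟨v, hv, n1, -⟩ := op z z zR.1.1 zR.1.1
      obtain ⟨w, hw, wn⟩ : ∃ w ∈ R, w ∉ ln F z v := by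
        by_contra! e
        have := Submodule.finrank_mono (hR.sp ▸ Submodule.span_le.2 e : ⊤ ≤ ln F z v)
        rw [finrank_top, (ind_of_ne zR.1.2 n1).finrank] at this; omega
      have n2 := nc z zR w hw fun e => wn (sp_le_ln e)
      have n3 := nc v hv w hw fun e => wn (by rw [ln_comm]; exact sp_le_ln e)
      have n1' := C.B_swap_ne n1
      have n3' := C.B_swap_ne n3
      by_cases e : C.B z v * C.B v w * C.B w z + C.B z w * C.B w v * C.B v z = 0
      · have h1 := hm v hv w hw (-C.B z w / (C.B z v * C.B v w)) (by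
          rw [map_div₀, map_neg, map_mul, Bs, Bs, Bs]; field_simp; linear_combination -e)
        refine nc z zR _ h1 (fun m => wn ?_) (by simp only [map_add, map_smul, smul_eq_mul]; field_simp; ring)
        simpa using (ln F z v).sub_mem (sp_le_ln m) ((ln F z v).smul_mem
          (-C.B z w / (C.B z v * C.B v w) * C.B v w) r_ln)
      · exact na fun x ix => uo2 g hR hm zR hv hw op e ix
    have ex : ∀ y, Fl C z y → ∃ y' ∈ R, Fl C z y' ∧ ∀ w, C.B w z = 0 → C.B y' w = C.B y w := fun y f => by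
      have := cnt z zR y f
      obtain ⟨c, hc⟩ := (Set.ncard_pos (Set.toFinite {c : F | y + c • z ∈ R})).1 (by omega)
      exact ⟨_, hc, f.add c, fun w e => by simp [Bsw e]⟩
    obtain ⟨y0, f0⟩ := ex_fl g.nd (by omega) tw.iz
    obtain ⟨y, hy, f, -⟩ := ex y0 f0
    have c1 := cnt z zR y f
    by_cases u2 : u = 2
    · obtain ⟨w, hw, n1, n2⟩ := op z y zR.1.1 hy.1.1
      have n1' := C.B_swap_ne n1
      have n2' := C.B_swap_ne n2
      obtain ⟨t, ht, t0, t1⟩ := ex_three (hF := hF) q3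
      obtain ⟨l, hl⟩ : ∃ l, l = C.B w z / C.B w y := ⟨_, rfl⟩
      have l0 : l ≠ 0 := hl ▸ div_ne_zero n1' n2'
      have h1 := sm _ (uo3 hR hm zR (sm y hy l l0) hw (by simp [f.2.2.1]) n1' (by simp [hl, n2']) ht) _
        (inv_ne_zero (mul_ne_zero t0 l0))
      have h2 : y + ((t * l)⁻¹ * (1 - t)) • z ∈ R := by
        convert h1 using 1
        rw [eq_inv_smul_iff₀ (mul_ne_zero t0 l0), smul_add, smul_smul, mul_inv_cancel_left₀ (mul_ne_zero t0 l0)]
        module
      have h3 : 1 < {c : F | y + c • z ∈ R}.ncard := (Set.one_lt_ncard_iff (Set.toFinite _)).2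
        ⟨_, 0, h2, by simpa using hy, mul_ne_zero (inv_ne_zero (mul_ne_zero t0 l0)) (sub_ne_zero.2 t1.symm)⟩
      omega
    obtain ⟨y1, f1, e1⟩ := f.ex_opp g.nd
    obtain ⟨w, hw, fw, ew⟩ := ex y1 f1
    rcases aff_line q3 hR hm f hw (Bsw fw.2.2.1) (by rw [ew y (Bsw f.2.2.1), e1]; exact one_ne_zero) with h | h
    · omega
    · have h1 : Nat.Coprime u q := by
        rw [← c1]; exact ((Nat.coprime_add_iff_right h).2 (Nat.coprime_one_right q)).symm
      exact u1 (Nat.Coprime.eq_one_of_dvd (h1.pow_right 2) tw.dvd)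
  · have iff : ∀ v, Is C v → (v ∈ R ↔ ¬ PO F H z v) := fun v iv =>
      ⟨fun hv p => zR (po v hv z tw.iz.1 (p.symm tw.iz.1)), fun n => po v0 v0R v iv.1
        (tw.two v0 v iv0 iv (fun p => zR (po v0 v0R z tw.iz.1 (p.symm tw.iz.1))) n)⟩
    have cnt : ∀ a, Is C a → a ∉ R → ∀ b, Fl C a b → {c : F | b + c • a ∈ R}.ncard + u = q ^ 2 + 1 :=
      fun a ia ha b f => by
      have p : PO F H z a := by by_contra n; exact ha ((iff a ia).2 n)
      have h1 := (un.tw_po tw p ia.1).cnt b f
      have h2 := Set.ncard_add_ncard_compl {c : F | PO F H a (b + c • a)}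
      have h3 : {c : F | PO F H a (b + c • a)}ᶜ = {c : F | b + c • a ∈ R} := by
        ext c
        exact ((iff _ (f.add c).isr).trans (not_congr ⟨(p.symm tw.iz.1).trans, p.trans⟩)).symm
      rw [h3, Nat.card_eq_fintype_card, hF] at h2; omega
    have ex : ∀ x y, Fl C x y → ∃ y' ∈ R, Fl C x y' ∧ ∀ w, C.B w x = 0 → C.B y' w = C.B y w :=
      fun x y f => by
      obtain ⟨c, hc⟩ : ∃ c : F, y + c • x ∈ R := by
        by_cases xR : x ∈ R
        swap
        · have := cnt x f.1 xR y f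
          exact (Set.ncard_pos (Set.toFinite {c : F | y + c • x ∈ R})).1 (by omega)
        by_contra! e
        have h1 := cnt y f.isr (by simpa using e 0) x f.symm
        have h2 : {c : F | x + c • y ∈ R} ⊆ {0} := fun c hc => by
          by_contra c0
          refine e c⁻¹ ?_
          convert sm _ hc _ (inv_ne_zero c0) using 1
          rw [smul_add, smul_smul, inv_mul_cancel₀ c0, one_smul, add_comm]
        have := Set.ncard_le_ncard h2
        rw [Set.ncard_singleton] at this; omega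
      exact ⟨_, hc, f.add c, fun w e => by simp [Bsw e]⟩
    obtain ⟨y0, f0⟩ := ex_fl g.nd (by omega) tw.iz
    obtain ⟨y, hy, f, -⟩ := ex z y0 f0
    have c1 := cnt z tw.iz zR y f
    have c2 : {c : F | z + c • y ∈ R}.ncard + 1 = {c : F | y + c • z ∈ R}.ncard := by
      rw [← Set.ncard_sdiff_singleton_add_one (show (0 : F) ∈ {c : F | y + c • z ∈ R} by simpa using hy)]
      congr 1
      have k : ∀ a b : V, ∀ c : F, c ≠ 0 → a + c • b ∈ R → b + c⁻¹ • a ∈ R := fun a b c c0 h => by
        convert sm _ h _ (inv_ne_zero c0) using 1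
        rw [smul_add, smul_smul, inv_mul_cancel₀ c0, one_smul, add_comm]
      refine Set.ncard_congr (fun c _ => c⁻¹) (fun c hc => ?_) (fun _ _ _ _ e => inv_injective e)
        fun c hc => ⟨c⁻¹, k _ _ _ hc.2 hc.1, inv_inv c⟩
      have c0 : c ≠ 0 := fun e => zR (by simpa [e] using hc)
      exact ⟨k _ _ _ c0 hc, inv_ne_zero c0⟩
    obtain ⟨y1, f1, e1⟩ := f.ex_opp g.nd
    obtain ⟨w, hw, fw, ew⟩ := ex z y1 f1
    obtain ⟨y2, f2, e2⟩ := f.symm.ex_opp g.nd
    obtain ⟨w2, hw2, fw2, ew2⟩ := ex y y2 f2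
    rcases aff_line q3 hR hm f hw (Bsw fw.2.2.1) (by rw [ew y (Bsw f.2.2.1), e1]; exact one_ne_zero) with h | h
    · omega
    have h0 := Nat.le_of_dvd (by omega) h
    rcases aff_line q3 hR hm f.symm hw2 (Bsw fw2.2.2.1)
      (by rw [ew2 z f.2.2.1, e2]; exact one_ne_zero) with h' | h'
    · omega
    · rw [← c2] at h
      have := Nat.le_of_dvd one_pos ((Nat.dvd_add_right h').1 h)
      omega

end H29.RU
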