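/-
S5806, chunks `SZ`, `TD`: squares of elements of order four; the nilpotency class.
-/
import Cfsg.Agent.H6.SP2
import Cfsg.Agent.H23.SzAct
import Cfsg.Agent.H14.TD2

set_option autoImplicit false
set_option linter.unusedSectionVars false

namespace H29.S6
open Matrix Cfsg Cfsg.Geo H27.Asch Module Submodule H11.SP H6.SP
open scoped commutatorElement MatrixGroups

universe u

section
variable {K V : Type*} [Field K] [AddCommGroup V] [Module K V] [FiniteDimensional K V]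

theorem fr_map (f : End K V) (W : Submodule K V) :
    finrank K (W.map f) + finrank K ↥(LinearMap.ker f ⊓ W) = finrank K W := by
  rw [← LinearMap.finrank_range_add_finrank_ker (f.domRestrict W), LinearMap.range_domRestrict, LinearMap.ker_domRestrict,
    ← finrank_map_subtype_eq W, map_comap_subtype, inf_comm]

theorem nil4 {f : End K V} (h : f ^ 4 = 0) {W : Submodule K V} (i : W.map f ≤ W) :
    (finrank K W ≤ 6 → finrank K (W.map (f * f)) ≤ 2) ∧ (finrank K W ≤ 2 → W.map (f * f) = ⊥) := by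
  have e : W.map (f * f) = (W.map f).map f := map_comp f f W
  have z : (((W.map f).map f).map f).map f = ⊥ := by
    rw [← map_comp, ← map_comp, ← map_comp]
    exact (congrArg (W.map ·) (show f ∘ₗ (f ∘ₗ f) ∘ₗ f = 0 by rw [← h]; rfl)).trans (Submodule.map_zero W)
  have a0 := fr_map f W
  have a1 := fr_map f (W.map f)
  have a2 := fr_map f ((W.map f).map f)
  have a3 := fr_map f (((W.map f).map f).map f)
  have b0 := finrank_mono (inf_le_inf_left (LinearMap.ker f) i)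
  have b1 := finrank_mono (inf_le_inf_left (LinearMap.ker f) (map_mono (f := f) i))
  have b2 := finrank_mono (inf_le_inf_left (LinearMap.ker f) (map_mono (f := f) (map_mono (f := f) i)))
  rw [z, finrank_bot] at a3
  rw [e, ← finrank_eq_zero]
  omega
end

variable {K : Type u} [Field K] [CharP K 2]

/-- squares of elements of order four -/
theorem sqk {Γ : Type*} [Group Γ] (ρ : Γ →* G6 K) (hs : ∀ g, ρ g ∈ S6 K) (hv : ∀ v, (∀ g, (ρ g).val *ᵥ v = v) → v = 0)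
    (X : Set Γ) (x4 : ∀ x ∈ X, x ^ 4 = 1) (xc : ∀ x ∈ X, ∀ y ∈ X, Commute x (y * y)) {m : Γ} (m4 : m ^ 4 = 1)
    (gen : ∀ L : Subgroup Γ, m * m ∈ L → (∀ x ∈ X, x * x ∈ L) → L = ⊤) : False := by
  let N : Γ → End K (V6 K) := fun g => toLinAlgEquiv' ((ρ g).val - 1)
  have Nv : ∀ g v, N g v = (ρ g).val *ᵥ v - v := fun g v => by simp [N, toLinAlgEquiv'_apply]
  have N2 : ∀ g, N g * N g = N (g * g) := fun g => by
    rw [← map_mul, ← pow_two, sub_pow_char_of_commute _ (Commute.one_right _), one_pow, pow_two, ← Units.val_mul, ← map_mul]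
  have N4 : ∀ g, g ^ 4 = 1 → N g ^ 4 = 0 := fun g h => by
    rw [← map_pow, show 4 = 2 ^ 2 from rfl, unip (by rw [← map_pow]; exact (congrArg ρ h).trans ρ.map_one), map_zero]
  have d6 : finrank K (V6 K) = 6 := by simp
  have r2 : ∀ g, g ^ 4 = 1 → finrank K (LinearMap.range (N (g * g))) ≤ 2 := fun g h => by
    rw [← N2, LinearMap.range_eq_map]; exact (nil4 (N4 g h) le_top).1 (by simp)
  let C : Submodule K (V6 K) := ⨅ x ∈ X, LinearMap.ker (N (x * x))
  have mC : ∀ v, v ∈ C ↔ ∀ x ∈ X, N (x * x) v = 0 := fun v => by simp [C, mem_iInf]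
  have IC : ∀ y ∈ X, ∀ u, N (y * y) u ∈ C := fun y hy u => (mC _).2 fun x hx => by
    have := (nil4 (N4 x (x4 x hx)) (W := LinearMap.range (N (y * y))) (by
      rintro _ ⟨_, ⟨w, rfl⟩, rfl⟩
      refine ⟨N x w, ?_⟩
      simp only [Nv, mulVec_sub, ← mul_mv, ← map_mul, (xc x hx y hy).eq]; abel)).2 (r2 y (x4 y hy))
    rw [N2] at this
    exact (mem_bot K).1 (this ▸ mem_map_of_mem (LinearMap.mem_range_self _ u))
  have dj : C ⊓ LinearMap.ker (N (m * m)) = ⊥ := eq_bot_iff.2 fun v hw => (mem_bot K).2 (hv v fun g => by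
    let L : Subgroup Γ := {
      carrier := {g | (ρ g).val *ᵥ v = v}
      one_mem' := by simp
      mul_mem' := fun {a b} (ha : _ = _) (hb : _ = _) => show _ = _ by rw [map_mul, mul_mv, hb, ha]
      inv_mem' := fun {a} (ha : _ = _) => show _ = _ by rw [map_inv]; nth_rw 1 [← ha]; rw [inv_mv] }
    have : L = ⊤ := gen L (sub_eq_zero.1 ((Nv _ v).symm.trans hw.2)) fun x hx =>
      sub_eq_zero.1 ((Nv _ v).symm.trans ((mC v).1 hw.1 x hx))
    exact (this.ge (Subgroup.mem_top g) :))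
  have c2 : finrank K C ≤ 2 := by
    have a := finrank_sup_add_finrank_inf_eq C (LinearMap.ker (N (m * m)))
    have b := LinearMap.finrank_range_add_finrank_ker (N (m * m))
    have c := finrank_le (C ⊔ LinearMap.ker (N (m * m)))
    have := r2 m m4
    rw [dj, finrank_bot] at a
    omega
  let φ : V6 K →ₗ[K] C →ₗ[K] K := LinearMap.mk₂ K (fun v c => fm v c.1) (fun _ _ _ => fm_add_l ..)
    (fun _ _ _ => fm_smul_l ..) (fun _ _ _ => fm_add_r ..) fun _ _ _ => fm_smul_r ..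
  have k : LinearMap.ker φ ≤ C := fun v hw => (mC v).2 fun x hx => by
    rw [Nv]
    refine fm_nd fun u => ?_
    have := LinearMap.congr_fun hw ⟨_, IC x hx ((ρ (x * x))⁻¹.val *ᵥ u)⟩
    replace this : fm v (N (x * x) ((ρ (x * x))⁻¹.val *ᵥ u)) = 0 := this
    rw [Nv, mv_inv, sub_eq_add_neg, fm_add_r, fm_neg_r, fm_swap v (_ *ᵥ _), fm_inv (hs _), fm_swap u] at this
    rw [sub_eq_add_neg, fm_add_l, fm_neg_l]
    linear_combination -this
  have a := LinearMap.finrank_range_add_finrank_ker φ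
  have b := finrank_le (LinearMap.range φ)
  have c := finrank_mono k
  rw [finrank_linearMap_self] at b
  omega

variable {G : Type*} [Group G] {P : Subgroup (G6 K)} {π : P →* G}

theorem sqk' (h : Rq P π) {Γ : Type*} [Group Γ] (ψ : Γ →* G) (hψ : Function.Surjective ψ)
    (X : Set Γ) (x4 : ∀ x ∈ X, x ^ 4 = 1) (xc : ∀ x ∈ X, ∀ y ∈ X, Commute x (y * y)) {m : Γ} (m4 : m ^ 4 = 1)
    (gen : ∀ L : Subgroup Γ, m * m ∈ L → (∀ x ∈ X, x * x ∈ L) → L = ⊤) : False := by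
  refine sqk (P.subtype.comp ((iso2 h).symm.toMonoidHom.comp ψ)) (fun g => h.sp (Subtype.prop _)) (fun v hv => ?_)
    X x4 xc m4 gen
  rcases irr_of_alg h.top (span K {v}) (fun g hg w hw => by
    obtain ⟨c, rfl⟩ := mem_span_singleton.1 hw
    obtain ⟨a, ha⟩ := hψ (iso2 h ⟨g, hg⟩)
    have := hv a
    simp only [MonoidHom.comp_apply, ha, MulEquiv.coe_toMonoidHom, MulEquiv.symm_apply_apply, Subgroup.coe_subtype] at this
    rw [mulVec_smul, this]; exact hw) with e | e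
  · exact span_singleton_eq_bot.1 e
  · have := (finrank_span_le_card (R := K) {v}).trans_eq (by simp : _ = 1)
    rw [e] at this; simp at this

section
open H23.Sz H23.Sz.Ov

theorem szm {F : Type*} [Field F] [H23.Tits F] [Finite F] [Model F G] (h : Rq P π) : False := by
  have hw : (T (0 : F) 1 * W F : G) ^ 5 = 1 := ρ_inj (F := F) (by
    simp only [map_pow, map_mul, ρ_T, ρ_W, map_one]
    ext i j; fin_cases i <;> fin_cases j <;>
      simp [Tm, nf, suzukiForm, pow_succ, Matrix.mul_apply, Fin.sum_univ_four] <;> grind)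
  have zz : (T (0 : F) 1 : G) * T (0 : F) 1 = 1 := by simp [T_sq]
  obtain ⟨g, hg⟩ : ∃ g : G, g * T (0 : F) 1 * g⁻¹ = W F := ⟨(T (0 : F) 1 * W F) ^ 2, by
    rw [mul_inv_eq_iff_eq_mul, ← mul_left_inj (W F), ← mul_right_inj ((T (0 : F) 1 * W F : G) ^ 2)]
    calc _ = (T (0 : F) 1 * W F) ^ 5 := by simp only [pow_succ, pow_zero, one_mul, mul_assoc]
      _ = _ := by
        rw [hw]; simp only [pow_succ, pow_zero, one_mul, mul_assoc, W_W, mul_one]
        simp only [← mul_assoc, W_W, mul_one, zz]⟩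
  have sq : ∀ b : F, ∃ a : F, a * θ a = b := Finite.surjective_of_injective fun _ _ => mul_θ_inj
  refine sqk' h (.id G) Function.surjective_id (Set.range fun a : F => T a 0) (by rintro _ ⟨a, rfl⟩; exact T_pow_four ..)
    (by rintro _ ⟨a, rfl⟩ _ ⟨b, rfl⟩; rw [T_sq, T_commute]; simp) (m := g * T (1 : F) 0 * g⁻¹)
    (by rw [conj_pow, T_pow_four]; simp) fun L hW hZ => ?_
  rw [conj_mul, T_sq, map_one, mul_one, hg] at hW
  have Z1 : ∀ b : F, (T 0 b : G) ∈ L := fun b => by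
    obtain ⟨a, rfl⟩ := sq b
    exact T_sq (G := G) a 0 ▸ hZ _ ⟨a, rfl⟩
  have tr : ∀ p : Ov F, ∃ l ∈ L, l • (inf : Ov F) = p := fun p => by
    rcases p.cases with rfl | ⟨x, y, rfl⟩
    · exact ⟨1, one_mem _, one_smul _ _⟩
    by_cases x0 : x = 0
    · exact ⟨_, mul_mem (Z1 y) hW, by rw [TW_inf, x0]⟩
    obtain ⟨b, hb⟩ : ∃ b : F, b ≠ 0 ∧ b / θ b = x := by
      have t := θ_ne_zero x0
      refine ⟨(x * θ x)⁻¹, inv_ne_zero (mul_ne_zero x0 t), ?_⟩
      rw [map_inv₀, map_mul, θθ]; field_simp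
    refine ⟨_, mul_mem (Z1 y) (mul_mem hW (mul_mem (Z1 b) hW)), ?_⟩
    have n : nf 0 b = θ b := by simp [nf]
    rw [mul_smul, mul_smul, TW_inf, W_pt (by rw [n]; exact θ_ne_zero hb.1), n, hb.2]; simp
  have := h.simp
  refine eq_top_iff.2 (((Subgroup.normalCore_normal L).eq_bot_or_eq_top.resolve_left fun e => T01_ne_one (F := F) (G := G)
    (Subgroup.mem_bot.1 (e ▸ fun a => ?_))).ge.trans L.normalCore_le)
  obtain ⟨l, hl, e⟩ := tr (a • inf)
  obtain ⟨b, k⟩ := conj_mem_Z (g := l⁻¹ * a) (mem_B'.2 (by rw [mul_smul, ← e, inv_smul_smul])) ⟨(1 : F), rfl⟩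
  rw [show a * T (0 : F) 1 * a⁻¹ = l * (l⁻¹ * a * T (0 : F) 1 * (l⁻¹ * a)⁻¹) * l⁻¹ by group, k]
  exact mul_mem (mul_mem hl (Z1 b)) (inv_mem hl)

theorem sz : SZ.{u} := fun _ _ _ _ _ _ _ _ _ _ h p2 ⟨F, _, _, _, _, hF, ⟨e⟩⟩ => by
  subst p2
  let := titsOfCard hF
  let := Model.ofEquiv (h := lieModel hF) e
  exact szm (F := F) h.toRq
end

/-- the filtration by superdiagonals -/
def Fl (j : ℕ) (m : M6 K) : Prop := ∀ s t, ps t < ps s + j → m s t = 0

theorem Fl.mul {i j : ℕ} {a b : M6 K} (ha : Fl i a) (hb : Fl j b) : Fl (i + j) (a * b) := fun s t h => by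
  rw [Matrix.mul_apply]
  refine Finset.sum_eq_zero fun r _ => ?_
  by_cases k : ps r < ps s + i
  · rw [ha s r k, zero_mul]
  · rw [hb r t (by omega), mul_zero]

theorem fl_cm {S : Subgroup (G6 K)} (h : ∀ s ∈ S, Fl 1 (s.val - 1)) {j : ℕ} {a b : G6 K} (ha : a ∈ S) (hb : b ∈ S)
    (k : Fl j (b.val - 1)) : Fl (j + 1) ((a * b * a⁻¹ * b⁻¹).val - 1) := by
  have z : Fl 0 (a⁻¹ * b⁻¹).val := fun s t e => by
    have := h _ (mul_mem (inv_mem ha) (inv_mem hb)) s t (by omega)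
    rwa [Matrix.sub_apply, one_apply_ne (by rintro rfl; omega), sub_zero] at this
  have e : (a * b * a⁻¹ * b⁻¹).val - 1 = ((a.val - 1) * (b.val - 1) - (b.val - 1) * (a.val - 1)) * (a⁻¹ * b⁻¹).val := by
    have : (b.val * a.val) * (a⁻¹ * b⁻¹).val = 1 := by rw [← Units.val_mul, ← Units.val_mul]; simp
    rw [mul_assoc (a * b), Units.val_mul (a * b), Units.val_mul a b]
    nth_rw 1 [← this]; noncomm_ring
  rw [e]
  refine Fl.mul (i := j + 1) (j := 0) (fun s t l => ?_) z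
  rw [Matrix.sub_apply, (h a ha).mul k s t (by omega), k.mul (h a ha) s t l, sub_zero]

theorem fl5 {a : G6 K} (k : Fl 5 (a.val - 1)) : rk a ≤ 1 := by
  have : a.val - 1 = vecMulVec (Pi.single (.inl 0) 1) ((a.val - 1) (.inl 0)) := by
    ext s t
    by_cases e : s = .inl 0
    · simp [vecMulVec_apply, e]
    · rw [k s t (by revert s t; decide)]; simp [vecMulVec_apply, e]
  rw [rk, this]; exact rank_vecMulVec_le _ _

open H29.TD H29.TD.Dc in
theorem td (fl : FL.{u}) : TD.{u} := fun K G _ _ _ _ _ _ P π h p2 r er ⟨E, _, _, hE, ⟨e⟩⟩ => by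
  subst p2
  obtain ⟨p, _, n, pp, hn⟩ := FiniteField.card' E
  obtain rfl : p = 2 := ((Nat.prime_dvd_prime_iff_eq Nat.prime_two pp).1 (Nat.prime_two.dvd_of_dvd_pow
    (hn ▸ hE ▸ dvd_pow er.two_dvd (by decide)))).symm
  obtain ⟨m, -, rfl⟩ := (Nat.dvd_prime_pow pp).1 (hn ▸ hE ▸ dvd_pow_self r (by decide) : r ∣ 2 ^ (n : ℕ))
  obtain ⟨σ, _, sy⟩ := H14.TD.sy E 2 m (Nat.pos_of_ne_zero (by rintro rfl; simp at er)) hE
  have := h.fin
  have : Finite (Lie.twistedD4 E (2 ^ m)) := Finite.of_equiv _ e.toEquiv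
  obtain ⟨S⟩ : Nonempty (Sylow 2 (Lie.twistedD4 E (2 ^ m))) := inferInstance
  obtain ⟨f⟩ := sy S
  let φ : S →* G6 K := P.subtype.comp (((iso2 h.toRq).trans e).symm.toMonoidHom.comp S.1.subtype)
  have φi : Function.Injective φ := fun _ _ k => Subtype.ext (((iso2 h.toRq).trans e).symm.injective (Subtype.ext k))
  have φP : φ.range ≤ P := by rintro _ ⟨x, rfl⟩; exact Subtype.prop _
  obtain ⟨g, -, hg⟩ := fl K φ.range (φP.trans h.sp) (Finite.of_surjective _ φ.rangeRestrict_surjective) (S.2.of_surjective _ φ.rangeRestrict_surjective)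
  let ψ : Dc σ →* G6 K := (MulAut.conj g).toMonoidHom.comp (φ.comp f.toMonoidHom)
  have U : ∀ s ∈ ψ.range, Fl 1 (s.val - 1) := by
    rintro _ ⟨c, rfl⟩ s t l; exact hg _ ⟨f c, rfl⟩ s t (by omega)
  have cm : ∀ {j} (c : Dc σ) {d : Dc σ}, Fl j ((ψ d).val - 1) → Fl (j + 1) ((ψ (c * d * c⁻¹ * d⁻¹)).val - 1) := fun c d k => by
    simpa only [map_mul, map_inv] using fl_cm U ⟨c, rfl⟩ ⟨d, rfl⟩ k
  obtain ⟨a, ha⟩ := ex_ne σ
  have o : σ 1 = 1 := map_one σ
  have c0 : cr σ a 1 ≠ 0 := fun k => by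
    rcases cr0 one_ne_zero ((cr_comm (σ := σ) 1 a).trans k) with k | ⟨-, c, k, l⟩
    · exact ha (by simp [k])
    · exact ha (by rw [l, mul_one, k])
  obtain ⟨d1, e1⟩ : ∃ d, d = xu 1 o * xa 1 * (xu 1 o)⁻¹ * (xa 1)⁻¹ := ⟨_, rfl⟩
  obtain ⟨d2, e2⟩ : ∃ d, d = xa a * d1 * (xa a)⁻¹ * d1⁻¹ := ⟨_, rfl⟩
  obtain ⟨d3, e3⟩ : ∃ d, d = xa d2.r⁻¹ * d2 * (xa d2.r⁻¹)⁻¹ * d2⁻¹ := ⟨_, rfl⟩
  obtain ⟨d4, e4⟩ : ∃ d, d = xu 1 o * d3 * (xu 1 o)⁻¹ * d3⁻¹ := ⟨_, rfl⟩
  have k5 : Fl 5 ((ψ d4).val - 1) := e4 ▸ cm _ (e3 ▸ cm _ (e2 ▸ cm _ (e1 ▸ cm _ (U _ ⟨_, rfl⟩))))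
  have a1 : d1.a = 0 := e1 ▸ cm_a ..
  have u1 : d1.u = 0 := e1 ▸ cm_u ..
  have s1 : d1.s = 1 := by rw [e1, cm_s]; simp
  have a2 : d2.a = 0 := e2 ▸ cm_a ..
  have u2 : d2.u = 0 := e2 ▸ cm_u ..
  have s2 : d2.s = 0 := by rw [e2, cm_s]; simp [u1]
  have r2 : d2.r ≠ 0 := by rw [e2, cm4_r _ a1 u1, s1]; simpa using c0
  have a3 : d3.a = 0 := e3 ▸ cm_a ..
  have u3 : d3.u = 0 := e3 ▸ cm_u ..
  have s3 : d3.s = 0 := by rw [e3, cm_s]; simp [u2]
  have v3 : d3.v = -3 := by rw [e3, cm4_v _ a2 u2, s2, xa_a, inv_mul_cancel₀ r2]; simp [H29.TD.tr]; ring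
  have z4 : d4.z = -3 := by rw [e4, cm3_z _ a3 u3 s3, v3]; simp [H29.TD.tr]
  have n1 : ψ d4 ≠ 1 := fun k => by
    have : d4 = 1 := f.injective (φi ((MulAut.conj g).injective (k.trans (by simp))))
    rw [this, one_z] at z4
    exact one_ne_zero (α := E) (by linear_combination z4 - CharTwo.two_eq_zero (R := E))
  have r1 := fl5 k5
  have : rk (ψ d4) = rk (φ (f d4)) := by
    rw [rk, rk, show (ψ d4).val - 1 = g.val * ((φ (f d4)).val - 1) * (g⁻¹).val by
      rw [mul_sub, sub_mul, mul_one, Units.mul_inv]; rfl, rank_mul_eq_left_of_isUnit_det _ _ (isUnit_iff_isUnit_det _ |>.1 (g⁻¹).isUnit),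
      rank_mul_eq_right_of_isUnit_det _ _ (isUnit_iff_isUnit_det _ |>.1 g.isUnit)]
  have n2 := h.ntv _ (φP ⟨f d4, rfl⟩)
  have : rk (ψ d4) = 0 := by omega
  exact n1 (Units.ext (sub_eq_zero.1 (Matrix.toLin'.injective ((LinearMap.range_eq_bot.1 (finrank_eq_zero.1 this)).trans
    (map_zero _).symm))))

end H29.S6
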