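/-
S5806, chunk `S4e`.
-/
import Cfsg.Agent.H29.S6a
import Cfsg.Agent.H23.O7D

set_option autoImplicit false
set_option linter.unusedSectionVars false

namespace H29.S6
open Matrix Cfsg H6.SP H23.O7 H11

universe u

variable {E : Type} [Field E] [CharP E 2]

local notation "Γ" => symplecticGroup (Fin 2) E

def vc (a b c d : E) : Fin 2 ⊕ Fin 2 → E := Sum.elim ![a, b] ![c, d]

theorem ex_vc (v : Fin 2 ⊕ Fin 2 → E) : ∃ a b c d, v = vc a b c d :=
  ⟨v (.inl 0), v (.inl 1), v (.inr 0), v (.inr 1), by ext (i | i) <;> fin_cases i <;> rfl⟩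

theorem vc_eq {a b c d a' b' c' d' : E} (h1 : a = a') (h2 : b = b') (h3 : c = c') (h4 : d = d') :
    vc a b c d = vc a' b' c' d' := by rw [h1, h2, h3, h4]

theorem sp_ext' {g h : Γ} (e : ∀ a b c d, g.1 *ᵥ vc a b c d = h.1 *ᵥ vc a b c d) : g = h :=
  sp_ext fun v => let ⟨a, b, c, d, k⟩ := ex_vc v; k ▸ e a b c d

theorem mv_mul (g h : Γ) (v : Fin 2 ⊕ Fin 2 → E) : (g * h).1 *ᵥ v = g.1 *ᵥ h.1 *ᵥ v := by
  rw [Submonoid.coe_mul, mulVec_mulVec]

/-- the Sylow subgroup -/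
def ux (t α β δ : E) : Γ := ⟨fromBlocks !![1, t; 0, 1] !![α + t * β, β; β + t * δ, δ] 0 !![1, 0; t, 1], by
  rw [SymplecticGroup.mem_iff, J, fromBlocks_transpose, fromBlocks_multiply, fromBlocks_multiply]
  congr <;> ext i j <;> fin_cases i <;> fin_cases j <;> simp [vecMul, dotProduct] <;> grind⟩

/-- a Weyl element of order four -/
def mw : Γ := ⟨fromBlocks !![0, 1; 0, 0] !![0, 0; 1, 0] !![0, 0; 1, 0] !![0, 1; 0, 0], by
  rw [SymplecticGroup.mem_iff, J, fromBlocks_transpose, fromBlocks_multiply, fromBlocks_multiply]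
  congr <;> ext i j <;> fin_cases i <;> fin_cases j <;> simp [vecMul, dotProduct] <;> grind⟩

theorem ux_vc (t α β δ a b c d : E) : (ux t α β δ).1 *ᵥ vc a b c d =
    vc (a + t * b + (α + t * β) * c + β * d) (b + (β + t * δ) * c + δ * d) c (t * c + d) := by
  ext (i | i) <;> fin_cases i <;> simp [ux, vc, mulVec, dotProduct] <;> ring

theorem mw_vc (a b c d : E) : (mw : Γ).1 *ᵥ vc a b c d = vc b c d a := by
  ext (i | i) <;> fin_cases i <;> simp [mw, vc, mulVec, dotProduct]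

theorem ux_sq (t u : E) : ux t 0 0 u * ux t 0 0 u = ux 0 (u * t ^ 2) (u * t) 0 := sp_ext' fun a b c d => by
  simp only [mv_mul, ux_vc]; apply vc_eq <;> grind

theorem ux_add (α β α' β' : E) : ux 0 α β 0 * ux 0 α' β' 0 = ux 0 (α + α') (β + β') 0 := sp_ext' fun a b c d => by
  simp only [mv_mul, ux_vc]; apply vc_eq <;> grind

theorem tv_ux (a c : E) : tv (vc a 0 0 0) c = ux 0 (c * a ^ 2) 0 0 := sp_ext' fun a' b' c' d' => by
  rw [tv_mul, spForm_B, J_form_apply, ux_vc]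
  ext (i | i) <;> fin_cases i <;> simp [vc] <;> grind

theorem s4_gen (h3 : ∀ α : E, ∃ ω, ω ≠ 0 ∧ ω ≠ α) {L : Subgroup Γ} (hn : mw * mw ∈ L)
    (hx : ∀ t u, ux t 0 0 u * ux t 0 0 u ∈ L) : L = ⊤ := by
  have z1 : ∀ α β : E, α ≠ 0 → β ≠ 0 → ux 0 α β 0 ∈ L := fun α β a b => by
    have := hx (α / β) (β ^ 2 / α)
    rwa [ux_sq, show β ^ 2 / α * (α / β) ^ 2 = α by field_simp, show β ^ 2 / α * (α / β) = β by field_simp] at this
  have z : ∀ α β : E, ux 0 α β 0 ∈ L := fun α β => by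
    obtain ⟨ω, a, b⟩ := h3 α
    obtain ⟨ω', c, d⟩ := h3 β
    have := mul_mem (z1 (α - ω) (β - ω') (sub_ne_zero.2 b.symm) (sub_ne_zero.2 d.symm)) (z1 ω ω' a c)
    rwa [ux_add, sub_add_cancel, sub_add_cancel] at this
  have mv : ∀ l ∈ L, ∀ v c, tv (l.1 *ᵥ v) c ∈ L → tv v c ∈ L := fun l hl v c h => by
    rw [← H23.O7.tv_conj] at h
    simpa [mul_assoc] using mul_mem (mul_mem (inv_mem hl) h) hl
  have sw : ∀ a b c d e : E, tv (vc c d a b) e ∈ L → tv (vc a b c d) e ∈ L := fun a b c d e h =>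
    mv _ hn _ _ (by rwa [mv_mul, mw_vc, mw_vc])
  have us : ∀ α β a b c d e : E, tv (vc (a + α * c + β * d) (b + β * c) c d) e ∈ L → tv (vc a b c d) e ∈ L :=
    fun α β a b c d e h => mv _ (z α β) _ _ (by rw [ux_vc]; simpa using h)
  have b0 : ∀ a e : E, tv (vc a 0 0 0) e ∈ L := fun a e => tv_ux a e ▸ z _ _
  have b1 : ∀ a b c d e : E, c ≠ 0 → tv (vc a b c d) e ∈ L := fun a b c d e h => by
    refine us ((c - a - b / c * d) / c) (b / c) _ _ _ _ _ (sw _ _ _ _ _ (us 1 (d / c) _ _ _ _ _ (sw _ _ _ _ _ ?_)))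
    convert b0 c e using 2
    apply vc_eq <;> field_simp <;> grind
  have b2 : ∀ b d e : E, d ≠ 0 → tv (vc 0 b 0 d) e ∈ L := fun b d e h =>
    us 0 1 _ _ _ _ _ (sw _ _ _ _ _ (b1 _ _ _ _ _ (by simpa using h)))
  refine tv_top fun v e => ?_
  obtain ⟨a, b, c, d, rfl⟩ := ex_vc v
  by_cases hc : c = 0
  swap; · exact b1 _ _ _ _ _ hc
  by_cases ha : a = 0
  swap; · exact sw _ _ _ _ _ (b1 _ _ _ _ _ ha)
  subst hc ha
  by_cases hd : d = 0
  swap; · exact b2 _ _ _ hd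
  by_cases hb : b = 0
  · subst hd hb; exact b0 _ _
  · exact sw _ _ _ _ _ (b2 _ _ _ hb)

theorem s4e : S4e.{u} := fun _ _ _ _ _ _ _ _ _ _ h p2 r er r4 ⟨E, _, _, hE, ⟨e⟩⟩ => by
  subst p2
  obtain ⟨p, _, n, pp, hn⟩ := FiniteField.card' E
  obtain rfl : p = 2 := ((Nat.prime_dvd_prime_iff_eq Nat.prime_two pp).1 (Nat.prime_two.dvd_of_dvd_pow
    (hn ▸ hE ▸ er.two_dvd))).symm
  refine sqk' h.toRq (e.symm.toMonoidHom.comp (QuotientGroup.mk' _)) (e.symm.surjective.comp (QuotientGroup.mk'_surjective _))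
    {x | ∃ t u, x = ux t 0 0 u} ?_ ?_ (m := mw) ?_ fun L a b => s4_gen (fun α => ?_) a fun t u => b _ ⟨t, u, rfl⟩
  · rintro _ ⟨t, u, rfl⟩
    rw [show 4 = 2 * 2 from rfl, pow_mul, pow_two, pow_two, ux_sq]
    refine sp_ext' fun a b c d => ?_
    simp only [mv_mul, ux_vc, OneMemClass.coe_one, one_mulVec]; apply vc_eq <;> grind
  · rintro _ ⟨t, u, rfl⟩ _ ⟨t', u', rfl⟩
    rw [ux_sq]
    refine sp_ext' fun a b c d => ?_
    simp only [mv_mul, ux_vc]; apply vc_eq <;> grind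
  · refine sp_ext' fun a b c d => ?_
    simp only [pow_succ, pow_zero, one_mul, mv_mul, mw_vc, OneMemClass.coe_one, one_mulVec]
  · classical
    by_contra! k
    have : (Finset.univ : Finset E) ⊆ {0, α} := fun x _ => by simpa [or_iff_not_imp_left] using k x
    have := (Finset.card_le_card this).trans Finset.card_le_two
    rw [Finset.card_univ] at this; omega

end H29.S6
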