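/-
S3694, chunks `PR`, `D4`, `WG`.
-/
import Cfsg.Agent.H22.SB1
import Cfsg.Agent.H1.GFitting
import Cfsg.Agent.H2.Coprime

set_option autoImplicit false
set_option linter.unusedSectionVars false
set_option linter.unusedVariables false

namespace H29.SB
open Subgroup Cfsg H22.SB
open scoped Pointwise

universe u

section
variable {G : Type u} [Group G] [Finite G] {H X : Subgroup G} {t : G}

theorem normal_of (hH : IsCoatom H) (h2 : H ≤ normalizer (X : Set G)) (h3 : ¬ normalizer (X : Set G) ≤ H) : X.Normal :=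
  normalizer_eq_top_iff.1 (hH.2 _ (lt_of_le_not_ge h2 h3))

theorem bot_of (hH : IsCoatom H) (hc : H.normalCore = ⊥) (h1 : X ≤ H) (h2 : H ≤ normalizer (X : Set G))
    (h3 : ¬ normalizer (X : Set G) ≤ H) : X = ⊥ :=
  have := normal_of hH h2 h3
  eq_bot_iff.2 (hc ▸ normal_le_normalCore.2 h1)

theorem exists_out (hH : IsCoatom H) (hc : H.normalCore = ⊥) (ht : t ∉ H) {l : ℕ} (hl : l.Prime) (h : l ∣ Nat.card H) :
    ∃ x ∈ H, x ^ l = 1 ∧ x ∉ H.map (MulAut.conj t).toMonoidHom := by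
  by_contra! c
  have := Fact.mk hl
  have a : ∀ g : G, (∀ x ∈ H, x ^ l = 1 → g * x * g⁻¹ ∈ H) → g ∈ normalizer (closure {x | x ∈ H ∧ x ^ l = 1} : Set G) := fun g hg =>
    H2.mem_normalizer_of_conj_mem fun x hx => (closure_le (comap (MulAut.conj g).toMonoidHom (closure {x | x ∈ H ∧ x ^ l = 1}))).2
      (fun y hy => Subgroup.subset_closure ⟨hg y hy.1 hy.2, by
        change (g * y * g⁻¹) ^ l = 1
        rw [conj_pow, hy.2]; simp⟩) hx
  have b := bot_of hH hc ((closure_le _).2 fun x hx => hx.1) (fun g hg => a g fun x hx _ => mul_mem (mul_mem hg hx) (inv_mem hg))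
    fun d => ht (inv_mem_iff.1 (d (a _ fun x hx e => by
      obtain ⟨y, hy, rfl⟩ := c x hx e
      simpa [mul_assoc] using hy)))
  obtain ⟨x, hx⟩ := exists_prime_orderOf_dvd_card' l h
  have : (x : G) = 1 := b.le (Subgroup.subset_closure ⟨x.2, by rw [← coe_pow, ← hx, pow_orderOf_eq_one, coe_one]⟩)
  exact hl.ne_one (by rw [← hx, OneMemClass.coe_eq_one.1 this, orderOf_one])

theorem pow8 {z : Equiv.Perm (Fin 4)} {k : ℕ} (h : z ^ 2 ^ k = 1) : z ^ 8 = 1 := by
  obtain ⟨j, -, e⟩ := (Nat.dvd_prime_pow Nat.prime_two).1 (orderOf_dvd_of_pow_eq_one h)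
  have : orderOf z ∣ 8 * 3 := by simpa [Fintype.card_perm, Nat.factorial] using orderOf_dvd_card (x := z)
  exact orderOf_dvd_iff_pow_eq_one.1 (Nat.Coprime.dvd_of_dvd_mul_right (e ▸ Nat.Coprime.pow_left j (by decide)) this)

theorem s4 : ∀ (w : Fin 4) (a y : Equiv.Perm (Fin 4)), a ^ 3 = 1 → a ≠ 1 → a w = w → y w = w → y ^ 8 = 1 →
    (y * (a * y * a⁻¹)) ^ 8 = 1 → y = 1 := by decide +kernel

theorem norm4 {K : Subgroup G} (h : K.relIndex H = 4) {x : G} (hx : x ∈ H) (x3 : x ^ 3 = 1) (xK : x ∉ K) :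
    H ≤ normalizer (((pCore 2 (H ⊓ K : Subgroup G)).map (H ⊓ K).subtype : Subgroup G) : Set G) := by
  have := Fact.mk Nat.prime_two
  have := Fact.mk Nat.prime_three
  let e := Finite.equivFinOfCardEq (α := H ⧸ K.subgroupOf H) h
  let f := e.permCongrHom.toMonoidHom.comp (MulAction.toPermHom H (H ⧸ K.subgroupOf H))
  have a : ∀ g : H, f g (e (1 : H)) = e (1 : H) ↔ g.1 ∈ K := fun g => by
    simp [f, eq_comm (a := ((g : H) : H ⧸ K.subgroupOf H)), QuotientGroup.eq, mem_subgroupOf]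
  obtain ⟨g, hg, b⟩ := H2.exists_conj_mem_of_not_dvd_relIndex (p := 3) (P := zpowers x) (H := K)
    (.of_card (n := 1) (by rw [Nat.card_zpowers, orderOf_eq_prime x3 (by rintro rfl; exact xK (one_mem _)), pow_one]))
    (zpowers_le.2 hx) (h ▸ by decide)
  let x' : H := ⟨g, hg⟩⁻¹ * ⟨x, hx⟩ * ⟨g, hg⟩
  have c : x'.1 ∈ K := b x (mem_zpowers x)
  have n := H1.le_normalizer_pCoreOf (p := 2) (H ⊓ K)
  have o : (pCore 2 (H ⊓ K : Subgroup G)).map (H ⊓ K).subtype ≤ f.ker.map H.subtype := fun y hy => by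
    have y1 := map_subtype_le _ hy
    have p : ∀ z : H, z.1 ∈ (pCore 2 (H ⊓ K : Subgroup G)).map (H ⊓ K).subtype → f z ^ 8 = 1 := fun z hz => by
      obtain ⟨k, hk⟩ := H1.pCoreOf_isPGroup (p := 2) (H ⊓ K) ⟨z, hz⟩
      exact pow8 (k := k) (by rw [← map_pow, show z ^ 2 ^ k = 1 from Subtype.ext (congrArg Subtype.val hk :), map_one])
    refine ⟨⟨y, y1.1⟩, s4 (e (1 : H)) (f x') _ ?_ (fun d => xK ((a ⟨x, hx⟩).1 ?_)) ((a _).2 c) ((a _).2 y1.2) (p _ hy) ?_, rfl⟩
    · rw [← map_pow, show x' ^ 3 = 1 from Subtype.ext (by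
        change (g⁻¹ * x * g) ^ 3 = 1
        rw [show (g⁻¹ * x * g) ^ 3 = g⁻¹ * x ^ 3 * g by simp [pow_succ, mul_assoc], x3]; simp), map_one]
    · rw [show (⟨x, hx⟩ : H) = ⟨g, hg⟩ * x' * ⟨g, hg⟩⁻¹ from Subtype.ext (by simp [x', mul_assoc]), map_mul, map_mul, d]; simp
    · rw [← map_inv, ← map_mul, ← map_mul, ← map_mul]
      exact p _ (mul_mem hy ((mem_normalizer_iff.1 (n ⟨x'.2, c⟩) y).1 hy))
  have k : H ≤ normalizer ((f.ker.map H.subtype : Subgroup G) : Set G) := fun z hz => H2.mem_normalizer_of_conj_mem (by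
    rintro _ ⟨y, hy, rfl⟩
    exact ⟨_, f.normal_ker.conj_mem y hy ⟨z, hz⟩, rfl⟩)
  have l : f.ker.map H.subtype ≤ H ⊓ K := by
    rintro _ ⟨y, hy, rfl⟩
    exact ⟨y.2, (a y).1 (by rw [show f y = 1 from hy]; rfl)⟩
  rw [← inf_eq_left.2 o, ← H1.pCoreOf_eq_inf l (inf_le_left.trans k)]
  exact k.trans (H1.normalizer_le_normalizer_pCoreOf _)

end

theorem pr : PR.{u} := fun G _ _ H t hH hc ht l hl h => by
  obtain ⟨x, a, b, c⟩ := exists_out hH hc ht hl h
  have d := relIndex_dvd_card (H.map (MulAut.conj t).toMonoidHom) (zpowers x)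
  rw [Nat.card_zpowers] at d
  refine ((Nat.dvd_prime hl).1 (d.trans (orderOf_dvd_of_pow_eq_one b))).elim (fun e => (c (relIndex_eq_one.1 e (mem_zpowers x))).elim)
    fun e => e ▸ relIndex_le_of_le_right (zpowers_le.2 a) index_ne_zero_of_finite

theorem d4 : D4.{u} := fun G _ _ H t hH hc h h3 P a b c => by
  have := Fact.mk Nat.prime_two
  have n : ¬ H.map (MulAut.conj t).toMonoidHom ≤ H := fun d => by
    rw [eq_of_le_of_card_ge d (card_map_of_injective (MulAut.conj t).injective).ge, relIndex_self] at h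
    exact absurd h (by decide)
  have ht : t ∉ H := fun d => n (by rintro _ ⟨x, hx, rfl⟩; exact mul_mem (mul_mem d hx) (inv_mem d))
  obtain ⟨x, a1, a2, a3⟩ := exists_out hH hc ht Nat.prime_three h3
  obtain ⟨y, b1, b2, b3⟩ := exists_out hH hc (fun d => ht (inv_mem_iff.1 d)) Nat.prime_three h3
  have e : H.relIndex (H.map (MulAut.conj t).toMonoidHom) = 4 := by
    have u := card_mul_index ((H.map (MulAut.conj t).toMonoidHom).subgroupOf H)
    have v := card_mul_index (H.subgroupOf (H.map (MulAut.conj t).toMonoidHom))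
    rw [← inf_subgroupOf_right, Nat.card_congr (subgroupOfEquivOfLe inf_le_right).toEquiv, inf_subgroupOf_right] at u v
    rw [card_map_of_injective (MulAut.conj t).injective, ← u, inf_comm] at v
    exact (Nat.eq_of_mul_eq_mul_left Nat.card_pos v).trans h
  have o := norm4 e (x := t * y * t⁻¹) ⟨y, b1, rfl⟩ (by rw [conj_pow, b2]; simp) fun d => b3 ⟨_, d, by simp [mul_assoc]⟩
  rw [inf_comm] at o
  exact eq_bot_iff.2 ((H1.le_pCoreOf a (fun g hg => H2.mem_normalizer_of_conj_mem (c g hg.1)) b).trans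
    (bot_of hH hc ((map_subtype_le _).trans inf_le_left) (norm4 h a1 a2 a3) fun d => n (o.trans d)).le)

theorem wg : WG.{u} := fun G _ _ N H r hN hs na hC hH nH h0 hr hF => by
  have := Fact.mk hr
  obtain ⟨Q, hQ⟩ : ∃ Q, Q = (pCore r H).map H.subtype := ⟨_, rfl⟩
  have q0 : Q ≤ H := hQ ▸ map_subtype_le _
  have q1 : H ⊓ centralizer (Q : Set G) ≤ Q := by
    have := H1.inf_centralizer_gfOf_le H
    rwa [hF, ← hQ] at this
  have q2 : H ≤ normalizer (Q : Set G) := hQ ▸ H1.le_normalizer_pCoreOf H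
  have q3 : IsPGroup r Q := hQ ▸ H1.pCoreOf_isPGroup H
  have n0 : ∀ X : Subgroup G, X ≤ normalizer (N : Set G) := fun X => le_top.trans (normalizer_eq_top N).ge
  have m : ∀ X ≤ N, X.Normal → X = ⊥ ∨ X = N := fun X a b => (hs.2 (X.subgroupOf N) inferInstance).imp
    (fun c => by rwa [subgroupOf_eq_bot, disjoint_iff, inf_eq_left.2 a] at c) fun c => le_antisymm a (subgroupOf_eq_top.1 c)
  have m' : ∀ X ≤ N, H ≤ normalizer (X : Set G) → X ≤ H ∨ X = N := fun X a b => or_iff_not_imp_left.2 fun c =>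
    (m X a (normal_of hH b fun d => c (le_normalizer.trans d))).resolve_left fun d => c (d ▸ bot_le)
  have s1 : H ⊓ N ≠ ⊥ := fun c => by
    have c1 : N ⊓ centralizer (Q : Set G) = ⊥ := (m' _ inf_le_left (H2.le_normalizer_inf (n0 H) (H2.le_normalizer_centralizer q2))).elim
      (fun d => eq_bot_iff.2 (c ▸ le_inf d inf_le_left)) fun d => (h0 (eq_bot_iff.2 fun x hx => by
        have : Q = ⊥ := eq_bot_iff.2 (hC ▸ le_centralizer_iff.1 (inf_eq_left.1 d))
        subst this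
        exact q1 ⟨hx, fun y hy => by rw [show y = 1 from hy]; simp⟩)).elim
    have c2 : ¬ r ∣ Nat.card N := fun d => by
      let := MulAction.compHom N ((MulAut.conjNormal (H := N)).comp Q.subtype)
      obtain ⟨x, a, b⟩ := q3.exists_fixed_point_of_prime_dvd_card_of_fixed_point N d (a := 1) fun g => map_one (MulAut.conjNormal g.1)
      exact b (Subtype.ext (c1.le ⟨x.2, fun g hg => mul_inv_eq_iff_eq_mul.1 (congrArg Subtype.val (a ⟨g, hg⟩))⟩).symm)
    have c3 := (H2.coprime_card_of_isPGroup q3 (hr.coprime_iff_not_dvd.2 c2).symm).symm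
    obtain ⟨l, hl, d⟩ := Nat.exists_prime_and_dvd (Finite.one_lt_card (α := N)).ne'
    have := Fact.mk hl
    obtain ⟨T, t1, t2, t3, t4⟩ := H2.exists_invariant_sylow (n0 Q) c3 (.inl (H2.isSolvable_of_isPGroup q3)) l
    refine (m' T t1 fun g hg => H2.mem_normalizer_of_conj_mem fun x hx => ?_).elim (fun e => t3 ?_) fun e => na ?_
    · obtain ⟨z, z1, z2⟩ := H2.exists_centralizer_conj_le_sylow (n0 Q) c3 (.inl (H2.isSolvable_of_isPGroup q3))
        (H2.conj_smul_le_of_mem_normalizer t1 (n0 H hg)) (H2.isPGroup_conj_smul t2 g) (by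
          rw [H2.normalizer_conj_smul, ← H2.conj_smul_eq_iff.2 (q2 hg)]
          exact pointwise_smul_le_pointwise_smul_iff.2 t4) t1 t2 t3 t4
      rw [show z = 1 from c1.le z1, map_one, one_smul] at z2
      exact z2 (smul_mem_pointwise_smul _ _ _ hx)
    · rwa [show T = ⊥ from eq_bot_iff.2 (c ▸ le_inf e t1), relIndex_bot_left]
    · subst e
      have := t2.center_nontrivial
      exact ⟨⟨fun x y => (mem_center_iff.1 (((hs.2 _ inferInstance).resolve_left ((nontrivial_iff_ne_bot _).1 this)).ge trivial) x)⟩⟩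
  have k : ∀ x ∈ H ⊓ N, ∀ q ∈ Q, q * x * q⁻¹ * x⁻¹ ∈ Q ⊓ N := fun x hx q hq =>
    mem_inf.2 ⟨by simpa only [mul_assoc] using mul_mem hq ((mem_normalizer_iff.1 (q2 hx.1) _).1 (inv_mem hq)),
      mul_mem (hN.conj_mem x hx.2 q) (N.inv_mem hx.2)⟩
  have s2 : Q ⊓ N ≠ ⊥ := fun c => s1 (eq_bot_iff.2 fun x hx => c.le ⟨q1 ⟨hx.1, fun q hq => by
    have : _ = (1 : G) := c.le (k x hx q hq)
    rwa [mul_inv_eq_one, mul_inv_eq_iff_eq_mul] at this⟩, hx.2⟩)
  have r1 := H2.le_normalizer_inf q2 (n0 H)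
  have s3 : normalizer ((Q ⊓ N : Subgroup G) : Set G) ≤ H := by_contra fun c =>
    nH ((((m _ inf_le_right (normal_of hH r1 c)).resolve_left s2).ge.trans inf_le_left).trans q0)
  have s4 : N ⊓ centralizer ((Q ⊓ N : Subgroup G) : Set G) ≤ H := inf_le_right.trans ((centralizer_le_normalizer _).trans s3)
  refine ⟨Q ⊓ N, inf_le_inf_right _ q0, q3.to_inf_left, s2, fun g hg x => (mem_normalizer_iff.1 (r1 hg) x).1, fun x hx c =>
    ⟨hQ.ge (H1.le_pCoreOf s4 (H2.le_normalizer_inf (n0 H) (H2.le_normalizer_centralizer r1)) (.of_card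
      (Nat.eq_prime_pow_of_unique_prime_dvd Nat.card_pos.ne' fun {d} hd e => by_contra fun f => ?_)) ⟨hx, fun y hy => (c y hy).symm⟩),
      hx⟩, fun x c => s3 (H2.mem_normalizer_of_conj_mem c)⟩
  have := Fact.mk hd
  obtain ⟨y, hy⟩ := exists_prime_orderOf_dvd_card' d e
  rw [← orderOf_coe] at hy
  have y1 : y.1 ∈ Q := q1 ⟨s4 y.2, H2.le_centralizer_of_stable (A := zpowers y.1) (N := Q ⊓ N) (H2.coprime_card_of_isPGroup q3.to_inf_left
    (by rw [Nat.card_zpowers, hy]; exact (Nat.coprime_primes hd hr).2 f)) (zpowers_le.2 y.2.2) (commutator_le.2 fun q hq z hz =>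
      k z ⟨s4 (zpowers_le.2 y.2 hz), (zpowers_le.2 y.2 hz).1⟩ q hq) (mem_zpowers _)⟩
  obtain ⟨j, hj⟩ := q3 ⟨_, y1⟩
  exact f ((Nat.prime_dvd_prime_iff_eq hd hr).1 (hd.dvd_of_dvd_pow (hy ▸ orderOf_dvd_of_pow_eq_one (congrArg Subtype.val hj))))

end H29.SB
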