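/-
S3694, chunks `E3o`, `E3t`.
-/
import Cfsg.Agent.H29.SB2

set_option autoImplicit false
set_option linter.unusedSectionVars false
set_option linter.unusedVariables false

namespace H29.SB
open Matrix H22.SB Function
open Polynomial hiding smul_pow

universe u

theorem det_orth {R ι : Type} [CommRing R] [DecidableEq ι] {n : ℕ} {E : ι → Mat n R} (h : ∀ i j, i ≠ j → E i * E j = 0) (f : ι → R)
    (s : Finset ι) : (1 + ∑ i ∈ s, f i • E i).det = ∏ i ∈ s, (1 + f i • E i).det := by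
  induction s using Finset.induction_on with
  | empty => simp
  | insert j s hj ih =>
    rw [Finset.sum_insert hj, Finset.prod_insert hj, ← ih, ← det_mul, add_mul, one_mul, mul_add, mul_one, Finset.mul_sum,
      Finset.sum_eq_zero (s := s) (f := fun i => f j • E j * f i • E i) fun i hi => by
        rw [smul_mul_smul_comm, h j i (by rintro rfl; exact hj hi), smul_zero]]
    congr 1; abel

section
variable {K : Type} [Field K] {n r : ℕ} [Fact r.Prime] (ψ : AddChar (ZMod r) K) (w : Mat n K)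

/-- eigenspace projections -/
noncomputable def pj (i : ZMod r) : Mat n K := (r : K)⁻¹ • ∑ j, ψ (-(i * j)) • w ^ j.val

variable {ψ w} (hψ : ψ.IsPrimitive) (hr : (r : K) ≠ 0) (hw : w ^ r = 1)

include hw in
theorem w_add (i j : ZMod r) : w ^ (i + j).val = w ^ i.val * w ^ j.val := by rw [ZMod.val_add, ← pow_eq_pow_mod _ hw, pow_add]

include hw in
theorem w_pj (k i : ZMod r) : w ^ k.val * pj ψ w i = ψ (i * k) • pj ψ w i := by
  rw [pj, mul_smul_comm, smul_comm (ψ _)]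
  congr 1
  rw [Finset.mul_sum, Finset.smul_sum, ← Equiv.sum_comp (Equiv.addLeft k) (fun j => ψ (i * k) • ψ (-(i * j)) • w ^ j.val)]
  refine Finset.sum_congr rfl fun j _ => ?_
  rw [mul_smul_comm, smul_smul, ← AddChar.map_add_eq_mul, Equiv.coe_addLeft, w_add hw]
  congr 2; ring

include hψ hr in
theorem sum_pj : ∑ i, pj ψ w i = 1 := by
  simp only [pj, ← Finset.smul_sum]
  rw [Finset.sum_comm]
  simp only [← Finset.sum_smul, ← mul_neg, AddChar.sum_mulShift _ hψ, neg_eq_zero, ZMod.card]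
  rw [Finset.sum_eq_single 0 (fun j _ h => by simp [h]) (by simp)]
  simp [smul_smul, hr]

include hψ hr hw in
theorem pj_pj (i k : ZMod r) : pj ψ w i * pj ψ w k = if i = k then pj ψ w k else 0 := by
  rw [pj, smul_mul_assoc, Finset.sum_mul]
  simp only [smul_mul_assoc, w_pj hw, smul_smul, ← AddChar.map_add_eq_mul, ← Finset.sum_smul,
    show ∀ j, -(i * j) + k * j = j * (k - i) from fun j => by ring, AddChar.sum_mulShift _ hψ, sub_eq_zero, ZMod.card, eq_comm (a := k)]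
  split_ifs <;> simp [hr]

theorem pj_y {y : Mat n K} {b : ZMod r} (h : w * y = ψ b • (y * w)) (i : ZMod r) : pj ψ w (i + b) * y = y * pj ψ w i := by
  have a : ∀ j : ℕ, w ^ j * y = ψ b ^ j • (y * w ^ j) := fun j => by
    induction j with
    | zero => simp
    | succ j ih => rw [pow_succ', mul_assoc, ih, mul_smul_comm, ← mul_assoc, h, smul_mul_assoc, smul_smul, mul_assoc, pow_succ (ψ b)]
  rw [pj, pj, smul_mul_assoc, mul_smul_comm, Finset.sum_mul, Finset.mul_sum]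
  refine congrArg _ (Finset.sum_congr rfl fun j _ => ?_)
  rw [smul_mul_assoc, a, mul_smul_comm, smul_smul, ← AddChar.map_nsmul_eq_pow, ← AddChar.map_add_eq_mul, nsmul_eq_mul,
    ZMod.natCast_zmod_val]
  congr 2; ring

include hψ hr hw in
theorem sum_mul_sum (f g : ZMod r → K) : (∑ i, f i • pj ψ w i) * ∑ i, g i • pj ψ w i = ∑ i, (f i * g i) • pj ψ w i := by
  simp [Finset.sum_mul, Finset.mul_sum, pj_pj hψ hr hw, smul_smul, mul_comm]

include hψ hr hw in
theorem det_pj (h : ∀ b, ∃ y : Mat n K, y.det ≠ 0 ∧ w * y = ψ b • (y * w)) (f : ZMod r → K) :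
    (∑ i, f i • pj ψ w i).det = ∏ i, f i ^ (n / r) := by
  have o : ∀ i j, i ≠ j → pj ψ w i * pj ψ w j = 0 := fun i j e => by rw [pj_pj hψ hr hw, if_neg e]
  let g : ZMod r → K[X] := fun i => (1 + (X - 1 : K[X]) • (pj ψ w i).map C).det
  have g1 : ∀ i t, (g i).eval t = (1 + (t - 1) • pj ψ w i).det := fun i t => ((evalRingHom t).map_det _).trans (congrArg det (by
    ext a b; by_cases e : a = b <;> simp [e]))
  have g2 : ∀ i, g i = g 0 := fun i => by
    obtain ⟨y, y1, y2⟩ := h i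
    have := congrArg (·.map C) (pj_y y2 0)
    simp only [Matrix.map_mul, zero_add] at this
    refine mul_right_cancel₀ (b := (y.map C).det) (((C (R := K)).map_det y).symm.trans_ne (by simpa using y1)) ?_
    rw [← det_mul, mul_comm, ← det_mul, add_mul, mul_add, smul_mul_assoc, mul_smul_comm, this, one_mul, mul_one]
  have g3 : g 0 ^ r = X ^ n := by
    have := det_orth (E := fun i => (pj ψ w i).map C) (fun i j e => by rw [← Matrix.map_mul, o i j e]; simp)
      (fun _ => (X - 1 : K[X])) Finset.univ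
    rw [← Finset.smul_sum, show ∑ i, (pj ψ w i).map C = 1 from (map_sum (C (R := K)).mapMatrix _ _).symm.trans (by
      rw [sum_pj hψ hr, map_one]), sub_smul, one_smul, add_sub_cancel, det_smul, det_one, mul_one, Fintype.card_fin] at this
    rw [this, Finset.prod_congr rfl fun i _ => g2 i]; simp
  have r0 := (Fact.out : r.Prime).pos
  obtain ⟨m, -, u, hu⟩ := (dvd_prime_pow prime_X n).1 (g3 ▸ dvd_pow_self (g 0) r0.ne')
  obtain ⟨c, -, hc⟩ := isUnit_iff.1 u.isUnit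
  have c1 : c = 1 := by simpa [← hc, g1] using congrArg (Polynomial.eval 1) hu
  rw [← hc, c1, map_one, mul_one] at hu
  obtain rfl : m * r = n := by simpa [hu, ← pow_mul] using congrArg natDegree g3
  have := det_orth o (fun i => f i - 1) Finset.univ
  simp only [← g1, g2 _, hu, eval_pow, eval_X] at this
  rw [Nat.mul_div_cancel _ r0, ← this, ← sum_pj (w := w) hψ hr, ← Finset.sum_add_distrib]
  simp [sub_smul]

end

variable {F : Type} [Field F] [Fintype F] {n : ℕ} {Φ : Fm F} {G : Type u} [Group G] [Finite G] {X : Cx Φ G n} (E : Ex X)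

theorem tr_of {c : ZMod X.r} {d κ : F} (h : ∀ v, E.Gd v → ∃ τ : GL (Fin n) F, τ.1.det = d ∧ (Φ.u → Φ.adj τ.1 * τ = κ • 1) ∧
    ∀ y ∈ X.R, ∃ y' ∈ X.R, E.ν y' = tv E.β c v (E.ν y) ∧ ∃ a : F, τ * mt y = a • (mt y' * τ)) : E.Tr c := fun v v₀ hv h0 => by
  obtain ⟨τ, a1, a2, a3⟩ := h v hv
  obtain ⟨τ', b1, b2, b3⟩ := h v₀ h0
  let m : Φ.S (Fin n) := ⟨τ * τ'⁻¹, Φ.mem_S.2 ⟨fun u => by
    rw [Units.val_mul, Φ.adj_mul, mul_assoc, ← mul_assoc (Φ.adj τ.1), a2 u, ← b2 u, mul_assoc, Units.mul_inv, mul_one, ← Φ.adj_mul,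
      Units.mul_inv, Φ.adj_one], by rw [Units.val_mul, det_mul, a1, ← b1, ← det_mul, Units.mul_inv, det_one]⟩⟩
  have a : ∀ y ∈ X.R, ∃ y' ∈ X.R, E.ν y' = tv E.β c v (tv E.β (-c) v₀ (E.ν y)) ∧ ∃ a : F, mt (m * y * m⁻¹) = a • mt y' := fun y hy => by
    obtain ⟨y1, c1, c2⟩ := E.νs (tv E.β (-c) v₀ (E.ν y))
    obtain ⟨y2, d1, d2, s, d3⟩ := b3 y1 c1
    obtain ⟨y', e1, e2, t, e3⟩ := a3 y1 c1
    obtain ⟨b, -, hb⟩ := nu_eq E d1 hy (by simp [d2, c2, tv, E.alt])
    rw [hb, smul_mul_assoc, smul_smul] at d3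
    have := X.ne
    have s0 : s * b ≠ 0 := fun e => (τ' * y1.1).ne_zero (by rw [e, zero_smul] at d3; exact d3)
    refine ⟨y', e1, c2 ▸ e2, (s * b)⁻¹ * t, ?_⟩
    rw [mul_smul, eq_inv_smul_iff₀ s0]
    change _ • ((τ * τ'⁻¹).1 * H22.SB.mt y * (τ * τ'⁻¹)⁻¹.1) = _
    rw [_root_.mul_inv_rev, inv_inv, Units.val_mul, Units.val_mul, mul_assoc, ← mul_smul_comm, ← mul_assoc (H22.SB.mt y), ← smul_mul_assoc,
      ← d3, mul_assoc, mul_assoc τ'.1, Units.inv_mul_cancel_left, ← mul_assoc, e3, smul_mul_assoc, Units.mul_inv_cancel_right]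
  exact ⟨m, X.NM m fun y hy => (a y hy).elim fun _ ⟨b, _, _, c⟩ => X.mem_R_of_smul b c,
    fun y hy => (a y hy).elim fun _ ⟨b, d, _, c⟩ => (nu_of E b c).trans d⟩

theorem ex_y {x : Φ.S (Fin n)} (hx : x ∈ X.R) (h : E.ν x ≠ 0) (b : ZMod X.r) : ∃ y ∈ X.R, E.β (E.ν x) (E.ν y) = b := by
  obtain ⟨u, hu⟩ := not_forall.1 fun c => h (E.nd _ c)
  obtain ⟨y, hy, e⟩ := E.νs ((b / E.β (E.ν x) u) • u)
  exact ⟨y, hy, by rw [e, map_smul, smul_eq_mul, div_mul_cancel₀ _ hu]⟩

theorem nu_pow {x : Φ.S (Fin n)} (hx : x ∈ X.R) (j : ℕ) : E.ν (x ^ j) = (j : ZMod X.r) • E.ν x := by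
  induction j with
  | zero => simp [nu_one]
  | succ j ih => rw [pow_succ, E.νm _ (pow_mem hx j) _ hx, ih, Nat.cast_succ, add_smul, one_smul]

theorem adj_inv (u : Φ.u) (x : Φ.S (Fin n)) {a : F} (ha : Φ.Mu a) : Φ.adj (a • mt x) * (a • mt x) = 1 := by
  rw [Φ.adj_smul, mt_adj u, smul_mul_smul_comm, mt_inv_mul, mul_comm, (Φ.mu_U u).1 ha, one_smul]

theorem e3o : E3o.{u} := fun F _ _ Φ G _ _ n X E h2 => by
  let ψ := AddChar.zmodChar X.r E.hζ.pow_eq_one
  have hψ : ψ.IsPrimitive := AddChar.zmodChar_primitive_of_primitive_root _ E.hζ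
  have hr : (X.r : F) ≠ 0 := E.hζ.neZero'.1
  have m : ∀ i, Φ.Mu (ψ i) := fun i => E.ζm.pow _
  have t : (2 : ZMod X.r) ≠ 0 := fun c => h2 ((Nat.prime_dvd_prime_iff_eq X.rp Nat.prime_two).1
    ((ZMod.natCast_eq_zero_iff 2 X.r).1 (by exact_mod_cast c)))
  refine ⟨-1, by simp, tr_of E (d := ∏ i, ψ (i ^ 2 / 2) ^ (n / X.r)) (κ := 1) ?_⟩
  rintro _ ⟨h0, x, hx, rfl, a, a1, hw⟩
  rw [if_neg h2] at hw
  have k : ∀ y ∈ X.R, a • mt x * mt y = ψ (E.β (E.ν x) (E.ν y)) • (mt y * a • mt x) := fun y hy => by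
    rw [smul_mul_assoc, E.cm x hx y hy, mul_smul_comm, smul_comm]; rfl
  have d := det_pj hψ hr hw (fun b => (ex_y E hx h0 b).elim fun y c => ⟨mt y, by simp [mt_det], c.2 ▸ k y c.1⟩) fun i => ψ (i ^ 2 / 2)
  refine ⟨Fm.mkG _ (d.trans_ne (Finset.prod_ne_zero_iff.2 fun i _ => pow_ne_zero _ (m _).ne)), d, fun u => ?_, fun y hy =>
    ⟨y * x ^ (E.β (E.ν x) (E.ν y)).val, mul_mem hy (pow_mem hx _), ?_,
      ψ (E.β (E.ν x) (E.ν y) ^ 2 / 2) * a ^ (E.β (E.ν x) (E.ν y)).val, ?_⟩⟩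
  · have c : ∀ i, Φ.c (ψ i) = ψ (-i) := fun i => mul_left_cancel₀ (m i).ne (by
      rw [(Φ.mu_U u).1 (m i), ← AddChar.map_add_eq_mul, add_neg_cancel, AddChar.map_zero_eq_one])
    have w : ∀ j : ZMod X.r, Φ.adj ((a • mt x) ^ j.val) = (a • mt x) ^ (-j).val := fun j => by
      have e : Φ.adj ((a • mt x) ^ j.val) * (a • mt x) ^ j.val = 1 := by
        induction j.val with
        | zero => simp [Φ.adj_one]
        | succ i ih => rw [pow_succ, Φ.adj_mul, mul_assoc, ← mul_assoc _ _ (a • H22.SB.mt x), ih, one_mul, adj_inv u x a1]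
      rw [← mul_one (Φ.adj _), show (1 : Mat n F) = (a • mt x) ^ (j + -j).val by simp, w_add hw, ← mul_assoc, e, one_mul]
    have p : ∀ i, Φ.adj (pj ψ (a • mt x) i) = pj ψ (a • mt x) i := fun i => by
      rw [pj, Φ.adj_smul, Φ.adj_sum, map_inv₀, map_natCast, ← Equiv.sum_comp (Equiv.neg _)]
      simp [Φ.adj_smul, c, w]
    rw [Fm.coe_mkG, Φ.adj_sum]
    simp only [Φ.adj_smul, p, c]
    rw [sum_mul_sum hψ hr hw]
    simp [← AddChar.map_add_eq_mul, sum_pj hψ hr]
  · rw [E.νm _ hy _ (pow_mem hx _), nu_pow E hx, ZMod.natCast_zmod_val, tv, skew E (E.ν x)]; simp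
  · rw [Fm.coe_mkG, mt_mul, mt_pow, mul_smul, mul_assoc, ← mul_smul_comm (a ^ _), ← smul_mul_assoc (a ^ _), ← smul_pow, Finset.sum_mul,
      ← Equiv.sum_comp (Equiv.addRight (E.β (E.ν x) (E.ν y))), Finset.mul_sum, Finset.mul_sum, Finset.smul_sum]
    refine Finset.sum_congr rfl fun i _ => ?_
    rw [Equiv.coe_addRight, smul_mul_assoc, pj_y (k y hy), mul_smul_comm, w_pj hw, mul_smul_comm, mul_smul_comm, smul_smul, smul_smul,
      ← AddChar.map_add_eq_mul, ← AddChar.map_add_eq_mul]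
    congr 2; field_simp; ring

theorem zm2 : ∀ b : ZMod 2, b = 0 ∨ b = 1 := by decide

theorem e3t : E3t.{u} := fun F _ _ Φ G _ _ n X E e => by
  have hr : (X.r : F) ≠ 0 := E.hζ.neZero'.1
  have h2 : (2 : F) ≠ 0 := by simpa [e] using hr
  have ζ : E.ζ = -1 := IsPrimitiveRoot.eq_neg_one_of_two_right (e ▸ E.hζ)
  refine tr_of E (d := 2 ^ (n / 2)) (κ := 2) ?_
  rintro _ ⟨h0, x, hx, rfl, a, a1, hw⟩
  rw [if_pos e, e, sq] at hw
  have k : ∀ y ∈ X.R, a • mt x * mt y = (-1 : F) ^ (E.β (E.ν x) (E.ν y)).val • (mt y * a • mt x) := fun y hy => by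
    rw [smul_mul_assoc, E.cm x hx y hy, mul_smul_comm, smul_comm, ζ]
  have d : (1 + a • mt x).det = 2 ^ (n / 2) := by
    let j := algebraMap F (AlgebraicClosure F)
    obtain ⟨i, hi⟩ := IsAlgClosed.exists_eq_mul_self (-1 : AlgebraicClosure F)
    have j1 : (2 : AlgebraicClosure F) ≠ 0 := map_ofNat j 2 ▸ (_root_.map_ne_zero j).2 h2
    have := Fact.mk Nat.prime_two
    have hζ : IsPrimitiveRoot (-1 : AlgebraicClosure F) 2 := by simpa [ζ, e] using E.hζ.map_of_injective j.injective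
    have hψ := AddChar.zmodChar_primitive_of_primitive_root _ hζ
    obtain ⟨y, y1, y2⟩ := ex_y E hx h0 1
    have w : (i • j.mapMatrix (a • mt x)) ^ 2 = 1 := by rw [smul_pow, ← map_pow, sq, sq, hw, ← hi, map_neg, map_one]; simp
    have := det_pj hψ (by exact_mod_cast j1) w (fun b => by
      obtain rfl | rfl := zm2 b
      · exact ⟨1, by simp, by rw [AddChar.map_zero_eq_one, one_smul, one_mul, mul_one]⟩
      · refine ⟨j.mapMatrix (mt y), by rw [← RingHom.map_det, mt_det, map_one]; exact one_ne_zero, ?_⟩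
        rw [smul_mul_assoc, ← map_mul, k y y1, y2, ZMod.val_one, pow_one, neg_one_smul, map_neg, map_mul, AddChar.zmodChar_apply,
          ZMod.val_one, pow_one, neg_one_smul, smul_neg, mul_smul_comm]) fun b => 1 - (-1) ^ b.val * i
    refine j.injective ?_
    rw [j.map_det, map_pow, map_ofNat, show (2 : AlgebraicClosure F) = (1 - i) * (1 + i) by linear_combination -hi, mul_pow]
    refine Eq.trans (congrArg det ?_) (this.trans ((Fin.prod_univ_two _).trans (by
      change (1 - (-1) ^ 0 * i) ^ _ * (1 - (-1) ^ 1 * i) ^ _ = _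
      simp)))
    have s : ∀ g : ZMod 2 → Mat n (AlgebraicClosure F), ∑ i, g i = g 0 + g 1 := fun g => Fin.sum_univ_two g
    rw [map_add, map_one]
    generalize j.mapMatrix (a • mt x) = z
    simp only [pj, s, AddChar.zmodChar_apply, mul_zero, mul_one, neg_zero, ZMod.val_zero, ZMod.val_one, pow_zero, pow_one,
      show (-1 : ZMod 2).val = 1 from rfl, Nat.cast_ofNat]
    match_scalars
    · field_simp; ring
    · field_simp; linear_combination -2 * hi
  refine ⟨Fm.mkG _ (d.trans_ne (pow_ne_zero _ h2)), d, fun u => ?_, fun y hy => ?_⟩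
  · have := adj_inv u x a1
    have b : Φ.adj (a • mt x) = -(a • mt x) := by
      rw [← mul_one (Φ.adj _), ← neg_neg (1 : Mat n F), ← hw, mul_neg, ← mul_assoc, this, one_mul]
    rw [Fm.coe_mkG, Φ.adj_add, Φ.adj_one, b, add_mul, mul_add, mul_add, neg_mul, neg_mul, hw, two_smul]
    simp
  · have := k y hy
    obtain c | c : E.β (E.ν x) (E.ν y) = 0 ∨ E.β (E.ν x) (E.ν y) = 1 := by
      generalize E.β (E.ν x) (E.ν y) = z
      have := z.val_lt
      rw [← ZMod.val_eq_zero, ← (ZMod.val_injective _).eq_iff, ZMod.val_one]; omega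
    · refine ⟨y, hy, by rw [tv, skew E (E.ν x), c]; simp, 1, ?_⟩
      rw [Fm.coe_mkG, add_mul, mul_add, this, c]; simp
    · refine ⟨y * x, mul_mem hy hx, ?_, -a, ?_⟩
      · have t : (2 : ZMod X.r) = 0 := by exact_mod_cast (ZMod.natCast_eq_zero_iff 2 X.r).2 e.dvd
        rw [E.νm _ hy _ hx, tv, skew E (E.ν x), c, show (1 : ZMod X.r) * -1 = 1 by linear_combination -t, one_smul]
      · rw [Fm.coe_mkG, add_mul, this, c, ZMod.val_one, mt_mul, neg_smul, ← smul_mul_assoc a, ← mul_smul_comm a (H22.SB.mt y), mul_add,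
          mul_one, mul_assoc, hw]
        simp

end H29.SB
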