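import Cfsg.Agent.H29.WellPlaced

/-! Local-to-global control by a pair `N(W Q)`, `C(V Q)`. -/

set_option autoImplicit false

namespace H29

open Cfsg Subgroup H28

variable {G : Type*} [Group G] {p : ℕ}

def X2 (W V : Subgroup G → Subgroup G) (H Q : Subgroup G) : Set G :=
  {x | x ∈ H ⊓ 𝐍 (W Q) ∨ x ∈ H ⊓ 𝐂 (V Q)}

def D2 (W V : Subgroup G → Subgroup G) (H Q : Subgroup G) : Subgroup G :=
  (Q ⊓ ⁅H ⊓ 𝐍 (W Q), H ⊓ 𝐍 (W Q)⁆) ⊔ (Q ⊓ ⁅H ⊓ 𝐂 (V Q), H ⊓ 𝐂 (V Q)⁆)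

def F2 (W V : Subgroup G → Subgroup G) (H Q : Subgroup G) : Prop :=
  ∀ A ≤ Q, ∀ h ∈ H, cj h A ≤ Q → Fus (X2 W V H Q) Q A h

variable {W V : Subgroup G → Subgroup G} {H Q S : Subgroup G}

theorem X2_inv {x : G} (h : x ∈ X2 W V H Q) : x⁻¹ ∈ X2 W V H Q :=
  h.imp (fun h => inv_mem h) (fun h => inv_mem h)

theorem X2_subset : X2 W V H Q ⊆ H := fun _ h => h.elim (fun h => h.1) (fun h => h.1)

theorem F2.conj (hW : IsConjugacyFunctor p W) (hV : IsConjugacyFunctor p V) (hQ : IsPGroup p Q)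
    (h : F2 W V H Q) (g : G) : F2 W V (cj g H) (cj g Q) := by
  intro A hA k hk hle
  have := (h (cj g⁻¹ A) (le_cj_iff.1 hA) (g⁻¹ * k * g) (mem_cj.1 hk) (by
    rw [cj_cj, show g⁻¹ * k * g * g⁻¹ = g⁻¹ * k by group, ← cj_cj]
    exact le_cj_iff.1 hle)).map (MulAut.conj g).toMonoidHom
  rw [cj_cj_inv] at this
  simp only [MulEquiv.coe_toMonoidHom, MulAut.conj_apply] at this
  rw [show g * (g⁻¹ * k * g) * g⁻¹ = k by group] at this
  refine this.mono ?_ le_rfl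
  rintro _ ⟨x, hx | hx, rfl⟩
  · left
    rw [functor_cj hW hQ, ← cj_normalizer, ← cj_inf]
    exact conj_mem_cj hx
  · right
    rw [functor_cj hV hQ, ← cj_centralizer, ← cj_inf]
    exact conj_mem_cj hx

theorem cj_D2 (hW : IsConjugacyFunctor p W) (hV : IsConjugacyFunctor p V) (hQ : IsPGroup p Q)
    (g : G) : cj g (D2 W V H Q) = D2 W V (cj g H) (cj g Q) := by
  simp only [D2, cj_sup, cj_inf, cj_commutator, cj_normalizer, cj_centralizer, functor_cj hW hQ,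
    functor_cj hV hQ]

theorem D2_le : D2 W V H Q ≤ Q ⊓ ⁅H, H⁆ :=
  sup_le (inf_le_inf_left _ (commutator_mono inf_le_left inf_le_left))
    (inf_le_inf_left _ (commutator_mono inf_le_left inf_le_left))

theorem mem_D2 (hW : IsConjugacyFunctor p W) (hQ : IsPGroup p Q) (hQH : Q ≤ H) {x : G} :
    x ∈ D2 W V H Q ↔ ∃ a ∈ Q ⊓ ⁅H ⊓ 𝐍 (W Q), H ⊓ 𝐍 (W Q)⁆,
      ∃ b ∈ Q ⊓ ⁅H ⊓ 𝐂 (V Q), H ⊓ 𝐂 (V Q)⁆, x = a * b := by
  have h1 : Q ≤ 𝐍 (H ⊓ 𝐍 (W Q)) :=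
    (le_inf hQH (le_normalizer_functor hW hQ)).trans le_normalizer
  rw [D2, mem_sup_of_le_normalizer' (inf_le_left.trans
    (le_normalizer_inf le_normalizer (le_normalizer_commutator h1 h1)))]
  simp only [eq_comm (a := x)]

theorem f2_iff : F2 W V H Q ↔ ∀ (X : Set G) (a : G), X ⊆ Q → a ∈ H →
    (fun x => a⁻¹ * x * a) '' X ⊆ Q → ∃ c ∈ H ⊓ centralizer X, ∃ (n : ℕ) (b : Fin n → G),
      (∀ i, b i ∈ H ⊓ 𝐍 (W Q) ∨ b i ∈ H ⊓ 𝐂 (V Q)) ∧ a = c * (List.ofFn b).prod ∧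
      ∀ k : ℕ, k ≤ n → (fun x => (((List.ofFn b).take k).prod)⁻¹ * x * ((List.ofFn b).take k).prod) ''
        ((fun x => c⁻¹ * x * c) '' X) ⊆ Q := by
  have key : ∀ (X : Set G) (c d : G), (fun x => d⁻¹ * x * d) '' ((fun x => c⁻¹ * x * c) '' X) ⊆ Q ↔
      cj (c * d)⁻¹ (closure X) ≤ Q := by
    intro X c d
    rw [cj_closure_le, Set.image_image]
    simp only [mul_inv_rev, inv_inv, mul_assoc]
  constructor
  · intro h X a hX ha hle
    obtain ⟨c, hc, l, hl, e, hT⟩ := fus_iff_list.1 (h (closure X) ((closure_le _).2 hX) a⁻¹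
      (inv_mem ha) (cj_closure_le.2 (by simpa using hle)))
    rw [inv_inv] at e
    have hl' : ∀ b ∈ l, b ∈ X2 W V H Q := fun b hb => by simpa using X2_inv (hl b hb)
    have hp : l.prod ∈ H := list_prod_mem fun b hb => X2_subset (hl' b hb)
    refine ⟨c, ⟨?_, by rwa [centralizer_closure] at hc⟩, l.length, l.get, fun i => ?_, ?_, fun k _ => ?_⟩
    · have := H.mul_mem ha (H.inv_mem hp)
      rwa [e, mul_inv_cancel_right] at this
    · exact hl' _ (List.get_mem _ _)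
    · rwa [List.ofFn_get]
    · rw [List.ofFn_get, key]; exact hT k
  · intro h A hA g hg hle
    obtain ⟨c, hc, n, b, hb, e, hT⟩ := h A g⁻¹ hA (inv_mem hg) (by simpa using cj_le_iff_image.1 hle)
    refine fus_iff_list.2 ⟨c, hc.2, List.ofFn b, fun x hx => ?_, e, fun k => ?_⟩
    · obtain ⟨i, rfl⟩ := List.mem_ofFn.1 hx
      exact X2_inv (hb i)
    · by_cases hk : k ≤ n
      · have := (key _ _ _).1 (hT k hk)
        rwa [closure_eq] at this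
      · have := (key _ _ _).1 (hT n le_rfl)
        rwa [closure_eq, List.take_of_length_le (by simp), ← List.take_of_length_le (i := k)
          (l := List.ofFn b) (by simp; omega)] at this

variable [hp : Fact p.Prime] [Finite G]

theorem centralizer_functor_le (hS : IsPGroup p S) (h0 : S ≠ ⊥)
    (hVmono : ∀ H K : Subgroup G, IsPGroup p H → IsPGroup p K → H ≠ ⊥ → K ≠ ⊥ →
      H ⊓ 𝐂 H ≤ K ⊓ 𝐂 K → V H ≤ V K) {U : Subgroup G} (hU : U ≤ S) :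
    𝐂 (V (S ⊓ 𝐍 U)) ≤ 𝐂 (V S) := by
  have h1 := center_le_center_normalizer hU
  refine centralizer_anti (hVmono _ _ hS hS.to_inf_left h0 (fun e => ?_) h1)
  exact center_ne_bot hS h0 (eq_bot_iff.2 (h1.trans (inf_le_left.trans e.le)))

theorem f2_of_local (hW : IsConjugacyFunctor p W) (hS : IsSylowIn p S H) (h0 : S ≠ ⊥)
    (hWZ : ∀ P : Subgroup G, IsPGroup p P → P ⊓ 𝐂 P ≤ W P)
    (hVmono : ∀ H K : Subgroup G, IsPGroup p H → IsPGroup p K → H ≠ ⊥ → K ≠ ⊥ →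
      H ⊓ 𝐂 H ≤ K ⊓ 𝐂 K → V H ≤ V K)
    (hloc : ∀ U, Ext p S H U → S ⊓ 𝐂 S ≤ U → F2 W V (H ⊓ 𝐍 U) (S ⊓ 𝐍 U)) : F2 W V H S := by
  have key := wp_induction (H := H) hW hS.isPGroup (S ⊓ 𝐂 S ≤ ·)
    (fun V' => ∀ B ≤ S ⊓ 𝐍 V', ∀ g ∈ H ⊓ 𝐍 V', cj g B ≤ S ⊓ 𝐍 V' → Fus (X2 W V H S) S B g)
    (fun U hU _ => (center_le_center_normalizer hU.ext.le).trans (hWZ _ hS.isPGroup.to_inf_left))
    (fun U hU hZ ih B hB g hg hle => by
      refine (hloc U hU.ext hZ B hB g hg hle).good (fusPred_fus _ _)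
        (X2_subset.trans inf_le_left)
        (fun B hB c hc => Fus.cent (hB.trans inf_le_left) hc.2) ?_ hg.1
      rintro B hB x (hx | hx) hle
      · rcases (inf_le_left : S ⊓ 𝐍 U ≤ S).lt_or_eq with hlt | e
        · have hn : S ⊓ 𝐍 U ≤ S ⊓ 𝐍 (W (S ⊓ 𝐍 U)) :=
            le_inf inf_le_left (le_normalizer_functor hW hS.isPGroup.to_inf_left)
          exact ih hlt B (hB.trans hn) x ⟨hx.1.1, hx.2⟩ (hle.trans hn)
        · rw [e] at hx hB hle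
          exact Fus.single hB (Or.inl ⟨hx.1.1, hx.2⟩) hle
      · exact Fus.single (hB.trans inf_le_left) (Or.inr ⟨hx.1.1,
          centralizer_functor_le hS.isPGroup h0 hVmono hU.ext.le hx.2⟩) (hle.trans inf_le_left))
  intro A hA
  refine alperin_centric hS (fusPred_fus _ _) (fun A hA c hc => Fus.cent hA hc.2) (WP p W S H) 0
    (fun T hT _ => ?_) (fun U hU _ hc _ _ g hg => ?_) A hA (Nat.zero_le _)
  · obtain ⟨h, hh, hE⟩ := exists_wp_conj hW hS (hS.isPGroup.to_le hT) (hT.trans hS.le)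
    exact ⟨h, hh, hE, hE.ext⟩
  · exact key U hU ((inf_le_inf_left _ (centralizer_anti hU.ext.le)).trans hc) U
      (le_inf_normalizer_self hU.ext.le) g hg
      (by rw [cj_eq_self hg.2]; exact le_inf_normalizer_self hU.ext.le)

theorem d2_of_local (hW : IsConjugacyFunctor p W) (hS : IsSylowIn p S H) (h0 : S ≠ ⊥)
    (hWZ : ∀ P : Subgroup G, IsPGroup p P → P ⊓ 𝐂 P ≤ W P)
    (hVmono : ∀ H K : Subgroup G, IsPGroup p H → IsPGroup p K → H ≠ ⊥ → K ≠ ⊥ →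
      H ⊓ 𝐂 H ≤ K ⊓ 𝐂 K → V H ≤ V K)
    (hloc : ∀ U, Ext p S H U → S ⊓ 𝐂 S ≤ U →
      (S ⊓ 𝐍 U) ⊓ ⁅H ⊓ 𝐍 U, H ⊓ 𝐍 U⁆ ≤ D2 W V (H ⊓ 𝐍 U) (S ⊓ 𝐍 U)) :
    S ⊓ ⁅H, H⁆ ≤ D2 W V H S := by
  have key := wp_induction (H := H) hW hS.isPGroup (S ⊓ 𝐂 S ≤ ·)
    (fun V' => (S ⊓ 𝐍 V') ⊓ ⁅H ⊓ 𝐍 V', H ⊓ 𝐍 V'⁆ ≤ D2 W V H S)
    (fun U hU _ => (center_le_center_normalizer hU.ext.le).trans (hWZ _ hS.isPGroup.to_inf_left))
    (fun U hU hZ ih => by
      refine (hloc U hU.ext hZ).trans (sup_le ?_ ?_)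
      · rcases (inf_le_left : S ⊓ 𝐍 U ≤ S).lt_or_eq with hlt | e
        · have hn : S ⊓ 𝐍 U ≤ S ⊓ 𝐍 (W (S ⊓ 𝐍 U)) :=
            le_inf inf_le_left (le_normalizer_functor hW hS.isPGroup.to_inf_left)
          exact le_trans (inf_le_inf hn (commutator_mono (inf_le_inf_right _ inf_le_left)
            (inf_le_inf_right _ inf_le_left))) (ih hlt)
        · rw [e]
          exact le_trans (inf_le_inf_left _ (commutator_mono (inf_le_inf_right _ inf_le_left)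
            (inf_le_inf_right _ inf_le_left))) le_sup_left
      · have h1 := inf_le_inf (inf_le_left : H ⊓ 𝐍 U ≤ H)
          (centralizer_functor_le hS.isPGroup h0 hVmono hU.ext.le)
        exact le_trans (inf_le_inf inf_le_left (commutator_mono h1 h1)) le_sup_right)
  refine focal_le_of_tGood hS fun A hA => ?_
  refine alperin_centric hS (fusPred_tGood _) (fun A _ c hc => tGood_of_mem_centralizer _ hc.2)
    (WP p W S H) 0 (fun T hT _ => ?_) (fun U hU _ hc _ _ g hg => ?_) A hA (Nat.zero_le _)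
  · obtain ⟨h, hh, hE⟩ := exists_wp_conj hW hS (hS.isPGroup.to_le hT) (hT.trans hS.le)
    exact ⟨h, hh, hE, hE.ext⟩
  · exact tGood_of_inf_le (key U hU ((inf_le_inf_left _ (centralizer_anti hU.ext.le)).trans hc))
      (le_inf_normalizer_self hU.ext.le) (le_inf_normalizer_self (hU.ext.le.trans hS.le)) hg
      (by rw [cj_eq_self hg.2]; exact le_inf_normalizer_self hU.ext.le)

omit [Finite G] in
theorem sylow_ne_bot' [Finite G] (hdiv : p ∣ Nat.card G) (P : Sylow p G) : (P : Subgroup G) ≠ ⊥ :=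
  fun e => P.not_dvd_index (by rw [e, index_bot]; exact hdiv)

end H29
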