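/-
S3123, chunks `N1`, `N2`, `O1`: models of the even-dimensional orthogonal groups.
-/
import Cfsg.Agent.H27.UA0
import Cfsg.Agent.H29.EF2

set_option autoImplicit false
set_option linter.unusedSectionVars false
set_option linter.unusedVariables false

namespace H29.UA
open Matrix H14 H14.RootSys H14.St H14.PreSt H14.St.Tw H11 Function H27.ID Cfsg H11.AS H20.EF H27.BL H27.LB H8.OmT H27.UA H29.EF

section
variable {m : ℕ} (hm : 2 ≤ m + 1) {F K ι H : Type} [Field F] [Field K] [IsAlgClosed K] [Algebra F K] [Fintype ι] [DecidableEq ι]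
  [Group H] (P : (ι → K) ≃ₗ[K] (Fin (m + 1) ⊕ Fin (m + 1) → K)) {Q : QuadraticForm F (ι → F)}

theorem lift (h2 : (2 : K) ≠ 0) (hP : ∀ v, qPlus (m + 1) K (P (algebraMap F K ∘ v)) = algebraMap F K (Q v)) {γ : H22.GamL ι F} {k : F}
    (hk : k ≠ 0) (h : H22.IsSS (H12.CForm.ofQuad Q) γ k) {τ : K →+* K} (hτ : ∀ c, τ (algebraMap F K c) = algebraMap F K (γ.right c)) :
    ∃ U : H12.orth (qPlus (m + 1) K), ∃ c : K, (∀ v, U.1 (τ ∘ P (algebraMap F K ∘ v)) = c • P (algebraMap F K ∘ H22.actV γ v)) ∧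
      Submodule.span K (Set.range fun v : ι → F => τ ∘ P (algebraMap F K ∘ v)) = ⊤ ∧
      ((∀ t, τ t = t) → γ.left.1.det = k ^ (m + 1) → LinearMap.det U.1.toLinearMap = 1) := by
  obtain ⟨c, hc⟩ := IsAlgClosed.exists_pow_nat_eq (algebraMap F K k)⁻¹ two_pos
  replace hc : c ^ 2 * algebraMap F K k = 1 := by rw [hc, inv_mul_cancel₀ (by simpa using hk)]
  have c0 : c ≠ 0 := by rintro rfl; simp at hc
  obtain ⟨P', hP'⟩ : ∃ P' : (ι → K) ≃ₗ[K] (Fin (m + 1) ⊕ Fin (m + 1) → K), ∀ w, P' (τ ∘ w) = τ ∘ P w :=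
    ⟨Matrix.toLin'OfInv (M := (LinearMap.toMatrix' P.symm.toLinearMap).map τ) (M' := (LinearMap.toMatrix' P.toLinearMap).map τ)
      (by rw [← Matrix.map_mul, ← LinearMap.toMatrix'_comp]; simp) (by rw [← Matrix.map_mul, ← LinearMap.toMatrix'_comp]; simp),
      fun w => funext fun i => (RingHom.map_mulVec τ _ w i).symm.trans (by simp)⟩
  let E := P'.symm ≪≫ₗ glEquiv (GeneralLinearGroup.map (algebraMap F K) γ.left) ≪≫ₗ P
  have e : ∀ v, E (τ ∘ P (algebraMap F K ∘ v)) = P (algebraMap F K ∘ H22.actV γ v) := fun v => by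
    change P (glEquiv _ (P'.symm _)) = _
    rw [← hP', LinearEquiv.symm_apply_apply, show τ ∘ algebraMap F K ∘ v = algebraMap F K ∘ H22.vmap γ.right v from
      funext fun i => hτ _]
    exact congrArg _ (funext fun c => (RingHom.map_mulVec (algebraMap F K) γ.left.1 _ c).symm)
  have s : Submodule.span K (Set.range fun v : ι → F => τ ∘ P (algebraMap F K ∘ v)) = ⊤ := eq_top_iff.2 fun x _ => by
    obtain ⟨w, rfl⟩ := P'.surjective x
    rw [pi_eq_sum_univ' w, map_sum]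
    exact sum_mem fun c _ => by
      rw [map_smul]
      exact Submodule.smul_mem _ _ (Submodule.subset_span ⟨Pi.single c 1, (hP' _).symm.trans (congrArg P' (funext fun d => by
        simp [Pi.single_apply]))⟩)
  have t : ∀ u v, QuadraticMap.polar (qPlus (m + 1) K) (P (algebraMap F K ∘ u)) (P (algebraMap F K ∘ v)) =
      algebraMap F K (QuadraticMap.polar Q u v) := fun u v => by
    rw [QuadraticMap.polar, QuadraticMap.polar, ← map_add, show algebraMap F K ∘ u + algebraMap F K ∘ v = algebraMap F K ∘ (u + v) from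
      funext fun i => (map_add _ _ _).symm, hP, hP, hP, map_sub, map_sub]
  have t' : ∀ x y, QuadraticMap.polar (qPlus (m + 1) K) (τ ∘ x) (τ ∘ y) = τ (QuadraticMap.polar (qPlus (m + 1) K) x y) :=
    fun x y => by simp [coe_qPlus, polar_quadFormPlus]
  let U := E ≪≫ₗ LinearEquiv.smulOfNeZero K _ c c0
  have p : (QuadraticMap.polarBilin (qPlus (m + 1) K)).compl₁₂ U.toLinearMap U.toLinearMap =
      QuadraticMap.polarBilin (qPlus (m + 1) K) := LinearMap.ext_on_range s fun u => LinearMap.ext_on_range s fun v => by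
    change QuadraticMap.polar _ (c • E _) (c • E _) = QuadraticMap.polar _ _ _
    rw [QuadraticMap.polar_smul_left, QuadraticMap.polar_smul_right, e, e, t, t', t, hτ,
      show QuadraticMap.polar Q _ _ = k * γ.right (QuadraticMap.polar Q u v) from h.B u v, map_mul, smul_eq_mul, smul_eq_mul]
    linear_combination hc * algebraMap F K (γ.right (QuadraticMap.polar Q u v))
  refine ⟨⟨U, H12.mem_orth.2 fun x => mul_left_cancel₀ h2 (by
    rw [← H12.polar_self', ← H12.polar_self']; exact LinearMap.congr_fun₂ p x x)⟩, c, fun v => congrArg (c • ·) (e v), s,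
    fun a hd => ?_⟩
  obtain rfl : P' = P := LinearEquiv.ext fun w => by
    have := hP' w
    rwa [show τ ∘ w = w from funext fun i => a _, show τ ∘ P w = P w from funext fun i => a _] at this
  have : LinearEquiv.det E = _ := (LinearEquiv.det_conj _ _).trans (det_glEquiv _)
  change LinearMap.det (c • E.toLinearMap) = 1
  rw [LinearMap.det_smul, ← LinearEquiv.coe_det, this, GeneralLinearGroup.val_det_apply,
    show (GeneralLinearGroup.map (algebraMap F K) γ.left).1 = (algebraMap F K).mapMatrix γ.left.1 from rfl,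
    ← RingHom.map_det, hd, map_pow, Module.finrank_fintype_fun_eq_card, H22.card_plus, pow_mul, ← mul_pow, hc, one_pow]

theorem mem_of (h2 : (2 : K) ≠ 0) (U : H12.orth (qPlus (m + 1) K)) (d : LinearMap.det U.1.toLinearMap = 1) :
    ∃ x : G0 hm K, ∀ v, x.1.1 *ᵥ v = U.1 v := by
  obtain ⟨x, hx, r⟩ := (map_G0 hm).ge ⟨_, so_eich (u := U) (qPlus_nondeg _) h2 (by simp; omega)
    ⟨Pi.single (.inl 0) 1, by simp, Q_single _⟩ d, rfl⟩
  exact ⟨⟨x, hx⟩, fun v => LinearEquiv.congr_fun r _⟩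

theorem mem_or (h2 : (2 : K) ≠ 0) (U : H12.orth (qPlus (m + 1) K)) : (∃ x : G0 hm K, ∀ v, x.1.1 *ᵥ v = U.1 v) ∨
    ∃ x : G0 hm K, ∀ v, x.1.1 *ᵥ (v ∘ sw) = U.1 v := by
  let d := LinearEquiv.det.comp (H12.orth (qPlus (m + 1) K)).subtype
  have a : d U ^ 2 = 1 := (H12.closure_reflSet (qPlus_nondeg _) (H12.notExc_of_two_ne_zero h2)).ge.trans ((Subgroup.closure_le
    ((powMonoidHom 2).comp d).ker).2 (by
      rintro _ ⟨w, hw, rfl⟩
      change d _ ^ 2 = 1
      rw [← map_pow, sq, H12.refl_mul_self, map_one])) (Subgroup.mem_top U)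
  have b : LinearMap.det U.1.toLinearMap ^ 2 = 1 := by simpa [d] using congrArg Units.val a
  refine (sq_eq_one_iff.1 b).imp (mem_of hm h2 U) fun c => ?_
  let w : Fin (m + 1) ⊕ Fin (m + 1) → K := Pi.single (.inl (Fin.last m)) 1 - Pi.single (.inr (Fin.last m)) 1
  have w1 : qPlus (m + 1) K w = -1 := by
    rw [H12.Q_sub, Q_single, Q_single, polar_single]; simp
  have w2 : ∀ v, (H12.refl (qPlus (m + 1) K) w).1 (v ∘ sw) = v := fun v => funext fun i => by
    rw [H12.refl_apply, w1, QuadraticMap.polar_sub_left, polar_single, polar_single]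
    rcases i with i | i <;> by_cases h : i = Fin.last m <;> simp [w, sw_eq, h]
  obtain ⟨x, hx⟩ := mem_of hm h2 (U * H12.refl _ w) (by
    change LinearMap.det (U.1.toLinearMap * (H12.refl _ w).1.toLinearMap) = 1
    rw [map_mul, c, H12.det_refl (by simp [w1])]; simp)
  exact ⟨x, fun v => by rw [hx, H12.orth_mul_apply, w2]⟩

theorem iq_of {C : H12.CForm (H12.quadType F) (ι → F)} (D : H22.FormData C H) {e : H →* G0 hm K}
    (he : ∀ s v, (e s).1.1 *ᵥ P (algebraMap F K ∘ v) = P (algebraMap F K ∘ ((D.ρ s).1 *ᵥ v))) (γ : H22.GamC C)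
    {θ : (Fin (m + 1) ⊕ Fin (m + 1) → K) → _} {σ : G0 hm K → G0 hm K} (hσ : ∀ g x, (σ g).1.1 *ᵥ θ x = θ (g.1.1 *ᵥ x)) {a : G0 hm K} {c : K}
    (ha : ∀ v, a.1.1 *ᵥ θ (P (algebraMap F K ∘ v)) = c • P (algebraMap F K ∘ H22.actV γ.1 v))
    (s : Submodule.span K (Set.range fun v : ι → F => θ (P (algebraMap F K ∘ v))) = ⊤) :
    Iq (QuotientGroup.mk' _) e (D.Th γ) a σ := fun y => by
  obtain ⟨y', hy⟩ := D.norm _ γ.2 y
  refine ⟨y', D.ind_iff.2 rfl y y' hy, eq_mul_inv_of_mul_eq (Subtype.ext (Units.ext (Matrix.toLin'.injective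
    (LinearMap.ext_on_range s fun v => ?_))))⟩
  rw [toLin'_apply, toLin'_apply, Subgroup.coe_mul, Subgroup.coe_mul, Units.val_mul, Units.val_mul, ← mulVec_mulVec, ← mulVec_mulVec,
    ha, mulVec_smul, he, hσ, he, ha, hy, H22.sdConj_mulVec]

theorem tw_vec {p : ℕ} [Fact p.Prime] [CharP K p] (A : (S0 hm K).Alg p) (j : ℕ) (g : G0 hm K) (x : _ → K) :
    ((A.tw j).σ g).1.1 *ᵥ (iterateFrobenius K p j ∘ x) = iterateFrobenius K p j ∘ (g.1.1 *ᵥ x) :=
  (congrArg (·.1 *ᵥ _) (DFunLike.congr_fun (hom_ext A.top (α := (G0 hm K).subtype.comp (A.tw j).σ)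
    (β := (GeneralLinearGroup.map (iterateFrobenius K p j)).comp (G0 hm K).subtype) fun s t => by
      rw [MonoidHom.comp_apply, MonoidHom.comp_apply, Alg.tw_x, Subgroup.subtype_apply, Subgroup.subtype_apply, S0_x, S0_x, Rep.map_x]
      rfl) g)).trans (funext fun i => (RingHom.map_mulVec _ _ _ i).symm)

variable {p : ℕ} [Fact p.Prime] [CharP K p] (h0 : p ≠ 2) (hP : ∀ v, qPlus (m + 1) K (P (algebraMap F K ∘ v)) = algebraMap F K (Q v))
  (D : H22.FormData (H12.CForm.ofQuad Q) H) {e : H →* G0 hm K}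
  (he : ∀ s v, (e s).1.1 *ᵥ P (algebraMap F K ∘ v) = P (algebraMap F K ∘ ((D.ρ s).1 *ᵥ v)))
include h0 hP he

theorem iq_id (g : H22.GSim (H12.CForm.ofQuad Q)) {k : F} (hk : k ≠ 0) (h : H22.IsSS (H12.CForm.ofQuad Q) (.inl g.1) k)
    (d : g.1.1.det = k ^ (m + 1)) : ∃ a, Iq (QuotientGroup.mk' _) e (D.ThS g) a id := by
  have h2 : (2 : K) ≠ 0 := Ring.two_ne_zero (by rwa [ringChar.eq _ p])
  obtain ⟨U, c, a1, a2, a3⟩ := lift P h2 hP hk h (τ := .id K) fun _ => rfl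
  obtain ⟨x, hx⟩ := mem_of hm h2 U (a3 (fun _ => rfl) d)
  exact ⟨x, iq_of hm P D he (H22.iS _ g) (θ := id) (fun _ _ => rfl) (fun v => (hx _).trans (a1 v)) a2⟩

theorem iq_tw [Finite F] [CharP F p] (A : (S0 hm K).Alg p) (γ : H22.GamC (H12.CForm.ofQuad Q)) :
    ∃ a, ∃ T : (S0 hm K).Tw, ∃ j, Un p T j ∧ Iq (QuotientGroup.mk' _) e (D.Th γ) a T.σ := by
  have h2 : (2 : K) ≠ 0 := Ring.two_ne_zero (by rwa [ringChar.eq _ p])
  obtain ⟨k, hk, h⟩ := γ.2
  obtain ⟨j, hj⟩ := exists_frob (r := p) γ.1.right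
  obtain ⟨U, c, a1, a2, -⟩ := lift P h2 hP hk h (τ := iterateFrobenius K p j) fun c => by rw [hj, map_pow, iterateFrobenius_def]
  obtain ⟨x, hx⟩ | ⟨x, hx⟩ := mem_or hm h2 U
  · exact ⟨x, _, j, un_tw A j, iq_of hm P D he γ (tw_vec hm A j) (fun v => (hx _).trans (a1 v)) a2⟩
  refine ⟨x, T hm (iterateFrobenius K p j), j, fun s t => by simp [T, iterateFrobenius_def], iq_of hm P D he γ (θ := τ _)
    (fun g => σ0_mulVec _ g.1) (fun v => (hx _).trans (a1 v)) ?_⟩
  have := congrArg (Submodule.map (LinearEquiv.funCongrLeft K K (sw (m := m))).toLinearMap) a2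
  rwa [Submodule.map_span, ← Set.range_comp, Submodule.map_top, LinearEquiv.range] at this

end

variable {F : Type} [Field F] [Fintype F] {p m : ℕ} [Fact p.Prime] [CharP F p]

theorem mo_of {ι κ : Type} [Fintype κ] [DecidableEq κ] [Fintype ι] [DecidableEq ι] {R : RootSys ι κ} {C : Chev R}
    {K G H : Type} [Field K] [Group G] [Group H] {S : St C K G} {Φ : S.Fr} {q : ℕ} [CharP K p] [IsAlgClosed K] {e : H →* G}
    (a : Hy Φ p q) (b : Em p Φ e) : Mo Φ p e (QuotientGroup.mk' (Subgroup.center H)) :=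
  ⟨Wk.sw ⟨a.alg, a.ok⟩ fun r hr => Aut.pos_of_support a.aut hr fun j _ => (a.smp j).elim fun i c => c ▸ R.pos_simple i, a.conn, b,
    QuotientGroup.mk'_surjective _, QuotientGroup.ker_mk' _⟩

theorem n1 : N1 := fun F _ _ p _ _ h0 m a b hm hab hs => by
  obtain ⟨K, _, _, _, _, Φ, e, φ, ω, c1, c2, w0, w1, w2, P⟩ := model h0 hm hab (by omega)
  have := Fact.mk Nat.prime_two
  have h2 : 2 ≤ m := by omega
  have := (H22.minusData hab h2).finite
  refine ⟨_, _, _, _, _, _, _, _, K, _, _, _, _, _, _, ‹_›, ‹_›, Φ, e, _, mo_of c1 c2, fun β d1 d2 => or_iff_not_imp_left.2 fun c =>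
    nb_of ?_ d1 d2 fun A e1 e2 e3 => Agent.S2733.result hm a b hab hs A e1 h0.symm β e2 e3 fun i => c ?_⟩
  · rw [Nat.card_congr (pomegaEquiv _ (coe_qMinus m a b)).toEquiv]
    exact H22.two_dvd_om (H22.Aniso.nondeg hab m) (Ring.two_ne_zero (by rwa [ringChar.eq _ p])) (by simp; omega)
  obtain ⟨g, hg, rfl⟩ := (H22.innMinus_iff hab h2 β).1 i
  have dk := H22.isDk (hQ := H22.Aniso.nondeg hab m) (H22.notExc_five (H22.five_minus h2)) H22.card_minus
  exact iq_id _ (L w0) h0 (Q_iv w1 w2) (H22.minusData hab h2) P g (H22.mult (H22.Aniso.nondeg hab m) g).ne_zero (H22.isSS_mult _ g)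
    (by rw [← dk.det g, show H22.Dk _ _ g = 1 from hg]; simp)

theorem n2 : N2 := fun F _ _ p _ _ h0 m a b hm hab hs => by
  obtain ⟨K, _, _, _, _, Φ, e, φ, ω, c1, c2, w0, w1, w2, P⟩ := model h0 hm hab (by omega)
  refine ⟨_, _, _, _, _, _, _, _, K, _, _, _, _, _, _, ‹_›, ‹_›, Φ, e, _, mo_of c1 c2, Fin.nontrivial_iff_two_le.2 (by omega),
    .inr (hdD _), c1.pw.imp fun f c s => (c1.hq s).trans c, fun β _ => ?_⟩
  obtain ⟨γ, rfl⟩ := H22.minus_Th_surj hab hm β
  obtain ⟨x, T, j, d1, d2⟩ := iq_tw _ (L w0) h0 (Q_iv w1 w2) (H22.minusData hab (by omega)) P c1.alg γ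
  exact ⟨x, T, j, d1, .inr (hdD _), d2⟩

theorem modelP (h0 : p ≠ 2) (hm : 3 ≤ m + 1) (hm' : 2 ≤ m + 1) : ∃ (Φ : (S0 hm' (AlgebraicClosure F)).Fr)
    (e : Omega F (quadFormPlus (m + 1) F) →* G0 hm' (AlgebraicClosure F)), Mo Φ p e (QuotientGroup.mk' (Subgroup.center _)) ∧ Amb Φ p (Fintype.card F) ∧
    ∀ s v, (e s).1.1 *ᵥ (algebraMap F _ ∘ v) = algebraMap F _ ∘ ((H22.omGL F _ s).1 *ᵥ v) := by
  have b3 : (S0 hm' (AlgebraicClosure F)).toPreSt.IsHom _ (G0 hm' _).subtype := S0_x hm'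
  have b0 := range_omD (m + 1) F hm' (.inr (by simp; omega))
  have b4 := stPull_isHom _ (omToGL_injective F _) b0
  obtain ⟨μ, a1, a2⟩ := pull_map b4 (omToGL_injective F _) (stPull_top ..) b3 (Subgroup.subtype_injective _) (algebraMap F _)
  obtain ⟨Φ, c1, c2, c3⟩ := exists_em₁ (alg_rep b3 (Subgroup.subtype_injective _) (T hm' (.id _)).top (T hm' (.id _)).sep)
    (wbD _ hm').mb.cok h0 a1 a2 (stPull_sep _ _ _ ((wbD _ hm').nat_sep F)) (stPull_top ..)
  have a3 := DFunLike.congr_fun (hom_ext (stPull_top _ (omToGL_injective F _) b0) (α := (G0 hm' _).subtype.comp μ)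
    (β := (GeneralLinearGroup.map (algebraMap F _)).comp (omToGL F _)) fun s t => by
      rw [MonoidHom.comp_apply, MonoidHom.comp_apply, a2, b3, b4, Rep.map_x])
  exact ⟨Φ, μ, ⟨Wk.sw ⟨c2.alg, c2.ok⟩ fun r hr => c1 ▸ hr, connD hm, c3, QuotientGroup.mk'_surjective _, QuotientGroup.ker_mk' _⟩, c2,
    fun s v => (congrArg (·.1 *ᵥ _) (a3 s)).trans (funext fun i => (RingHom.map_mulVec _ _ _ i).symm)⟩

theorem o1 : O1 := fun F _ _ p _ _ h0 m hm hs => by
  obtain ⟨m, rfl⟩ : ∃ n, m = n + 1 := ⟨m - 1, by omega⟩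
  have h3 : 3 ≤ m + 1 := by omega
  obtain ⟨Φ, e, c1, -, P⟩ := modelP (F := F) h0 h3 (by omega)
  have := Fact.mk Nat.prime_two
  have := (H22.plusData F h3).finite
  refine ⟨_, _, _, _, _, _, _, _, _, _, _, _, _, _, _, inferInstance, inferInstance, Φ, e, _, c1, fun β d1 d2 =>
    or_iff_not_imp_left.2 fun c => nb_of ?_ d1 d2 fun A e1 e2 e3 => Agent.S2732.result hm hs A e1 h0.symm β e2 e3 fun i => c ?_⟩
  · rw [Nat.card_congr (pomegaEquiv _ (coe_qPlus (F := F) (m + 1))).toEquiv]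
    exact H22.two_dvd_om (qPlus_nondeg _) (Ring.two_ne_zero (by rwa [ringChar.eq _ p])) (by simp; omega)
  obtain ⟨g, hg, rfl⟩ := (H22.innPlus_iff h3 β).1 i
  have dk := H22.isDk (hQ := qPlus_nondeg (F := F) (m + 1)) (H22.notExc_five (H22.five_plus h3)) H22.card_plus
  exact iq_id _ (.refl _ _) h0 (fun v => by simp [coe_qPlus, quadFormPlus]) (H22.plusData F h3) P g (H22.mult (qPlus_nondeg _) g).ne_zero
    (H22.isSS_mult _ g) (by rw [← dk.det g, show H22.Dk _ _ g = 1 from hg]; simp)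

end H29.UA
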