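/-
S3123, chunks `Z1`, `Z2`: the case division over the groups of Lie type.
-/
import Cfsg.Agent.H27.UA3
import Cfsg.Agent.H18.UK1
import Cfsg.Agent.H5.UA2
import Cfsg.Agent.H29.UB1

set_option autoImplicit false
set_option linter.unusedSectionVars false
set_option linter.unusedVariables false

namespace H29.UA
open Function Cfsg Cfsg.Lie H27.BL H27.UA

universe u

section
variable {Γ Γ' : Type*} [Group Γ] [Group Γ'] (φ : Γ ≃* Γ')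
include φ

theorem p1_congr (h : P1 Γ') : P1 Γ := fun β b1 b2 s c P d1 d2 x hx => by
  have := h (MulAut.congr φ β) (by rw [← map_pow, b1, map_one]) ((map_ne_one_iff _ (MulEquiv.injective _)).2 b2) _ (c.congr φ)
    (P.map φ.toMonoidHom) (by rintro _ ⟨y, hy, rfl⟩; simp [d1 y hy]) (by rw [← Subgroup.map_commutator, d2]) _ ⟨x, hx, rfl⟩
  exact φ.injective (by simpa using this.eq)

theorem oc_congr {β : MulAut Γ} {v : Γ} (h : Oc β v) : Oc (MulAut.congr φ β) (φ v) := by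
  obtain ⟨N, a1, a2, a3⟩ := h
  refine ⟨N.map (MulAut.congr φ).toMonoidHom, ⟨β, a1, rfl⟩, ?_, ?_⟩
  · rintro _ ⟨x, hx, rfl⟩
    exact ⟨by simp [(a2 x hx).1], by simpa only [MulEquiv.coe_toMonoidHom, MulEquiv.orderOf_eq] using (a2 x hx).2⟩
  · rintro u hu _ ⟨x, hx, rfl⟩
    obtain ⟨u, rfl⟩ := φ.surjective u
    exact ⟨_, a3 u (φ.injective (by simpa using hu.eq)) x hx, by ext; simp⟩

theorem p2_congr (h : P2 Γ' fun _ => True) : P2 Γ fun _ => True := fun β _ a b a1 a2 a3 a4 a5 a6 a7 a8 a9 =>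
  (map_eq_one_iff _ (MulAut.congr φ).injective).1 (h _ trivial (φ a) (φ b) (by rw [← map_pow, a1, map_one])
    (by rw [← map_pow, a2, map_one]) (by simpa) (by simpa) (φ.injective.ne a5) (a6.map φ) (oc_congr φ a7) (oc_congr φ a8)
    (map_mul φ a b ▸ oc_congr φ a9))
end

theorem z1 (l1 : L1) (e1 : E1) (r1 : R1) (t1 : T1) : Z1.{u} := fun G _ _ p hp h0 hG => by
  have := Fact.mk hp
  have := H8.simple_of_lieType hG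
  rcases hG with ⟨F, _, _, _, n, hn, -, ⟨e⟩⟩ | ⟨F, _, _, _, m, hm, h, ⟨e⟩⟩ | ⟨F, _, _, _, n, q, hF, hn, -, ⟨e⟩⟩ |
    ⟨F, _, _, _, m, hm, h, ⟨e⟩⟩ | ⟨F, _, _, _, m, hm, ⟨e⟩⟩ | ⟨F, _, _, _, m, a, b, hm, h, ⟨e⟩⟩ |
    ⟨F, _, _, _, ⟨-, ⟨e⟩⟩ | ⟨⟨e⟩⟩ | ⟨⟨e⟩⟩ | ⟨⟨e⟩⟩ | ⟨⟨e⟩⟩⟩ | ⟨F, _, _, _, q, hq, ⟨hF, ⟨e⟩⟩ | ⟨hF, ⟨e⟩⟩⟩ |
    ⟨c, -⟩ | ⟨c, -⟩ | ⟨rfl, F, _, _, m, hm, hF, ⟨e⟩⟩
  rotate_right 3
  · exact (h0 c).elim
  · exact (h0 c).elim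
  rotate_left
  all_goals refine p1_congr e (g1 _ _ h0 ?_)
  all_goals have s := e.symm.isSimpleGroup
  · exact l1 F p h0 n hn s
  · exact H18.UK.c1 f2 F p h0 m hm s
  · exact H5.UA.u1 F p h0 n q hn hF s
  · exact H18.UK.b1 f2 F p h0 m hm s
  · exact o1 F p h0 m hm s
  · exact n1 F p h0 _ a b (by omega) h s
  · exact e1 F p h0 _ (by simp) s
  · exact e1 F p h0 _ (by simp) s
  · exact e1 F p h0 _ (by simp) s
  · exact e1 F p h0 _ (by simp) s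
  · exact e1 F p h0 _ (by simp) s
  · exact (t1 F p h0 q hq).1 hF
  · exact (t1 F p h0 q hq).2 hF
  · exact r1 F m hm hF

theorem z2 (g2 : G2) (ri : RI) (t2 : T2) : Z2.{u} := fun G _ _ p hp h0 hG => by
  have := Fact.mk hp
  have := H8.simple_of_lieType hG
  rcases hG with ⟨F, _, _, _, n, hn, h, ⟨e⟩⟩ | ⟨F, _, _, _, m, hm, h, ⟨e⟩⟩ | ⟨F, _, _, _, n, q, hF, hn, -, ⟨e⟩⟩ |
    ⟨F, _, _, _, m, hm, h, ⟨e⟩⟩ | ⟨F, _, _, _, m, hm, ⟨e⟩⟩ | ⟨F, _, _, _, m, a, b, hm, h, ⟨e⟩⟩ |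
    ⟨F, _, _, _, ⟨-, ⟨e⟩⟩ | ⟨⟨e⟩⟩ | ⟨⟨e⟩⟩ | ⟨⟨e⟩⟩ | ⟨⟨e⟩⟩⟩ | ⟨F, _, _, _, q, hq, ⟨hF, ⟨e⟩⟩ | ⟨hF, ⟨e⟩⟩⟩ |
    ⟨c, -⟩ | ⟨c, -⟩ | ⟨rfl, F, _, _, m, hm, hF, ⟨e⟩⟩
  rotate_right 3
  · exact (h0 c).elim
  · exact (h0 c).elim
  rotate_left
  · obtain rfl | h3 := hn.eq_or_lt
    · obtain ⟨k, -, hk⟩ := FiniteField.card F p
      exact .inl ⟨F, _, _, hk ▸ (hp.odd_of_ne_two h0).pow, h rfl, ⟨e⟩⟩
    · exact .inr (p2_congr e (g2 _ _ h0 (H18.UK.l2 F p h0 n h3)))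
  rotate_right
  · exact .inr (p2_congr e (ri F m hm hF))
  all_goals refine .inr (p2_congr e (g2 _ _ h0 ?_))
  all_goals have s := e.symm.isSimpleGroup
  · exact H18.UK.c2 F p h0 m hm
  · exact H5.UA.u2 F p h0 n q hn hF s
  · exact H18.UK.b2 F p h0 m hm
  · exact H18.UK.o2 F p h0 m hm s
  · exact n2 F p h0 _ a b (by omega) h s
  · exact H18.UK.e2 F p h0 _ (by simp)
  · exact H18.UK.e2 F p h0 _ (by simp)
  · exact H18.UK.e2 F p h0 _ (by simp)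
  · exact H18.UK.e2 F p h0 _ (by simp)
  · exact H18.UK.e2 F p h0 _ (by simp)
  · exact (t2 F p h0 q hq).1 hF
  · exact (t2 F p h0 q hq).2 hF

end H29.UA
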